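import Cfsg.Agent.Lib.Helper32.BG10Basic

/-!
# B&G 10.4 (S1407), modulo the Uniqueness Theorem and B&G 10.3 (piece BG10-P4, helper32's project)
-/

set_option autoImplicit false

open Cfsg

namespace Cfsg.Agent.Lib.Helper62.BG10

open Cfsg Cfsg.Agent.Lib.Helper32 Cfsg.Agent.Lib.Helper32.BG10

universe u

variable {G : Type u} [Group G]

/-- `Ω₁(Z(Q))` as a subgroup of `G` -/
def omegaZ (p : ℕ) (Q : Subgroup G) : Subgroup G where
  carrier := {z | (z ∈ Q ∧ ∀ y ∈ Q, y * z = z * y) ∧ z ^ p = 1}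
  mul_mem' := by
    rintro a b ⟨⟨haQ, hac⟩, hap⟩ ⟨⟨hbQ, hbc⟩, hbp⟩
    refine ⟨⟨Q.mul_mem haQ hbQ, fun y hy => ?_⟩, ?_⟩
    · rw [← mul_assoc, hac y hy, mul_assoc, hbc y hy, mul_assoc]
    · have hcomm : Commute a b := hbc a haQ
      rw [hcomm.mul_pow, hap, hbp, one_mul]
  one_mem' := ⟨⟨Q.one_mem, fun y _ => by rw [mul_one, one_mul]⟩, one_pow p⟩
  inv_mem' := by
    rintro a ⟨⟨haQ, hac⟩, hap⟩
    refine ⟨⟨Q.inv_mem haQ, fun y hy => ?_⟩, by rw [inv_pow, hap, inv_one]⟩
    exact (show Commute y a from hac y hy).inv_right.eq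

theorem mem_omegaZ {p : ℕ} {Q : Subgroup G} {z : G} :
    z ∈ omegaZ p Q ↔ (z ∈ Q ∧ ∀ y ∈ Q, y * z = z * y) ∧ z ^ p = 1 := Iff.rfl

theorem omegaZ_le (p : ℕ) (Q : Subgroup G) : omegaZ p Q ≤ Q := fun _ hz => hz.1.1

theorem omegaZ_comm {p : ℕ} {Q : Subgroup G} :
    ∀ a ∈ omegaZ p Q, ∀ b ∈ omegaZ p Q, a * b = b * a :=
  fun a ha _ hb => hb.1.2 a ha.1.1

theorem omegaZ_conj {p : ℕ} {Q : Subgroup G} {g : G}
    (hg : g ∈ Subgroup.normalizer (Q : Set G)) {h : G} (hh : h ∈ omegaZ p Q) :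
    g * h * g⁻¹ ∈ omegaZ p Q := by
  obtain ⟨⟨hhQ, hhc⟩, hhp⟩ := hh
  refine ⟨⟨(Subgroup.mem_normalizer_iff.mp hg h).mp hhQ, fun y hy => ?_⟩, ?_⟩
  · have hy' : g⁻¹ * y * g ∈ Q := by
      rw [Subgroup.mem_normalizer_iff.mp hg (g⁻¹ * y * g)]
      have : g * (g⁻¹ * y * g) * g⁻¹ = y := by group
      rw [this]; exact hy
    have h1 := hhc _ hy'
    calc y * (g * h * g⁻¹) = g * ((g⁻¹ * y * g) * h) * g⁻¹ := by group
      _ = g * (h * (g⁻¹ * y * g)) * g⁻¹ := by rw [h1]
      _ = g * h * g⁻¹ * y := by group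
  · rw [conj_pow, hhp]; group

theorem normalizer_le_normalizer_omegaZ (p : ℕ) (Q : Subgroup G) :
    Subgroup.normalizer (Q : Set G) ≤ Subgroup.normalizer ((omegaZ p Q : Subgroup G) : Set G) := by
  intro g hg
  rw [Subgroup.mem_normalizer_iff]
  intro h
  constructor
  · exact fun hh => omegaZ_conj hg hh
  · intro hh
    have hg' : g⁻¹ ∈ Subgroup.normalizer (Q : Set G) := Subgroup.inv_mem _ hg
    have := omegaZ_conj (p := p) hg' hh
    have e : g⁻¹ * (g * h * g⁻¹) * g⁻¹⁻¹ = h := by group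
    rw [e] at this
    exact this

variable [Finite G]

/-- a subgroup of a minimal simple group of odd order which is not a `Z`-group has rank
at least 2 -/
theorem not_rankLE_one_of_not_isZGroup (hG : IsMinSimpleOddOrder G) (D : Subgroup G)
    (hZ : ¬ IsZGroup ↥D) : ¬ RankLE 1 ↥D := by
  rw [isZGroup_iff] at hZ
  push Not at hZ
  obtain ⟨q, hq, S, hS⟩ := hZ
  haveI : Fact q.Prime := ⟨hq⟩
  have hq2 : q ≠ 2 := by
    rintro rfl
    apply hS
    have hodd : Odd (Nat.card ↥D) := minSimple_odd_sub hG D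
    have h1 : Nat.card (S : Subgroup ↥D) ∣ Nat.card ↥D := Subgroup.card_subgroup_dvd_card _
    obtain ⟨k, hk⟩ := IsPGroup.iff_card.mp S.isPGroup'
    have hk0 : k = 0 := by
      by_contra hk0
      have : 2 ∣ Nat.card ↥D := (dvd_pow_self 2 hk0).trans (hk ▸ h1)
      exact (Nat.not_even_iff_odd.mpr hodd) (even_iff_two_dvd.mpr this)
    rw [hk0, pow_zero] at hk
    haveI : Subsingleton ↥(S : Subgroup ↥D) := (Nat.card_eq_one_iff_unique.mp hk).1
    exact isCyclic_of_subsingleton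
  obtain ⟨S', hS'⟩ : ∃ S' : Subgroup G, S' = (S : Subgroup ↥D).map D.subtype := ⟨_, rfl⟩
  have hS'D : S' ≤ D := by
    rw [hS']
    rintro y ⟨z, -, rfl⟩
    exact z.2
  have hS'p : IsPGroup q S' := by
    rw [hS']
    exact S.isPGroup'.map D.subtype
  have hS'nc : ¬ IsCyclic ↥S' := by
    rw [hS']
    intro hc
    apply hS
    have e := (S : Subgroup ↥D).equivMapOfInjective D.subtype D.subtype_injective
    exact isCyclic_of_surjective e.symm.toMonoidHom e.symm.surjective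
  have hr1 : ¬ RankLE 1 ↥S' := not_rankLE_one_of_not_cyclic hq2 hS'p hS'nc
  intro hD1
  obtain ⟨r, E, hr, hES, hEc, hEe, hEcard⟩ := exists_elemAb_of_not_rankLE S' 1 hr1
  have hlt : r ^ 1 < Nat.card E := by
    rw [hEcard]
    exact Nat.pow_lt_pow_right hr.one_lt (by norm_num)
  exact not_prankLE_of_le (hES.trans hS'D) hEc hEe hlt (hD1 r hr)

/-- the `Z`-group clause of B&G 10.4 -/
theorem zgroup_of_not_unique (hG : IsMinSimpleOddOrder G) (h3 : H3 G) {M : Subgroup G}
    (hM : IsCoatom M) {p : ℕ} (hp : p.Prime) (hpα : p ∉ alpha M) {x : G} (hxM : x ∈ M)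
    (hxo : orderOf x = p)
    (hlast : ¬ (Subgroup.centralizer ({x} : Set G) ≤ M ∧ ∀ L : Subgroup G, IsCoatom L →
          Subgroup.centralizer ({x} : Set G) ≤ L → L = M)) :
    IsZGroup ↥(alphaCore M ⊓ Subgroup.centralizer ({x} : Set G)) := by
  by_contra hZ
  have hrD := not_rankLE_one_of_not_isZGroup hG _ hZ
  have hcz : Subgroup.centralizer ((Subgroup.zpowers x : Subgroup G) : Set G) =
      Subgroup.centralizer ({x} : Set G) := by
    rw [Subgroup.zpowers_eq_closure, Subgroup.centralizer_closure]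
  have hX := h3 M hM (Subgroup.zpowers x) ((Subgroup.zpowers_le).mpr hxM)
    (by
      intro r hr hrd
      rw [Nat.card_zpowers, hxo] at hrd
      have : r = p := (Nat.prime_dvd_prime_iff_eq hr hp).mp hrd
      rw [this]; exact hpα)
    (by rw [hcz]; exact hrD)
  rw [hcz] at hX
  obtain ⟨M', hM', hle, hU⟩ := uniqIn_of_inUniqueMaximal hX
  have hMM' : M = M' := hU M hM inf_le_left
  rw [← hMM'] at hU
  have hx1 : x ≠ 1 := by
    rintro rfl
    rw [orderOf_one] at hxo
    exact hp.ne_one hxo.symm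
  have hCtop := minSimple_centralizer_singleton_ne_top hG hx1
  exact hlast ⟨le_of_uniqIn hU inf_le_right hCtop,
    fun L hL hCL => hU L hL (inf_le_right.trans hCL)⟩

/-- B&G 10.4 (= S1407) from the Uniqueness Theorem and B&G 10.3 -/
theorem bg10_4 (hG : IsMinSimpleOddOrder G) (hUT : UT G) (h3 : H3 G) : H4 G := by
  intro M hM hα p _ hpM hpσ P
  have hp : p.Prime := Fact.out
  have hpα : p ∉ alpha M := fun h => hpσ (alpha_sub_sigma hG hUT hM h)
  obtain ⟨Q, hQdef⟩ : ∃ Q : Subgroup G, Q = (P : Subgroup ↥M).map M.subtype := ⟨_, rfl⟩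
  have hQ : Q ∈ sylSet p M := hQdef ▸ mem_sylSet_of_sylow P
  have hQM : Q ≤ M := hQ.1
  have hfac : 0 < (Nat.card ↥M).factorization p :=
    hp.factorization_pos_of_dvd Nat.card_pos.ne' hpM
  have hQ1 : Q ≠ ⊥ := by
    intro hbot
    have h1 := hQ.2
    rw [hbot, Subgroup.card_bot] at h1
    have : 1 < p ^ (Nat.card ↥M).factorization p := Nat.one_lt_pow hfac.ne' hp.one_lt
    omega
  have hNQ : ¬ Subgroup.normalizer (Q : Set G) ≤ M :=
    fun hN => hpσ (mem_sigma_of_normalizer_le hQ hQ1 hN)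
  -- the centre of `Q`
  have hZc : ∀ z : G, z ∈ ((Subgroup.center ↥(P : Subgroup M)).map
      (P : Subgroup M).subtype).map M.subtype ↔ z ∈ Q ∧ ∀ y ∈ Q, y * z = z * y := by
    intro z
    constructor
    · rintro ⟨m, ⟨c, hc, rfl⟩, rfl⟩
      refine ⟨?_, ?_⟩
      · rw [hQdef]; exact ⟨(c : M), c.2, rfl⟩
      · intro y hy
        rw [hQdef] at hy
        obtain ⟨d, hd, rfl⟩ := hy
        have h1 := Subgroup.mem_center_iff.mp hc ⟨d, hd⟩
        have h2 := congrArg (fun t : ↥(P : Subgroup M) => ((t : M) : G)) h1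
        simpa using h2
    · rintro ⟨hzQ, hzc⟩
      rw [hQdef] at hzQ
      obtain ⟨d, hd, rfl⟩ := hzQ
      refine ⟨d, ⟨⟨d, hd⟩, Subgroup.mem_center_iff.mpr ?_, rfl⟩, rfl⟩
      intro e
      apply Subtype.ext
      apply Subtype.ext
      have h1 := hzc ((e : M) : G) (by rw [hQdef]; exact ⟨(e : M), e.2, rfl⟩)
      simpa using h1
  -- `Ω`
  have hΩM : omegaZ p Q ≤ M := (omegaZ_le p Q).trans hQM
  have hΩe : ∀ a ∈ omegaZ p Q, a ^ p = 1 := fun a ha => ha.2
  have hΩp : IsPGroup p (omegaZ p Q) := fun g =>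
    ⟨1, by rw [pow_one]; exact Subtype.ext (hΩe g.1 g.2)⟩
  have hΩ1 : omegaZ p Q ≠ ⊥ := by
    haveI : Nontrivial ↥(P : Subgroup M) := by
      rw [← Finite.one_lt_card_iff_nontrivial, Sylow.card_eq_multiplicity]
      exact Nat.one_lt_pow hfac.ne' hp.one_lt
    haveI hcn : Nontrivial (Subgroup.center ↥(P : Subgroup M)) := P.isPGroup'.center_nontrivial
    have hcp : IsPGroup p (Subgroup.center ↥(P : Subgroup M)) := P.isPGroup'.to_subgroup _
    obtain ⟨k, hk⟩ := IsPGroup.iff_card.mp hcp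
    have hk0 : k ≠ 0 := by
      rintro rfl
      have := Finite.one_lt_card_iff_nontrivial.mpr hcn
      rw [hk, pow_zero] at this
      exact lt_irrefl _ this
    have hdvd : p ∣ Nat.card (Subgroup.center ↥(P : Subgroup M)) := hk ▸ dvd_pow_self p hk0
    obtain ⟨c, hc⟩ := exists_prime_orderOf_dvd_card' p hdvd
    have hzo : orderOf ((((c : ↥(P : Subgroup M)) : M) : G)) = p := by
      rw [Subgroup.orderOf_coe, Subgroup.orderOf_coe, Subgroup.orderOf_coe, hc]
    have hzmem : ((((c : ↥(P : Subgroup M)) : M) : G)) ∈ omegaZ p Q := by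
      refine ⟨(hZc _).mp ⟨((c : ↥(P : Subgroup M)) : M), ⟨(c : ↥(P : Subgroup M)), c.2, rfl⟩, rfl⟩,
        ?_⟩
      have h1 := pow_orderOf_eq_one ((((c : ↥(P : Subgroup M)) : M) : G))
      rw [hzo] at h1
      exact h1
    intro hbot
    rw [hbot, Subgroup.mem_bot] at hzmem
    rw [hzmem, orderOf_one] at hzo
    exact hp.ne_one hzo.symm
  have hΩtop : omegaZ p Q ≠ ⊤ := minSimple_pgroup_ne_top hG hΩp
  have hNΩ : Subgroup.normalizer ((omegaZ p Q : Subgroup G) : Set G) ≠ ⊤ :=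
    minSimple_normalizer_ne_top hG hΩ1 hΩtop
  have hNN := normalizer_le_normalizer_omegaZ p Q
  -- the choice of `x`
  have hchoice : ∃ x ∈ omegaZ p Q, x ≠ 1 ∧
      ¬ (Subgroup.centralizer ({x} : Set G) ≤ M ∧ ∀ L : Subgroup G, IsCoatom L →
          Subgroup.centralizer ({x} : Set G) ≤ L → L = M) := by
    by_cases hcase : ∃ x ∈ omegaZ p Q, x ≠ 1 ∧ ¬ Subgroup.centralizer ({x} : Set G) ≤ M
    · obtain ⟨x, hxΩ, hx1, hxC⟩ := hcase
      exact ⟨x, hxΩ, hx1, fun h => hxC h.1⟩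
    · have hcent : ∀ b ∈ omegaZ p Q, b ≠ 1 → Subgroup.centralizer ({b} : Set G) ≤ M := by
        intro b hb hb1
        by_contra hc
        exact hcase ⟨b, hb, hb1, hc⟩
      have hcyc : IsCyclic ↥(omegaZ p Q) := by
        by_contra hnc
        have hU := uniq_of_centralizers hG hM hΩM omegaZ_comm hΩe hnc hcent
        exact hNQ (hNN.trans (le_of_uniqIn hU Subgroup.le_normalizer hNΩ))
      obtain ⟨⟨x, hxΩ⟩, hx1'⟩ := (Subgroup.ne_bot_iff_exists_ne_one).mp hΩ1
      have hx1 : x ≠ 1 := fun e => hx1' (Subtype.ext e)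
      -- `Ω` has order `p`
      have hcard : Nat.card ↥(omegaZ p Q) = p := by
        obtain ⟨g, hg⟩ := hcyc.exists_generator
        have h1 : orderOf g = Nat.card ↥(omegaZ p Q) := orderOf_eq_card_of_forall_mem_zpowers hg
        have h2 : g ^ p = 1 := Subtype.ext (hΩe g.1 g.2)
        have h3 : orderOf g ∣ p := orderOf_dvd_of_pow_eq_one h2
        rw [h1] at h3
        rcases (Nat.dvd_prime hp).mp h3 with h4 | h4
        · exact absurd ((Subgroup.card_eq_one).mp h4) hΩ1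
        · exact h4
      have hgen : Subgroup.zpowers (⟨x, hxΩ⟩ : ↥(omegaZ p Q)) = ⊤ :=
        zpowers_eq_top_of_prime_card hcard (fun e => hx1 (congrArg Subtype.val e))
      have hCN : Subgroup.centralizer ({x} : Set G) ≤
          Subgroup.normalizer ((omegaZ p Q : Subgroup G) : Set G) := by
        intro c hc
        have hcx : Commute c x := (Subgroup.mem_centralizer_iff.mp hc x (Set.mem_singleton x)).symm
        have hfix : ∀ h ∈ omegaZ p Q, c * h * c⁻¹ = h := by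
          intro h hh
          have hmem : (⟨h, hh⟩ : ↥(omegaZ p Q)) ∈ Subgroup.zpowers (⟨x, hxΩ⟩ : ↥(omegaZ p Q)) := by
            rw [hgen]; exact Subgroup.mem_top _
          obtain ⟨k, hk⟩ := Subgroup.mem_zpowers_iff.mp hmem
          have hk' : x ^ k = h := by
            have := congrArg Subtype.val hk
            simpa using this
          rw [← hk']
          exact mul_inv_eq_iff_eq_mul.mpr (hcx.zpow_right k).eq
        rw [Subgroup.mem_normalizer_iff]
        intro h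
        constructor
        · intro hh
          rw [hfix h hh]; exact hh
        · intro hh
          have h1 := hfix _ hh
          have h2 : c * h * c⁻¹ = h := by
            have := mul_left_cancel (mul_right_cancel h1)
            exact this
          rw [← h2]; exact hh
      refine ⟨x, hxΩ, hx1, ?_⟩
      rintro ⟨-, huniq⟩
      obtain ⟨L, hL, hNL⟩ := exists_coatom_ge hNΩ
      have hLM : L = M := huniq L hL (hCN.trans hNL)
      exact hNQ (hNN.trans (hLM ▸ hNL))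
  obtain ⟨x, hxΩ, hx1, hlast⟩ := hchoice
  have hxo : orderOf x = p := orderOf_eq_prime (hΩe x hxΩ) hx1
  have hxM : x ∈ M := hΩM hxΩ
  exact ⟨x, (hZc x).mpr hxΩ.1, hxo, zgroup_of_not_unique hG h3 hM hp hpα hxM hxo hlast, hlast⟩

end Cfsg.Agent.Lib.Helper62.BG10
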