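import Mathlib
import Cfsg.Prelude.Def_Classical
import Cfsg.Agent.Lib.Helper18.UEDefs

/-!
S2335 piece UE-WCARD (helper62 for helper18): the hyperplane `u₀^⊥` has `|F|^(m-1)` elements,
in the multiplicative form `|u₀^⊥| * |F| = |F|^m`.
-/

set_option autoImplicit false

namespace Cfsg.Agent.Lib.Helper18.UE

open Matrix

universe u

variable {F : Type u} [Field F] {m : ℕ}

theorem card_W [Fintype F] (σ : F →+* F) (hσ : ∀ x, σ (σ x) = x)
    (K : Matrix (Fin m) (Fin m) F) (u₀ : Fin m → F) (hα : hq σ K u₀ ≠ 0) :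
    Nat.card {w : Fin m → F | hB σ K w u₀ = 0} * Fintype.card F = Fintype.card F ^ m := by
  classical
  have hα' : hB σ K u₀ u₀ ≠ 0 := hα
  have key : ∀ u : Fin m → F,
      hB σ K (u - σ (hB σ K u u₀ / hB σ K u₀ u₀) • u₀) u₀ = 0 := by
    intro u
    have h1 := hB_add_left σ K (u - σ (hB σ K u u₀ / hB σ K u₀ u₀) • u₀)
      (σ (hB σ K u u₀ / hB σ K u₀ u₀) • u₀) u₀
    rw [sub_add_cancel, hB_smul_left, hσ, div_mul_cancel₀ _ hα'] at h1
    linear_combination -h1
  let e : (Fin m → F) ≃ {w : Fin m → F | hB σ K w u₀ = 0} × F :=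
    { toFun := fun u => (⟨u - σ (hB σ K u u₀ / hB σ K u₀ u₀) • u₀, key u⟩,
        σ (hB σ K u u₀ / hB σ K u₀ u₀))
      invFun := fun p => (p.1 : Fin m → F) + p.2 • u₀
      left_inv := fun u => by simp
      right_inv := fun p => by
        obtain ⟨⟨w, hw⟩, a⟩ := p
        have hw' : hB σ K w u₀ = 0 := hw
        have h2 : σ (hB σ K (w + a • u₀) u₀ / hB σ K u₀ u₀) = a := by
          rw [hB_add_left, hw', zero_add, hB_smul_left, mul_div_assoc, div_self hα', mul_one,
            hσ]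
        refine Prod.ext (Subtype.ext ?_) h2
        show w + a • u₀ - σ (hB σ K (w + a • u₀) u₀ / hB σ K u₀ u₀) • u₀ = w
        rw [h2, add_sub_cancel_right] }
  have h3 := Nat.card_congr e
  rw [Nat.card_prod, Nat.card_eq_fintype_card, Fintype.card_fun, Fintype.card_fin,
    Nat.card_eq_fintype_card (α := F)] at h3
  exact h3.symm

end Cfsg.Agent.Lib.Helper18.UE
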