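import Mathlib

set_option autoImplicit false

/-!
# Marggraf's theorem: foundation (definitions and basic lemmas on flats)

`Flat G X` : `X` is a Jordan complement ("flat") for the action of `G` on `Ω`,
i.e. the pointwise stabiliser of `X` is transitive on the complement of `X`.
-/

namespace Cfsg.Agent.Lib.Helper62.Marg

open MulAction
open scoped Pointwise

/-- `X` is a flat (Jordan complement): the pointwise stabiliser of `X` is transitive on `Xᶜ`. -/
def Flat (G : Type*) {Ω : Type*} [Group G] [MulAction G Ω] (X : Set Ω) : Prop :=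
  ∀ a, a ∉ X → ∀ b, b ∉ X → ∃ g : G, (∀ x ∈ X, g • x = x) ∧ g • a = b

/-- `g` acts on `Ω` as a 3-cycle. -/
def Act3 {G : Type*} {Ω : Type*} [Group G] [MulAction G Ω] (g : G) : Prop :=
  ∃ a b c : Ω, a ≠ b ∧ b ≠ c ∧ a ≠ c ∧ g • a = b ∧ g • b = c ∧ g • c = a ∧
    ∀ x, x ≠ a → x ≠ b → x ≠ c → g • x = x

/-- `E` is a maximal proper subflat of `Γ`. -/
def IsMaxFlat (G : Type*) {Ω : Type*} [Group G] [MulAction G Ω] (Γ E : Set Ω) : Prop :=
  Flat G E ∧ E ⊆ Γ ∧ E ≠ Γ ∧ ∀ W : Set Ω, Flat G W → E ⊆ W → W ⊆ Γ → W ≠ Γ → W = E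

/-- The critical configuration: `|Ω| = 2m+1`, `Γ` a flat with `m+1` points, `G` exactly
`t`-transitive (in the form: all sets with fewer than `t` points are flats, no set with exactly
`t` points is a flat), `3 ≤ t < m`, and no flat with exactly `m` points inside `Γ`. -/
structure Crit (G : Type*) {Ω : Type*} [Group G] [MulAction G Ω] (Γ : Set Ω) (m t : ℕ) :
    Prop where
  card : Nat.card Ω = 2 * m + 1
  cardΓ : Γ.ncard = m + 1
  flatΓ : Flat G Γ
  t3 : 3 ≤ t
  tm : t + 1 ≤ m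
  small : ∀ X : Set Ω, X.ncard + 1 ≤ t → Flat G X
  noT : ∀ X : Set Ω, Flat G X → X.ncard ≠ t
  noM : ∀ X : Set Ω, Flat G X → X ⊆ Γ → X.ncard ≠ m

section basic

variable {G : Type*} {Ω : Type*} [Group G] [MulAction G Ω]

theorem flat_univ : Flat G (Set.univ : Set Ω) := fun a ha => absurd (Set.mem_univ a) ha

/-- The intersection of two flats whose union is not everything is a flat. -/
theorem flat_inter {X Y : Set Ω} (hX : Flat G X) (hY : Flat G Y) (h : X ∪ Y ≠ Set.univ) :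
    Flat G (X ∩ Y) := by
  obtain ⟨c, hc⟩ := (Set.ne_univ_iff_exists_notMem _).mp h
  have hcX : c ∉ X := fun h => hc (Or.inl h)
  have hcY : c ∉ Y := fun h => hc (Or.inr h)
  have key : ∀ a, a ∉ X ∩ Y → ∃ g : G, (∀ x ∈ X ∩ Y, g • x = x) ∧ g • a = c := by
    intro a ha
    by_cases haX : a ∈ X
    · have haY : a ∉ Y := fun h => ha ⟨haX, h⟩
      obtain ⟨g, hg, hga⟩ := hY a haY c hcY
      exact ⟨g, fun x hx => hg x hx.2, hga⟩
    · obtain ⟨g, hg, hga⟩ := hX a haX c hcX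
      exact ⟨g, fun x hx => hg x hx.1, hga⟩
  intro a ha b hb
  obtain ⟨g₁, h₁, h₁a⟩ := key a ha
  obtain ⟨g₂, h₂, h₂b⟩ := key b hb
  refine ⟨g₂⁻¹ * g₁, fun x hx => ?_, ?_⟩
  · rw [mul_smul, h₁ x hx, inv_smul_eq_iff, h₂ x hx]
  · rw [mul_smul, h₁a, inv_smul_eq_iff, h₂b]

/-- A translate of a flat is a flat. -/
theorem flat_smul (g : G) {X : Set Ω} (hX : Flat G X) : Flat G (g • X) := by
  intro a ha b hb
  have ha' : g⁻¹ • a ∉ X := fun h => ha (Set.mem_smul_set_iff_inv_smul_mem.mpr h)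
  have hb' : g⁻¹ • b ∉ X := fun h => hb (Set.mem_smul_set_iff_inv_smul_mem.mpr h)
  obtain ⟨k, hk, hka⟩ := hX _ ha' _ hb'
  refine ⟨g * k * g⁻¹, fun x hx => ?_, ?_⟩
  · have hx' : g⁻¹ • x ∈ X := Set.mem_smul_set_iff_inv_smul_mem.mp hx
    rw [mul_smul, mul_smul, hk _ hx', smul_inv_smul]
  · rw [mul_smul, mul_smul, hka, smul_inv_smul]

/-- If `X ⊆ Γ`, `Γ` is a proper flat, and every point of `Γ \ X` is separated from `X` by a flat
inside `Γ`, then `X` is a flat. -/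
theorem flat_of_sep [Finite Ω] {Γ X : Set Ω} (hΓ : Flat G Γ) (hΓ' : Γ ≠ Set.univ) (hX : X ⊆ Γ)
    (h : ∀ γ ∈ Γ, γ ∉ X → ∃ E : Set Ω, Flat G E ∧ E ⊆ Γ ∧ X ⊆ E ∧ γ ∉ E) : Flat G X := by
  classical
  -- induction on the number of points of `Y \ X` for flats `X ⊆ Y ⊆ Γ`
  suffices H : ∀ n : ℕ, ∀ Y : Set Ω, Flat G Y → X ⊆ Y → Y ⊆ Γ → (Y \ X).ncard = n → Flat G X from
    H _ Γ hΓ hX subset_rfl rfl
  intro n
  induction n using Nat.strong_induction_on with
  | _ n ih =>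
    intro Y hY hXY hYΓ hn
    by_cases hemp : Y \ X = ∅
    · have : Y = X := Set.Subset.antisymm (Set.sdiff_eq_empty.mp hemp) hXY
      exact this ▸ hY
    · obtain ⟨γ, hγY, hγX⟩ := Set.nonempty_iff_ne_empty.mpr hemp
      obtain ⟨E, hE, hEΓ, hXE, hγE⟩ := h γ (hYΓ hγY) hγX
      have hne : Y ∪ E ≠ Set.univ := by
        intro hu
        apply hΓ'
        apply Set.eq_univ_of_univ_subset
        rw [← hu]
        exact Set.union_subset hYΓ hEΓ
      have hYE : Flat G (Y ∩ E) := flat_inter hY hE hne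
      have hlt : ((Y ∩ E) \ X).ncard < n := by
        rw [← hn]
        apply Set.ncard_lt_ncard _ (Set.toFinite _)
        constructor
        · intro x hx
          exact ⟨hx.1.1, hx.2⟩
        · intro hsub
          exact hγE (hsub ⟨hγY, hγX⟩).1.2
      exact ih _ hlt (Y ∩ E) hYE (Set.subset_inter hXY hXE)
        (Set.inter_subset_left.trans hYΓ) rfl

end basic

end Cfsg.Agent.Lib.Helper62.Marg
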