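import Cfsg.Agent.Lib.Helper47.S76Defs

/-!
# S5976 project (helper47), piece INV1B

A standard symplectic involution with prescribed characteristic polynomial commuting with
`thetaStd d δ`.
-/

set_option autoImplicit false

universe u

namespace Cfsg.Agent.Lib.Helper62.S76INV1B

open Matrix Polynomial Cfsg.Agent.Lib.Helper47 Cfsg.Agent.Lib.Helper47.S76

variable {F : Type u} [Field F]

theorem std_invol (d a : ℕ) (ha : a ≤ d) (δ : F) :
    ∃ Y : Matrix (Fin d ⊕ Fin d) (Fin d ⊕ Fin d) F, Y ∈ Matrix.symplecticGroup (Fin d) F ∧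
      Y * Y = 1 ∧ Y.charpoly = (X - C (1 : F)) ^ (2 * a) * (X + C (1 : F)) ^ (2 * (d - a)) ∧
      Y * thetaStd d δ = thetaStd d δ * Y := by
  classical
  set f : Fin d → F := fun i => if (i : ℕ) < a then 1 else -1 with hf
  set E : Matrix (Fin d) (Fin d) F := Matrix.diagonal f with hE
  have hEE : E * E = 1 := by
    rw [hE, Matrix.diagonal_mul_diagonal, ← Matrix.diagonal_one]
    congr 1
    funext i
    simp only [hf]
    split_ifs <;> simp
  have hEt : Eᵀ = E := by rw [hE, Matrix.diagonal_transpose]
  have hEc : E.charpoly = (X - C (1 : F)) ^ a * (X + C (1 : F)) ^ (d - a) := by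
    rw [hE, Matrix.charpoly_diagonal]
    have h1 : ∀ i : Fin d, (X - C (f i) : F[X]) =
        if (i : ℕ) < a then (X - C (1 : F)) else (X + C (1 : F)) := by
      intro i
      simp only [hf]
      split_ifs
      · rfl
      · rw [map_neg, sub_neg_eq_add]
    simp only [h1]
    rw [Finset.prod_ite, Finset.prod_const, Finset.prod_const]
    have hc1 : (Finset.univ.filter (fun i : Fin d => (i : ℕ) < a)).card = a := by
      rw [Fin.card_filter_val_lt]
      exact min_eq_right ha
    have hc2 : (Finset.univ.filter (fun i : Fin d => ¬ (i : ℕ) < a)).card = d - a := by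
      have := Finset.card_filter_add_card_filter_not (s := (Finset.univ : Finset (Fin d)))
        (fun i : Fin d => (i : ℕ) < a)
      rw [hc1, Finset.card_univ, Fintype.card_fin] at this
      omega
    rw [hc1, hc2]
  refine ⟨Matrix.fromBlocks E 0 0 E, ?_, ?_, ?_, ?_⟩
  · rw [_root_.SymplecticGroup.mem_iff]
    unfold Matrix.J
    rw [Matrix.fromBlocks_transpose, Matrix.fromBlocks_multiply, Matrix.fromBlocks_multiply,
      hEt]
    congr 1 <;> simp [hEE]
  · rw [Matrix.fromBlocks_multiply, ← Matrix.fromBlocks_one]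
    congr 1 <;> simp [hEE]
  · rw [Matrix.charpoly_fromBlocks_zero₁₂, hEc]
    ring
  · unfold thetaStd
    rw [Matrix.fromBlocks_multiply, Matrix.fromBlocks_multiply]
    congr 1 <;> simp

end Cfsg.Agent.Lib.Helper62.S76INV1B
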