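import Cfsg.Agent.Lib.Helper47.S76Defs

/-!
# S5976 project (helper47), piece THETA

The standard skew-adjoint matrix `thetaStd d δ` is skew with square `δ`, and over a finite field
there is a skew-adjoint matrix with square `δ` anticommuting with `J`.
-/

set_option autoImplicit false

universe u

namespace Cfsg.Agent.Lib.Helper62.S76THETA

open Matrix Polynomial Cfsg.Agent.Lib.Helper47 Cfsg.Agent.Lib.Helper47.S76

variable {F : Type u} [Field F]

/-- A matrix `T` with `Tᵀ * J = -(J * T)` is skew-adjoint for the standard alternating form. -/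
theorem isSkew_of_transpose_mul_J (d : ℕ) (T : Matrix (Fin d ⊕ Fin d) (Fin d ⊕ Fin d) F)
    (h : Tᵀ * Matrix.J (Fin d) F = -(Matrix.J (Fin d) F * T)) : IsSkew d T := by
  intro u v
  unfold spForm
  rw [← Matrix.vecMul_transpose, ← Matrix.dotProduct_mulVec, Matrix.mulVec_mulVec, h,
    Matrix.neg_mulVec, dotProduct_neg, ← Matrix.mulVec_mulVec]

theorem thetaStd_skew (d : ℕ) (δ : F) : IsSkew d (thetaStd d δ) := by
  apply isSkew_of_transpose_mul_J
  unfold thetaStd Matrix.J
  rw [Matrix.fromBlocks_transpose, Matrix.fromBlocks_multiply, Matrix.fromBlocks_multiply,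
    Matrix.fromBlocks_neg]
  congr 1 <;> simp

theorem thetaStd_sq (d : ℕ) (δ : F) :
    thetaStd d δ * thetaStd d δ = δ • (1 : Matrix (Fin d ⊕ Fin d) (Fin d ⊕ Fin d) F) := by
  unfold thetaStd
  rw [Matrix.fromBlocks_multiply, ← Matrix.fromBlocks_one, Matrix.fromBlocks_smul]
  congr 1 <;> simp

/-- Every element of a finite field is a sum of two squares. -/
theorem exists_sq_add_sq [Fintype F] (δ : F) : ∃ a b : F, a * a + b * b = δ := by
  classical
  by_cases hodd : Fintype.card F % 2 = 1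
  · obtain ⟨a, b, hab⟩ : ∃ a b, (X ^ 2 : F[X]).eval a + (X ^ 2 - C δ : F[X]).eval b = 0 :=
      FiniteField.exists_root_sum_quadratic (degree_X_pow 2)
        (degree_X_pow_sub_C (by decide) _) hodd
    refine ⟨a, b, ?_⟩
    simp only [eval_C, eval_X, eval_pow, eval_sub] at hab
    linear_combination hab
  · have h2 : ringChar F = 2 := by
      rw [FiniteField.even_card_iff_char_two]
      omega
    obtain ⟨a, ha⟩ := FiniteField.isSquare_of_char_two h2 δ
    exact ⟨a, 0, by rw [ha]; ring⟩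

theorem exists_theta_anti [Fintype F] (d : ℕ) (δ : F) :
    ∃ θ₁ : Matrix (Fin d ⊕ Fin d) (Fin d ⊕ Fin d) F, IsSkew d θ₁ ∧
      θ₁ * θ₁ = δ • (1 : Matrix (Fin d ⊕ Fin d) (Fin d ⊕ Fin d) F) ∧
      Matrix.J (Fin d) F * θ₁ = -(θ₁ * Matrix.J (Fin d) F) := by
  obtain ⟨a, b, hab⟩ := exists_sq_add_sq δ
  refine ⟨Matrix.fromBlocks (a • (1 : Matrix (Fin d) (Fin d) F)) (b • 1) (b • 1) (-(a • 1)),
    ?_, ?_, ?_⟩
  · apply isSkew_of_transpose_mul_J
    unfold Matrix.J
    rw [Matrix.fromBlocks_transpose, Matrix.fromBlocks_multiply, Matrix.fromBlocks_multiply,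
      Matrix.fromBlocks_neg]
    congr 1 <;> simp
  · rw [Matrix.fromBlocks_multiply, ← Matrix.fromBlocks_one, Matrix.fromBlocks_smul]
    have e1 : ∀ x y : F, (x • (1 : Matrix (Fin d) (Fin d) F)) * (y • (1 : Matrix (Fin d) (Fin d) F))
        = (x * y) • (1 : Matrix (Fin d) (Fin d) F) := by
      intro x y
      rw [Matrix.smul_mul, Matrix.one_mul, smul_smul]
    have e2 : -(a • (1 : Matrix (Fin d) (Fin d) F)) = (-a) • (1 : Matrix (Fin d) (Fin d) F) := by
      rw [neg_smul]
    rw [e2]
    simp only [e1, ← add_smul, smul_zero]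
    congr 1
    · rw [hab]
    · rw [show a * b + b * -a = 0 by ring, zero_smul]
    · rw [show b * a + -a * b = 0 by ring, zero_smul]
    · rw [show b * b + -a * -a = δ by rw [← hab]; ring]
  · unfold Matrix.J
    rw [Matrix.fromBlocks_multiply, Matrix.fromBlocks_multiply, Matrix.fromBlocks_neg]
    congr 1 <;> simp

end Cfsg.Agent.Lib.Helper62.S76THETA
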