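import Mathlib

/-!
# Project QB (helper48, S2359), piece INVCONJ (helper62)

If every Sylow 2-subgroup `S` is elementary abelian of order 8, self-centralising, with
normaliser of order 168, then all involutions are conjugate: an element of order 7 of `N(S)`
permutes the seven involutions of `S` transitively.
-/

set_option autoImplicit false

namespace Cfsg.Agent.Lib.Helper48.QB

theorem invconj_cancel {G : Type*} [Group G] (A C s : G)
    (h : (A * C) * s * (A * C)⁻¹ = A * s * A⁻¹) : C * s = s * C := by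
  calc C * s = A⁻¹ * ((A * C) * s * (A * C)⁻¹) * A * C := by group
    _ = A⁻¹ * (A * s * A⁻¹) * A * C := by rw [h]
    _ = s * C := by group

/-- all non-identity elements of such a Sylow 2-subgroup are conjugate to one of them -/
theorem invconj_sylow {G : Type*} [Group G] [Finite G] (S : Sylow 2 G)
    (h8 : Nat.card (S : Subgroup G) = 8)
    (hcent : Subgroup.centralizer ((S : Subgroup G) : Set G) = S)
    (hN : Nat.card (Subgroup.normalizer ((S : Subgroup G) : Set G)) = 168) :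
    ∃ s : G, ∀ t ∈ (S : Subgroup G), t ≠ 1 → ∃ g : G, g * s * g⁻¹ = t := by
  have : Fact (Nat.Prime 7) := ⟨by norm_num⟩
  obtain ⟨x', hx'⟩ := exists_prime_orderOf_dvd_card'
    (G := ↥(Subgroup.normalizer ((S : Subgroup G) : Set G))) 7 (by rw [hN]; norm_num)
  obtain ⟨x, hxo, hxN⟩ : ∃ x : G, orderOf x = 7 ∧
      x ∈ Subgroup.normalizer ((S : Subgroup G) : Set G) :=
    ⟨(x' : G), by rw [Subgroup.orderOf_coe]; exact hx', x'.2⟩
  have hxS : x ∉ (S : Subgroup G) := by
    intro hmem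
    have h1 : orderOf x ∣ Nat.card (S : Subgroup G) := by
      have h2 := orderOf_dvd_natCard (⟨x, hmem⟩ : (S : Subgroup G))
      rwa [Subgroup.orderOf_mk] at h2
    rw [hxo, h8] at h1
    norm_num at h1
  have hxC : ∃ s ∈ (S : Subgroup G), x * s * x⁻¹ ≠ s := by
    by_contra hcon
    have hcon' : ∀ s ∈ (S : Subgroup G), x * s * x⁻¹ = s := by
      intro s hs
      by_contra h
      exact hcon ⟨s, hs, h⟩
    apply hxS
    rw [← hcent, Subgroup.mem_centralizer_iff]
    intro s hs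
    have h1 := hcon' s hs
    calc s * x = (x * s * x⁻¹) * x := by rw [h1]
      _ = x * s := by group
  obtain ⟨s, hsS, hsx⟩ := hxC
  refine ⟨s, ?_⟩
  have hpowN : ∀ i : ℕ, x ^ i ∈ Subgroup.normalizer ((S : Subgroup G) : Set G) :=
    fun i => pow_mem hxN i
  have hconjS : ∀ i : ℕ, x ^ i * s * (x ^ i)⁻¹ ∈ (S : Subgroup G) :=
    fun i => (Subgroup.mem_normalizer_iff.1 (hpowN i) s).1 hsS
  have hs1 : s ≠ 1 := by
    intro h
    apply hsx
    rw [h]
    group
  have hcomm : ∀ d : ℕ, 0 < d → d < 7 → x ^ d * s ≠ s * x ^ d := by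
    intro d hd0 hd7 hc
    apply hsx
    obtain ⟨m, hm⟩ : ∃ m : ℕ, (d * m) % 7 = 1 := by
      interval_cases d
      · exact ⟨1, by norm_num⟩
      · exact ⟨4, by norm_num⟩
      · exact ⟨5, by norm_num⟩
      · exact ⟨2, by norm_num⟩
      · exact ⟨3, by norm_num⟩
      · exact ⟨6, by norm_num⟩
    have hxd : (x ^ d) ^ m = x := by
      rw [← pow_mul, ← pow_mod_orderOf, hxo, hm, pow_one]
    have hc' : Commute (x ^ d) s := hc
    have hc2 : Commute x s := by
      have h3 := hc'.pow_left m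
      rwa [hxd] at h3
    calc x * s * x⁻¹ = s * x * x⁻¹ := by rw [hc2.eq]
      _ = s := by group
  obtain ⟨f, hf⟩ : ∃ f : Fin 7 → G, ∀ i, f i = x ^ (i : ℕ) * s * (x ^ (i : ℕ))⁻¹ :=
    ⟨fun i => x ^ (i : ℕ) * s * (x ^ (i : ℕ))⁻¹, fun i => rfl⟩
  have key : ∀ i j : Fin 7, (i : ℕ) < (j : ℕ) → f j = f i → False := by
    intro i j hlt h
    rw [hf, hf] at h
    obtain ⟨d, hd⟩ : ∃ d : ℕ, (j : ℕ) = (i : ℕ) + d := ⟨(j : ℕ) - (i : ℕ), by omega⟩
    have hj7 : (j : ℕ) < 7 := j.isLt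
    rw [hd, pow_add] at h
    exact hcomm d (by omega) (by omega) (invconj_cancel _ _ _ h)
  have hinj : Function.Injective f := by
    intro i j hij
    by_contra hne
    have hne' : (i : ℕ) ≠ (j : ℕ) := fun h => hne (Fin.ext h)
    rcases lt_or_gt_of_ne hne' with hlt | hgt
    · exact key i j hlt hij.symm
    · exact key j i hgt hij
  have h1S : (1 : G) ∈ ((S : Subgroup G) : Set G) := (S : Subgroup G).one_mem
  have hc0 : ((S : Subgroup G) : Set G).ncard = 8 := by
    rw [← Nat.card_coe_set_eq]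
    exact h8
  have hc2 : (Set.range f).ncard = 7 := by
    rw [← Set.image_univ, Set.ncard_image_of_injective _ hinj, Set.ncard_univ]
    simp
  have hrange : Set.range f = ((S : Subgroup G) : Set G) \ {1} := by
    refine Set.eq_of_subset_of_ncard_le ?_ ?_ (Set.toFinite _)
    · rintro _ ⟨i, rfl⟩
      rw [hf]
      refine ⟨hconjS i, ?_⟩
      intro h1
      apply hs1
      have h2 : x ^ (i : ℕ) * s * (x ^ (i : ℕ))⁻¹ = 1 := h1
      calc s = (x ^ (i : ℕ))⁻¹ * (x ^ (i : ℕ) * s * (x ^ (i : ℕ))⁻¹) * x ^ (i : ℕ) := by group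
        _ = 1 := by rw [h2]; group
    · rw [Set.ncard_sdiff_singleton_of_mem h1S, hc0, hc2]
  intro t htS ht1
  have htm : t ∈ ((S : Subgroup G) : Set G) \ {1} := ⟨htS, ht1⟩
  rw [← hrange] at htm
  obtain ⟨i, hi⟩ := htm
  rw [hf] at hi
  exact ⟨x ^ (i : ℕ), hi⟩

-- QB-INVCONJ
theorem inv_conj {G : Type*} [Group G] [Finite G]
    (hS : ∀ S : Sylow 2 G, Nat.card S = 8 ∧ (∀ x ∈ S, x * x = 1) ∧
      Subgroup.centralizer ((S : Subgroup G) : Set G) = S ∧
      Nat.card (Subgroup.normalizer ((S : Subgroup G) : Set G)) = 168)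
    (a b : G) (ha1 : a ≠ 1) (ha2 : a * a = 1) (hb1 : b ≠ 1) (hb2 : b * b = 1) :
    ∃ g : G, g * a * g⁻¹ = b := by
  have : Fact (Nat.Prime 2) := ⟨Nat.prime_two⟩
  have hin : ∀ c : G, c ≠ 1 → c * c = 1 → ∃ P : Sylow 2 G, c ∈ (P : Subgroup G) := by
    intro c hc1 hc2
    have ho : orderOf c = 2 := orderOf_eq_prime (by rw [pow_two]; exact hc2) hc1
    have hp : IsPGroup 2 (Subgroup.zpowers c) := by
      apply IsPGroup.of_card (n := 1)
      rw [Nat.card_zpowers, ho, pow_one]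
    obtain ⟨P, hP⟩ := hp.exists_le_sylow
    exact ⟨P, hP (Subgroup.mem_zpowers c)⟩
  obtain ⟨P, haP⟩ := hin a ha1 ha2
  obtain ⟨Q, hbQ⟩ := hin b hb1 hb2
  obtain ⟨g, hg⟩ := MulAction.exists_smul_eq G P Q
  have haQ : g * a * g⁻¹ ∈ (Q : Subgroup G) := by
    rw [← hg, Sylow.coe_subgroup_smul]
    have h1 := Subgroup.smul_mem_pointwise_smul a (MulAut.conj g) (P : Subgroup G) haP
    rwa [MulAut.smul_def, MulAut.conj_apply] at h1
  have ha'1 : g * a * g⁻¹ ≠ 1 := by
    intro h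
    apply ha1
    calc a = g⁻¹ * (g * a * g⁻¹) * g := by group
      _ = 1 := by rw [h]; group
  obtain ⟨h8, -, hcent, hN⟩ := hS Q
  obtain ⟨s, hs⟩ := invconj_sylow Q h8 hcent hN
  obtain ⟨g1, hg1⟩ := hs _ haQ ha'1
  obtain ⟨g2, hg2⟩ := hs b hbQ hb1
  refine ⟨g2 * g1⁻¹ * g, ?_⟩
  rw [← hg2]
  have h3 : s = g1⁻¹ * (g * a * g⁻¹) * g1 := by
    rw [← hg1]
    group
  rw [h3]
  group

end Cfsg.Agent.Lib.Helper48.QB
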