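import Mathlib

/-!
# Project RL (helper48, S2343): piece COMEIG

A family of commuting operators `T a` (`a` in an abelian group `A` of exponent 3) on a
finite-dimensional complex vector space, with `T a₀ ≠ 1`, has a common eigenvector whose
character is non-trivial at `a₀` (exponent-3 twin of helper28's `LSCOMEIG`).
-/

set_option autoImplicit false

namespace Cfsg.Agent.Lib.Helper48.RL

-- piece RL-COMEIG
theorem common_eigenvector3 {V : Type*} [AddCommGroup V] [Module ℂ V] [FiniteDimensional ℂ V]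
    {A : Type*} [AddCommGroup A] (T : A → V →ₗ[ℂ] V) (hT0 : T 0 = 1)
    (hTadd : ∀ a b : A, T (a + b) = T a * T b) (h3 : ∀ a : A, a + a + a = 0)
    (a₀ : A) (hne : T a₀ ≠ 1) :
    ∃ (v : V) (χ : A → ℂ), v ≠ 0 ∧ χ a₀ ≠ 1 ∧ χ 0 = 1 ∧
      (∀ a b : A, χ (a + b) = χ a * χ b) ∧ ∀ a : A, T a v = χ a • v := by
  classical
  have hcube : ∀ a (w : V), T a (T a (T a w)) = w := by
    intro a w
    have h := hTadd (a + a) a
    rw [h3 a, hT0, hTadd a a] at h
    have h' := congrArg (fun f : V →ₗ[ℂ] V => f w) h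
    simpa using h'.symm
  have hcomm : ∀ a b (w : V), T a (T b w) = T b (T a w) := by
    intro a b w
    have h1 := hTadd a b
    have h2' := hTadd b a
    rw [add_comm b a, h1] at h2'
    have h' := congrArg (fun f : V →ₗ[ℂ] V => f w) h2'
    simpa using h'
  obtain ⟨K₀, hK₀⟩ : ∃ K₀ : Submodule ℂ V,
      ∀ w, w ∈ K₀ ↔ w + T a₀ w + T a₀ (T a₀ w) = 0 := by
    refine ⟨LinearMap.ker (1 + T a₀ + T a₀ * T a₀), fun w => ?_⟩
    rw [LinearMap.mem_ker]
    simp only [LinearMap.add_apply, Module.End.one_apply, Module.End.mul_apply]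
  have hK₀ne : K₀ ≠ ⊥ := by
    obtain ⟨w, hw⟩ : ∃ w, T a₀ w ≠ w := by
      by_contra h
      apply hne
      apply LinearMap.ext
      intro w
      by_contra hw
      exact h ⟨w, fun e => hw (by rw [e]; rfl)⟩
    intro hbot
    have hmem : T a₀ w - w ∈ K₀ := by
      rw [hK₀]
      simp only [map_sub, hcube]
      abel
    rw [hbot, Submodule.mem_bot] at hmem
    exact hw (sub_eq_zero.mp hmem)
  let S : Set (Submodule ℂ V) := {W | W ≠ ⊥ ∧ W ≤ K₀ ∧ ∀ a, ∀ w ∈ W, T a w ∈ W}
  have hK₀S : K₀ ∈ S := by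
    refine ⟨hK₀ne, le_refl _, ?_⟩
    intro a w hw
    rw [hK₀] at hw ⊢
    rw [hcomm a₀ a w, hcomm a₀ a (T a₀ w)]
    have e : T a w + T a (T a₀ w) + T a (T a₀ (T a₀ w)) =
        T a (w + T a₀ w + T a₀ (T a₀ w)) := by
      simp only [map_add]
    rw [e, hw, map_zero]
  obtain ⟨W, hWS, hWmin⟩ := (wellFounded_lt (α := Submodule ℂ V)).has_min S ⟨K₀, hK₀S⟩
  obtain ⟨hWne, hWK, hWinv⟩ := hWS
  have hdich : ∀ a, ∃ μ : ℂ, ∀ w ∈ W, T a w = μ • w := by
    intro a
    have hnt : Nontrivial ↥W := Submodule.nontrivial_iff_ne_bot.mpr hWne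
    obtain ⟨μ, hμ⟩ := Module.End.exists_eigenvalue
      ((T a).restrict (fun w hw => hWinv a w hw))
    obtain ⟨x, hx⟩ := hμ.exists_hasEigenvector
    have hx1 : T a (x : V) = μ • (x : V) := by
      have h := hx.apply_eq_smul
      have h' := congrArg Subtype.val h
      simpa using h'
    have hx0 : (x : V) ≠ 0 := fun h => hx.2 (Subtype.ext h)
    obtain ⟨Wp, hmemWp⟩ : ∃ Wp : Submodule ℂ V, ∀ w, w ∈ Wp ↔ w ∈ W ∧ T a w = μ • w := by
      refine ⟨W ⊓ LinearMap.ker (T a - μ • 1), fun w => ?_⟩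
      rw [Submodule.mem_inf, LinearMap.mem_ker]
      simp only [LinearMap.sub_apply, LinearMap.smul_apply, Module.End.one_apply, sub_eq_zero]
    have hWpne : Wp ≠ ⊥ := by
      intro hbot
      have hmem : (x : V) ∈ Wp := (hmemWp _).mpr ⟨x.2, hx1⟩
      rw [hbot, Submodule.mem_bot] at hmem
      exact hx0 hmem
    have hle : Wp ≤ W := fun w hw => ((hmemWp w).mp hw).1
    have hWpS : Wp ∈ S := by
      refine ⟨hWpne, hle.trans hWK, ?_⟩
      intro b w hw
      rw [hmemWp] at hw ⊢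
      refine ⟨hWinv b w hw.1, ?_⟩
      rw [hcomm a b w, hw.2, map_smul]
    have heq : Wp = W := by
      by_contra hneq
      exact hWmin Wp hWpS (lt_of_le_of_ne hle hneq)
    refine ⟨μ, fun w hw => ?_⟩
    rw [← heq] at hw
    exact ((hmemWp w).mp hw).2
  choose χ hχ using hdich
  obtain ⟨v, hvW, hv0⟩ := Submodule.exists_mem_ne_zero_of_ne_bot hWne
  have hχv : ∀ a, T a v = χ a • v := fun a => hχ a v hvW
  refine ⟨v, χ, hv0, ?_, ?_, ?_, hχv⟩
  · intro h1
    have h4 : v + T a₀ v + T a₀ (T a₀ v) = 0 := (hK₀ v).mp (hWK hvW)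
    rw [hχv a₀, map_smul, hχv a₀, h1] at h4
    simp only [one_smul] at h4
    have h6 : (3 : ℂ) • v = 0 := by
      have e : (3 : ℂ) • v = v + v + v := by
        rw [show (3 : ℂ) = 1 + 1 + 1 by norm_num, add_smul, add_smul, one_smul]
      rw [e]
      exact h4
    rcases smul_eq_zero.mp h6 with h | h
    · norm_num at h
    · exact hv0 h
  · have h : v = χ 0 • v := by
      have h := hχv 0
      rw [hT0] at h
      exact h
    have h' : (χ 0 - 1) • v = 0 := by
      rw [sub_smul, one_smul, ← h, sub_self]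
    rcases smul_eq_zero.mp h' with h'' | h''
    · exact sub_eq_zero.mp h''
    · exact absurd h'' hv0
  · intro a b
    have h1 : T (a + b) v = χ (a + b) • v := hχv (a + b)
    have h2' : T (a + b) v = (χ a * χ b) • v := by
      rw [hTadd, Module.End.mul_apply, hχv b, map_smul, hχv a, smul_smul, mul_comm]
    have h3' : (χ (a + b) - χ a * χ b) • v = 0 := by
      rw [sub_smul, ← h1, ← h2', sub_self]
    rcases smul_eq_zero.mp h3' with h | h
    · exact sub_eq_zero.mp h
    · exact absurd h hv0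

end Cfsg.Agent.Lib.Helper48.RL
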