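import Cfsg.Agent.Lib.Helper59.XS0
import Mathlib

/-!
# Piece BF of the S3054 / S3055 project (helper59): fusion of a non-central element of the
extraspecial Sylow subgroup into its centre gives a shear.
-/

set_option autoImplicit false

namespace Cfsg.Agent.Lib.Helper62.XSBF

lemma isPGroup_zpowers_of_pow' {H : Type*} [Group H] {p : ℕ} {g : H} {k : ℕ}
    (hg : g ^ (p ^ k) = 1) : IsPGroup p (Subgroup.zpowers g) := by
  rintro ⟨y, hy⟩
  obtain ⟨j, rfl⟩ := Subgroup.mem_zpowers_iff.mp hy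
  refine ⟨k, Subtype.ext ?_⟩
  simp only [Subgroup.coe_pow, Subgroup.coe_one]
  rw [← zpow_natCast, ← zpow_mul, mul_comm, zpow_mul, zpow_natCast, hg, one_zpow]

/-- every `p`-element is conjugate into a given Sylow `p`-subgroup -/
lemma exists_conj_mem_sylow' {H : Type*} [Group H] [Finite H] {p : ℕ} [Fact p.Prime]
    (S : Sylow p H) (u : H) (k : ℕ) (hu : u ^ (p ^ k) = 1) :
    ∃ c : H, c * u * c⁻¹ ∈ (S : Subgroup H) := by
  obtain ⟨Q, hQ⟩ := (isPGroup_zpowers_of_pow' hu).exists_le_sylow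
  obtain ⟨c, hc⟩ := MulAction.exists_smul_eq H Q S
  refine ⟨c, ?_⟩
  have hmem : c * u * c⁻¹ ∈ ((c • Q : Sylow p H) : Subgroup H) := by
    rw [Sylow.smul_def, Sylow.pointwise_smul_def]
    have := Subgroup.smul_mem_pointwise_smul u (MulAut.conj c) (Q : Subgroup H)
      (hQ (Subgroup.mem_zpowers u))
    simpa [MulAut.smul_def] using this
  rw [hc] at hmem
  exact hmem

end Cfsg.Agent.Lib.Helper62.XSBF

namespace Cfsg.Agent.Lib.Helper59.XS

open scoped commutatorElement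
open Cfsg.Agent.Lib.Helper62.XSBF

variable {G : Type*} [Group G]

/-! ### Piece BF : fusion of a non-central element into the centre gives a shear -/
theorem exists_shear_of_conj {p : ℕ} [Fact p.Prime] [Finite G] (P : Sylow p G) {Z : Subgroup G}
    (h : Setup p (P : Subgroup G) Z)
    (hconj : ∀ x y : ↥(P : Subgroup G), x ≠ 1 → y ≠ 1 → ∃ g : G, g * (x : G) * g⁻¹ = (y : G))
    {x : G} (hx : x ∈ (P : Subgroup G)) (hxZ : x ∉ Z) :
    ∃ (hh z : G) (j : ℕ), z ∈ Z ∧ x ^ j ≠ 1 ∧ hh * x * hh⁻¹ = x ∧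
      hh * z * hh⁻¹ = z * x ^ j := by
  have hp : p.Prime := Fact.out
  -- a generator of `Z`
  haveI : Nontrivial Z := by
    rw [← Finite.one_lt_card_iff_nontrivial, h.hZcard]
    exact hp.one_lt
  obtain ⟨⟨z0, hz0⟩, hz0ne⟩ := exists_ne (1 : Z)
  have hz0ne' : z0 ≠ 1 := fun e => hz0ne (Subtype.ext e)
  have hz0P : z0 ∈ (P : Subgroup G) := h.hZP hz0
  have hgenZ : ∀ t : G, ∀ ht : t ∈ Z, t ≠ 1 → ∀ w ∈ Z, ∃ b : ℕ, t ^ b = w := by
    intro t ht htne w hw
    have htop : Subgroup.zpowers (⟨t, ht⟩ : Z) = ⊤ :=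
      zpowers_eq_top_of_prime_card h.hZcard (fun e => htne (congrArg Subtype.val e))
    have hmem : (⟨w, hw⟩ : Z) ∈ Subgroup.zpowers (⟨t, ht⟩ : Z) := by
      rw [htop]; exact Subgroup.mem_top _
    rw [← mem_powers_iff_mem_zpowers, Submonoid.mem_powers_iff] at hmem
    obtain ⟨b, hb⟩ := hmem
    exact ⟨b, congrArg Subtype.val hb⟩
  have hx1 : x ≠ 1 := fun e => hxZ (e ▸ Z.one_mem)
  -- fuse `x` to `z0`
  obtain ⟨g, hg⟩ := hconj ⟨x, hx⟩ ⟨z0, hz0P⟩ (fun e => hx1 (congrArg Subtype.val e))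
    (fun e => hz0ne' (congrArg Subtype.val e))
  simp only at hg
  -- `z1 = g z0 g⁻¹` commutes with `z0`
  have hxz0 : x * z0 = z0 * x := h.hZc z0 hz0 x hx
  have hPC : (P : Subgroup G) ≤ Subgroup.centralizer ({z0} : Set G) := by
    intro a ha
    rw [Subgroup.mem_centralizer_iff]
    intro t ht
    rw [Set.mem_singleton_iff] at ht
    subst ht
    exact (h.hZc t hz0 a ha).symm
  have hkey : z0 * (g * z0 * g⁻¹) = (g * z0 * g⁻¹) * z0 := by
    have key : (g * x * g⁻¹) * (g * z0 * g⁻¹) = (g * z0 * g⁻¹) * (g * x * g⁻¹) := by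
      calc (g * x * g⁻¹) * (g * z0 * g⁻¹) = g * (x * z0) * g⁻¹ := by group
        _ = g * (z0 * x) * g⁻¹ := by rw [hxz0]
        _ = (g * z0 * g⁻¹) * (g * x * g⁻¹) := by group
    rw [hg] at key
    exact key
  have hz1C : g * z0 * g⁻¹ ∈ Subgroup.centralizer ({z0} : Set G) := by
    rw [Subgroup.mem_centralizer_iff]
    intro t ht
    rw [Set.mem_singleton_iff] at ht
    rw [ht]
    exact hkey
  have hz1p : (⟨g * z0 * g⁻¹, hz1C⟩ : Subgroup.centralizer ({z0} : Set G)) ^ (p ^ 1) = 1 := by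
    apply Subtype.ext
    simp only [Subgroup.coe_pow, Subgroup.coe_one, pow_one]
    rw [conj_pow, h.hexp z0 hz0P]
    group
  obtain ⟨c, hc⟩ := exists_conj_mem_sylow' (P.subtype hPC) _ 1 hz1p
  rw [Sylow.coe_subtype, Subgroup.mem_subgroupOf] at hc
  simp only [Subgroup.coe_mul, Subgroup.coe_inv] at hc
  have hcz0 : (c : G) * z0 = z0 * (c : G) := by
    have := Subgroup.mem_centralizer_iff.mp c.2 z0 (Set.mem_singleton z0)
    exact this.symm
  -- `g' = c g`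
  obtain ⟨g', hg'⟩ : ∃ g' : G, g' = (c : G) * g := ⟨_, rfl⟩
  have hgx : g' * x * g'⁻¹ = z0 := by
    calc g' * x * g'⁻¹ = (c : G) * (g * x * g⁻¹) * (c : G)⁻¹ := by rw [hg']; group
      _ = (c : G) * z0 * (c : G)⁻¹ := by rw [hg]
      _ = z0 := by rw [hcz0]; group
  obtain ⟨y, hy⟩ : ∃ y : G, y = g' * z0 * g'⁻¹ := ⟨_, rfl⟩
  have hyP : y ∈ (P : Subgroup G) := by
    have : y = (c : G) * (g * z0 * g⁻¹) * (c : G)⁻¹ := by rw [hy, hg']; group
    rw [this]; exact hc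
  have hy1 : y ≠ 1 := by
    intro e
    apply hz0ne'
    have : z0 = g'⁻¹ * y * g' := by rw [hy]; group
    rw [this, e]; group
  have hyZ : y ∉ Z := by
    intro hyZ
    obtain ⟨b, hb⟩ := hgenZ y hyZ hy1 z0 hz0
    -- z0 = y^b = g' z0^b g'⁻¹ and z0 = g' x g'⁻¹
    apply hxZ
    have e1 : g' * z0 ^ b * g'⁻¹ = g' * x * g'⁻¹ := by
      rw [hgx, ← conj_pow, ← hy, hb]
    have e2 : x = z0 ^ b := by
      have := mul_left_cancel (mul_right_cancel e1)
      exact this.symm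
    rw [e2]
    exact Z.pow_mem hz0 b
  -- an element of `P` not commuting with `y`
  have hex : ∃ u ∈ (P : Subgroup G), u * y ≠ y * u := by
    by_contra hcon
    apply hyZ
    apply h.hZmem y hyP
    intro a ha
    by_contra h1
    exact hcon ⟨a, ha, h1⟩
  obtain ⟨u, hu, huy⟩ := hex
  obtain ⟨w, hw⟩ : ∃ w : G, w = u * y * u⁻¹ * y⁻¹ := ⟨_, rfl⟩
  have hwZ : w ∈ Z := by
    have := h.hcomm u hu y hyP
    rw [commutatorElement_def] at this
    rw [hw]; exact this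
  have hw1 : w ≠ 1 := by
    intro e
    apply huy
    rw [hw] at e
    have : u * y = (u * y * u⁻¹ * y⁻¹) * (y * u) := by group
    rw [this, e, one_mul]
  obtain ⟨b, hb⟩ := hgenZ z0 hz0 hz0ne' w hwZ
  have huz0 : u * z0 = z0 * u := h.hZc z0 hz0 u hu
  have hyw : y * w = w * y := h.hZc w hwZ y hyP
  have e1 : g'⁻¹ * z0 * g' = x := by rw [← hgx]; group
  have e2 : g'⁻¹ * y * g' = z0 := by rw [hy]; group
  have e3 : g'⁻¹ * w * g' = x ^ b := by
    rw [← hb, ← e1]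
    have := conj_pow (a := g'⁻¹) (b := z0) (i := b)
    rw [inv_inv] at this
    exact this.symm
  have e4 : u * y * u⁻¹ = y * w := by
    rw [hyw, hw]; group
  refine ⟨g'⁻¹ * u * g', z0, b, hz0, ?_, ?_, ?_⟩
  · intro e
    apply hw1
    rw [e] at e3
    have : w = g' * (g'⁻¹ * w * g') * g'⁻¹ := by group
    rw [this, e3]; group
  · calc g'⁻¹ * u * g' * x * (g'⁻¹ * u * g')⁻¹ = g'⁻¹ * (u * (g' * x * g'⁻¹) * u⁻¹) * g' := by group
      _ = g'⁻¹ * (u * z0 * u⁻¹) * g' := by rw [hgx]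
      _ = g'⁻¹ * z0 * g' := by rw [huz0]; group
      _ = x := e1
  · calc g'⁻¹ * u * g' * z0 * (g'⁻¹ * u * g')⁻¹ = g'⁻¹ * (u * (g' * z0 * g'⁻¹) * u⁻¹) * g' := by
          group
      _ = g'⁻¹ * (u * y * u⁻¹) * g' := by rw [← hy]
      _ = g'⁻¹ * (y * w) * g' := by rw [e4]
      _ = (g'⁻¹ * y * g') * (g'⁻¹ * w * g') := by group
      _ = z0 * x ^ b := by rw [e2, e3]

end Cfsg.Agent.Lib.Helper59.XS
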