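import Cfsg.Agent.Lib.Helper32.BG10Basic

set_option autoImplicit false

/-! # B&G Section 10, piece Q11C (helper62, for helper15): `npc_core`
Normal `q`-complements for all primes `q ∉ π` ⇒ `O_π(X)` is a Hall subgroup and
`X / O_π(X)` is nilpotent. -/

open Cfsg Cfsg.Agent.Lib.Helper32 Cfsg.Agent.Lib.Helper32.BG10

namespace Cfsg.Agent.Lib.Helper62.BG10

universe u

variable {G : Type u} [Group G] [Finite G]

/-- from a normal `q`-complement: a normal subgroup of order prime to `q` and `q`-power index -/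
private theorem h62_npc_data {X : Type*} [Group X] [Finite X] (q : ℕ) (hq : q.Prime)
    (h : HasNormalPComplement q X) :
    ∃ N : Subgroup X, N.Normal ∧ (Nat.card N).Coprime q ∧ ∃ j, N.index = q ^ j := by
  obtain ⟨P, N, hN, hc⟩ := h
  have : Fact q.Prime := ⟨hq⟩
  refine ⟨N, hN, ?_, ?_⟩
  · have h1 : (P : Subgroup X).index = Nat.card N := hc.index_eq_card
    rw [← h1]
    exact ((Nat.Prime.coprime_iff_not_dvd hq).mpr P.not_dvd_index).symm
  · have h2 : N.index = Nat.card (P : Subgroup X) := hc.symm.index_eq_card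
    obtain ⟨j, hj⟩ := IsPGroup.iff_card.mp P.isPGroup'
    exact ⟨j, h2.trans hj⟩

theorem npc_core {X : Type*} [Group X] [Finite X] (π : Set ℕ)
    (h : ∀ q : ℕ, q.Prime → q ∣ Nat.card X → q ∉ π → HasNormalPComplement q X) :
    (∀ p : ℕ, p.Prime → p ∈ π → ¬ p ∣ (piCore π X).index) ∧
      Group.IsNilpotent (X ⧸ piCore π X) := by
  classical
  have hcard0 : Nat.card X ≠ 0 := Nat.card_pos.ne'
  obtain ⟨Qs, hQs⟩ : ∃ Qs : Finset ℕ, Qs = (Nat.card X).primeFactors.filter (· ∉ π) := ⟨_, rfl⟩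
  have hQmem : ∀ q : ℕ, q ∈ Qs ↔ q.Prime ∧ q ∣ Nat.card X ∧ q ∉ π := by
    intro q
    rw [hQs, Finset.mem_filter, Nat.mem_primeFactors]
    constructor
    · rintro ⟨⟨h1, h2, _⟩, h3⟩; exact ⟨h1, h2, h3⟩
    · rintro ⟨h1, h2, h3⟩; exact ⟨⟨h1, h2, hcard0⟩, h3⟩
  have hex : ∀ q : ↥Qs, ∃ N : Subgroup X, N.Normal ∧ (Nat.card N).Coprime q.1 ∧
      ∃ j, N.index = q.1 ^ j := fun q =>
    h62_npc_data q.1 ((hQmem q.1).mp q.2).1
      (h q.1 ((hQmem q.1).mp q.2).1 ((hQmem q.1).mp q.2).2.1 ((hQmem q.1).mp q.2).2.2)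
  choose N hNn hNc j hj using hex
  have hNn' : ∀ q : ↥Qs, (N q).Normal := hNn
  have hcardq : ∀ q : ↥Qs, Nat.card (X ⧸ N q) = q.1 ^ j q := fun q => by
    rw [← Subgroup.index_eq_card]; exact hj q
  have hnil : ∀ q : ↥Qs, Group.IsNilpotent (X ⧸ N q) := fun q => by
    have : Fact q.1.Prime := ⟨((hQmem q.1).mp q.2).1⟩
    exact (IsPGroup.of_card (hcardq q)).isNilpotent
  obtain ⟨φ, hφ⟩ : ∃ φ : X →* ∀ q : ↥Qs, X ⧸ N q,
      φ = MonoidHom.pi (fun q => QuotientGroup.mk' (N q)) := ⟨_, rfl⟩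
  have hker_le : ∀ q : ↥Qs, φ.ker ≤ N q := by
    intro q x hx
    rw [MonoidHom.mem_ker] at hx
    have h1 : φ x q = 1 := by rw [hx]; rfl
    rw [hφ] at h1
    have h2 : (x : X ⧸ N q) = 1 := h1
    exact (QuotientGroup.eq_one_iff x).mp h2
  -- (i) the kernel is a normal π-subgroup
  have hker_core : φ.ker ≤ piCore π X := by
    apply le_sSup
    refine ⟨inferInstance, fun p hp hpd => ?_⟩
    by_contra hpπ
    have hpX : p ∣ Nat.card X := hpd.trans (Subgroup.card_subgroup_dvd_card _)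
    have hpQ : p ∈ Qs := (hQmem p).mpr ⟨hp, hpX, hpπ⟩
    have h1 : p ∣ Nat.card (N ⟨p, hpQ⟩) := hpd.trans (Subgroup.card_dvd_of_le (hker_le ⟨p, hpQ⟩))
    exact (Nat.Prime.coprime_iff_not_dvd hp).mp (hNc ⟨p, hpQ⟩).symm h1
  refine ⟨fun p hp hpπ hpd => ?_, ?_⟩
  · -- (iii)
    have h1 : (piCore π X).index ∣ φ.ker.index := Subgroup.index_dvd_of_le hker_core
    have h2 : φ.ker.index = Nat.card φ.range := Subgroup.index_ker φ
    have h3 : Nat.card φ.range ∣ Nat.card (∀ q : ↥Qs, X ⧸ N q) :=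
      Subgroup.card_subgroup_dvd_card _
    have h4 : Nat.card (∀ q : ↥Qs, X ⧸ N q) = ∏ q : ↥Qs, Nat.card (X ⧸ N q) := Nat.card_pi
    have h5 : p ∣ ∏ q : ↥Qs, Nat.card (X ⧸ N q) := by
      rw [← h4]; exact (hpd.trans h1).trans (h2 ▸ h3)
    obtain ⟨q, -, hq⟩ := (Prime.dvd_finsetProd_iff (Nat.Prime.prime hp) _).mp h5
    rw [hcardq q] at hq
    have h6 : p ∣ q.1 := Nat.Prime.dvd_of_dvd_pow hp hq
    have h7 : p = q.1 := (Nat.prime_dvd_prime_iff_eq hp ((hQmem q.1).mp q.2).1).mp h6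
    exact ((hQmem q.1).mp q.2).2.2 (h7 ▸ hpπ)
  · -- (ii)
    have h1 : Group.IsNilpotent (X ⧸ φ.ker) :=
      Group.nilpotent_of_mulEquiv (QuotientGroup.quotientKerEquivRange φ).symm
    have hle : φ.ker ≤ (piCore π X).comap (MonoidHom.id X) := by
      rw [Subgroup.comap_id]; exact hker_core
    refine Group.nilpotent_of_surjective
      (QuotientGroup.map φ.ker (piCore π X) (MonoidHom.id X) hle) ?_
    intro y
    obtain ⟨x, rfl⟩ := QuotientGroup.mk_surjective y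
    exact ⟨(x : X ⧸ φ.ker), rfl⟩

end Cfsg.Agent.Lib.Helper62.BG10
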