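import Cfsg.Agent.S3864
import Mathlib

/-!
# Piece DI of the S0508 project (helper46): a finite simple group with dihedral Sylow
2-subgroups has a single class of involutions.
-/

set_option autoImplicit false

namespace Cfsg.Agent.Lib.Helper62.BSWDI

open Cfsg

universe u

variable {G : Type u} [Group G]

lemma commute_of_sq_of_odd {h x : G} (hodd : Odd (orderOf h)) (hc : Commute (h ^ 2) x) :
    Commute h x := by
  obtain ⟨k, hk⟩ := hodd
  have h1 : h = (h ^ 2) ^ (k + 1) := by
    rw [← pow_mul]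
    have h2 : 2 * (k + 1) = orderOf h + 1 := by omega
    rw [h2, pow_succ, pow_orderOf_eq_one, one_mul]
  rw [h1]
  exact hc.pow_left _

lemma dih2_comm : ∀ a b : DihedralGroup 2, a * b = b * a := by decide

lemma dih2_three : ∀ p q r s : DihedralGroup 2, p ≠ 1 → q ≠ 1 → r ≠ 1 → p ≠ q → q ≠ r →
    p ≠ r → s ≠ 1 → s = p ∨ s = q ∨ s = r := by decide

lemma isPGroup_zpowers_of_pow {g : G} {k : ℕ} (hg : g ^ (2 ^ k) = 1) :
    IsPGroup 2 (Subgroup.zpowers g) := by
  rintro ⟨y, hy⟩
  obtain ⟨j, rfl⟩ := Subgroup.mem_zpowers_iff.mp hy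
  refine ⟨k, Subtype.ext ?_⟩
  simp only [Subgroup.coe_pow, Subgroup.coe_one]
  rw [← zpow_natCast, ← zpow_mul, mul_comm, zpow_mul, zpow_natCast, hg, one_zpow]

/-- every involution is conjugate into a given Sylow 2-subgroup -/
lemma exists_conj_mem_sylow [Finite G] (S : Sylow 2 G) (u : G) (hu : orderOf u = 2) :
    ∃ c : G, c * u * c⁻¹ ∈ (S : Subgroup G) := by
  have hu2 : u ^ (2 ^ 1) = 1 := by
    rw [pow_one, ← hu]; exact pow_orderOf_eq_one u
  obtain ⟨Q, hQ⟩ := (isPGroup_zpowers_of_pow hu2).exists_le_sylow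
  obtain ⟨c, hc⟩ := MulAction.exists_smul_eq G Q S
  refine ⟨c, ?_⟩
  have hmem : c * u * c⁻¹ ∈ ((c • Q : Sylow 2 G) : Subgroup G) := by
    rw [Sylow.smul_def, Sylow.pointwise_smul_def]
    have := Subgroup.smul_mem_pointwise_smul u (MulAut.conj c) (Q : Subgroup G)
      (hQ (Subgroup.mem_zpowers u))
    simpa [MulAut.smul_def] using this
  rw [hc] at hmem
  exact hmem

/-- a `2`-element normalizing a Sylow `2`-subgroup lies in it -/
lemma mem_sylow_of_mem_normalizer (S : Sylow 2 G) {g : G} {k : ℕ} (hg : g ^ (2 ^ k) = 1)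
    (hgN : g ∈ Subgroup.normalizer ((S : Subgroup G) : Set G)) : g ∈ (S : Subgroup G) := by
  have h1 : Subgroup.zpowers g ≤ Subgroup.normalizer ((S : Subgroup G) : Set G) :=
    (Subgroup.zpowers_le).mpr hgN
  have h2 : S ∈ MulAction.fixedPoints (Subgroup.zpowers g) (Sylow 2 G) :=
    (Subgroup.sylow_mem_fixedPoints_iff (Subgroup.zpowers g)).mpr h1
  have h3 := ((isPGroup_zpowers_of_pow hg).sylow_mem_fixedPoints_iff).mp h2
  exact h3 (Subgroup.mem_zpowers g)

end Cfsg.Agent.Lib.Helper62.BSWDI

namespace Cfsg.Agent.Lib.Helper46.BSW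

open Cfsg Cfsg.Agent.Lib.Helper62.BSWDI

universe u

variable {G : Type u} [Group G]

/-! ### Piece DI : a simple group with dihedral Sylow 2-subgroups has one class of involutions -/
theorem dih_invol_conj [Finite G] [IsSimpleGroup G] (S : Sylow 2 G) (n : ℕ) (hn : 2 ≤ n)
    (hS : Nonempty ((S : Subgroup G) ≃* DihedralGroup n)) :
    ∀ x y : G, orderOf x = 2 → orderOf y = 2 → IsConj x y := by
  obtain ⟨φ⟩ := hS
  have hcardS : Nat.card (S : Subgroup G) = 2 * n := by
    rw [Nat.card_congr φ.toEquiv, DihedralGroup.nat_card]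
  have hSG : 2 * n ∣ Nat.card G := hcardS ▸ Subgroup.card_subgroup_dvd_card _
  have hG4 : 4 ≤ Nat.card G := by
    have := Nat.le_of_dvd Nat.card_pos hSG
    omega
  -- (i) no normal subgroup of index 2
  have h_i : ∀ N : Subgroup G, N.Normal → N.index ≠ 2 := by
    intro N hN hidx
    rcases hN.eq_bot_or_eq_top with h | h
    · subst h
      rw [Subgroup.index_bot] at hidx
      omega
    · subst h
      rw [Subgroup.index_top] at hidx
      omega
  -- (ii) no normal 2-complement
  have h_ii : ¬ Cfsg.HasNormalPComplement 2 G := by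
    rintro ⟨P, N, hN, hc⟩
    have hPcard : Nat.card (P : Subgroup G) = 2 * n := by
      rw [← hcardS, Sylow.card_eq_multiplicity P, Sylow.card_eq_multiplicity S]
    have hmul : Nat.card N * Nat.card (P : Subgroup G) = Nat.card G := hc.card_mul_card
    rcases hN.eq_bot_or_eq_top with h | h
    · subst h
      rw [Subgroup.card_bot, one_mul] at hmul
      -- `G` is a 2-group
      have hGp : IsPGroup 2 G := by
        apply IsPGroup.of_card (n := (Nat.card G).factorization 2)
        have h1 := Sylow.card_eq_multiplicity P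
        rw [hmul] at h1
        exact h1
      have hcn : Nontrivial (Subgroup.center G) := hGp.center_nontrivial
      have hctop : Subgroup.center G = ⊤ := by
        rcases (inferInstance : (Subgroup.center G).Normal).eq_bot_or_eq_top with h | h
        · exfalso
          obtain ⟨⟨a, ha⟩, ⟨b, hb⟩, hab⟩ := hcn
          rw [h, Subgroup.mem_bot] at ha hb
          exact hab (Subtype.ext (ha.trans hb.symm))
        · exact h
      have hcomm : ∀ a b : G, a * b = b * a := by
        intro a b
        have hb : b ∈ Subgroup.center G := by rw [hctop]; exact Subgroup.mem_top b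
        exact Subgroup.mem_center_iff.mp hb a
      have h2G : 2 ∣ Nat.card G := Dvd.dvd.trans (Dvd.intro n rfl) hSG
      obtain ⟨x, hx⟩ := exists_prime_orderOf_dvd_card' 2 h2G
      have hZn : (Subgroup.zpowers x).Normal := by
        refine ⟨fun a ha g => ?_⟩
        rw [hcomm g a, mul_inv_cancel_right]
        exact ha
      rcases hZn.eq_bot_or_eq_top with h | h
      · have : x ∈ (⊥ : Subgroup G) := h ▸ Subgroup.mem_zpowers x
        rw [Subgroup.mem_bot] at this
        rw [this, orderOf_one] at hx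
        omega
      · have h1 : Nat.card (Subgroup.zpowers x) = 2 := by rw [Nat.card_zpowers, hx]
        rw [h, Subgroup.card_top] at h1
        omega
    · subst h
      rw [Subgroup.card_top] at hmul
      have : Nat.card (P : Subgroup G) = 1 := by
        have hpos : 0 < Nat.card G := Nat.card_pos
        exact Nat.eq_of_mul_eq_mul_left hpos (by rw [hmul, mul_one])
      omega
  -- the order of `S` is a power of 2
  obtain ⟨a, ha⟩ := (IsPGroup.iff_card (p := 2)).mp S.isPGroup'
  rw [hcardS] at ha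
  have ha2 : 2 ≤ a := by
    by_contra hlt
    have : a = 0 ∨ a = 1 := by omega
    rcases this with rfl | rfl <;> omega
  have hn2 : n = 2 ^ (a - 1) := by
    obtain ⟨b, rfl⟩ : ∃ b, a = b + 1 := ⟨a - 1, by omega⟩
    have h1 : 2 * n = 2 * 2 ^ b := by rw [ha, pow_succ, mul_comm]
    have h2 := Nat.eq_of_mul_eq_mul_left (by norm_num : 0 < 2) h1
    simpa using h2
  intro x y hx hy
  rcases Nat.lt_or_ge a 3 with ha3 | ha3
  · -- Klein four case
    have ha' : a = 2 := by omega
    subst ha'
    have hn' : n = 2 := by rw [hn2]; norm_num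
    subst hn'
    -- `S` is abelian
    have hSab : ∀ s ∈ (S : Subgroup G), ∀ t ∈ (S : Subgroup G), s * t = t * s := by
      intro s hs t ht
      have h1 := dih2_comm (φ ⟨s, hs⟩) (φ ⟨t, ht⟩)
      rw [← map_mul, ← map_mul] at h1
      have h2 := φ.injective h1
      exact congrArg Subtype.val h2
    have hSC : (S : Subgroup G) ≤ Subgroup.centralizer ((S : Subgroup G) : Set G) := by
      intro s hs
      rw [Subgroup.mem_centralizer_iff]
      intro t ht
      exact hSab t ht s hs
    -- Burnside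
    have hNC : ¬ Subgroup.normalizer ((S : Subgroup G) : Set G) ≤
        Subgroup.centralizer ((S : Subgroup G) : Set G) := by
      intro hP
      exact h_ii ⟨S, (MonoidHom.transferSylow S hP).ker, inferInstance,
        MonoidHom.ker_transferSylow_isComplement' S hP⟩
    obtain ⟨g, hgN, hgC⟩ := Set.not_subset.mp hNC
    -- odd part of g
    obtain ⟨k, m, hm, hkm⟩ := Nat.exists_eq_two_pow_mul_odd (orderOf_pos g).ne'
    have hg2 : (g ^ m) ^ (2 ^ k) = 1 := by
      rw [← pow_mul, mul_comm, ← hkm, pow_orderOf_eq_one]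
    have hg2S : g ^ m ∈ (S : Subgroup G) :=
      mem_sylow_of_mem_normalizer S hg2 (Subgroup.pow_mem _ hgN m)
    obtain ⟨h, hh⟩ : ∃ h : G, h = g ^ (2 ^ k) := ⟨_, rfl⟩
    have hhN : h ∈ Subgroup.normalizer ((S : Subgroup G) : Set G) := by
      rw [hh]; exact Subgroup.pow_mem _ hgN _
    have hhm : h ^ m = 1 := by
      rw [hh, ← pow_mul, ← hkm, pow_orderOf_eq_one]
    have hhodd : Odd (orderOf h) := Odd.of_dvd_nat hm (orderOf_dvd_of_pow_eq_one hhm)
    have hhC : h ∉ Subgroup.centralizer ((S : Subgroup G) : Set G) := by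
      intro hhC
      apply hgC
      have hcop : Nat.Coprime (2 ^ k) m := Nat.Coprime.pow_left k (Nat.coprime_two_left.mpr hm)
      have hbez := Nat.gcd_eq_gcd_ab (2 ^ k) m
      rw [hcop.gcd_eq_one] at hbez
      have hg : g = h ^ (Nat.gcdA (2 ^ k) m) * (g ^ m) ^ (Nat.gcdB (2 ^ k) m) := by
        rw [hh, ← zpow_natCast g (2 ^ k), ← zpow_natCast g m, ← zpow_mul, ← zpow_mul, ← zpow_add,
          ← hbez]
        simp
      rw [hg]
      exact Subgroup.mul_mem _ (Subgroup.zpow_mem _ hhC _) (Subgroup.zpow_mem _ (hSC hg2S) _)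
    -- an element of S moved by h
    have hex : ∃ s ∈ (S : Subgroup G), s * h ≠ h * s := by
      by_contra hcon
      apply hhC
      rw [Subgroup.mem_centralizer_iff]
      intro t ht
      by_contra h1
      exact hcon ⟨t, ht, h1⟩
    obtain ⟨s, hs, hsh⟩ := hex
    have hconjS : ∀ t ∈ (S : Subgroup G), h * t * h⁻¹ ∈ (S : Subgroup G) := fun t ht =>
      (Subgroup.mem_normalizer_iff.mp hhN t).mp ht
    obtain ⟨s1, hs1⟩ : ∃ s1 : G, s1 = h * s * h⁻¹ := ⟨_, rfl⟩
    obtain ⟨s2, hs2⟩ : ∃ s2 : G, s2 = h * s1 * h⁻¹ := ⟨_, rfl⟩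
    have hs1S : s1 ∈ (S : Subgroup G) := by rw [hs1]; exact hconjS s hs
    have hs2S : s2 ∈ (S : Subgroup G) := by rw [hs2]; exact hconjS s1 hs1S
    have hs_ne : s ≠ 1 := by
      rintro rfl
      exact hsh (by rw [one_mul, mul_one])
    have hs1_ne : s1 ≠ 1 := by
      intro h1
      apply hs_ne
      have : h⁻¹ * s1 * h = s := by rw [hs1]; group
      rw [← this, h1]; group
    have hs2_ne : s2 ≠ 1 := by
      intro h1
      apply hs1_ne
      have : h⁻¹ * s2 * h = s1 := by rw [hs2]; group
      rw [← this, h1]; group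
    have hs_s1 : s ≠ s1 := by
      intro h1
      apply hsh
      have : s1 * h = h * s := by rw [hs1]; group
      rw [← this, ← h1]
    have hs1_s2 : s1 ≠ s2 := by
      intro h1
      apply hs_s1
      have e1 : h⁻¹ * s1 * h = s := by rw [hs1]; group
      have e2 : h⁻¹ * s2 * h = s1 := by rw [hs2]; group
      calc s = h⁻¹ * s1 * h := e1.symm
        _ = h⁻¹ * s2 * h := by rw [← h1]
        _ = s1 := e2
    have hs_s2 : s ≠ s2 := by
      intro h1
      apply hsh
      have hc : Commute (h ^ 2) s := by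
        have : h ^ 2 * s * (h ^ 2)⁻¹ = s2 := by
          rw [hs2, hs1, pow_two, mul_inv_rev]
          simp only [mul_assoc]
        have h3 : h ^ 2 * s = s * h ^ 2 := by
          rw [← h1] at this
          calc h ^ 2 * s = h ^ 2 * s * (h ^ 2)⁻¹ * h ^ 2 := by group
            _ = s * h ^ 2 := by rw [this]
        exact h3
      exact (commute_of_sq_of_odd hhodd hc).eq.symm
    -- the nonidentity elements of S
    have hall : ∀ t ∈ (S : Subgroup G), t ≠ 1 → t = s ∨ t = s1 ∨ t = s2 := by
      intro t ht ht1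
      have hne : ∀ {v w : G} (hv : v ∈ (S : Subgroup G)) (hw : w ∈ (S : Subgroup G)), v ≠ w →
          φ ⟨v, hv⟩ ≠ φ ⟨w, hw⟩ := by
        intro v w hv hw hvw h1
        exact hvw (congrArg Subtype.val (φ.injective h1))
      have hne1 : ∀ {v : G} (hv : v ∈ (S : Subgroup G)), v ≠ 1 → φ ⟨v, hv⟩ ≠ 1 := by
        intro v hv hv1 h1
        rw [← map_one φ] at h1
        exact hv1 (congrArg Subtype.val (φ.injective h1))
      have key := dih2_three (φ ⟨s, hs⟩) (φ ⟨s1, hs1S⟩) (φ ⟨s2, hs2S⟩) (φ ⟨t, ht⟩)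
        (hne1 hs hs_ne) (hne1 hs1S hs1_ne) (hne1 hs2S hs2_ne) (hne hs hs1S hs_s1)
        (hne hs1S hs2S hs1_s2) (hne hs hs2S hs_s2) (hne1 ht ht1)
      rcases key with h1 | h1 | h1
      · exact Or.inl (congrArg Subtype.val (φ.injective h1))
      · exact Or.inr (Or.inl (congrArg Subtype.val (φ.injective h1)))
      · exact Or.inr (Or.inr (congrArg Subtype.val (φ.injective h1)))
    have hc1 : IsConj s s1 := isConj_iff.mpr ⟨h, hs1.symm⟩
    have hc2 : IsConj s1 s2 := isConj_iff.mpr ⟨h, hs2.symm⟩
    -- every involution is conjugate to s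
    have hinv : ∀ u : G, orderOf u = 2 → IsConj u s := by
      intro u hu
      obtain ⟨c, hc⟩ := exists_conj_mem_sylow S u hu
      have hcu : IsConj u (c * u * c⁻¹) := isConj_iff.mpr ⟨c, rfl⟩
      have hne : c * u * c⁻¹ ≠ 1 := by
        intro h1
        have : u = 1 := by
          have : u = c⁻¹ * (c * u * c⁻¹) * c := by group
          rw [this, h1]; group
        rw [this, orderOf_one] at hu
        omega
      rcases hall _ hc hne with h1 | h1 | h1
      · rw [h1] at hcu; exact hcu
      · rw [h1] at hcu; exact hcu.trans hc1.symm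
      · rw [h1] at hcu; exact hcu.trans (hc1.trans hc2).symm
    exact (hinv x hx).trans (hinv y hy).symm
  · -- dihedral of order ≥ 8: landed S3864
    subst hn2
    rcases Cfsg.Agent.S3864.result S a ha3 ⟨φ⟩ with h1 | h1 | h1
    · have hsub : Subsingleton {C : ConjClasses G // ∃ g : G, ConjClasses.mk g = C ∧
          orderOf g = 2} := (Nat.card_eq_one_iff_unique.mp h1.1).1
      have := Subsingleton.elim
        (⟨ConjClasses.mk x, x, rfl, hx⟩ : {C : ConjClasses G // ∃ g : G, ConjClasses.mk g = C ∧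
          orderOf g = 2}) ⟨ConjClasses.mk y, y, rfl, hy⟩
      exact ConjClasses.mk_eq_mk_iff_isConj.mp (congrArg Subtype.val this)
    · obtain ⟨N, hN, hidx⟩ := h1.2.1
      exact absurd hidx (h_i N hN)
    · exact absurd h1.2 h_ii

end Cfsg.Agent.Lib.Helper46.BSW
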