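import Mathlib
import Cfsg.Agent.Lib.Helper10.BT0
import Cfsg.Prelude.Def_CaseTheorems

set_option autoImplicit false

namespace Cfsg.Agent.Lib.Helper10.BT

open Cfsg

/-- centralizer of the image of a subgroup under conjugation. -/
theorem BTL1_centralizer_map {G : Type*} [Group G] (H : Subgroup G) (φ : G ≃* G) :
    Subgroup.centralizer ((H.map φ.toMonoidHom : Subgroup G) : Set G) =
      (Subgroup.centralizer (H : Set G)).map φ.toMonoidHom := by
  ext x
  constructor
  · intro hx
    rw [Subgroup.mem_centralizer_iff] at hx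
    refine ⟨φ.symm x, ?_, by simp⟩
    rw [SetLike.mem_coe, Subgroup.mem_centralizer_iff]
    intro h hh
    have h1 := hx (φ h) ⟨h, hh, rfl⟩
    apply φ.injective
    simpa using h1
  · rintro ⟨c, hc, rfl⟩
    rw [SetLike.mem_coe, Subgroup.mem_centralizer_iff] at hc
    rw [Subgroup.mem_centralizer_iff]
    rintro _ ⟨h, hh, rfl⟩
    have h1 := hc h hh
    have h2 := congrArg φ h1
    simpa using h2

/-- BT-L1 -/
theorem conj_all {G : Type*} [Group G] [Finite G] (p : ℕ) [Fact p.Prime] (P : Sylow p G)
    (e : ℕ) (hC : Subgroup.centralizer ((P : Subgroup G) : Set G) = (P : Subgroup G))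
    (hN : Nat.card (Subgroup.normalizer ((P : Subgroup G) : Set G)) = e * p)
    (P₁ : Sylow p G) :
    Subgroup.centralizer ((P₁ : Subgroup G) : Set G) = (P₁ : Subgroup G) ∧
      Nat.card (Subgroup.normalizer ((P₁ : Subgroup G) : Set G)) = e * p := by
  obtain ⟨g, hg⟩ := MulAction.exists_smul_eq G P P₁
  have hmap : (P : Subgroup G).map (MulAut.conj g).toMonoidHom = (P₁ : Subgroup G) := by
    rw [← hg, Sylow.smul_def, Sylow.pointwise_smul_def, Subgroup.pointwise_smul_def]; rfl
  constructor
  · rw [← hmap, BTL1_centralizer_map, hC]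
  · rw [← hmap, ← Subgroup.map_equiv_normalizer_eq,
      Subgroup.card_map_of_injective (MulAut.conj g).injective, hN]

end Cfsg.Agent.Lib.Helper10.BT
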