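import Mathlib
import Cfsg.Agent.Lib.Helper10.BT0
import Cfsg.Prelude.Def_CaseTheorems

set_option autoImplicit false

namespace Cfsg.Agent.Lib.Helper10.BT

open Cfsg

/-- BT-L2 -/
theorem fix_le_one {G : Type*} [Group G] [Finite G] (p : ℕ) [Fact p.Prime] (e : ℕ)
    (he : e ∣ p - 1)
    (hP : ∀ P₁ : Sylow p G, Nat.card P₁ = p)
    (hC : ∀ P₁ : Sylow p G,
      Subgroup.centralizer ((P₁ : Subgroup G) : Set G) = (P₁ : Subgroup G))
    (hT : ∀ P₁ P₂ : Sylow p G, P₁ ≠ P₂ →
      Nat.card ↥(Subgroup.normalizer ((P₁ : Subgroup G) : Set G) ⊓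
        Subgroup.normalizer ((P₂ : Subgroup G) : Set G)) = e)
    (P₁ P' : Sylow p G) (hne : P' ≠ P₁) (y u : G)
    (hy : y ∈ Subgroup.normalizer ((P₁ : Subgroup G) : Set G)) (hyP : y ∉ (P₁ : Subgroup G))
    (hu : u ∈ (P₁ : Subgroup G))
    (h1 : y ∈ Subgroup.normalizer ((P' : Subgroup G) : Set G))
    (h2 : y ∈ Subgroup.normalizer (((u • P' : Sylow p G) : Subgroup G) : Set G)) :
    u = 1 := by
  have hp : p.Prime := Fact.out
  by_contra hu1
  -- coprimality
  have hcop : Nat.Coprime e p := by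
    rw [Nat.coprime_comm, Nat.Prime.coprime_iff_not_dvd hp]
    intro hd
    have h3 : p ∣ p - 1 := hd.trans he
    have h4 : p ≤ p - 1 := Nat.le_of_dvd (by have := hp.two_le; omega) h3
    have := hp.two_le
    omega
  -- the conjugate
  have hmap : ((u • P' : Sylow p G) : Subgroup G) =
      (P' : Subgroup G).map (MulAut.conj u).toMonoidHom := by
    rw [Sylow.smul_def, Sylow.pointwise_smul_def, Subgroup.pointwise_smul_def]; rfl
  rw [hmap, ← Subgroup.map_equiv_normalizer_eq] at h2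
  obtain ⟨z, hz, hzy⟩ := h2
  have hzy' : u * z * u⁻¹ = y := hzy
  have hzeq : z = u⁻¹ * y * u := by rw [← hzy']; group
  have huN : u ∈ Subgroup.normalizer ((P₁ : Subgroup G) : Set G) := Subgroup.le_normalizer hu
  have hzN : z ∈ Subgroup.normalizer ((P₁ : Subgroup G) : Set G) := by
    rw [hzeq]
    exact Subgroup.mul_mem _ (Subgroup.mul_mem _ (Subgroup.inv_mem _ huN) hy) huN
  -- c = z * y⁻¹
  have hcT : z * y⁻¹ ∈ Subgroup.normalizer ((P₁ : Subgroup G) : Set G) ⊓
      Subgroup.normalizer ((P' : Subgroup G) : Set G) :=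
    ⟨Subgroup.mul_mem _ hzN (Subgroup.inv_mem _ hy),
      Subgroup.mul_mem _ hz (Subgroup.inv_mem _ h1)⟩
  have hcP : z * y⁻¹ ∈ (P₁ : Subgroup G) := by
    have h5 : y * u * y⁻¹ ∈ (P₁ : Subgroup G) := (Subgroup.mem_normalizer_iff.mp hy u).mp hu
    have h6 : z * y⁻¹ = u⁻¹ * (y * u * y⁻¹) := by rw [hzeq]; group
    rw [h6]
    exact Subgroup.mul_mem _ (Subgroup.inv_mem _ hu) h5
  have ho1 : orderOf (z * y⁻¹) ∣ e := by
    have := Subgroup.orderOf_dvd_natCard _ hcT
    rwa [hT P₁ P' (Ne.symm hne)] at this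
  have ho2 : orderOf (z * y⁻¹) ∣ p := by
    have := Subgroup.orderOf_dvd_natCard _ hcP
    rwa [hP P₁] at this
  have ho3 : orderOf (z * y⁻¹) = 1 := Nat.eq_one_of_dvd_coprimes hcop ho1 ho2
  have hc1 : z * y⁻¹ = 1 := orderOf_eq_one_iff.mp ho3
  have hzy2 : z = y := by
    have := mul_inv_eq_one.mp hc1
    exact this
  have hcomm : u * y = y * u := by
    have h7 : u * z * u⁻¹ = y := hzy'
    rw [hzy2] at h7
    calc u * y = u * y * u⁻¹ * u := by group
      _ = y * u := by rw [h7]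
  -- y centralizes P₁
  have hyC : y ∈ Subgroup.centralizer ((P₁ : Subgroup G) : Set G) := by
    rw [Subgroup.mem_centralizer_iff]
    intro h hh
    have hmem : (⟨h, hh⟩ : (P₁ : Subgroup G)) ∈ Subgroup.zpowers (⟨u, hu⟩ : (P₁ : Subgroup G)) :=
      mem_zpowers_of_prime_card (hP P₁) (fun h0 => hu1 (congrArg Subtype.val h0))
    obtain ⟨k, hk⟩ := Subgroup.mem_zpowers_iff.mp hmem
    have hk' : u ^ k = h := by
      have := congrArg Subtype.val hk
      simpa using this
    rw [← hk']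
    have hc : Commute u y := hcomm
    exact (hc.zpow_left k).eq
  rw [hC P₁] at hyC
  exact hyP hyC

end Cfsg.Agent.Lib.Helper10.BT
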