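import Mathlib
import Cfsg.Agent.Lib.Helper10.BT0
import Cfsg.Prelude.Def_CaseTheorems
import Cfsg.Agent.Lib.Helper83.BRPerf

set_option autoImplicit false

namespace Cfsg.Agent.Lib.Helper10.BT

open Cfsg

/-- BT-P1 -/
theorem perf_basic {G : Type*} [Group G] [Finite G] (hperf : commutator G = ⊤) (p : ℕ)
    [Fact p.Prime] (P : Sylow p G) (hP : Nat.card P = p) :
    (Subgroup.centralizer ((P : Subgroup G) : Set G)).relIndex
      (Subgroup.normalizer ((P : Subgroup G) : Set G)) ≠ 1 ∧ Nat.card (Sylow p G) ≠ 1 := by
  have hp : p.Prime := Fact.out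
  constructor
  · intro h1
    rw [Subgroup.relIndex_eq_one] at h1
    have hcomp := MonoidHom.ker_transferSylow_isComplement' P h1
    have hker : (MonoidHom.transferSylow P h1).ker = ⊤ := by
      rw [eq_top_iff, ← hperf, commutator_def, Subgroup.commutator_le]
      intro g₁ _ g₂ _
      rw [MonoidHom.mem_ker, map_commutatorElement, commutatorElement_eq_one_iff_mul_comm]
      have key : ∀ a b : (P : Subgroup G), a * b = b * a := fun a b =>
        Subtype.ext (h1 (Subgroup.le_normalizer b.2) a a.2)
      exact key _ _
    have hidx := hcomp.symm.index_eq_card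
    rw [hker, Subgroup.index_top] at hidx
    have : Nat.card (P : Subgroup G) = 1 := hidx.symm
    rw [hP] at this
    exact hp.one_lt.ne' this
  · intro h1
    haveI : Subsingleton (Sylow p G) := (Nat.card_eq_one_iff_unique.mp h1).1
    haveI hn : (P : Subgroup G).Normal := Sylow.normal_of_subsingleton P
    have hfP : (Nat.card G).factorization p = 1 := by
      have h1 := Sylow.card_eq_multiplicity P
      rw [hP] at h1
      have h2 : p ^ 1 = p ^ (Nat.card G).factorization p := by rw [pow_one]; exact h1
      exact (Nat.pow_right_injective hp.two_le h2).symm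
    have hp2 : ¬ p ^ 2 ∣ Nat.card G := by
      intro hd
      have := (hp.pow_dvd_iff_le_factorization Nat.card_pos.ne').mp hd
      omega
    exact Cfsg.Agent.Lib.Helper83.BRPerf.false_of_normal_prime hperf (P : Subgroup G) hP hp2

end Cfsg.Agent.Lib.Helper10.BT
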