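import Mathlib
import Cfsg.Agent.Lib.Helper10.BT0
import Cfsg.Prelude.Def_CaseTheorems
import Cfsg.Agent.Lib.Helper31.PComp

set_option autoImplicit false

namespace Cfsg.Agent.Lib.Helper10.BT

open Cfsg

/-- BT-R1 -/
theorem core_quot_trivial {G : Type*} [Group G] [Finite G] (p : ℕ) [Fact p.Prime]
    (M : Subgroup (G ⧸ pPrimeCore p G)) (hM : M.Normal) (hc : (Nat.card M).Coprime p) :
    M = ⊥ := by
  have h1 : M ≤ pPrimeCore p (G ⧸ pPrimeCore p G) := Cfsg.Agent.Lib.Helper31.le_pPrimeCore hM hc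
  rw [Cfsg.Agent.Lib.Helper31.pPrimeCore_quotient_eq_bot] at h1
  exact le_bot_iff.mp h1

end Cfsg.Agent.Lib.Helper10.BT
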