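import Mathlib
import Cfsg.Agent.Lib.Helper10.BT0
import Cfsg.Prelude.Def_CaseTheorems
import Cfsg.Agent.Lib.Helper31.PComp

set_option autoImplicit false

namespace Cfsg.Agent.Lib.Helper10.BT

open Cfsg

/-- BT-R2 -/
theorem sylow_quot_card {G : Type*} [Group G] [Finite G] (p : ℕ) [Fact p.Prime] (P : Sylow p G)
    (hP : Nat.card P = p) (Q : Sylow p (G ⧸ pPrimeCore p G)) : Nat.card Q = p := by
  have hp : p.Prime := Fact.out
  have hcop : (Nat.card ↥(pPrimeCore p G)).Coprime p :=
    Cfsg.Agent.Lib.Helper31.pPrimeCore_coprime p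
  have hfP : (Nat.card G).factorization p = 1 := by
    have h1 := Sylow.card_eq_multiplicity P
    rw [hP] at h1
    have h2 : p ^ 1 = p ^ (Nat.card G).factorization p := by rw [pow_one]; exact h1
    exact (Nat.pow_right_injective hp.two_le h2).symm
  have hcard : Nat.card G = Nat.card (G ⧸ pPrimeCore p G) * Nat.card ↥(pPrimeCore p G) :=
    Subgroup.card_eq_card_quotient_mul_card_subgroup (pPrimeCore p G)
  have hfH : (Nat.card ↥(pPrimeCore p G)).factorization p = 0 := by
    apply Nat.factorization_eq_zero_of_not_dvd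
    intro hd
    have := Nat.Coprime.eq_one_of_dvd hcop.symm hd
    exact hp.one_lt.ne' this
  have hfQ : (Nat.card (G ⧸ pPrimeCore p G)).factorization p = 1 := by
    rw [hcard, Nat.factorization_mul Nat.card_pos.ne' Nat.card_pos.ne', Finsupp.add_apply, hfH,
      add_zero] at hfP
    exact hfP
  rw [Sylow.card_eq_multiplicity, hfQ, pow_one]

end Cfsg.Agent.Lib.Helper10.BT
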