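import Mathlib
import Cfsg.Agent.Lib.Helper10.BT0
import Cfsg.Prelude.Def_CaseTheorems
import Cfsg.Agent.Lib.Helper83.BRPerf

set_option autoImplicit false

namespace Cfsg.Agent.Lib.Helper10.BT

open Cfsg
open scoped commutatorElement

/-- commutators of elements of the normalizer of a cyclic subgroup centralize it. -/
theorem BTV3_comm_mem_centralizer {G : Type*} [Group G] (P : Subgroup G) [IsCyclic P]
    (a b : G) (ha : a ∈ Subgroup.normalizer (P : Set G))
    (hb : b ∈ Subgroup.normalizer (P : Set G)) :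
    ⁅a, b⁆ ∈ Subgroup.centralizer (P : Set G) := by
  let φ := Subgroup.normalizerMonoidHom P
  let e := IsCyclic.mulAutMulEquiv P
  have hker : ⁅(⟨a, ha⟩ : Subgroup.normalizer (P : Set G)), ⟨b, hb⟩⁆ ∈ φ.ker := by
    rw [MonoidHom.mem_ker, map_commutatorElement]
    apply e.injective
    rw [map_commutatorElement, map_one, commutatorElement_eq_one_iff_mul_comm]
    exact mul_comm _ _
  rw [Subgroup.normalizerMonoidHom_ker, Subgroup.mem_subgroupOf] at hker
  exact hker

/-- BT-V3 -/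
theorem simple_of {G : Type*} [Group G] [Finite G] (hperf : commutator G = ⊤) (p : ℕ)
    [Fact p.Prime] (hcore : ∀ M : Subgroup G, M.Normal → (Nat.card M).Coprime p → M = ⊥)
    (P : Sylow p G) (hP : Nat.card P = p)
    (hC : Subgroup.centralizer ((P : Subgroup G) : Set G) = (P : Subgroup G)) :
    IsSimpleGroup G ∧ ¬ IsCyclic G := by
  have hp : p.Prime := Fact.out
  haveI hcycP : IsCyclic (P : Subgroup G) := isCyclic_of_prime_card hP
  haveI hnt : Nontrivial G := by
    have h1 : 1 < Nat.card G := by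
      have h2 : Nat.card (P : Subgroup G) ≤ Nat.card G := Subgroup.card_le_card_group _
      have h3 : Nat.card (P : Subgroup G) = p := hP
      have := hp.one_lt
      omega
    exact Finite.one_lt_card_iff_nontrivial.mp h1
  refine ⟨?_, Cfsg.Agent.Lib.Helper83.BRPerf.not_cyclic_of_perfect hperf⟩
  refine ⟨fun K hK => ?_⟩
  by_cases hK0 : K = ⊥
  · exact Or.inl hK0
  right
  haveI := hK
  -- p divides |K|
  have hpK : p ∣ Nat.card K := by
    by_contra hnd
    apply hK0
    apply hcore K hK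
    rw [Nat.coprime_comm, Nat.Prime.coprime_iff_not_dvd hp]
    exact hnd
  -- an element of order p in K
  obtain ⟨x, hx⟩ := exists_prime_orderOf_dvd_card' p hpK
  have hxG : orderOf (x : G) = p := by rw [Subgroup.orderOf_coe]; exact hx
  have hpg : IsPGroup p (Subgroup.zpowers (x : G)) := by
    apply IsPGroup.of_card (n := 1)
    rw [Nat.card_zpowers, hxG, pow_one]
  obtain ⟨Q, hQ⟩ := hpg.exists_le_sylow
  obtain ⟨g, hg⟩ := MulAction.exists_smul_eq G Q P
  have hmap : (Q : Subgroup G).map (MulAut.conj g).toMonoidHom = (P : Subgroup G) := by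
    rw [← hg, Sylow.smul_def, Sylow.pointwise_smul_def, Subgroup.pointwise_smul_def]; rfl
  -- x' = g x g⁻¹ ∈ P ⊓ K, nontrivial
  have hx'P : g * (x : G) * g⁻¹ ∈ (P : Subgroup G) := by
    rw [← hmap]
    exact ⟨(x : G), hQ (Subgroup.mem_zpowers _), rfl⟩
  have hx'K : g * (x : G) * g⁻¹ ∈ K := hK.conj_mem _ x.2 g
  have hx'1 : g * (x : G) * g⁻¹ ≠ 1 := by
    intro h0
    have h1 : (x : G) = 1 := by
      have : (x : G) = g⁻¹ * (g * (x : G) * g⁻¹) * g := by group
      rw [this, h0]; group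
    rw [h1, orderOf_one] at hxG
    exact hp.one_lt.ne hxG
  -- P ≤ K
  have hPK : (P : Subgroup G) ≤ K := by
    intro h hh
    have hmem : (⟨h, hh⟩ : (P : Subgroup G)) ∈
        Subgroup.zpowers (⟨g * (x : G) * g⁻¹, hx'P⟩ : (P : Subgroup G)) :=
      mem_zpowers_of_prime_card hP (fun h0 => hx'1 (congrArg Subtype.val h0))
    obtain ⟨k, hk⟩ := Subgroup.mem_zpowers_iff.mp hmem
    have hk' : (g * (x : G) * g⁻¹) ^ k = h := by
      have := congrArg Subtype.val hk
      simpa using this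
    rw [← hk']
    exact Subgroup.zpow_mem _ hx'K k
  -- Frattini
  have hfr : Subgroup.normalizer ((P : Subgroup G) : Set G) ⊔ K = ⊤ :=
    Sylow.normalizer_sup_eq_top' P hPK
  have hdec : ∀ a : G, ∃ n ∈ Subgroup.normalizer ((P : Subgroup G) : Set G),
      (QuotientGroup.mk a : G ⧸ K) = QuotientGroup.mk n := by
    intro a
    have ha : a ∈ Subgroup.normalizer ((P : Subgroup G) : Set G) ⊔ K := by rw [hfr]; trivial
    obtain ⟨n, hn, k, hk, hnk⟩ := Subgroup.mem_sup_of_normal_right.mp ha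
    refine ⟨n, hn, ?_⟩
    rw [← hnk, QuotientGroup.mk_mul, (QuotientGroup.eq_one_iff k).mpr hk, mul_one]
  -- commutator G ≤ K
  have hcomm : commutator G ≤ K := by
    rw [commutator_eq_closure, Subgroup.closure_le]
    rintro _ ⟨a, b, rfl⟩
    rw [SetLike.mem_coe, ← QuotientGroup.eq_one_iff (N := K)]
    obtain ⟨n₁, hn₁, h₁⟩ := hdec a
    obtain ⟨n₂, hn₂, h₂⟩ := hdec b
    have h3 : (QuotientGroup.mk ⁅a, b⁆ : G ⧸ K) = QuotientGroup.mk ⁅n₁, n₂⁆ := by
      have e1 : (QuotientGroup.mk ⁅a, b⁆ : G ⧸ K) =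
          ⁅(QuotientGroup.mk a : G ⧸ K), (QuotientGroup.mk b : G ⧸ K)⁆ :=
        map_commutatorElement (QuotientGroup.mk' K) a b
      have e2 : (QuotientGroup.mk ⁅n₁, n₂⁆ : G ⧸ K) =
          ⁅(QuotientGroup.mk n₁ : G ⧸ K), (QuotientGroup.mk n₂ : G ⧸ K)⁆ :=
        map_commutatorElement (QuotientGroup.mk' K) n₁ n₂
      rw [e1, e2, h₁, h₂]
    rw [h3, QuotientGroup.eq_one_iff]
    apply hPK
    have := BTV3_comm_mem_centralizer (P : Subgroup G) n₁ n₂ hn₁ hn₂
    rw [hC] at this
    exact this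
  rw [hperf] at hcomm
  exact top_le_iff.mp hcomm

end Cfsg.Agent.Lib.Helper10.BT
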