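import Mathlib
import Cfsg.Agent.Lib.Helper80.CTDefs

/-!
# S5748, piece BURN (for helper80): in a non-abelian simple CT-group every involution commutes
with a second involution
-/

set_option autoImplicit false

namespace Cfsg.Agent.Lib.Helper62.CTBURN

open Cfsg.Agent.Lib.Helper80.CT

variable {G : Type*} [Group G] [Finite G]

/-- piece BURN -/
theorem exists_second_invol [IsSimpleGroup G] (hG : ¬ IsMulCommutative G) (hct : IsCT G) {t : G}
    (ht : orderOf t = 2) : ∃ s : G, Commute s t ∧ orderOf s = 2 ∧ s ≠ t := by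
  by_contra hcon
  push_neg at hcon
  haveI : Fact (Nat.Prime 2) := ⟨Nat.prime_two⟩
  have ht1 : t ≠ 1 := by rintro rfl; simp at ht
  -- elements commuting with `t` commute with each other
  have hAcomm : ∀ x y : G, Commute x t → Commute y t → Commute x y := by
    intro x y hx hy
    by_cases hx1 : x = 1
    · subst hx1; exact Commute.one_left y
    by_cases hy1 : y = 1
    · subst hy1; exact Commute.one_right x
    exact hct x t y hx1 ht1 hy1 hx hy.symm
  -- a Sylow 2-subgroup containing `t`
  have hzp : IsPGroup 2 (Subgroup.zpowers t) := by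
    apply IsPGroup.of_card (n := 1)
    rw [Nat.card_zpowers, ht, pow_one]
  obtain ⟨P, hP⟩ := hzp.exists_le_sylow
  have htP : t ∈ (P : Subgroup G) := hP (Subgroup.mem_zpowers t)
  -- an involution in the centre of `P`
  haveI : Nontrivial (P : Subgroup G) := ⟨⟨⟨t, htP⟩, 1, fun h => ht1 (congrArg Subtype.val h)⟩⟩
  haveI hcn : Nontrivial (Subgroup.center (P : Subgroup G)) := P.2.center_nontrivial
  have hcp : IsPGroup 2 (Subgroup.center (P : Subgroup G)) := P.2.to_subgroup _
  obtain ⟨k, hk⟩ := IsPGroup.iff_card.mp hcp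
  have hk0 : k ≠ 0 := by
    rintro rfl
    rw [pow_zero] at hk
    have := (Nat.card_eq_one_iff_unique.mp hk).1
    exact not_subsingleton _ this
  have h2dvd : 2 ∣ Nat.card (Subgroup.center (P : Subgroup G)) := by
    rw [hk]; exact dvd_pow_self 2 hk0
  obtain ⟨z, hz⟩ := exists_prime_orderOf_dvd_card' (G := Subgroup.center (P : Subgroup G)) 2 h2dvd
  have hz2 : orderOf (((z : (P : Subgroup G)) : G)) = 2 := by
    rw [Subgroup.orderOf_coe, Subgroup.orderOf_coe]; exact hz
  have hzcomm : ∀ x : G, x ∈ (P : Subgroup G) → Commute ((z : (P : Subgroup G)) : G) x := by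
    intro x hx
    have h1 := (Subgroup.mem_center_iff.mp z.2) ⟨x, hx⟩
    have h2 := congrArg Subtype.val h1
    simp only [Subgroup.coe_mul] at h2
    exact h2.symm
  have hzt : ((z : (P : Subgroup G)) : G) = t := hcon _ (hzcomm t htP) hz2
  -- `P` centralizes `t`
  have hPt : ∀ x : G, x ∈ (P : Subgroup G) → Commute x t := by
    intro x hx
    have := hzcomm x hx
    rw [hzt] at this
    exact this.symm
  -- normalizer ≤ centralizer
  have hNC : Subgroup.normalizer ((P : Subgroup G) : Set G) ≤
      Subgroup.centralizer ((P : Subgroup G) : Set G) := by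
    intro g hg
    have hgt : g * t * g⁻¹ ∈ (P : Subgroup G) := (Subgroup.mem_normalizer_iff.mp hg t).mp htP
    have hord : orderOf (g * t * g⁻¹) = 2 := by
      have := orderOf_injective (MulAut.conj g).toMonoidHom (MulAut.conj g).injective t
      simp only [MulEquiv.coe_toMonoidHom, MulAut.conj_apply] at this
      rw [this, ht]
    have heq : g * t * g⁻¹ = t := hcon _ (hPt _ hgt) hord
    have hgcomm : Commute g t := by
      show g * t = t * g
      have : g * t = (g * t * g⁻¹) * g := by group
      rw [this, heq]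
    rw [Subgroup.mem_centralizer_iff]
    intro x hx
    exact (hAcomm g x hgcomm (hPt x hx)).eq.symm
  have hcomp := MonoidHom.ker_transferSylow_isComplement' P hNC
  rcases Subgroup.Normal.eq_bot_or_eq_top
    (inferInstance : (MonoidHom.transferSylow P hNC).ker.Normal) with hK | hK
  · rw [hK] at hcomp
    have hPtop : (P : Subgroup G) = ⊤ := Subgroup.isComplement'_bot_left.mp hcomp
    apply hG
    refine ⟨⟨fun a b => ?_⟩⟩
    have ha : a ∈ (P : Subgroup G) := hPtop ▸ Subgroup.mem_top a
    have hb : b ∈ (P : Subgroup G) := hPtop ▸ Subgroup.mem_top b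
    exact (hAcomm a b (hPt a ha) (hPt b hb)).eq
  · rw [hK] at hcomp
    have hPbot : (P : Subgroup G) = ⊥ := Subgroup.isComplement'_top_left.mp hcomp
    rw [hPbot, Subgroup.mem_bot] at htP
    exact ht1 htP

end Cfsg.Agent.Lib.Helper62.CTBURN
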