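import Mathlib
import Cfsg.Agent.Lib.Helper80.CTDefs

/-!
# S5748, pieces LOC1, LOC2, LOC3 (for helper80)
-/

set_option autoImplicit false

namespace Cfsg.Agent.Lib.Helper62.CTLOC

open Cfsg.Agent.Lib.Helper80.CT

variable {G : Type*} [Group G] [Finite G]

theorem invol_sq {u : G} (hu : orderOf u = 2) : u * u = 1 := by
  have := pow_orderOf_eq_one u
  rwa [hu, pow_two] at this

theorem invol_inv {u : G} (hu : orderOf u = 2) : u⁻¹ = u :=
  inv_eq_of_mul_eq_one_left (invol_sq hu)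

theorem invol_ne_one {u : G} (hu : orderOf u = 2) : u ≠ 1 := by
  rintro rfl
  simp at hu

variable {A N : Subgroup G} {q : ℕ}

/-- piece LOC1 -/
theorem Dsub_inf_eq_bot (hD : Data G A N q) {u : G} (hu : orderOf u = 2) (huN : u ∉ N) :
    Dsub N u ⊓ A = ⊥ := by
  have huinv : u⁻¹ = u := invol_inv hu
  have huN' : u⁻¹ ∉ N := by rw [huinv]; exact huN
  rw [eq_bot_iff]
  intro x hx
  rw [Subgroup.mem_bot]
  obtain ⟨hxD, hxA⟩ := Subgroup.mem_inf.mp hx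
  obtain ⟨hxN, hxN'⟩ := (mem_Dsub N u x).mp hxD
  by_contra hx1
  -- x' = u⁻¹ x u = u x u⁻¹
  have hc1 : x * (u⁻¹ * x * u) * x⁻¹ * (u⁻¹ * x * u)⁻¹ ∈ A := by
    have h1 : (u⁻¹ * x * u) * x⁻¹ * (u⁻¹ * x * u)⁻¹ ∈ A := hD.conj_mem hxN' (inv_mem hxA)
    have h2 := mul_mem hxA h1
    have e : x * ((u⁻¹ * x * u) * x⁻¹ * (u⁻¹ * x * u)⁻¹) =
        x * (u⁻¹ * x * u) * x⁻¹ * (u⁻¹ * x * u)⁻¹ := by group
    rwa [e] at h2
  have hc2 : u⁻¹ * (x * (u⁻¹ * x * u) * x⁻¹ * (u⁻¹ * x * u)⁻¹) * u⁻¹⁻¹ ∈ A := by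
    have h1 : (u⁻¹ * x * u) * x * (u⁻¹ * x * u)⁻¹ ∈ A := hD.conj_mem hxN' hxA
    have h2 := mul_mem h1 (inv_mem hxA)
    have hinv2 : u⁻¹ * u⁻¹ = 1 := by rw [huinv]; exact invol_sq hu
    have e : u⁻¹ * (x * (u⁻¹ * x * u) * x⁻¹ * (u⁻¹ * x * u)⁻¹) * u =
        (u⁻¹ * x * u) * x * (u⁻¹ * x * u)⁻¹ * x⁻¹ := by
      calc u⁻¹ * (x * (u⁻¹ * x * u) * x⁻¹ * (u⁻¹ * x * u)⁻¹) * u
          = (u⁻¹ * x * u) * ((u⁻¹ * u⁻¹) * x * (u * u)) * (u⁻¹ * x * u)⁻¹ *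
            ((u⁻¹ * u⁻¹) * x⁻¹ * (u * u)) := by
            group
        _ = (u⁻¹ * x * u) * x * (u⁻¹ * x * u)⁻¹ * x⁻¹ := by
            rw [hinv2, invol_sq hu, one_mul, mul_one, one_mul, mul_one]
    rw [inv_inv, e]
    exact h2
  have hc : x * (u⁻¹ * x * u) * x⁻¹ * (u⁻¹ * x * u)⁻¹ = 1 := hD.ti huN' hc1 hc2
  have hcomm : Commute (u⁻¹ * x * u) x := by
    show (u⁻¹ * x * u) * x = x * (u⁻¹ * x * u)
    have e : x * (u⁻¹ * x * u) = (x * (u⁻¹ * x * u) * x⁻¹ * (u⁻¹ * x * u)⁻¹) *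
        ((u⁻¹ * x * u) * x) := by group
    rw [e, hc, one_mul]
  have hx'A : u⁻¹ * x * u ∈ A := hD.cent x hxA hx1 _ hcomm
  have hx'A' : u * x * u⁻¹ ∈ A := by
    have e : u * x * u⁻¹ = u⁻¹ * x * u := by
      conv_lhs => rw [← huinv]
      rw [inv_inv]
    rw [e]; exact hx'A
  exact hx1 (hD.ti huN hxA hx'A')

/-- piece LOC2 -/
theorem card_le_of_inf_eq_bot (hD : Data G A N q) (D : Subgroup G) (hDN : D ≤ N)
    (hDA : D ⊓ A = ⊥) : Nat.card D ≤ q - 1 := by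
  have hinj : Function.Injective
      (fun p : D × A => (⟨(p.1 : G) * (p.2 : G), mul_mem (hDN p.1.2) (hD.le p.2.2)⟩ : N)) := by
    rintro ⟨d, a⟩ ⟨d', a'⟩ h
    have h' : (d : G) * (a : G) = (d' : G) * (a' : G) := by
      simpa using congrArg Subtype.val h
    have hmem : (d' : G)⁻¹ * (d : G) ∈ D ⊓ A := by
      refine Subgroup.mem_inf.mpr ⟨mul_mem (inv_mem d'.2) d.2, ?_⟩
      have e : (d' : G)⁻¹ * (d : G) = (a' : G) * (a : G)⁻¹ := by
        have : (d : G) = (d' : G) * (a' : G) * (a : G)⁻¹ := by rw [← h']; group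
        rw [this]; group
      rw [e]
      exact mul_mem a'.2 (inv_mem a.2)
    rw [hDA, Subgroup.mem_bot] at hmem
    have hdd : (d : G) = (d' : G) := by
      have : (d : G) = (d' : G) * ((d' : G)⁻¹ * (d : G)) := by group
      rw [this, hmem, mul_one]
    have haa : (a : G) = (a' : G) := by
      rw [hdd] at h'
      exact mul_left_cancel h'
    exact Prod.ext (Subtype.ext hdd) (Subtype.ext haa)
  have h1 := Nat.card_le_card_of_injective _ hinj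
  rw [Nat.card_prod, hD.card_N, mul_comm] at h1
  have hApos : 0 < Nat.card A := Nat.card_pos
  exact Nat.le_of_mul_le_mul_left h1 hApos

/-- piece LOC3 -/
theorem card_invol_coset (N : Subgroup G) {u : G} (hu : orderOf u = 2) (huN : u ∉ N) :
    Nat.card {v : G // orderOf v = 2 ∧ v * u⁻¹ ∈ N} =
      Nat.card {d : G // d ∈ Dsub N u ∧ u * d * u⁻¹ = d⁻¹} := by
  have : Fact (Nat.Prime 2) := ⟨Nat.prime_two⟩
  have huinv : u⁻¹ = u := invol_inv hu
  have hu2 : u * u = 1 := invol_sq hu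
  refine Nat.card_congr
    { toFun := fun v => ⟨(v : G) * u⁻¹, ?_, ?_⟩
      invFun := fun d => ⟨(d : G) * u, ?_, ?_⟩
      left_inv := ?_
      right_inv := ?_ }
  · obtain ⟨v, hv2, hvN⟩ := v
    have hvv : v * v = 1 := invol_sq hv2
    have hvinv : v⁻¹ = v := invol_inv hv2
    rw [mem_Dsub]
    refine ⟨hvN, ?_⟩
    have e : u⁻¹ * (v * u⁻¹) * u = (v * u⁻¹)⁻¹ := by
      rw [mul_inv_rev, inv_inv, hvinv]
      nth_rewrite 1 [huinv]
      group
    show u⁻¹ * (v * u⁻¹) * u ∈ N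
    rw [e]
    exact inv_mem hvN
  · obtain ⟨v, hv2, hvN⟩ := v
    have hvinv : v⁻¹ = v := invol_inv hv2
    show u * (v * u⁻¹) * u⁻¹ = (v * u⁻¹)⁻¹
    rw [mul_inv_rev, inv_inv, hvinv, huinv]
    calc u * (v * u) * u = u * v * (u * u) := by group
      _ = u * v := by rw [hu2, mul_one]
  · obtain ⟨d, hdD, hdinv⟩ := d
    have hdN : d ∈ N := ((mem_Dsub N u d).mp hdD).1
    have hsq : (d * u) * (d * u) = 1 := by
      calc (d * u) * (d * u) = d * (u * d * u⁻¹) * (u * u) := by group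
        _ = 1 := by rw [hdinv, hu2]; group
    have hne : d * u ≠ 1 := by
      intro h1
      apply huN
      have : u = d⁻¹ := by
        have : u = d⁻¹ * (d * u) := by group
        rw [this, h1, mul_one]
      rw [this]
      exact inv_mem hdN
    exact orderOf_eq_prime (by rw [pow_two]; exact hsq) hne
  · obtain ⟨d, hdD, hdinv⟩ := d
    have hdN : d ∈ N := ((mem_Dsub N u d).mp hdD).1
    show d * u * u⁻¹ ∈ N
    have : d * u * u⁻¹ = d := by group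
    rw [this]; exact hdN
  · rintro ⟨v, hv2, hvN⟩
    apply Subtype.ext
    show v * u⁻¹ * u = v
    group
  · rintro ⟨d, hdD, hdinv⟩
    apply Subtype.ext
    show d * u * u⁻¹ = d
    group

end Cfsg.Agent.Lib.Helper62.CTLOC
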