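import Mathlib
import Cfsg.Agent.Lib.Helper80.CTDefs
import Cfsg.Agent.Lib.Helper62.CTLOC

/-!
# S5748, piece CENTB (for helper80)
-/

set_option autoImplicit false

namespace Cfsg.Agent.Lib.Helper62.CTCENTB

open Cfsg.Agent.Lib.Helper80.CT Cfsg.Agent.Lib.Helper62.CTLOC

variable {G : Type*} [Group G] [Finite G] {A N : Subgroup G} {q : ℕ}

/-- piece CENTB -/
theorem cent_eq_Dsub (hD : Data G A N q)
    (hall : ∀ v : G, orderOf v = 2 → v ∉ N →
      Dsub N v ⊓ A = ⊥ ∧ Nat.card (Dsub N v) = q - 1 ∧ ∀ d ∈ Dsub N v, v * d * v⁻¹ = d⁻¹)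
    (hcoset : ∀ g : G, g ∉ N → ∃ v : G, orderOf v = 2 ∧ v * g⁻¹ ∈ N)
    {u : G} (hu : orderOf u = 2) (huN : u ∉ N) {h : G} (hh : h ∈ Dsub N u) (hh1 : h ≠ 1)
    (hB : ∀ y : G, Commute y h → u * y * u⁻¹ = y⁻¹ ∧ y * u ∉ N) :
    ∀ y : G, Commute y h → y ∈ Dsub N u := by
  intro y hy
  have huinv : u⁻¹ = u := invol_inv hu
  have hu2 : u * u = 1 := invol_sq hu
  have hhN : h ∈ N := ((mem_Dsub N u h).mp hh).1
  obtain ⟨hyinv, -⟩ := hB y hy
  have hyh : y * h = h * y := hy.eq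
  have hyN : y ∈ N := by
    by_contra hyN
    have hyN' : y⁻¹ ∉ N := fun h' => hyN (by simpa using inv_mem h')
    obtain ⟨v, hv2, hvN⟩ := hcoset y⁻¹ hyN'
    rw [inv_inv] at hvN
    have hvinv : v⁻¹ = v := invol_inv hv2
    have hv2' : v * v = 1 := invol_sq hv2
    have hvnN : v ∉ N := by
      intro hv
      apply hyN
      have : y = v⁻¹ * (v * y) := by group
      rw [this]
      exact mul_mem (inv_mem hv) hvN
    have hhDv : h ∈ Dsub N v := by
      rw [mem_Dsub]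
      refine ⟨hhN, ?_⟩
      have e : v⁻¹ * h * v = (v * y) * h * (v * y)⁻¹ := by
        have e1 : (v * y) * h * (v * y)⁻¹ = v * (y * h) * y⁻¹ * v⁻¹ := by group
        rw [e1, hyh, hvinv]
        group
      rw [e]
      exact mul_mem (mul_mem hvN hhN) (inv_mem hvN)
    obtain ⟨-, -, hvinvH⟩ := hall v hv2 hvnN
    have hvh : v * h * v⁻¹ = h⁻¹ := hvinvH h hhDv
    have huh : u * h * u⁻¹ = h⁻¹ := (hB h (Commute.refl h)).1
    have hbh : Commute (v * u) h := by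
      show (v * u) * h = h * (v * u)
      have e1 : (v * u) * h = v * (u * h * u⁻¹) * v⁻¹ * (v * u) := by group
      rw [e1, huh]
      have e2 : v * h⁻¹ * v⁻¹ = (v * h * v⁻¹)⁻¹ := by group
      rw [e2, hvh, inv_inv]
    have hbyh : Commute (v * u * y⁻¹) h := hbh.mul_left hy.inv_left
    obtain ⟨-, hnot⟩ := hB (v * u * y⁻¹) hbyh
    apply hnot
    have e : v * u * y⁻¹ * u = v * y := by
      have e1 : v * u * y⁻¹ * u = v * (u * y * u⁻¹)⁻¹ * (u * u) := by group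
      rw [e1, hyinv, inv_inv, hu2, mul_one]
    rw [e]
    exact hvN
  rw [mem_Dsub]
  refine ⟨hyN, ?_⟩
  have e : u⁻¹ * y * u = u * y * u⁻¹ := by
    conv_rhs => rw [← huinv]
    rw [inv_inv]
  rw [e, hyinv]
  exact inv_mem hyN

end Cfsg.Agent.Lib.Helper62.CTCENTB
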