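import Mathlib
import Cfsg.Agent.Lib.Helper80.CTDefs
import Cfsg.Agent.Lib.Helper62.CTLOC

/-!
# S5748, piece FIXH (for helper80)
-/

set_option autoImplicit false

namespace Cfsg.Agent.Lib.Helper62.CTFIXH

open Cfsg.Agent.Lib.Helper80.CT Cfsg.Agent.Lib.Helper62.CTLOC

variable {G : Type*} [Group G] [Finite G] {A N : Subgroup G} {q : ℕ}

/-- piece FIXH -/
theorem fix_H (hD : Data G A N q)
    (hall : ∀ v : G, orderOf v = 2 → v ∉ N →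
      Dsub N v ⊓ A = ⊥ ∧ Nat.card (Dsub N v) = q - 1 ∧ ∀ d ∈ Dsub N v, v * d * v⁻¹ = d⁻¹)
    (htrans : ∀ g g' : G, g ∉ N → g' ∉ N → ∃ x ∈ A, (x * g)⁻¹ * g' ∈ N) :
    ∀ u : G, orderOf u = 2 → u ∉ N → ∀ h ∈ Dsub N u, h ≠ 1 →
      ∀ g : G, g⁻¹ * h * g ∈ N → g ∈ N ∨ u⁻¹ * g ∈ N := by
  intro u hu huN h hh hh1 g hg
  by_cases hgN : g ∈ N
  · exact Or.inl hgN
  right
  obtain ⟨hDA, -, -⟩ := hall u hu huN
  obtain ⟨hhN, hhN'⟩ := (mem_Dsub N u h).mp hh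
  obtain ⟨x, hxA, hn⟩ := htrans u g huN hgN
  have hxN : x ∈ N := hD.le hxA
  -- k = x⁻¹ h x ∈ Dsub N u
  have hkN : x⁻¹ * h * x ∈ N := mul_mem (mul_mem (inv_mem hxN) hhN) hxN
  have hkN' : u⁻¹ * (x⁻¹ * h * x) * u ∈ N := by
    have e : u⁻¹ * (x⁻¹ * h * x) * u =
        ((x * u)⁻¹ * g) * (g⁻¹ * h * g) * ((x * u)⁻¹ * g)⁻¹ := by group
    rw [e]
    exact mul_mem (mul_mem hn hg) (inv_mem hn)
  have hkD : x⁻¹ * h * x ∈ Dsub N u := (mem_Dsub N u _).mpr ⟨hkN, hkN'⟩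
  have hmem : h⁻¹ * (x⁻¹ * h * x) ∈ Dsub N u ⊓ A := by
    refine Subgroup.mem_inf.mpr ⟨mul_mem (inv_mem hh) hkD, ?_⟩
    have e : h⁻¹ * (x⁻¹ * h * x) = (h⁻¹ * x⁻¹ * h) * x := by group
    rw [e]
    exact mul_mem (hD.conj_mem' hhN (inv_mem hxA)) hxA
  rw [hDA, Subgroup.mem_bot] at hmem
  have hcomm : Commute h x := by
    show h * x = x * h
    have e : x * h = x * h * (h⁻¹ * (x⁻¹ * h * x)) := by rw [hmem, mul_one]
    rw [e]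
    group
  have hhA : h ∉ A := by
    intro hhA
    have : h ∈ Dsub N u ⊓ A := Subgroup.mem_inf.mpr ⟨hh, hhA⟩
    rw [hDA, Subgroup.mem_bot] at this
    exact hh1 this
  have hx1 : x = 1 := hD.frob hhA hxA hcomm
  rw [hx1, one_mul] at hn
  exact hn

end Cfsg.Agent.Lib.Helper62.CTFIXH
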