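import Mathlib
import Cfsg.Agent.Lib.Helper80.CTDefs

/-!
# S5748, piece GEN (for helper80): in a simple group of even order the involutions are not
contained in a proper subgroup
-/

set_option autoImplicit false

namespace Cfsg.Agent.Lib.Helper62.CTGEN

open Cfsg.Agent.Lib.Helper80.CT

variable {G : Type*} [Group G] [Finite G]

/-- piece GEN -/
theorem exists_invol_not_mem [IsSimpleGroup G] (hev : Even (Nat.card G)) (K : Subgroup G)
    (hK : K ≠ ⊤) : ∃ w : G, orderOf w = 2 ∧ w ∉ K := by
  by_contra hcon
  push_neg at hcon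
  haveI : Fact (Nat.Prime 2) := ⟨Nat.prime_two⟩
  obtain ⟨w, hw⟩ := exists_prime_orderOf_dvd_card' (G := G) 2 (even_iff_two_dvd.mp hev)
  have hw1 : w ≠ 1 := by rintro rfl; simp at hw
  have hC : Subgroup.normalClosure {x : G | orderOf x = 2} = ⊤ := by
    rcases Subgroup.Normal.eq_bot_or_eq_top
      (Subgroup.normalClosure_normal (s := {x : G | orderOf x = 2})) with h | h
    · exfalso
      have hmem : w ∈ Subgroup.normalClosure {x : G | orderOf x = 2} :=
        Subgroup.subset_normalClosure hw
      rw [h, Subgroup.mem_bot] at hmem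
      exact hw1 hmem
    · exact h
  have hle : Subgroup.normalClosure {x : G | orderOf x = 2} ≤ K := by
    unfold Subgroup.normalClosure
    rw [Subgroup.closure_le]
    intro a ha
    rw [Group.mem_conjugatesOfSet_iff] at ha
    obtain ⟨s, hs, hsa⟩ := ha
    obtain ⟨c, hc⟩ := isConj_iff.mp hsa
    apply hcon
    rw [← hc]
    have := orderOf_injective (MulAut.conj c).toMonoidHom (MulAut.conj c).injective s
    simp only [MulEquiv.coe_toMonoidHom, MulAut.conj_apply] at this
    rw [this]
    exact hs
  rw [hC] at hle
  exact hK (top_le_iff.mp hle)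

end Cfsg.Agent.Lib.Helper62.CTGEN
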