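import Mathlib
import Cfsg.Agent.Lib.Helper80.CTDefs

/-!
# S5748, piece IDX (for helper80): in a CT-group, if all involutions of `C(t)` are conjugate
to the involution `t`, then `|N(C(t))| = |C(t)| * #involutions of C(t)`
-/

set_option autoImplicit false

namespace Cfsg.Agent.Lib.Helper62.CTIDX

open Cfsg.Agent.Lib.Helper80.CT

variable {G : Type*} [Group G] [Finite G]

theorem orderOf_conj' (g x : G) : orderOf (g * x * g⁻¹) = orderOf x := by
  have := orderOf_injective (MulAut.conj g).toMonoidHom (MulAut.conj g).injective x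
  simpa only [MulEquiv.coe_toMonoidHom, MulAut.conj_apply] using this

theorem commute_conj_iff (g x y : G) :
    Commute (g * x * g⁻¹) (g * y * g⁻¹) ↔ Commute x y := by
  constructor
  · intro h
    have h1 : g * x * g⁻¹ * (g * y * g⁻¹) = g * y * g⁻¹ * (g * x * g⁻¹) := h.eq
    have h2 : g * (x * y) * g⁻¹ = g * (y * x) * g⁻¹ := by
      have e1 : g * (x * y) * g⁻¹ = g * x * g⁻¹ * (g * y * g⁻¹) := by group
      have e2 : g * (y * x) * g⁻¹ = g * y * g⁻¹ * (g * x * g⁻¹) := by group
      rw [e1, e2, h1]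
    exact mul_left_cancel (mul_right_cancel h2)
  · intro h
    have h1 : x * y = y * x := h.eq
    show g * x * g⁻¹ * (g * y * g⁻¹) = g * y * g⁻¹ * (g * x * g⁻¹)
    have e1 : g * x * g⁻¹ * (g * y * g⁻¹) = g * (x * y) * g⁻¹ := by group
    have e2 : g * y * g⁻¹ * (g * x * g⁻¹) = g * (y * x) * g⁻¹ := by group
    rw [e1, e2, h1]

/-- piece IDX -/
theorem card_normalizer_centralizer (hct : IsCT G) {t : G} (ht : orderOf t = 2)
    (hconj : ∀ s : G, Commute s t → orderOf s = 2 → ∃ g : G, s = g * t * g⁻¹) :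
    Nat.card (Subgroup.normalizer ((Subgroup.centralizer ({t} : Set G) : Subgroup G) : Set G)) =
      Nat.card (Subgroup.centralizer ({t} : Set G)) *
        Nat.card {x : G // x ∈ Subgroup.centralizer ({t} : Set G) ∧ orderOf x = 2} := by
  classical
  obtain ⟨A, hA⟩ : ∃ A : Subgroup G, A = Subgroup.centralizer ({t} : Set G) := ⟨_, rfl⟩
  rw [← hA]
  obtain ⟨N, hN⟩ : ∃ N : Subgroup G, N = Subgroup.normalizer (A : Set G) := ⟨_, rfl⟩
  rw [← hN]
  have ht1 : t ≠ 1 := by rintro rfl; simp at ht
  have memA : ∀ x : G, x ∈ A ↔ Commute x t := by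
    intro x
    rw [hA, Subgroup.mem_centralizer_iff]
    constructor
    · intro h
      exact (h t rfl).symm
    · intro h y hy
      rw [Set.mem_singleton_iff] at hy
      subst hy
      exact h.eq.symm
  have htA : t ∈ A := (memA t).mpr (Commute.refl t)
  have hAN : A ≤ N := hN ▸ Subgroup.le_normalizer
  have memN : ∀ g : G, g ∈ N ↔ ∀ h : G, h ∈ A ↔ g * h * g⁻¹ ∈ A := by
    intro g
    rw [hN]
    exact Subgroup.mem_normalizer_iff
  -- the map `n ↦ n t n⁻¹`
  have hmem : ∀ n : N, (n : G) * t * (n : G)⁻¹ ∈ A ∧ orderOf ((n : G) * t * (n : G)⁻¹) = 2 :=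
    fun n => ⟨((memN n).mp n.2 t).mp htA, by rw [orderOf_conj', ht]⟩
  let F : N → {x : G // x ∈ A ∧ orderOf x = 2} := fun n => ⟨(n : G) * t * (n : G)⁻¹, hmem n⟩
  have hF : ∀ a b : N, F a = F b ↔ a⁻¹ * b ∈ A.subgroupOf N := by
    intro a b
    rw [Subgroup.mem_subgroupOf, memA]
    simp only [F, Subtype.mk.injEq]
    push_cast
    constructor
    · intro h
      show (a : G)⁻¹ * (b : G) * t = t * ((a : G)⁻¹ * (b : G))
      have : t = (a : G)⁻¹ * ((b : G) * t * (b : G)⁻¹) * (a : G) := by
        rw [← h]; group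
      calc (a : G)⁻¹ * (b : G) * t = ((a : G)⁻¹ * ((b : G) * t * (b : G)⁻¹) * (a : G)) *
            ((a : G)⁻¹ * (b : G)) := by group
        _ = t * ((a : G)⁻¹ * (b : G)) := by rw [← this]
    · intro h
      have h' : (a : G)⁻¹ * (b : G) * t = t * ((a : G)⁻¹ * (b : G)) := h.eq
      have : (b : G) * t * (b : G)⁻¹ = (a : G) * ((a : G)⁻¹ * (b : G) * t) * (b : G)⁻¹ := by group
      rw [this, h']
      group
  have hFsurj : Function.Surjective F := by
    rintro ⟨s, hsA, hs2⟩
    have hs1 : s ≠ 1 := by rintro rfl; simp at hs2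
    have hst : Commute s t := (memA s).mp hsA
    obtain ⟨g, hg⟩ := hconj s hst hs2
    have hgN : g ∈ N := by
      rw [memN]
      intro h
      by_cases hh1 : h = 1
      · subst hh1
        simp [A.one_mem]
      have hgh1 : g * h * g⁻¹ ≠ 1 := by
        intro h1
        apply hh1
        have : h = g⁻¹ * (g * h * g⁻¹) * g := by group
        rw [this, h1]; group
      constructor
      · intro hhA
        have h1 : Commute (g * h * g⁻¹) s := by
          rw [hg]
          exact (commute_conj_iff g h t).mpr ((memA h).mp hhA)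
        exact (memA _).mpr (hct _ s t hgh1 hs1 ht1 h1 hst)
      · intro hghA
        have h1 : Commute (g * h * g⁻¹) t := (memA _).mp hghA
        have h2 : Commute (g * h * g⁻¹) s := hct _ t s hgh1 ht1 hs1 h1 hst.symm
        rw [hg] at h2
        exact (memA h).mpr ((commute_conj_iff g h t).mp h2)
    exact ⟨⟨g, hgN⟩, Subtype.ext hg.symm⟩
  -- counting
  have hcard1 : Nat.card N = Nat.card (N ⧸ A.subgroupOf N) * Nat.card (A.subgroupOf N) :=
    Subgroup.card_eq_card_quotient_mul_card_subgroup (A.subgroupOf N)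
  have hcard2 : Nat.card (A.subgroupOf N) = Nat.card A :=
    Nat.card_congr (Subgroup.subgroupOfEquivOfLe hAN).toEquiv
  let f : (N ⧸ A.subgroupOf N) → {x : G // x ∈ A ∧ orderOf x = 2} :=
    Quotient.lift F (fun a b hab => (hF a b).mpr (QuotientGroup.leftRel_apply.mp hab))
  have hfbij : Function.Bijective f := by
    constructor
    · intro x y
      refine Quotient.inductionOn₂ x y ?_
      intro a b hab
      have : F a = F b := hab
      exact Quotient.sound (QuotientGroup.leftRel_apply.mpr ((hF a b).mp this))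
    · intro y
      obtain ⟨n, hn⟩ := hFsurj y
      exact ⟨Quotient.mk _ n, hn⟩
  have hcard3 : Nat.card (N ⧸ A.subgroupOf N) = Nat.card {x : G // x ∈ A ∧ orderOf x = 2} :=
    Nat.card_congr (Equiv.ofBijective f hfbij)
  rw [hcard1, hcard2, hcard3, mul_comm]

end Cfsg.Agent.Lib.Helper62.CTIDX
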