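import Mathlib
import Cfsg.Agent.Lib.Helper80.CTDefs
import Cfsg.Agent.S0208
import Cfsg.Agent.S0209

/-!
# S5748, piece INV (for helper80): two involutions of a CT-group commute or are conjugate
-/

set_option autoImplicit false

namespace Cfsg.Agent.Lib.Helper62.CTINV

open Cfsg.Agent.Lib.Helper80.CT

variable {G : Type*} [Group G] [Finite G]

/-- piece INV -/
theorem invol_commute_or_conj (hct : IsCT G) {t u : G} (ht : orderOf t = 2)
    (hu : orderOf u = 2) : Commute u t ∨ ∃ g : G, u = g * t * g⁻¹ := by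
  have ht1 : t ≠ 1 := by rintro rfl; simp at ht
  have hu1 : u ≠ 1 := by rintro rfl; simp at hu
  rcases Nat.even_or_odd (orderOf (t * u)) with hev | hodd
  · left
    obtain ⟨hz2, hzt, hzu⟩ := Cfsg.Agent.S0209.result t u ht hu hev
    have hz1 : (t * u) ^ (orderOf (t * u) / 2) ≠ 1 := by
      intro h1
      rw [h1] at hz2
      simp at hz2
    exact hct u _ t hu1 hz1 ht1 hzu.symm hzt
  · right
    obtain ⟨d, -, hd⟩ := Cfsg.Agent.S0208.result t u ht hu hodd
    exact ⟨d, hd.symm⟩

end Cfsg.Agent.Lib.Helper62.CTINV
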