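import Mathlib
import Cfsg.Agent.Lib.Helper80.CTDefs
import Cfsg.Agent.Lib.Helper62.CTLOC

/-!
# S5748, piece INVCNT (for helper80)
-/

set_option autoImplicit false

namespace Cfsg.Agent.Lib.Helper62.CTINVCNT

open Cfsg.Agent.Lib.Helper80.CT Cfsg.Agent.Lib.Helper62.CTLOC

variable {G : Type*} [Group G] [Finite G] {A N : Subgroup G} {q : ℕ}

/-- piece INVCNT -/
theorem card_inverting (hD : Data G A N q) {u : G} (hu : orderOf u = 2) (huN : u ∉ N)
    (hcard : Nat.card (Dsub N u) = q - 1)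
    (hinv : ∀ d ∈ Dsub N u, u * d * u⁻¹ = d⁻¹) {h : G} (hh : h ∈ Dsub N u) (hh1 : h ≠ 1)
    (hcent : ∀ y : G, Commute y h → y ∈ Dsub N u) :
    Nat.card {w : G // orderOf w = 2 ∧ w * h * w⁻¹ = h⁻¹ ∧ w ∉ N} = q - 1 := by
  have : Fact (Nat.Prime 2) := ⟨Nat.prime_two⟩
  have huinv : u⁻¹ = u := invol_inv hu
  have hu2 : u * u = 1 := invol_sq hu
  have huh : u * h * u⁻¹ = h⁻¹ := hinv h hh
  -- `Dsub N u` is abelian
  have hab : ∀ d ∈ Dsub N u, ∀ d' ∈ Dsub N u, d * d' = d' * d := by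
    intro d hd d' hd'
    have h1 : u * (d * d') * u⁻¹ = (d * d')⁻¹ := hinv _ (mul_mem hd hd')
    have h2 : u * (d * d') * u⁻¹ = (u * d * u⁻¹) * (u * d' * u⁻¹) := by group
    rw [h2, hinv d hd, hinv d' hd'] at h1
    have h3 : (d⁻¹ * d'⁻¹)⁻¹ = ((d * d')⁻¹)⁻¹ := by rw [h1]
    rw [inv_inv, mul_inv_rev, inv_inv, inv_inv] at h3
    exact h3.symm
  rw [← hcard]
  symm
  refine Nat.card_congr
    { toFun := fun d => ⟨(d : G) * u, ?_, ?_, ?_⟩
      invFun := fun w => ⟨(w : G) * u, ?_⟩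
      left_inv := ?_
      right_inv := ?_ }
  · obtain ⟨d, hd⟩ := d
    have hdN : d ∈ N := ((mem_Dsub N u d).mp hd).1
    have hsq : (d * u) * (d * u) = 1 := by
      calc (d * u) * (d * u) = d * (u * d * u⁻¹) * (u * u) := by group
        _ = 1 := by rw [hinv d hd, hu2]; group
    have hne : d * u ≠ 1 := by
      intro h1
      apply huN
      have e : u = d⁻¹ := by
        have : u = d⁻¹ * (d * u) := by group
        rw [this, h1, mul_one]
      rw [e]
      exact inv_mem hdN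
    exact orderOf_eq_prime (by rw [pow_two]; exact hsq) hne
  · obtain ⟨d, hd⟩ := d
    show d * u * h * (d * u)⁻¹ = h⁻¹
    have e : d * u * h * (d * u)⁻¹ = d * (u * h * u⁻¹) * d⁻¹ := by group
    rw [e, huh]
    have hc : d * h⁻¹ = h⁻¹ * d := hab d hd h⁻¹ (inv_mem hh)
    rw [hc]
    group
  · obtain ⟨d, hd⟩ := d
    have hdN : d ∈ N := ((mem_Dsub N u d).mp hd).1
    show d * u ∉ N
    intro hdu
    apply huN
    have : u = d⁻¹ * (d * u) := by group
    rw [this]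
    exact mul_mem (inv_mem hdN) hdu
  · obtain ⟨w, hw2, hwh, hwN⟩ := w
    apply hcent
    show (w * u) * h = h * (w * u)
    have e1 : (w * u) * h = w * (u * h * u⁻¹) * w⁻¹ * (w * u) := by group
    rw [e1, huh]
    have e2 : w * h⁻¹ * w⁻¹ = (w * h * w⁻¹)⁻¹ := by group
    rw [e2, hwh, inv_inv]
  · rintro ⟨d, hd⟩
    apply Subtype.ext
    show d * u * u = d
    rw [mul_assoc, hu2, mul_one]
  · rintro ⟨w, hw2, hwh, hwN⟩
    apply Subtype.ext
    show w * u * u = w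
    rw [mul_assoc, hu2, mul_one]

end Cfsg.Agent.Lib.Helper62.CTINVCNT
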