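import Mathlib
import Cfsg.Agent.Lib.Helper80.CTDefs

/-!
# S5748, piece ZAS3 (for helper80)
-/

set_option autoImplicit false

namespace Cfsg.Agent.Lib.Helper62.CTZAS3

open Cfsg.Agent.Lib.Helper80.CT

variable {G : Type*} [Group G] [Finite G] {A N : Subgroup G} {q : ℕ}

theorem fix_iff (N : Subgroup G) (g a : G) :
    g • (QuotientGroup.mk a : G ⧸ N) = QuotientGroup.mk a ↔ a⁻¹ * g * a ∈ N := by
  rw [MulAction.Quotient.smul_mk, smul_eq_mul, QuotientGroup.eq]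
  constructor
  · intro h
    have := inv_mem h
    have e : ((g * a)⁻¹ * a)⁻¹ = a⁻¹ * g * a := by group
    rwa [e] at this
  · intro h
    have := inv_mem h
    have e : (a⁻¹ * g * a)⁻¹ = (g * a)⁻¹ * a := by group
    rwa [e] at this

/-- piece ZAS3 -/
theorem zas_three (hD : Data G A N q)
    (hcov : ∀ h ∈ N, h ∉ A → ∃ u : G, orderOf u = 2 ∧ u ∉ N ∧ h ∈ Dsub N u)
    (hfixA : ∀ x ∈ A, x ≠ 1 → ∀ g : G, g⁻¹ * x * g ∈ N → g ∈ N)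
    (hfixH : ∀ u : G, orderOf u = 2 → u ∉ N → ∀ h ∈ Dsub N u, h ≠ 1 →
      ∀ g : G, g⁻¹ * h * g ∈ N → g ∈ N ∨ u⁻¹ * g ∈ N) :
    ∀ g : G, ∀ a b c : G ⧸ N, a ≠ b → b ≠ c → a ≠ c → g • a = a → g • b = b → g • c = c →
      g = 1 := by
  intro g a b c
  induction a using QuotientGroup.induction_on with
  | H a₀ =>
  induction b using QuotientGroup.induction_on with
  | H b₀ =>
  induction c using QuotientGroup.induction_on with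
  | H c₀ =>
  intro hab hbc hac hga hgb hgc
  rw [fix_iff] at hga hgb hgc
  have hab' : a₀⁻¹ * b₀ ∉ N := fun h => hab (QuotientGroup.eq.mpr h)
  have hbc' : b₀⁻¹ * c₀ ∉ N := fun h => hbc (QuotientGroup.eq.mpr h)
  have hac' : a₀⁻¹ * c₀ ∉ N := fun h => hac (QuotientGroup.eq.mpr h)
  have h1 : (a₀⁻¹ * b₀)⁻¹ * (a₀⁻¹ * g * a₀) * (a₀⁻¹ * b₀) ∈ N := by
    have e : (a₀⁻¹ * b₀)⁻¹ * (a₀⁻¹ * g * a₀) * (a₀⁻¹ * b₀) = b₀⁻¹ * g * b₀ := by group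
    rw [e]; exact hgb
  have h2 : (a₀⁻¹ * c₀)⁻¹ * (a₀⁻¹ * g * a₀) * (a₀⁻¹ * c₀) ∈ N := by
    have e : (a₀⁻¹ * c₀)⁻¹ * (a₀⁻¹ * g * a₀) * (a₀⁻¹ * c₀) = c₀⁻¹ * g * c₀ := by group
    rw [e]; exact hgc
  by_cases hk1 : a₀⁻¹ * g * a₀ = 1
  · have : g = a₀ * (a₀⁻¹ * g * a₀) * a₀⁻¹ := by group
    rw [this, hk1]
    group
  exfalso
  by_cases hkA : a₀⁻¹ * g * a₀ ∈ A
  · exact hab' (hfixA _ hkA hk1 _ h1)
  · obtain ⟨u, hu2, huN, hkD⟩ := hcov _ hga hkA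
    have hg1 : u⁻¹ * (a₀⁻¹ * b₀) ∈ N := by
      rcases hfixH u hu2 huN _ hkD hk1 _ h1 with h | h
      · exact absurd h hab'
      · exact h
    have hg2 : u⁻¹ * (a₀⁻¹ * c₀) ∈ N := by
      rcases hfixH u hu2 huN _ hkD hk1 _ h2 with h | h
      · exact absurd h hac'
      · exact h
    apply hbc'
    have e : b₀⁻¹ * c₀ = (u⁻¹ * (a₀⁻¹ * b₀))⁻¹ * (u⁻¹ * (a₀⁻¹ * c₀)) := by group
    rw [e]
    exact mul_mem (inv_mem hg1) hg2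

end Cfsg.Agent.Lib.Helper62.CTZAS3
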