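import Mathlib
import Cfsg.Prelude.Def_Transfer
import Cfsg.Agent.Lib.Helper4.CharExp

set_option autoImplicit false
set_option maxHeartbeats 400000

namespace Cfsg.Agent.Lib.Helper62

open Cfsg

section Basic

variable {G : Type*} [Group G]

theorem c4_sq_of_order {x : G} (hx : orderOf x = 2) : x * x = 1 := by
  rw [← pow_two, ← hx, pow_orderOf_eq_one]

theorem c4_ne_one_of_order {x : G} (hx : orderOf x = 2) : x ≠ 1 := by
  intro h
  rw [h, orderOf_one] at hx
  norm_num at hx

theorem c4_self_mem (x : G) : x ∈ Subgroup.centralizer ({x} : Set G) := by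
  rw [Subgroup.mem_centralizer_iff]
  intro h hh
  rw [Set.mem_singleton_iff.mp hh]

theorem c4_mem_iff (x g : G) : g ∈ Subgroup.centralizer ({x} : Set G) ↔ x * g = g * x := by
  rw [Subgroup.mem_centralizer_iff]
  constructor
  · intro h; exact h x rfl
  · intro h y hy
    rw [Set.mem_singleton_iff.mp hy]; exact h

theorem c4_sq_of_conj {x g : G} (hxx : x * x = 1) (h : IsConj x g) : g * g = 1 := by
  obtain ⟨c, rfl⟩ := isConj_iff.mp h
  calc c * x * c⁻¹ * (c * x * c⁻¹) = c * (x * x) * c⁻¹ := by group
    _ = 1 := by rw [hxx]; group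

theorem c4_ne_one_of_conj {x g : G} (hx1 : x ≠ 1) (h : IsConj x g) : g ≠ 1 := by
  intro h1
  rw [h1] at h
  exact hx1 (isConj_one_left.mp h)

end Basic

section Struct

variable {G : Type*} [Group G] [Finite G]

/-- The centralizer of order 4 as an explicit four-element set. -/
theorem exists_z (x : G) (hx : orderOf x = 2)
    (hC4 : Nat.card (Subgroup.centralizer ({x} : Set G)) = 4) :
    ∃ z : G, z ≠ 1 ∧ z ≠ x ∧ ∀ c : G, c ∈ Subgroup.centralizer ({x} : Set G) ↔
      (c = 1 ∨ c = x ∨ c = z ∨ c = x * z) := by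
  classical
  set C := Subgroup.centralizer ({x} : Set G) with hC
  have hnc : (C : Set G).ncard = 4 := by
    rw [← Nat.card_coe_set_eq]; exact hC4
  have hx1 : x ≠ 1 := c4_ne_one_of_order hx
  have hxx : x * x = 1 := c4_sq_of_order hx
  have hxC : x ∈ C := c4_self_mem x
  have hex : ∃ z ∈ C, z ≠ 1 ∧ z ≠ x := by
    by_contra hcon
    push Not at hcon
    have hsub : (C : Set G) ⊆ {1, x} := by
      intro c hc
      by_cases h1 : c = 1
      · left; exact h1
      · right; exact hcon c hc h1
    have h1 := Set.ncard_le_ncard hsub (Set.toFinite _)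
    have h2 : ({1, x} : Set G).ncard = 2 := Set.ncard_pair (Ne.symm hx1)
    omega
  obtain ⟨z, hzC, hz1, hzx⟩ := hex
  refine ⟨z, hz1, hzx, ?_⟩
  have hsub : ({1, x, z, x * z} : Set G) ⊆ (C : Set G) := by
    intro c hc
    rcases hc with rfl | rfl | rfl | rfl
    · exact C.one_mem
    · exact hxC
    · exact hzC
    · exact C.mul_mem hxC hzC
  have hxz1 : x * z ≠ 1 := by
    intro h
    apply hzx
    calc z = x⁻¹ * (x * z) := by group
      _ = x⁻¹ := by rw [h, mul_one]
      _ = x := inv_eq_of_mul_eq_one_right hxx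
  have hxzx : x * z ≠ x := by
    intro h
    apply hz1
    calc z = x⁻¹ * (x * z) := by group
      _ = x⁻¹ * x := by rw [h]
      _ = 1 := by group
  have hxzz : x * z ≠ z := by
    intro h
    apply hx1
    calc x = (x * z) * z⁻¹ := by group
      _ = z * z⁻¹ := by rw [h]
      _ = 1 := by group
  have hcard : ({1, x, z, x * z} : Set G).ncard = 4 := by
    rw [Set.ncard_insert_of_notMem, Set.ncard_insert_of_notMem, Set.ncard_pair (Ne.symm hxzz)]
    · simp only [Set.mem_insert_iff, Set.mem_singleton_iff, not_or]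
      exact ⟨Ne.symm hzx, Ne.symm hxzx⟩
    · simp only [Set.mem_insert_iff, Set.mem_singleton_iff, not_or]
      exact ⟨Ne.symm hx1, Ne.symm hz1, Ne.symm hxz1⟩
  have heq := Set.eq_of_subset_of_ncard_le hsub (by rw [hcard, hnc]) (Set.toFinite _)
  intro c
  constructor
  · intro hc
    have : c ∈ ({1, x, z, x * z} : Set G) := by rw [heq]; exact hc
    simpa using this
  · intro hc
    apply hsub
    simpa using hc

/-- If `x` is conjugate to no other element of its centralizer (of order four and exponent
two), then `G` has a normal 2-complement. -/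
theorem normalPComplement_of_not_conj (x z : G) (hx : orderOf x = 2)
    (hC4 : Nat.card (Subgroup.centralizer ({x} : Set G)) = 4)
    (hmem : ∀ c : G, c ∈ Subgroup.centralizer ({x} : Set G) ↔
      (c = 1 ∨ c = x ∨ c = z ∨ c = x * z))
    (h1 : ¬ IsConj x z) (h2 : ¬ IsConj x (x * z)) : Cfsg.HasNormalPComplement 2 G := by
  classical
  haveI : Fact (Nat.Prime 2) := ⟨Nat.prime_two⟩
  set C := Subgroup.centralizer ({x} : Set G) with hC
  have hx1 : x ≠ 1 := c4_ne_one_of_order hx
  have hxx : x * x = 1 := c4_sq_of_order hx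
  have hxC : x ∈ C := c4_self_mem x
  have hnorm : ∀ g : G, g * x * g⁻¹ ∈ C → g ∈ C := by
    intro g hg
    have hconj : IsConj x (g * x * g⁻¹) := isConj_iff.mpr ⟨g, rfl⟩
    rcases (hmem _).mp hg with h | h | h | h
    · exact absurd h (c4_ne_one_of_conj hx1 hconj)
    · rw [hC, c4_mem_iff]
      calc x * g = (g * x * g⁻¹) * g := by rw [h]
        _ = g * x := by group
    · rw [h] at hconj; exact absurd hconj h1
    · rw [h] at hconj; exact absurd hconj h2
  have hCp : IsPGroup 2 C := IsPGroup.of_card (n := 2) (by rw [hC4]; norm_num)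
  obtain ⟨P, hCP⟩ := hCp.exists_le_sylow
  have hPC : (P : Subgroup G) = C := by
    by_contra hne
    have hlt : C < (P : Subgroup G) := lt_of_le_of_ne hCP (Ne.symm hne)
    haveI : Group.IsNilpotent ↥(P : Subgroup G) := P.isPGroup'.isNilpotent
    set H : Subgroup ↥(P : Subgroup G) := C.subgroupOf (P : Subgroup G) with hH
    have hHlt : H < ⊤ := by
      rw [lt_top_iff_ne_top]
      intro htop
      obtain ⟨s, hsP, hsC⟩ := SetLike.exists_of_lt hlt
      have : (⟨s, hsP⟩ : ↥(P : Subgroup G)) ∈ H := by rw [htop]; exact Subgroup.mem_top _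
      rw [hH, Subgroup.mem_subgroupOf] at this
      exact hsC this
    have hnc := normalizerCondition_of_isNilpotent (G := ↥(P : Subgroup G)) H hHlt
    obtain ⟨g, hgN, hgH⟩ := SetLike.exists_of_lt hnc
    have hx'H : (⟨x, hCP hxC⟩ : ↥(P : Subgroup G)) ∈ H := by
      rw [hH, Subgroup.mem_subgroupOf]; exact hxC
    have h3 := (Subgroup.mem_normalizer_iff.mp hgN _).mp hx'H
    rw [hH, Subgroup.mem_subgroupOf] at h3
    have h4 : (g : G) * x * (g : G)⁻¹ ∈ C := h3
    apply hgH
    rw [hH, Subgroup.mem_subgroupOf]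
    exact hnorm _ h4
  have hab : ∀ a ∈ C, ∀ b ∈ C, a * b = b * a := by
    intro a ha b hb
    have hcomm := (IsPGroup.isMulCommutative_of_card_eq_prime_sq (p := 2) (G := ↥C)
      (by rw [hC4]; norm_num)).is_comm.comm
    exact congrArg Subtype.val (hcomm ⟨a, ha⟩ ⟨b, hb⟩)
  have hP : Subgroup.normalizer ((P : Subgroup G) : Set G) ≤
      Subgroup.centralizer ((P : Subgroup G) : Set G) := by
    intro g hg
    have hgC : g ∈ C := by
      apply hnorm
      have := (Subgroup.mem_normalizer_iff.mp hg x).mp (hCP hxC)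
      rw [hPC] at this
      exact this
    rw [Subgroup.mem_centralizer_iff]
    intro h hh
    have hhC : h ∈ C := by rw [← hPC]; exact hh
    exact hab h hhC g hgC
  exact ⟨P, (MonoidHom.transferSylow P hP).ker, inferInstance,
    MonoidHom.ker_transferSylow_isComplement' P hP⟩

end Struct

section Count

variable {G : Type*} [Group G]

theorem c4_comm_of_sq {g t : G} (hg : g * g = 1) (ht : t * t = 1) (h : (g * t) * (g * t) = 1) :
    t * g = g * t := by
  have h1 : g * t = (g * t)⁻¹ := eq_inv_of_mul_eq_one_left h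
  rw [mul_inv_rev, inv_eq_of_mul_eq_one_right hg, inv_eq_of_mul_eq_one_right ht] at h1
  exact h1.symm

theorem mem_filter_x (x z g : G) (hx : orderOf x = 2)
    (hmem : ∀ c : G, c ∈ Subgroup.centralizer ({x} : Set G) ↔
      (c = 1 ∨ c = x ∨ c = z ∨ c = x * z))
    (h1 : IsConj x g) (h2 : IsConj x (g⁻¹ * x⁻¹)) :
    (g = z ∨ g = x * z) ∧ IsConj x z ∧ IsConj x (x * z) := by
  have hx1 : x ≠ 1 := c4_ne_one_of_order hx
  have hxx : x * x = 1 := c4_sq_of_order hx
  have hgg : g * g = 1 := c4_sq_of_conj hxx h1
  rw [inv_eq_of_mul_eq_one_right hgg, inv_eq_of_mul_eq_one_right hxx] at h2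
  have hcomm : x * g = g * x := c4_comm_of_sq hgg hxx (c4_sq_of_conj hxx h2)
  have hzC : z ∈ Subgroup.centralizer ({x} : Set G) := (hmem z).mpr (Or.inr (Or.inr (Or.inl rfl)))
  have hxz : x * z = z * x := (c4_mem_iff x z).mp hzC
  rcases (hmem g).mp ((c4_mem_iff x g).mpr hcomm) with h | h | h | h
  · exact absurd h (c4_ne_one_of_conj hx1 h1)
  · rw [h, hxx] at h2
    exact absurd rfl (c4_ne_one_of_conj hx1 h2)
  · rw [h] at h1 h2
    rw [← hxz] at h2
    exact ⟨Or.inl h, h1, h2⟩
  · rw [h] at h1 h2
    have : x * z * x = z := by rw [hxz, mul_assoc, hxx, mul_one]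
    rw [this] at h2
    exact ⟨Or.inr h, h2, h1⟩

open scoped Classical in
theorem card_filter_x_two [Fintype G] (x z : G) (hx : orderOf x = 2)
    (hmem : ∀ c : G, c ∈ Subgroup.centralizer ({x} : Set G) ↔
      (c = 1 ∨ c = x ∨ c = z ∨ c = x * z))
    (hzz : z * z = 1) (hcz : IsConj x z) (hcxz : IsConj x (x * z)) :
    (Finset.univ.filter (fun g : G => IsConj x g ∧ IsConj x (g⁻¹ * x⁻¹))).card = 2 := by
  have hx1 : x ≠ 1 := c4_ne_one_of_order hx
  have hxx : x * x = 1 := c4_sq_of_order hx
  have hzC : z ∈ Subgroup.centralizer ({x} : Set G) := (hmem z).mpr (Or.inr (Or.inr (Or.inl rfl)))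
  have hxz : x * z = z * x := (c4_mem_iff x z).mp hzC
  have hne : z ≠ x * z := by
    intro h
    apply hx1
    calc x = (x * z) * z⁻¹ := by group
      _ = z * z⁻¹ := by rw [← h]
      _ = 1 := by group
  have heq : Finset.univ.filter (fun g : G => IsConj x g ∧ IsConj x (g⁻¹ * x⁻¹)) = {z, x * z} := by
    ext g
    simp only [Finset.mem_filter, Finset.mem_univ, true_and, Finset.mem_insert,
      Finset.mem_singleton]
    constructor
    · rintro ⟨h1, h2⟩
      exact (mem_filter_x x z g hx hmem h1 h2).1
    · rintro (h | h)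
      · rw [h]
        refine ⟨hcz, ?_⟩
        rw [inv_eq_of_mul_eq_one_right hzz, inv_eq_of_mul_eq_one_right hxx, ← hxz]
        exact hcxz
      · rw [h]
        refine ⟨hcxz, ?_⟩
        have : (x * z)⁻¹ * x⁻¹ = z := by
          rw [mul_inv_rev, inv_eq_of_mul_eq_one_right hzz, inv_eq_of_mul_eq_one_right hxx,
            mul_assoc, hxx, mul_one]
        rw [this]
        exact hcz
  rw [heq, Finset.card_pair hne]

open scoped Classical in
theorem card_filter_x_zero [Fintype G] (x z : G) (hx : orderOf x = 2)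
    (hmem : ∀ c : G, c ∈ Subgroup.centralizer ({x} : Set G) ↔
      (c = 1 ∨ c = x ∨ c = z ∨ c = x * z))
    (hnz : ¬ IsConj x z) :
    (Finset.univ.filter (fun g : G => IsConj x g ∧ IsConj x (g⁻¹ * x⁻¹))).card = 0 := by
  rw [Finset.card_eq_zero, Finset.filter_eq_empty_iff]
  rintro g - ⟨h1, h2⟩
  exact hnz (mem_filter_x x z g hx hmem h1 h2).2.1

open scoped Classical in
theorem four_mul_card_filter_z_le [Fintype G] (x z : G) (hx : orderOf x = 2)
    (hC4 : Nat.card (Subgroup.centralizer ({x} : Set G)) = 4)
    (hmem : ∀ c : G, c ∈ Subgroup.centralizer ({x} : Set G) ↔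
      (c = 1 ∨ c = x ∨ c = z ∨ c = x * z))
    (hz1 : z ≠ 1) (hzz : z * z = 1) (hcxz : IsConj x (x * z)) (hnz : ¬ IsConj x z) :
    4 * (Finset.univ.filter (fun g : G => IsConj x g ∧ IsConj x (g⁻¹ * z⁻¹))).card ≤
      Nat.card (Subgroup.centralizer ({z} : Set G)) := by
  have hx1 : x ≠ 1 := c4_ne_one_of_order hx
  have hxx : x * x = 1 := c4_sq_of_order hx
  set C := Subgroup.centralizer ({x} : Set G) with hC
  set M := Subgroup.centralizer ({z} : Set G) with hM
  set A := Finset.univ.filter (fun g : G => IsConj x g ∧ IsConj x (g⁻¹ * z⁻¹)) with hA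
  have hzC : z ∈ C := (hmem z).mpr (Or.inr (Or.inr (Or.inl rfl)))
  have hxz : x * z = z * x := (c4_mem_iff x z).mp hzC
  have hCM : ∀ c ∈ C, c ∈ M := by
    intro c hc
    rw [hM, c4_mem_iff]
    rcases (hmem c).mp hc with h | h | h | h
    · rw [h]; simp
    · rw [h]; exact hxz.symm
    · rw [h]
    · rw [h, ← mul_assoc, ← hxz]
  have hk : ∀ g : {g : G // g ∈ A}, ∃ k : M, (k : G) * x * (k : G)⁻¹ = g.1 := by
    rintro ⟨g, hg⟩
    rw [hA, Finset.mem_filter] at hg
    obtain ⟨-, h1, h2⟩ := hg
    have hgg : g * g = 1 := c4_sq_of_conj hxx h1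
    rw [inv_eq_of_mul_eq_one_right hgg, inv_eq_of_mul_eq_one_right hzz] at h2
    have hcomm : z * g = g * z := c4_comm_of_sq hgg hzz (c4_sq_of_conj hxx h2)
    obtain ⟨k, hk⟩ := isConj_iff.mp h1
    have hkz : k⁻¹ * z * k ∈ C := by
      rw [hC, c4_mem_iff]
      have e1 : x * (k⁻¹ * z * k) = k⁻¹ * ((k * x * k⁻¹) * z) * k := by group
      have e2 : k⁻¹ * z * k * x = k⁻¹ * (z * (k * x * k⁻¹)) * k := by group
      rw [e1, e2, hk, hcomm]
    have hkM : k ∈ M := by
      rw [hM, c4_mem_iff]
      rcases (hmem _).mp hkz with h | h | h | h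
      · exfalso
        apply hz1
        calc z = k * (k⁻¹ * z * k) * k⁻¹ := by group
          _ = 1 := by rw [h]; group
      · exfalso
        apply hnz
        refine isConj_iff.mpr ⟨k, ?_⟩
        rw [← h]; group
      · calc z * k = k * (k⁻¹ * z * k) := by group
          _ = k * z := by rw [h]
      · exfalso
        apply hnz
        refine hcxz.trans (isConj_iff.mpr ⟨k, ?_⟩)
        rw [← h]; group
    exact ⟨⟨k, hkM⟩, hk⟩
  choose kf hkf using hk
  let f : {g : G // g ∈ A} × ↥C → ↥M := fun p => kf p.1 * ⟨p.2.1, hCM p.2.1 p.2.2⟩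
  have hf : Function.Injective f := by
    rintro ⟨g, c⟩ ⟨g', c'⟩ h
    have h' : (kf g : G) * (c : G) = (kf g' : G) * (c' : G) := congrArg Subtype.val h
    have hc : ∀ (c : ↥C) (k : G), (k * (c : G)) * x * (k * (c : G))⁻¹ = k * x * k⁻¹ := by
      intro c k
      have := (c4_mem_iff x (c : G)).mp c.2
      calc (k * (c : G)) * x * (k * (c : G))⁻¹ = k * ((c : G) * x) * (c : G)⁻¹ * k⁻¹ := by group
        _ = k * (x * (c : G)) * (c : G)⁻¹ * k⁻¹ := by rw [this]
        _ = k * x * k⁻¹ := by group
    have hgg' : g = g' := by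
      apply Subtype.ext
      calc (g : G) = (kf g : G) * x * (kf g : G)⁻¹ := (hkf g).symm
        _ = ((kf g : G) * (c : G)) * x * ((kf g : G) * (c : G))⁻¹ := (hc c _).symm
        _ = ((kf g' : G) * (c' : G)) * x * ((kf g' : G) * (c' : G))⁻¹ := by rw [h']
        _ = (kf g' : G) * x * (kf g' : G)⁻¹ := hc c' _
        _ = (g' : G) := hkf g'
    subst hgg'
    have : (c : G) = (c' : G) := mul_left_cancel h'
    rw [Subtype.ext this]
  have hle := Nat.card_le_card_of_injective f hf
  rw [Nat.card_prod, hC4, Nat.card_eq_fintype_card, Fintype.card_coe] at hle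
  omega

end Count

section Finish

variable {G : Type*} [Group G]

theorem closure_comm_sq (S : Set G) (hc : ∀ u ∈ S, ∀ v ∈ S, u * v = v * u)
    (hs : ∀ u ∈ S, u * u = 1) :
    (∀ a ∈ Subgroup.closure S, ∀ b ∈ Subgroup.closure S, a * b = b * a) ∧
      (∀ a ∈ Subgroup.closure S, a * a = 1) := by
  have h1 : Subgroup.closure S ≤ Subgroup.centralizer S := by
    rw [Subgroup.closure_le]
    intro u hu
    rw [SetLike.mem_coe, Subgroup.mem_centralizer_iff]
    intro v hv
    exact hc v hv u hu
  have h2 : Subgroup.closure S ≤ Subgroup.centralizer (Subgroup.closure S : Set G) := by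
    rw [Subgroup.closure_le]
    intro u hu
    rw [SetLike.mem_coe, Subgroup.mem_centralizer_iff]
    intro a ha
    have := h1 ha
    rw [Subgroup.mem_centralizer_iff] at this
    exact (this u hu).symm
  have hcomm : ∀ a ∈ Subgroup.closure S, ∀ b ∈ Subgroup.closure S, a * b = b * a := by
    intro a ha b hb
    have := h2 hb
    rw [Subgroup.mem_centralizer_iff] at this
    exact this a ha
  refine ⟨hcomm, ?_⟩
  intro a ha
  induction ha using Subgroup.closure_induction with
  | mem u hu => exact hs u hu
  | one => simp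
  | mul a b ha hb iha ihb =>
    calc a * b * (a * b) = a * (b * a) * b := by group
      _ = a * (a * b) * b := by rw [hcomm b hb a ha]
      _ = (a * a) * (b * b) := by group
      _ = 1 := by rw [iha, ihb, one_mul]
  | inv a ha iha =>
    calc a⁻¹ * a⁻¹ = (a * a)⁻¹ := by group
      _ = 1 := by rw [iha, inv_one]

theorem ncard_four_le (a b c d : G) : ({a, b, c, d} : Set G).ncard ≤ 4 := by
  have h1 := Set.ncard_insert_le a ({b, c, d} : Set G)
  have h2 := Set.ncard_insert_le b ({c, d} : Set G)
  have h3 := Set.ncard_insert_le c ({d} : Set G)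
  have h4 : ({d} : Set G).ncard = 1 := Set.ncard_singleton d
  omega

/-- If all conjugates of `z` commute with `z`, the normal closure of `z` is a normal
elementary abelian subgroup of order 2 or 4. -/
theorem false_of_conj_commute [Finite G] (x z : G) (hx : orderOf x = 2)
    (hmem : ∀ c : G, c ∈ Subgroup.centralizer ({x} : Set G) ↔
      (c = 1 ∨ c = x ∨ c = z ∨ c = x * z))
    (hz1 : z ≠ 1) (hzz : z * z = 1)
    (hcomm : ∀ g : G, g⁻¹ * z * g ∈ Subgroup.centralizer ({z} : Set G))
    (hne : ∀ E : Subgroup G, E.Normal → Cfsg.IsElementaryAbelian 2 E →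
      Nat.card ↥E ≠ 2 ∧ Nat.card ↥E ≠ 4) : False := by
  classical
  have hx1 : x ≠ 1 := c4_ne_one_of_order hx
  have hxx : x * x = 1 := c4_sq_of_order hx
  have hxinv : x⁻¹ = x := inv_eq_of_mul_eq_one_right hxx
  set S : Set G := Group.conjugatesOfSet ({z} : Set G) with hS
  have hSmem : ∀ u ∈ S, ∃ a : G, u = a * z * a⁻¹ := by
    intro u hu
    rw [hS, Group.mem_conjugatesOfSet_iff] at hu
    obtain ⟨b, hb, hbu⟩ := hu
    rw [Set.mem_singleton_iff.mp hb] at hbu
    obtain ⟨a, ha⟩ := isConj_iff.mp hbu
    exact ⟨a, ha.symm⟩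
  have hSc : ∀ u ∈ S, ∀ v ∈ S, u * v = v * u := by
    intro u hu v hv
    obtain ⟨a, rfl⟩ := hSmem u hu
    obtain ⟨b, rfl⟩ := hSmem v hv
    have h1 := (c4_mem_iff z _).mp (hcomm (b⁻¹ * a))
    calc a * z * a⁻¹ * (b * z * b⁻¹) = a * (z * ((b⁻¹ * a)⁻¹ * z * (b⁻¹ * a))) * a⁻¹ := by group
      _ = a * (((b⁻¹ * a)⁻¹ * z * (b⁻¹ * a)) * z) * a⁻¹ := by rw [h1]
      _ = b * z * b⁻¹ * (a * z * a⁻¹) := by group
  have hSs : ∀ u ∈ S, u * u = 1 := by
    intro u hu
    obtain ⟨a, rfl⟩ := hSmem u hu
    calc a * z * a⁻¹ * (a * z * a⁻¹) = a * (z * z) * a⁻¹ := by group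
      _ = 1 := by rw [hzz]; group
  set E := Subgroup.normalClosure ({z} : Set G) with hE
  have hEcl : E = Subgroup.closure S := rfl
  obtain ⟨hEc, hEs⟩ := closure_comm_sq S hSc hSs
  rw [← hEcl] at hEc hEs
  have hEn : E.Normal := Subgroup.normalClosure_normal
  have hzE : z ∈ E := Subgroup.subset_normalClosure (Set.mem_singleton z)
  have hEA : Cfsg.IsElementaryAbelian 2 E := by
    refine ⟨⟨⟨fun a b => Subtype.ext (hEc a.1 a.2 b.1 b.2)⟩⟩, ?_⟩
    intro a ha
    rw [pow_two]
    exact hEs a ha
  have hzC : z ∈ Subgroup.centralizer ({x} : Set G) :=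
    (hmem z).mpr (Or.inr (Or.inr (Or.inl rfl)))
  have hxz : x * z = z * x := (c4_mem_iff x z).mp hzC
  have hu : ∀ e ∈ E, x * (e * (x * e * x⁻¹)) = (e * (x * e * x⁻¹)) * x := by
    intro e he
    have hxe : x * e * x⁻¹ ∈ E := hEn.conj_mem e he x
    have h1 := hEc e he _ hxe
    rw [hxinv] at h1 ⊢
    calc x * (e * (x * e * x)) = (x * e * x * e) * x := by group
      _ = (e * (x * e * x)) * x := by rw [← h1]
  have hEC : ∀ e ∈ E, x * e = e * x → (e = 1 ∨ e = x ∨ e = z ∨ e = x * z) :=
    fun e _ h => (hmem e).mp ((c4_mem_iff x e).mpr h)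
  have hcard : (E : Set G).ncard ≤ 4 := by
    by_cases hxE : x ∈ E
    · have hsub : (E : Set G) ⊆ {1, x, z, x * z} := by
        intro e he
        have := hEC e he (hEc x hxE e he)
        simpa using this
      exact (Set.ncard_le_ncard hsub (Set.toFinite _)).trans (ncard_four_le _ _ _ _)
    · have hxzE : x * z ∉ E := by
        intro h
        apply hxE
        have : x = (x * z) * z := by rw [mul_assoc, hzz, mul_one]
        rw [this]
        exact E.mul_mem h hzE
      have hEC' : ∀ e ∈ E, x * e = e * x → (e = 1 ∨ e = z) := by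
        intro e he h
        rcases hEC e he h with h | h | h | h
        · left; exact h
        · rw [h] at he; exact absurd he hxE
        · right; exact h
        · rw [h] at he; exact absurd he hxzE
      by_cases hall : ∀ e ∈ E, e = 1 ∨ e = z
      · have hsub : (E : Set G) ⊆ {1, x, z, x * z} := by
          intro e he
          rcases hall e he with h | h
          · left; exact h
          · right; right; left; exact h
        exact (Set.ncard_le_ncard hsub (Set.toFinite _)).trans (ncard_four_le _ _ _ _)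
      · push Not at hall
        obtain ⟨e0, he0, he01, he0z⟩ := hall
        have hkey : ∀ e ∈ E, ¬ (x * e = e * x) → x * e * x = e * z := by
          intro e he hne'
          have hxe : x * e * x⁻¹ ∈ E := hEn.conj_mem e he x
          have hue : e * (x * e * x⁻¹) ∈ E := E.mul_mem he hxe
          rcases hEC' _ hue (hu e he) with h | h
          · exfalso
            apply hne'
            rw [hxinv] at h
            have h2 : x * e * x = e := by
              calc x * e * x = (e * e) * (x * e * x) := by rw [hEs e he, one_mul]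
                _ = e * (e * (x * e * x)) := by group
                _ = e := by rw [h, mul_one]
            calc x * e = x * e * (x * x) := by rw [hxx, mul_one]
              _ = (x * e * x) * x := by group
              _ = e * x := by rw [h2]
          · rw [hxinv] at h
            calc x * e * x = (e * e) * (x * e * x) := by rw [hEs e he, one_mul]
              _ = e * (e * (x * e * x)) := by group
              _ = e * z := by rw [h]
        have he0n : ¬ (x * e0 = e0 * x) := by
          intro h
          rcases hEC' e0 he0 h with h | h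
          · exact he01 h
          · exact he0z h
        have h0 := hkey e0 he0 he0n
        have hsub : (E : Set G) ⊆ {1, z, e0, e0 * z} := by
          intro e he
          by_cases hce : x * e = e * x
          · rcases hEC' e he hce with h | h
            · left; exact h
            · right; left; exact h
          · have h1 := hkey e he hce
            have hee0 : e * e0 ∈ E := E.mul_mem he he0
            have hcomm2 : x * (e * e0) = (e * e0) * x := by
              have e1 : x * (e * e0) = (x * e * x) * (x * e0 * x) * x := by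
                have : (x * e * x) * (x * e0 * x) * x = x * e * (x * x) * e0 * (x * x) := by
                  group
                rw [this, hxx, mul_one, mul_one, mul_assoc]
              calc x * (e * e0) = (x * e * x) * (x * e0 * x) * x := e1
                _ = (e * z) * (e0 * z) * x := by rw [h1, h0]
                _ = e * (z * e0) * z * x := by group
                _ = e * (e0 * z) * z * x := by rw [hEc z hzE e0 he0]
                _ = e * e0 * (z * z) * x := by group
                _ = (e * e0) * x := by rw [hzz, mul_one]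
            rcases hEC' _ hee0 hcomm2 with h | h
            · right; right; left
              calc e = (e * e0) * e0⁻¹ := by group
                _ = e0⁻¹ := by rw [h, one_mul]
                _ = e0 := inv_eq_of_mul_eq_one_right (hEs e0 he0)
            · right; right; right
              calc e = (e * e0) * e0⁻¹ := by group
                _ = z * e0⁻¹ := by rw [h]
                _ = z * e0 := by rw [inv_eq_of_mul_eq_one_right (hEs e0 he0)]
                _ = e0 * z := hEc z hzE e0 he0
        exact (Set.ncard_le_ncard hsub (Set.toFinite _)).trans (ncard_four_le _ _ _ _)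
  have hcardE : Nat.card E ≤ 4 := by
    rw [← Nat.card_coe_set_eq] at hcard
    exact hcard
  have hoz : orderOf z = 2 := orderOf_eq_prime (by rw [pow_two]; exact hzz) hz1
  have hdvd : 2 ∣ Nat.card E := by
    rw [← hoz]
    exact Subgroup.orderOf_dvd_natCard E hzE
  have hpos : 0 < Nat.card E := Nat.card_pos
  obtain ⟨h2, h4⟩ := hne E hEn hEA
  obtain ⟨m, hm⟩ := hdvd
  omega

end Finish

section CaseI

variable {G : Type*} [Group G] [Finite G]

/-- A fixed-point-free involution on a normal subgroup inverts it. -/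
theorem inv_of_fpf (t : G) (ht : t * t = 1) (N : Subgroup G) (hN : N.Normal)
    (hfix : ∀ n ∈ N, t * n = n * t → n = 1) : ∀ n ∈ N, t * n * t⁻¹ = n⁻¹ := by
  let f : N → N := fun n =>
    ⟨n.1⁻¹ * (t * n.1 * t⁻¹), N.mul_mem (N.inv_mem n.2) (hN.conj_mem n.1 n.2 t)⟩
  have hinj : Function.Injective f := by
    intro n m h
    have h' : n.1⁻¹ * (t * n.1 * t⁻¹) = m.1⁻¹ * (t * m.1 * t⁻¹) := congrArg Subtype.val h
    have h2 : t * (m.1 * n.1⁻¹) = (m.1 * n.1⁻¹) * t := by
      calc t * (m.1 * n.1⁻¹) = m.1 * (m.1⁻¹ * (t * m.1 * t⁻¹)) * t * n.1⁻¹ := by group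
        _ = m.1 * (n.1⁻¹ * (t * n.1 * t⁻¹)) * t * n.1⁻¹ := by rw [h']
        _ = (m.1 * n.1⁻¹) * t := by group
    have h3 := hfix _ (N.mul_mem m.2 (N.inv_mem n.2)) h2
    apply Subtype.ext
    exact (mul_inv_eq_one.mp h3).symm
  have hsurj := Finite.injective_iff_surjective.mp hinj
  intro n hn
  obtain ⟨m, hm⟩ := hsurj ⟨n, hn⟩
  have hm' : m.1⁻¹ * (t * m.1 * t⁻¹) = n := congrArg Subtype.val hm
  have htinv : t⁻¹ = t := inv_eq_of_mul_eq_one_right ht
  rw [← hm', htinv]
  have e1 : (m.1⁻¹ * (t * m.1 * t))⁻¹ = t⁻¹ * m.1⁻¹ * t⁻¹ * m.1 := by group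
  rw [e1, htinv]
  calc t * (m.1⁻¹ * (t * m.1 * t)) * t = t * m.1⁻¹ * t * m.1 * (t * t) := by group
    _ = t * m.1⁻¹ * t * m.1 := by rw [ht, mul_one]

/-- With three conjugate involutions in the four-group, a normal subgroup on which `x` acts
without fixed points is trivial. -/
theorem normal_trivial_of_fpf (x z : G) (hx : orderOf x = 2)
    (hcz : IsConj x z) (hcxz : IsConj x (x * z))
    (N : Subgroup G) (hN : N.Normal) (hfix : ∀ n ∈ N, x * n = n * x → n = 1) : N = ⊥ := by
  have hxx : x * x = 1 := c4_sq_of_order hx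
  have hfix' : ∀ t, IsConj x t → ∀ n ∈ N, t * n = n * t → n = 1 := by
    intro t ht n hn h
    obtain ⟨g, rfl⟩ := isConj_iff.mp ht
    have h2 : x * (g⁻¹ * n * g) = (g⁻¹ * n * g) * x := by
      calc x * (g⁻¹ * n * g) = g⁻¹ * ((g * x * g⁻¹) * n) * g := by group
        _ = g⁻¹ * (n * (g * x * g⁻¹)) * g := by rw [h]
        _ = (g⁻¹ * n * g) * x := by group
    have hmemN : g⁻¹ * n * g ∈ N := by
      have := hN.conj_mem n hn g⁻¹
      rwa [inv_inv] at this
    have h3 := hfix _ hmemN h2
    calc n = g * (g⁻¹ * n * g) * g⁻¹ := by group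
      _ = 1 := by rw [h3]; group
  have hzz : z * z = 1 := c4_sq_of_conj hxx hcz
  have hxzxz : (x * z) * (x * z) = 1 := c4_sq_of_conj hxx hcxz
  have i1 := inv_of_fpf x hxx N hN hfix
  have i2 := inv_of_fpf z hzz N hN (hfix' z hcz)
  have i3 := inv_of_fpf (x * z) hxzxz N hN (hfix' _ hcxz)
  rw [Subgroup.eq_bot_iff_forall]
  intro n hn
  have h4 : (x * z) * n * (x * z)⁻¹ = n := by
    calc (x * z) * n * (x * z)⁻¹ = x * (z * n * z⁻¹) * x⁻¹ := by group
      _ = x * n⁻¹ * x⁻¹ := by rw [i2 n hn]
      _ = (x * n * x⁻¹)⁻¹ := by group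
      _ = n := by rw [i1 n hn, inv_inv]
  have h5 : n = n⁻¹ := h4.symm.trans (i3 n hn)
  apply hfix n hn
  have h6 := i1 n hn
  rw [← h5] at h6
  calc x * n = (x * n * x⁻¹) * x := by group
    _ = n * x := by rw [h6]

/-- Case of three conjugate involutions: order 12 is impossible and order 60 gives a simple
group. -/
theorem caseI_finish (x z : G) (hx : orderOf x = 2)
    (hC4 : Nat.card (Subgroup.centralizer ({x} : Set G)) = 4)
    (hCe : ∀ c ∈ Subgroup.centralizer ({x} : Set G), c ^ 2 = 1)
    (hmem : ∀ c : G, c ∈ Subgroup.centralizer ({x} : Set G) ↔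
      (c = 1 ∨ c = x ∨ c = z ∨ c = x * z))
    (hz1 : z ≠ 1) (hzx : z ≠ x) (hcz : IsConj x z) (hcxz : IsConj x (x * z))
    (hcard : Nat.card G = 12 ∨ Nat.card G = 60)
    (hne : ∀ E : Subgroup G, E.Normal → Cfsg.IsElementaryAbelian 2 E →
      Nat.card ↥E ≠ 2 ∧ Nat.card ↥E ≠ 4) :
    Nat.card G = 60 ∧ IsSimpleGroup G := by
  classical
  letI : Fintype G := Fintype.ofFinite G
  set C := Subgroup.centralizer ({x} : Set G) with hC
  have hx1 : x ≠ 1 := c4_ne_one_of_order hx
  have hxx : x * x = 1 := c4_sq_of_order hx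
  have hzz : z * z = 1 := c4_sq_of_conj hxx hcz
  have hxC : x ∈ C := c4_self_mem x
  have hzC : z ∈ C := (hmem z).mpr (Or.inr (Or.inr (Or.inl rfl)))
  have hxzC : x * z ∈ C := (hmem _).mpr (Or.inr (Or.inr (Or.inr rfl)))
  have hxzx : x * z ≠ x := by
    intro h
    apply hz1
    calc z = x⁻¹ * (x * z) := by group
      _ = x⁻¹ * x := by rw [h]
      _ = 1 := by group
  have hxzz : x * z ≠ z := by
    intro h
    apply hx1
    calc x = (x * z) * z⁻¹ := by group
      _ = z * z⁻¹ := by rw [h]
      _ = 1 := by group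
  set K := Finset.univ.filter (fun g : G => IsConj g x) with hK
  have hKcard : K.card * 4 = Nat.card G := by
    rw [hK, Cfsg.Agent.Lib.Helper4.card_conj_class x, ← hC4, mul_comm]
    exact Subgroup.card_mul_index C
  have hxK : x ∈ K := by rw [hK, Finset.mem_filter]; exact ⟨Finset.mem_univ _, IsConj.refl x⟩
  have hzK : z ∈ K := by rw [hK, Finset.mem_filter]; exact ⟨Finset.mem_univ _, hcz.symm⟩
  have hxzK : x * z ∈ K := by rw [hK, Finset.mem_filter]; exact ⟨Finset.mem_univ _, hcxz.symm⟩
  have hCA : Cfsg.IsElementaryAbelian 2 C :=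
    ⟨IsPGroup.isMulCommutative_of_card_eq_prime_sq (p := 2) (by rw [hC4]; norm_num), hCe⟩
  rcases hcard with h12 | h60
  · exfalso
    have hK3 : K.card = 3 := by omega
    have hKeq : ({x, z, x * z} : Finset G) = K := by
      apply Finset.eq_of_subset_of_card_le
      · intro g hg
        simp only [Finset.mem_insert, Finset.mem_singleton] at hg
        rcases hg with rfl | rfl | rfl <;> assumption
      · rw [hK3, Finset.card_insert_of_notMem, Finset.card_pair (Ne.symm hxzz)]
        simp only [Finset.mem_insert, Finset.mem_singleton, not_or]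
        exact ⟨Ne.symm hzx, Ne.symm hxzx⟩
    have hCn : C.Normal := by
      constructor
      intro c hc g
      have hcK : c = 1 ∨ c ∈ K := by
        rcases (hmem c).mp hc with h | h | h | h
        · left; exact h
        · right; rw [h]; exact hxK
        · right; rw [h]; exact hzK
        · right; rw [h]; exact hxzK
      rcases hcK with h | h
      · rw [h]; simp
      · have h2 : g * c * g⁻¹ ∈ K := by
          rw [hK, Finset.mem_filter] at h ⊢
          exact ⟨Finset.mem_univ _, (isConj_iff.mpr ⟨g, rfl⟩ : IsConj c (g * c * g⁻¹)).symm.trans h.2⟩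
        rw [← hKeq] at h2
        simp only [Finset.mem_insert, Finset.mem_singleton] at h2
        rcases h2 with h2 | h2 | h2 <;> rw [h2] <;> assumption
    exact (hne C hCn hCA).2 hC4
  · refine ⟨h60, ?_⟩
    have hK15 : K.card = 15 := by omega
    haveI : Nontrivial G := Finite.one_lt_card_iff_nontrivial.mp (by rw [h60]; norm_num)
    refine ⟨fun N hN => ?_⟩
    by_cases hNC : ∃ n ∈ N, n ≠ 1 ∧ x * n = n * x
    · right
      obtain ⟨n, hnN, hn1, hnx⟩ := hNC
      have hconjN : ∀ t, IsConj x t → t ∈ N → x ∈ N := by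
        intro t ht htN
        obtain ⟨g, hg⟩ := isConj_iff.mp ht
        have e : x = g⁻¹ * t * g⁻¹⁻¹ := by rw [← hg]; group
        rw [e]
        exact hN.conj_mem t htN g⁻¹
      have hxN : x ∈ N := by
        rcases (hmem n).mp ((c4_mem_iff x n).mpr hnx) with h | h | h | h
        · exact absurd h hn1
        · rw [← h]; exact hnN
        · exact hconjN z hcz (h ▸ hnN)
        · exact hconjN _ hcxz (h ▸ hnN)
      have hKN : ∀ g ∈ K, g ∈ N := by
        intro g hg
        rw [hK, Finset.mem_filter] at hg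
        obtain ⟨c, hc⟩ := isConj_iff.mp hg.2.symm
        rw [← hc]
        exact hN.conj_mem x hxN c
      have hCN : C ≤ N := by
        intro c hc
        rcases (hmem c).mp hc with h | h | h | h
        · rw [h]; exact N.one_mem
        · rw [h]; exact hxN
        · rw [h]; exact hKN z hzK
        · rw [h]; exact hKN _ hxzK
      have h4 : 4 ∣ Nat.card N := by
        rw [← hC4]; exact Subgroup.card_dvd_of_le hCN
      have h60' : Nat.card N ∣ 60 := by
        rw [← h60]; exact Subgroup.card_subgroup_dvd_card N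
      have h16 : 16 ≤ Nat.card N := by
        have hsub : ((insert 1 K : Finset G) : Set G) ⊆ (N : Set G) := by
          intro g hg
          simp only [Finset.coe_insert, Set.mem_insert_iff, Finset.mem_coe] at hg
          rcases hg with rfl | hg
          · exact N.one_mem
          · exact hKN g hg
        have h1 := Set.ncard_le_ncard hsub (Set.toFinite _)
        have h1K : (1 : G) ∉ K := by
          rw [hK, Finset.mem_filter]
          rintro ⟨-, h⟩
          exact hx1 (isConj_one_right.mp h)
        rw [Set.ncard_coe_finset, Finset.card_insert_of_notMem h1K, hK15,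
          ← Nat.card_coe_set_eq] at h1
        exact h1
      have hN2060 : Nat.card N = 20 ∨ Nat.card N = 60 := by
        obtain ⟨a, ha⟩ := h4
        obtain ⟨b, hb⟩ := h60'
        rw [ha] at hb h16
        have hab : a * b = 15 := by
          have : 4 * (a * b) = 60 := by rw [← mul_assoc]; exact hb.symm
          omega
        have ha4 : 4 ≤ a := by omega
        have ha15 : a ≤ 15 := Nat.le_of_dvd (by norm_num) ⟨b, hab.symm⟩
        rw [ha]
        interval_cases a <;> omega
      rcases hN2060 with h20 | h60N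
      · exfalso
        haveI : Fact (Nat.Prime 5) := ⟨by norm_num⟩
        haveI := hN
        let P : Sylow 5 ↥N := default
        obtain ⟨k, hk⟩ := IsPGroup.iff_card.mp P.isPGroup'
        have hidx := Subgroup.card_mul_index (P : Subgroup ↥N)
        rw [h20, hk] at hidx
        have hnd := P.not_dvd_index
        have hk1 : k = 1 := by
          rcases Nat.lt_or_ge k 1 with h | h
          · have : k = 0 := by omega
            rw [this, pow_zero, one_mul] at hidx
            rw [hidx] at hnd
            exact absurd (by norm_num : 5 ∣ 20) hnd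
          · rcases Nat.lt_or_ge 1 k with h' | h'
            · exfalso
              have h25 : 25 ≤ 5 ^ k := by
                calc 25 = 5 ^ 2 := by norm_num
                  _ ≤ 5 ^ k := Nat.pow_le_pow_right (by norm_num) h'
              have hpos : 0 < (P : Subgroup ↥N).index :=
                Nat.pos_of_ne_zero (fun h0 => by rw [h0] at hidx; simp at hidx)
              nlinarith
            · omega
        rw [hk1, pow_one] at hidx hk
        have hidx4 : (P : Subgroup ↥N).index = 4 := by omega
        have hn5a : Nat.card (Sylow 5 ↥N) ≡ 1 [MOD 5] := card_sylow_modEq_one 5 ↥N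
        have hn5b : Nat.card (Sylow 5 ↥N) ∣ 4 := by
          rw [← hidx4]; exact P.card_dvd_index
        have hn5 : Nat.card (Sylow 5 ↥N) = 1 := by
          have hle := Nat.le_of_dvd (by norm_num) hn5b
          unfold Nat.ModEq at hn5a
          omega
        haveI : Subsingleton (Sylow 5 ↥N) := (Nat.card_eq_one_iff_unique.mp hn5).1
        have hQn : ((P : Subgroup ↥N).map N.subtype).Normal :=
          ConjAct.normal_of_characteristic_of_normal
        set Q := (P : Subgroup ↥N).map N.subtype with hQ
        have hQcard : Nat.card Q = 5 := by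
          rw [hQ, Subgroup.card_map_of_injective N.subtype_injective]
          exact hk
        have hQbot : Q = ⊥ := normal_trivial_of_fpf x z hx hcz hcxz Q hQn (by
          intro n hn h
          have hn2 : n ^ 2 = 1 := hCe n ((c4_mem_iff x n).mpr h)
          have hn5' : n ^ 5 = 1 := by
            have := pow_card_eq_one' (G := ↥Q) (x := ⟨n, hn⟩)
            rw [hQcard] at this
            exact congrArg Subtype.val this
          calc n = n ^ 5 * (n ^ 2)⁻¹ * (n ^ 2)⁻¹ := by group
            _ = 1 := by rw [hn5', hn2]; simp)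
        rw [hQbot, Subgroup.card_bot] at hQcard
        omega
      · exact Subgroup.eq_top_of_card_eq N (by rw [h60N, h60])
    · left
      push Not at hNC
      exact normal_trivial_of_fpf x z hx hcz hcxz N hN
        (fun n hn h => by_contra fun h1 => hNC n hn h1 h)

end CaseI

end Cfsg.Agent.Lib.Helper62
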