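import Mathlib
import Cfsg.Agent.Lib.Helper4.CharClosure
import Cfsg.Agent.Lib.Helper80.Twisted

set_option autoImplicit false
set_option maxHeartbeats 400000

namespace Cfsg.Agent.Lib.Helper62

open Cfsg Cfsg.Agent.Lib.Helper4
open scoped ComplexConjugate

section Ind

variable {G : Type*} [Group G] [Fintype G]

/-- If an irreducible character `χ` has `χ z = 2k - χ 1` for an involution `z` with
`|G| k ≤ |C(z)| χ(1)` and `k > 0`, then every conjugate of `z` commutes with `z`. -/
theorem conj_commute_of_char (z : G) (hz : z * z = 1) (χ : IrrCharacter G) (k d : ℕ)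
    (hk0 : 0 < k) (hd : (χ : G → ℂ) 1 = d) (hχz : (χ : G → ℂ) z = 2 * (k : ℂ) - d)
    (hk : Nat.card G * k ≤ Nat.card (Subgroup.centralizer ({z} : Set G)) * d) :
    ∀ g : G, g⁻¹ * z * g ∈ Subgroup.centralizer ({z} : Set G) := by
  classical
  set M := Subgroup.centralizer ({z} : Set G) with hM
  haveI : Fintype M := Fintype.ofFinite _
  haveI : Finite (IrrCharacter M) := irr_finite
  letI : Fintype (IrrCharacter M) := Fintype.ofFinite _
  haveI : Finite (IrrCharacter G) := irr_finite
  letI : Fintype (IrrCharacter G) := Fintype.ofFinite _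
  have hzM : z ∈ M := by
    rw [hM, Subgroup.mem_centralizer_iff]
    intro h hh
    rw [Set.mem_singleton_iff.mp hh]
  set zM : M := ⟨z, hzM⟩ with hzM'
  have hzc : zM ∈ Subgroup.center M := by
    rw [Subgroup.mem_center_iff]
    intro m
    apply Subtype.ext
    have hm : (m : G) ∈ Subgroup.centralizer ({z} : Set G) := m.2
    rw [Subgroup.mem_centralizer_iff] at hm
    exact (hm z rfl).symm
  have hzz : zM * zM = 1 := Subtype.ext hz
  set res : M → ℂ := fun m => (χ : G → ℂ) m with hres
  have hres_char : IsCharacter M res := isCharacter_restrict M _ (isCharacter_of_irr χ)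
  obtain ⟨mu, hmu⟩ := exists_decomp_of_isCharacter res hres_char
  have hω : ∀ φ : IrrCharacter M, ∃ w : ℂ, (w = 1 ∨ w = -1) ∧
      ∀ m : M, (φ : M → ℂ) (m * zM) = w * (φ : M → ℂ) m := by
    intro φ
    refine ⟨Cfsg.Agent.Lib.Helper80.cc φ zM, ?_,
      fun m => Cfsg.Agent.Lib.Helper80.irr_mul_central φ hzc m⟩
    have h1 := Cfsg.Agent.Lib.Helper80.irr_mul_central φ hzc zM
    have h2 := Cfsg.Agent.Lib.Helper80.irr_mul_central φ hzc 1
    rw [hzz] at h1
    rw [one_mul] at h2
    rw [h2] at h1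
    have hne := irr_one_ne_zero φ
    have h3 : (Cfsg.Agent.Lib.Helper80.cc φ zM - 1) * (Cfsg.Agent.Lib.Helper80.cc φ zM + 1)
        * (φ : M → ℂ) 1 = 0 := by linear_combination -h1
    rcases mul_eq_zero.mp h3 with h4 | h4
    · rcases mul_eq_zero.mp h4 with h5 | h5
      · left; exact sub_eq_zero.mp h5
      · right; exact eq_neg_of_add_eq_zero_left h5
    · exact absurd h4 hne
  choose w hw1 hw2 using hω
  set θ : M → ℂ := fun m => (res m + res (m * zM)) / 2 with hθ
  have hθ_eq : θ = ∑ φ : IrrCharacter M,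
      (((if w φ = 1 then mu φ else 0 : ℕ) : ℕ) : ℂ) • (φ : M → ℂ) := by
    funext m
    have e1 : ∀ m' : M, res m' = ∑ φ : IrrCharacter M, (mu φ : ℂ) * (φ : M → ℂ) m' := by
      intro m'
      rw [hmu]
      simp only [Finset.sum_apply, Pi.smul_apply, smul_eq_mul]
    simp only [hθ]
    rw [e1 m, e1 (m * zM), ← Finset.sum_add_distrib, Finset.sum_div]
    simp only [Finset.sum_apply, Pi.smul_apply, smul_eq_mul]
    refine Finset.sum_congr rfl fun φ _ => ?_
    rw [hw2 φ m]
    rcases hw1 φ with h | h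
    · rw [h, if_pos rfl]; ring
    · rw [h, if_neg (by norm_num)]; push_cast; ring
  have hθ_char : IsCharacter M θ := by
    rw [hθ_eq]
    exact isCharacter_sum_nat_irr _
  have hθ1 : θ 1 = (k : ℂ) := by
    simp only [hθ, hres]
    rw [one_mul]
    show ((χ : G → ℂ) ((1 : M) : G) + (χ : G → ℂ) (zM : G)) / 2 = (k : ℂ)
    rw [Subgroup.coe_one, hd]
    show ((d : ℂ) + (χ : G → ℂ) z) / 2 = (k : ℂ)
    rw [hχz]
    ring
  have hθz : θ zM = (k : ℂ) := by
    simp only [hθ, hres]
    rw [hzz]
    show ((χ : G → ℂ) (zM : G) + (χ : G → ℂ) ((1 : M) : G)) / 2 = (k : ℂ)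
    rw [Subgroup.coe_one, hd]
    show ((χ : G → ℂ) z + (d : ℂ)) / 2 = (k : ℂ)
    rw [hχz]
    ring
  have hinner : ∃ n : ℕ, 0 < n ∧ classInner θ res = (n : ℂ) := by
    refine ⟨∑ φ : IrrCharacter M, (if w φ = 1 then mu φ else 0) * mu φ, ?_, ?_⟩
    · by_contra hcon
      have h0 : ∑ φ : IrrCharacter M, (if w φ = 1 then mu φ else 0) * mu φ = 0 := by omega
      have hall := Finset.sum_eq_zero_iff.mp h0
      have hθ0 : θ = 0 := by
        rw [hθ_eq]
        apply Finset.sum_eq_zero
        intro φ _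
        have h1 := hall φ (Finset.mem_univ _)
        by_cases hwφ : w φ = 1
        · rw [if_pos hwφ] at h1 ⊢
          have : mu φ = 0 := by
            rcases Nat.mul_eq_zero.mp h1 with h | h <;> exact h
          rw [this]
          simp
        · rw [if_neg hwφ]
          simp
      rw [hθ0] at hθ1
      simp only [Pi.zero_apply] at hθ1
      have : (k : ℂ) ≠ 0 := by exact_mod_cast hk0.ne'
      exact this hθ1.symm
    · have h1 : classInner θ res = classInner
          (∑ φ : IrrCharacter M, (((if w φ = 1 then mu φ else 0 : ℕ) : ℕ) : ℂ) • (φ : M → ℂ))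
          (∑ φ : IrrCharacter M, (mu φ : ℂ) • (φ : M → ℂ)) := by
        rw [← hθ_eq, ← hmu]
      rw [h1, classInner_sum_sum_irr]
      push_cast
      refine Finset.sum_congr rfl fun φ _ => ?_
      rw [map_natCast]
  obtain ⟨n, hn0, hn⟩ := hinner
  have hfrob : classInner (indFun M θ) (χ : G → ℂ) = (n : ℂ) := by
    rw [frobenius_reciprocity M θ _ (isClassFunction_irr χ)]
    exact hn
  have hind_char : IsCharacter G (indFun M θ) := isCharacter_indFun M θ hθ_char
  obtain ⟨a, ha⟩ := exists_decomp_of_isCharacter _ hind_char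
  have haχ : a χ = n := by
    have h1 := classInner_sum_irr (fun ψ : IrrCharacter G => (a ψ : ℂ)) χ
    rw [← ha, hfrob] at h1
    exact_mod_cast h1.symm
  have hMpos : 0 < Nat.card M := Nat.card_pos
  have hM0 : (Nat.card M : ℂ) ≠ 0 := by exact_mod_cast hMpos.ne'
  have hind1 : indFun M θ 1 * (Nat.card M : ℂ) = (Nat.card G : ℂ) * k := by
    rw [indFun_apply]
    have h1 : ∀ x : G, extendByZero M θ (x⁻¹ * 1 * x) = (k : ℂ) := by
      intro x
      rw [mul_one, inv_mul_cancel]
      rw [show (1 : G) = ((1 : M) : G) from rfl, extendByZero_apply_mem, hθ1]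
    simp only [h1, Finset.sum_const, Finset.card_univ, nsmul_eq_mul]
    rw [Nat.card_eq_fintype_card (α := G)]
    field_simp
  have hex : ∀ ψ : IrrCharacter G, ∃ m : ℕ, 0 < m ∧ (ψ : G → ℂ) 1 = (m : ℂ) := irr_one_nat
  choose dn hdn0 hdn using hex
  have hdχ : dn χ = d := by
    have := hdn χ
    rw [hd] at this
    exact_mod_cast this.symm
  have hsumN : (∑ ψ : IrrCharacter G, a ψ * dn ψ) * Nat.card M = Nat.card G * k := by
    have h1 : indFun M θ 1 = ((∑ ψ : IrrCharacter G, a ψ * dn ψ : ℕ) : ℂ) := by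
      rw [ha]
      simp only [Finset.sum_apply, Pi.smul_apply, smul_eq_mul]
      push_cast
      exact Finset.sum_congr rfl fun ψ _ => by rw [hdn ψ]
    rw [h1] at hind1
    exact_mod_cast hind1
  have hle : ∑ ψ : IrrCharacter G, a ψ * dn ψ ≤ d := by
    have h1 : (∑ ψ : IrrCharacter G, a ψ * dn ψ) * Nat.card M ≤ d * Nat.card M := by
      rw [hsumN, mul_comm d]
      exact hk
    exact Nat.le_of_mul_le_mul_right h1 hMpos
  have hdpos : 0 < d := by rw [← hdχ]; exact hdn0 χ
  have hge : a χ * dn χ ≤ ∑ ψ : IrrCharacter G, a ψ * dn ψ :=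
    Finset.single_le_sum (f := fun ψ => a ψ * dn ψ) (fun i _ => Nat.zero_le _)
      (Finset.mem_univ χ)
  have hn1 : n = 1 := by
    rw [haχ, hdχ] at hge
    have h1 : n * d ≤ d := hge.trans hle
    have h2 : n * d ≤ 1 * d := by rwa [one_mul]
    have := Nat.le_of_mul_le_mul_right h2 hdpos
    omega
  have hsum_eq : ∑ ψ : IrrCharacter G, a ψ * dn ψ = d := by
    rw [haχ, hdχ, hn1, one_mul] at hge
    omega
  have hzero : ∀ ψ : IrrCharacter G, ψ ≠ χ → a ψ = 0 := by
    intro ψ hψ
    by_contra hne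
    have h1 : ∑ φ ∈ ({χ, ψ} : Finset (IrrCharacter G)), a φ * dn φ ≤
        ∑ φ : IrrCharacter G, a φ * dn φ :=
      Finset.sum_le_sum_of_subset (Finset.subset_univ _)
    rw [Finset.sum_pair (Ne.symm hψ), hsum_eq, haχ, hdχ, hn1, one_mul] at h1
    have h2 : 0 < a ψ * dn ψ := Nat.mul_pos (Nat.pos_of_ne_zero hne) (hdn0 ψ)
    omega
  have hindχ : indFun M θ = (χ : G → ℂ) := by
    rw [ha, Finset.sum_eq_single χ]
    · rw [haχ, hn1]
      simp
    · intro ψ _ hψ
      rw [hzero ψ hψ]
      simp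
    · intro h
      exact absurd (Finset.mem_univ _) h
  have hcard : Nat.card G * k = Nat.card M * d := by
    rw [← hsumN, hsum_eq, mul_comm]
  -- evaluate at z
  have hval : (Nat.card M : ℂ) * (χ : G → ℂ) z = ∑ x : G, extendByZero M θ (x⁻¹ * z * x) := by
    rw [← hindχ, indFun_apply]
    field_simp
  have hθbound : ∀ m : M, -(k : ℝ) ≤ (θ m).re := by
    intro m
    obtain ⟨nn, ρ, hρ⟩ := hθ_char
    have h1 := norm_char_le ρ m
    have h2 : ρ.character 1 = (nn : ℂ) := by
      rw [Representation.char_one]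
      simp
    have h3 : nn = k := by
      rw [hρ, hθ1] at h2
      exact_mod_cast h2.symm
    rw [hρ] at h1
    have h4 : (Module.finrank ℂ (Fin nn → ℂ) : ℝ) = (k : ℝ) := by
      rw [← h3]
      simp
    rw [h4] at h1
    have h5 := Complex.abs_re_le_norm (θ m)
    have h6 := abs_le.mp (h5.trans h1)
    exact h6.1
  intro g0
  by_contra hg0
  set r : G → ℝ := fun g => (extendByZero M θ (g⁻¹ * z * g)).re with hr
  set b : G → ℝ := fun g => if g ∈ M then (k : ℝ) else -(k : ℝ) with hb
  have hkpos : (0 : ℝ) < (k : ℝ) := by exact_mod_cast hk0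
  have hbr : ∀ g ∈ (Finset.univ : Finset G), b g ≤ r g := by
    intro g _
    simp only [hb, hr]
    by_cases hg : g ∈ M
    · rw [if_pos hg]
      have hgz : g⁻¹ * z * g = z := by
        rw [hM, Subgroup.mem_centralizer_iff] at hg
        have := hg z rfl
        rw [mul_assoc, this, ← mul_assoc, inv_mul_cancel, one_mul]
      rw [hgz, show z = (zM : G) from rfl, extendByZero_apply_mem, hθz]
      simp
    · rw [if_neg hg]
      by_cases hgm : g⁻¹ * z * g ∈ M
      · rw [extendByZero_apply_mem' M θ hgm]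
        exact hθbound _
      · rw [extendByZero_apply_not_mem M θ hgm]
        simp only [Complex.zero_re]
        linarith
  have hg0M : g0 ∉ M := by
    intro hg
    apply hg0
    rw [hM, Subgroup.mem_centralizer_iff] at hg
    have := hg z rfl
    have hgz : g0⁻¹ * z * g0 = z := by
      rw [mul_assoc, this, ← mul_assoc, inv_mul_cancel, one_mul]
    rw [hgz]
    exact hzM
  have hlt : ∃ g ∈ (Finset.univ : Finset G), b g < r g := by
    refine ⟨g0, Finset.mem_univ _, ?_⟩
    simp only [hb, hr]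
    rw [if_neg hg0M, extendByZero_apply_not_mem M θ hg0]
    simp only [Complex.zero_re]
    linarith
  have hsumlt := Finset.sum_lt_sum hbr hlt
  have hsumr : ∑ g : G, r g = (Nat.card M : ℝ) * (2 * (k : ℝ) - d) := by
    have h1 := congrArg Complex.re hval
    rw [Complex.re_sum] at h1
    rw [← h1, hχz]
    simp
  have hsumb : ∑ g : G, b g = 2 * (k : ℝ) * (Nat.card M : ℝ) - (k : ℝ) * (Nat.card G : ℝ) := by
    have h1 : ∀ g : G, b g = (if g ∈ M then 2 * (k : ℝ) else 0) - (k : ℝ) := by
      intro g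
      simp only [hb]
      by_cases hg : g ∈ M
      · rw [if_pos hg, if_pos hg]; ring
      · rw [if_neg hg, if_neg hg]; ring
    simp_rw [h1]
    rw [Finset.sum_sub_distrib, Finset.sum_ite, Finset.sum_const, Finset.sum_const_zero,
      Finset.sum_const, Finset.card_univ, add_zero, nsmul_eq_mul, nsmul_eq_mul]
    have h2 : (Finset.univ.filter (fun g : G => g ∈ M)).card = Nat.card M := by
      rw [Nat.card_eq_fintype_card, Fintype.card_subtype]
    rw [h2, Nat.card_eq_fintype_card (α := G)]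
    ring
  rw [hsumr, hsumb] at hsumlt
  have hcardR : (Nat.card G : ℝ) * (k : ℝ) = (Nat.card M : ℝ) * (d : ℝ) := by
    exact_mod_cast hcard
  nlinarith

end Ind

end Cfsg.Agent.Lib.Helper62
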