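import Mathlib

/-!
# Project EP (helper7, S5746), piece CERT (helper62)

Closure induction: labels invariant under a generating set are invariant under the closure, and
any two points of equal label are joined through the representative of the label.
-/

set_option autoImplicit false

namespace Cfsg.Agent.Lib.Helper7.EP

/-- CERT: from a generating set preserving the labels and a path to every point. -/
theorem EPCERT {X : Type*} [Group X] {n : ℕ} (ρ : X →* Equiv.Perm (Fin n)) (S : Set X)
    (c : Fin n → ℕ) (rep : ℕ → Fin n)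
    (hinvS : ∀ s ∈ S, ∀ i, c (ρ s i) = c i)
    (hpath : ∀ i : Fin n, ∃ l ∈ Subgroup.closure S, ρ l (rep (c i)) = i) :
    (∀ l ∈ Subgroup.closure S, ∀ i, c (ρ l i) = c i) ∧
    (∀ i j, c i = c j → ∃ l ∈ Subgroup.closure S, ρ l i = j) := by
  have h1 : ∀ l ∈ Subgroup.closure S, ∀ i, c (ρ l i) = c i := by
    intro l hl
    induction hl using Subgroup.closure_induction with
    | mem x hx => exact hinvS x hx
    | one =>
      intro i
      simp
    | mul x y _ _ ihx ihy =>
      intro i
      rw [map_mul, Equiv.Perm.mul_apply, ihx, ihy]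
    | inv x _ ih =>
      intro i
      have e4 : ρ x ((ρ x)⁻¹ i) = i := by simp
      have h := ih ((ρ x)⁻¹ i)
      rw [e4] at h
      rw [map_inv]
      exact h.symm
  refine ⟨h1, ?_⟩
  intro i j hij
  obtain ⟨l1, hl1, e1⟩ := hpath i
  obtain ⟨l2, hl2, e2⟩ := hpath j
  refine ⟨l2 * l1⁻¹, Subgroup.mul_mem _ hl2 (Subgroup.inv_mem _ hl1), ?_⟩
  have e3 : (ρ l1)⁻¹ i = rep (c i) := by
    rw [Equiv.Perm.inv_eq_iff_eq]
    exact e1.symm
  rw [map_mul, Equiv.Perm.mul_apply, map_inv, e3, hij, e2]

end Cfsg.Agent.Lib.Helper7.EP
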