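import Mathlib

set_option maxHeartbeats 400000
set_option autoImplicit false

/-!
# Involutions whose centralizer contains at most three involutions (S3279)

`few_invol` reduces S3279 to Glauberman's Z*-theorem (S0215), taken as a hypothesis `hZ`
for the group at hand.  Everything else is elementary (dihedral subgroups generated by two
involutions, normalizer growth in 2-groups, Sylow's theorems).
-/

namespace Cfsg.Agent.Lib.Helper62

section dihedral
variable {G : Type*} [Group G]

theorem orderOf_two_iff' (u : G) : orderOf u = 2 ↔ u * u = 1 ∧ u ≠ 1 := by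
  constructor
  · intro h
    refine ⟨?_, ?_⟩
    · rw [← sq, ← h]; exact pow_orderOf_eq_one u
    · intro h1; rw [h1, orderOf_one] at h; omega
  · rintro ⟨h1, h2⟩
    exact orderOf_eq_prime (by rw [sq]; exact h1) h2

theorem orderOf_conj' (g u : G) : orderOf (g * u * g⁻¹) = orderOf u := by
  rw [← MulAut.conj_apply, MulEquiv.orderOf_eq]

theorem invol_semiconj {a b : G} (ha : a * a = 1) (hb : b * b = 1) :
    SemiconjBy a (a * b)⁻¹ (a * b) := by
  show a * (a * b)⁻¹ = a * b * a
  have h1 : (a * b)⁻¹ = b * a := by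
    apply inv_eq_of_mul_eq_one_right
    calc a * b * (b * a) = a * (b * b) * a := by group
      _ = 1 := by rw [hb, mul_one, ha]
  rw [h1, mul_assoc]

theorem invol_semiconj' {a b : G} (ha : a * a = 1) (hb : b * b = 1) :
    SemiconjBy b (a * b)⁻¹ (a * b) := by
  show b * (a * b)⁻¹ = a * b * b
  have h1 : (a * b)⁻¹ = b * a := by
    apply inv_eq_of_mul_eq_one_right
    calc a * b * (b * a) = a * (b * b) * a := by group
      _ = 1 := by rw [hb, mul_one, ha]
  rw [h1, ← mul_assoc, hb, one_mul, mul_assoc, hb, mul_one]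

/-- Two involutions whose product has odd order are conjugate. -/
theorem isConj_of_odd_orderOf {a b : G} (ha : a * a = 1) (hb : b * b = 1)
    (hodd : Odd (orderOf (a * b))) : IsConj a b := by
  obtain ⟨k, hk⟩ := hodd
  rw [isConj_iff]
  refine ⟨(a * b) ^ k, ?_⟩
  have h1 : a * ((a * b)⁻¹) ^ k = (a * b) ^ k * a := (invol_semiconj ha hb).pow_right k
  have hbinv : b⁻¹ = b := inv_eq_of_mul_eq_one_right hb
  have hainv : a⁻¹ = a := inv_eq_of_mul_eq_one_right ha
  have h2 : (a * b) ^ k * (a * b) ^ k * (a * b) = 1 := by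
    rw [← pow_add, ← pow_succ]
    have : k + k + 1 = orderOf (a * b) := by omega
    rw [this, pow_orderOf_eq_one]
  calc (a * b) ^ k * a * ((a * b) ^ k)⁻¹ = (a * b) ^ k * (a * ((a * b)⁻¹) ^ k) := by
        rw [inv_pow, mul_assoc]
    _ = (a * b) ^ k * ((a * b) ^ k * a) := by rw [h1]
    _ = ((a * b) ^ k * (a * b) ^ k * (a * b)) * ((a * b)⁻¹ * a) := by group
    _ = (a * b)⁻¹ * a := by rw [h2, one_mul]
    _ = b := by rw [mul_inv_rev, hbinv, hainv, mul_assoc, ha, mul_one]

/-- If the product of two involutions has even order `2m`, its `m`-th power is an involution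
commuting with both. -/
theorem central_invol_of_even {a b : G} (ha : a * a = 1) (hb : b * b = 1) {m : ℕ} (hm : 0 < m)
    (hord : orderOf (a * b) = 2 * m) :
    orderOf ((a * b) ^ m) = 2 ∧ (a * b) ^ m * a = a * (a * b) ^ m ∧
      (a * b) ^ m * b = b * (a * b) ^ m := by
  have hw2 : ((a * b) ^ m) ^ 2 = 1 := by
    rw [← pow_mul, mul_comm, ← hord, pow_orderOf_eq_one]
  have hw1 : (a * b) ^ m ≠ 1 := pow_ne_one_of_lt_orderOf (by omega) (by omega)
  have hwinv : ((a * b) ^ m)⁻¹ = (a * b) ^ m := by
    apply inv_eq_of_mul_eq_one_right; rw [← sq]; exact hw2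
  refine ⟨orderOf_eq_prime hw2 hw1, ?_, ?_⟩
  · have h1 : a * ((a * b)⁻¹) ^ m = (a * b) ^ m * a := (invol_semiconj ha hb).pow_right m
    rw [inv_pow, hwinv] at h1
    exact h1.symm
  · have h1 : b * ((a * b)⁻¹) ^ m = (a * b) ^ m * b := (invol_semiconj' ha hb).pow_right m
    rw [inv_pow, hwinv] at h1
    exact h1.symm

end dihedral

section main
variable {G : Type*} [Group G] [Finite G]

/-- In a simple group, a central involution is the only involution. -/
theorem eq_of_central_invol [IsSimpleGroup G] (x y : G) (hx : orderOf x = 2) (hy : orderOf y = 2)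
    (hc : ∀ g : G, g * x = x * g) : y = x := by
  have hxx := (orderOf_two_iff' x).mp hx
  have hn : (Subgroup.zpowers x).Normal := by
    constructor
    intro n hn g
    obtain ⟨k, rfl⟩ := Subgroup.mem_zpowers_iff.mp hn
    have h1 : g * x ^ k = x ^ k * g := (Commute.zpow_right (hc g) k).eq
    rw [h1, mul_inv_cancel_right]
    exact Subgroup.zpow_mem _ (Subgroup.mem_zpowers x) k
  have htop : Subgroup.zpowers x = ⊤ := by
    rcases hn.eq_bot_or_eq_top with h | h
    · exfalso
      have : x ∈ Subgroup.zpowers x := Subgroup.mem_zpowers x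
      rw [h, Subgroup.mem_bot] at this
      exact hxx.2 this
    · exact h
  have hy' : y ∈ Subgroup.zpowers x := by rw [htop]; exact Subgroup.mem_top y
  rw [← mem_powers_iff_mem_zpowers] at hy'
  obtain ⟨k, hk⟩ := hy'
  have hk' : x ^ k = y := hk
  rcases Nat.even_or_odd k with ⟨j, hj⟩ | ⟨j, hj⟩
  · exfalso
    have : x ^ k = 1 := by rw [hj, ← two_mul, pow_mul, sq, hxx.1, one_pow]
    rw [← hk', this, orderOf_one] at hy
    omega
  · rw [← hk', hj, pow_succ, pow_mul, sq, hxx.1, one_pow, one_mul]

/-- The involutions of `C(x)` are `{x}` or `{x, y, xy}`. -/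
theorem invol_dich (x : G) (hx : orderOf x = 2)
    (h3 : Nat.card {u : ↥(Subgroup.centralizer ({x} : Set G)) // orderOf u = 2} ≤ 3) :
    (∀ u : G, orderOf u = 2 → u * x = x * u → u = x) ∨
    (∃ y : G, orderOf y = 2 ∧ y * x = x * y ∧ y ≠ x ∧
      ∀ u : G, orderOf u = 2 → u * x = x * u → u = x ∨ u = y ∨ u = x * y) := by
  classical
  by_cases hA : ∀ u : G, orderOf u = 2 → u * x = x * u → u = x
  · left; exact hA
  · right
    push_neg at hA
    obtain ⟨y, hy, hyx, hne⟩ := hA
    refine ⟨y, hy, hyx, hne, ?_⟩
    intro u hu hux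
    by_contra hcon
    push_neg at hcon
    obtain ⟨h1, h2, h3'⟩ := hcon
    have hxx := (orderOf_two_iff' x).mp hx
    have hyy := (orderOf_two_iff' y).mp hy
    have hxy : orderOf (x * y) = 2 := by
      rw [orderOf_two_iff']
      refine ⟨?_, ?_⟩
      · calc x * y * (x * y) = x * (y * x) * y := by group
          _ = x * (x * y) * y := by rw [hyx]
          _ = (x * x) * (y * y) := by group
          _ = 1 := by rw [hxx.1, hyy.1, one_mul]
      · intro h
        apply hne
        have : y = x⁻¹ := eq_inv_of_mul_eq_one_right h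
        rw [this]; exact inv_eq_of_mul_eq_one_right hxx.1
    have hxyx : x * y * x = x * (x * y) := by rw [mul_assoc, hyx]
    have memC : ∀ v : G, v * x = x * v → v ∈ Subgroup.centralizer ({x} : Set G) := by
      intro v hv
      rw [Subgroup.mem_centralizer_iff]
      intro w hw
      rw [Set.mem_singleton_iff] at hw
      rw [hw]; exact hv.symm
    obtain ⟨mk, hmk⟩ : ∃ mk : ∀ v : G, orderOf v = 2 → v * x = x * v →
        {u : ↥(Subgroup.centralizer ({x} : Set G)) // orderOf u = 2},
        ∀ v hv hvx, ((mk v hv hvx).1 : G) = v :=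
      ⟨fun v hv hvx => ⟨⟨v, memC v hvx⟩, by rw [Subgroup.orderOf_mk]; exact hv⟩,
        fun v hv hvx => rfl⟩
    haveI : Fintype {u : ↥(Subgroup.centralizer ({x} : Set G)) // orderOf u = 2} :=
      Fintype.ofFinite _
    have hinj : ∀ v hv hvx v' hv' hvx', mk v hv hvx = mk v' hv' hvx' → v = v' := by
      intro v hv hvx v' hv' hvx' h
      have := congrArg (fun a => ((a.1 : ↥(Subgroup.centralizer ({x} : Set G))) : G)) h
      simp only [hmk] at this
      exact this
    have hd1 : mk (x * y) hxy hxyx ∉ ({mk u hu hux} : Finset _) := by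
      rw [Finset.mem_singleton]
      exact fun h => h3' (hinj _ _ _ _ _ _ h).symm
    have hd2 : mk y hy hyx ∉ ({mk (x * y) hxy hxyx, mk u hu hux} : Finset _) := by
      rw [Finset.mem_insert, Finset.mem_singleton]
      rintro (h | h)
      · have e := hinj _ _ _ _ _ _ h
        -- y = x * y → x = 1
        apply hxx.2
        calc x = x * y * y⁻¹ := by group
          _ = y * y⁻¹ := by rw [← e]
          _ = 1 := by group
      · exact h2 (hinj _ _ _ _ _ _ h).symm
    have hd3 : mk x hx rfl ∉
        ({mk y hy hyx, mk (x * y) hxy hxyx, mk u hu hux} : Finset _) := by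
      rw [Finset.mem_insert, Finset.mem_insert, Finset.mem_singleton]
      rintro (h | h | h)
      · exact hne (hinj _ _ _ _ _ _ h).symm
      · have e := hinj _ _ _ _ _ _ h
        apply hyy.2
        calc y = x⁻¹ * (x * y) := by group
          _ = x⁻¹ * x := by rw [← e]
          _ = 1 := by group
      · exact h1 (hinj _ _ _ _ _ _ h).symm
    have hcard : ({mk x hx rfl, mk y hy hyx, mk (x * y) hxy hxyx, mk u hu hux} :
        Finset {u : ↥(Subgroup.centralizer ({x} : Set G)) // orderOf u = 2}).card = 4 := by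
      rw [Finset.card_insert_of_notMem hd3, Finset.card_insert_of_notMem hd2,
        Finset.card_insert_of_notMem hd1, Finset.card_singleton]
    have hle := Finset.card_le_univ ({mk x hx rfl, mk y hy hyx, mk (x * y) hxy hxyx, mk u hu hux} :
        Finset {u : ↥(Subgroup.centralizer ({x} : Set G)) // orderOf u = 2})
    rw [hcard, ← Nat.card_eq_fintype_card] at hle
    omega

/-- If `y ≠ x` is an involution of `C(x)` conjugate to `x`, then so is the third one `xy`. -/
theorem third_conj [IsSimpleGroup G] (x y : G) (hx : orderOf x = 2) (hy : orderOf y = 2)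
    (hyx : y * x = x * y) (hne : y ≠ x)
    (hI : ∀ u : G, orderOf u = 2 → u * x = x * u → u = x ∨ u = y ∨ u = x * y)
    (hxy : IsConj x y) : IsConj x (x * y) := by
  by_contra hnz
  have hxx := (orderOf_two_iff' x).mp hx
  have hyy := (orderOf_two_iff' y).mp hy
  obtain ⟨z, hzdef⟩ : ∃ z, z = x * y := ⟨_, rfl⟩
  rw [← hzdef] at hI hnz
  obtain ⟨g, hg⟩ := isConj_iff.mp hxy
  have hz : orderOf z = 2 := by
    rw [orderOf_two_iff', hzdef]
    refine ⟨?_, ?_⟩
    · calc x * y * (x * y) = x * (y * x) * y := by group
        _ = x * (x * y) * y := by rw [hyx]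
        _ = (x * x) * (y * y) := by group
        _ = 1 := by rw [hxx.1, hyy.1, one_mul]
    · intro h
      apply hne
      have : y = x⁻¹ := eq_inv_of_mul_eq_one_right h
      rw [this]; exact inv_eq_of_mul_eq_one_right hxx.1
  have hzy : z * y = y * z := by
    rw [hzdef, ← mul_assoc, hyx]
  have hnzy : ¬ IsConj y z := fun h => hnz (hxy.trans h)
  have Lx : ∀ u, orderOf u = 2 → u * x = x * u → IsConj z u → u = z := by
    intro u hu hux hzu
    rcases hI u hu hux with h | h | h
    · rw [h] at hzu; exact absurd hzu.symm hnz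
    · rw [h] at hzu; exact absurd hzu.symm hnzy
    · exact h
  have aux : ∀ u, orderOf u = 2 → u * y = y * u → IsConj z u → u = g * z * g⁻¹ := by
    intro u hu huy hzu
    have h1 : orderOf (g⁻¹ * u * g) = 2 := by
      have := orderOf_conj' g⁻¹ u
      rw [inv_inv] at this
      rw [this, hu]
    have h2 : (g⁻¹ * u * g) * x = x * (g⁻¹ * u * g) := by
      have hx' : x = g⁻¹ * y * g := by rw [← hg]; group
      calc g⁻¹ * u * g * x = g⁻¹ * u * g * (g⁻¹ * y * g) := by rw [← hx']
        _ = g⁻¹ * (u * y) * g := by group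
        _ = g⁻¹ * (y * u) * g := by rw [huy]
        _ = g⁻¹ * y * g * (g⁻¹ * u * g) := by group
        _ = x * (g⁻¹ * u * g) := by rw [← hx']
    have h3 : IsConj z (g⁻¹ * u * g) :=
      hzu.trans (isConj_iff.mpr ⟨g⁻¹, by rw [inv_inv]⟩)
    have h4 := Lx _ h1 h2 h3
    rw [← h4]; group
  have Ly : ∀ u, orderOf u = 2 → u * y = y * u → IsConj z u → u = z := by
    intro u hu huy hzu
    rw [aux u hu huy hzu, ← aux z hz hzy (IsConj.refl z)]
  -- `z` commutes with all its conjugates
  have hcomm : ∀ k : G, z * (k * z * k⁻¹) = (k * z * k⁻¹) * z := by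
    intro k
    obtain ⟨z', hz'def⟩ : ∃ z', z' = k * z * k⁻¹ := ⟨_, rfl⟩
    rw [← hz'def]
    have hz' : orderOf z' = 2 := by rw [hz'def, orderOf_conj', hz]
    have hzz' : IsConj z z' := isConj_iff.mpr ⟨k, hz'def.symm⟩
    have hz'z' := (orderOf_two_iff' z').mp hz'
    have hpos : 0 < orderOf (x * z') := orderOf_pos _
    rcases Nat.even_or_odd (orderOf (x * z')) with he | ho
    · obtain ⟨m, hm⟩ := he
      have hm' : orderOf (x * z') = 2 * m := by omega
      have hmpos : 0 < m := by omega
      obtain ⟨hw, hwx, hwz'⟩ := central_invol_of_even hxx.1 hz'z'.1 hmpos hm'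
      rcases hI _ hw hwx with h | h | h
      · rw [h] at hwz'
        rw [Lx z' hz' hwz'.symm hzz']
      · rw [h] at hwz'
        rw [Ly z' hz' hwz'.symm hzz']
      · rw [h] at hwz'
        exact hwz'
    · exact absurd ((isConj_of_odd_orderOf hxx.1 hz'z'.1 ho).trans hzz'.symm) hnz
  -- hence `z` is central
  have hle : Subgroup.normalClosure ({z} : Set G) ≤ Subgroup.centralizer ({z} : Set G) := by
    unfold Subgroup.normalClosure
    rw [Subgroup.closure_le]
    intro v hv
    rw [Group.mem_conjugatesOfSet_iff] at hv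
    obtain ⟨a, ha, hav⟩ := hv
    rw [Set.mem_singleton_iff] at ha
    subst ha
    obtain ⟨k, hk⟩ := isConj_iff.mp hav
    rw [SetLike.mem_coe, Subgroup.mem_centralizer_iff]
    intro w hw
    rw [Set.mem_singleton_iff] at hw
    rw [hw, ← hk]
    exact hcomm k
  have htop : Subgroup.normalClosure ({z} : Set G) = ⊤ := by
    rcases (Subgroup.normalClosure_normal (s := ({z} : Set G))).eq_bot_or_eq_top with h | h
    · exfalso
      have : z ∈ Subgroup.normalClosure ({z} : Set G) :=
        Subgroup.subset_normalClosure (Set.mem_singleton z)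
      rw [h, Subgroup.mem_bot] at this
      rw [this, orderOf_one] at hz; omega
    · exact h
  rw [htop] at hle
  have hzc : ∀ k : G, k * z = z * k := by
    intro k
    have := hle (Subgroup.mem_top k)
    rw [Subgroup.mem_centralizer_iff] at this
    exact (this z (Set.mem_singleton z)).symm
  -- so `z` is the only involution, contradiction
  exact hne ((eq_of_central_invol z y hz hy hzc).trans (eq_of_central_invol z x hz hx hzc).symm)

/-- S3279 modulo Glauberman's Z*-theorem for `G` (hypothesis `hZ`). -/
theorem few_invol [IsSimpleGroup G]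
    (hZ : ∀ (P : Sylow 2 G) (u : G), orderOf u = 2 → u ∈ P →
      (∀ g : G, g * u * g⁻¹ ∈ P → g * u * g⁻¹ = u) →
      ∃ N : Subgroup G, N.Normal ∧ Odd (Nat.card N) ∧ ∀ g : G, (u * g * u⁻¹ * g⁻¹) ∈ N)
    (x : G) (hx : orderOf x = 2)
    (h3 : Nat.card {u : ↥(Subgroup.centralizer ({x} : Set G)) // orderOf u = 2} ≤ 3) :
    (∃ S : Sylow 2 G, (S : Subgroup G) ≤ Subgroup.centralizer ({x} : Set G)) ∧
      ∀ u v : G, orderOf u = 2 → orderOf v = 2 → IsConj u v := by
  have hxx := (orderOf_two_iff' x).mp hx
  have h2grp : ∀ u : G, orderOf u = 2 → IsPGroup 2 (Subgroup.zpowers u) := by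
    intro u hu
    apply IsPGroup.of_card (n := 1)
    rw [Nat.card_zpowers, hu, pow_one]
  obtain ⟨P, hP⟩ := (h2grp x hx).exists_le_sylow
  have hxP : x ∈ (P : Subgroup G) := hP (Subgroup.mem_zpowers x)
  -- all involutions of `C(x)` are conjugate to `x`
  have core : ∀ u : G, orderOf u = 2 → u * x = x * u → IsConj x u := by
    rcases invol_dich x hx h3 with hA | ⟨y, hy, hyx, hne, hI⟩
    · intro u hu hux; rw [hA u hu hux]
    · have hyy := (orderOf_two_iff' y).mp hy
      have hxyord : orderOf (x * y) = 2 := by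
        rw [orderOf_two_iff']
        refine ⟨?_, ?_⟩
        · calc x * y * (x * y) = x * (y * x) * y := by group
            _ = x * (x * y) * y := by rw [hyx]
            _ = (x * x) * (y * y) := by group
            _ = 1 := by rw [hxx.1, hyy.1, one_mul]
        · intro h
          apply hne
          have : y = x⁻¹ := eq_inv_of_mul_eq_one_right h
          rw [this]; exact inv_eq_of_mul_eq_one_right hxx.1
      have h1 : IsConj x y ∨ IsConj x (x * y) := by
        by_cases hcen : ∀ s ∈ (P : Subgroup G), s * x = x * s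
        · by_contra hcon
          push_neg at hcon
          have hiso : ∀ g : G, g * x * g⁻¹ ∈ P → g * x * g⁻¹ = x := by
            intro g hg
            have ho : orderOf (g * x * g⁻¹) = 2 := by rw [orderOf_conj', hx]
            rcases hI _ ho (hcen _ hg) with h | h | h
            · exact h
            · exact absurd (isConj_iff.mpr ⟨g, h⟩) hcon.1
            · exact absurd (isConj_iff.mpr ⟨g, h⟩) hcon.2
          obtain ⟨N₀, hN₀n, hN₀odd, hN₀⟩ := hZ P x hx hxP hiso
          rcases hN₀n.eq_bot_or_eq_top with hbot | htop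
          · have hc : ∀ g : G, g * x = x * g := by
              intro g
              have h1 := hN₀ g
              rw [hbot, Subgroup.mem_bot] at h1
              calc g * x = (x * g * x⁻¹ * g⁻¹)⁻¹ * (x * g) := by group
                _ = x * g := by rw [h1, inv_one, one_mul]
            exact hne (eq_of_central_invol x y hx hy hc)
          · have h1 : 2 ∣ Nat.card G := by rw [← hx]; exact orderOf_dvd_natCard x
            rw [htop, Subgroup.card_top] at hN₀odd
            exact (Nat.not_even_iff_odd.mpr hN₀odd) (even_iff_two_dvd.mpr h1)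
        · push_neg at hcen
          obtain ⟨s, hs, hsx⟩ := hcen
          haveI : Group.IsNilpotent ↥(P : Subgroup G) := P.isPGroup'.isNilpotent
          obtain ⟨H, hH⟩ : ∃ H : Subgroup ↥(P : Subgroup G),
              H = (Subgroup.centralizer ({x} : Set G)).subgroupOf (P : Subgroup G) := ⟨_, rfl⟩
          have hmemH : ∀ a : ↥(P : Subgroup G), a ∈ H ↔ (a : G) * x = x * (a : G) := by
            intro a
            rw [hH, Subgroup.mem_subgroupOf, Subgroup.mem_centralizer_iff]
            constructor
            · intro h; exact (h x (Set.mem_singleton x)).symm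
            · intro h w hw
              rw [Set.mem_singleton_iff] at hw
              rw [hw]; exact h.symm
          have hHlt : H < ⊤ := by
            rw [lt_top_iff_ne_top]
            intro htop
            have : (⟨s, hs⟩ : ↥(P : Subgroup G)) ∈ H := by rw [htop]; exact Subgroup.mem_top _
            rw [hmemH] at this
            exact hsx this
          have hnc := normalizerCondition_of_isNilpotent (G := ↥(P : Subgroup G)) H hHlt
          obtain ⟨g, hgN, hgH⟩ := SetLike.exists_of_lt hnc
          have hx'H : (⟨x, hxP⟩ : ↥(P : Subgroup G)) ∈ H := by rw [hmemH]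
          have h2 := (Subgroup.mem_normalizer_iff.mp hgN _).mp hx'H
          rw [hmemH] at h2
          have h3' : (g : G) * x * (g : G)⁻¹ * x = x * ((g : G) * x * (g : G)⁻¹) := h2
          have h4 : (g : G) * x * (g : G)⁻¹ ≠ x := by
            intro h
            apply hgH
            rw [hmemH]
            exact mul_inv_eq_iff_eq_mul.mp h
          have ho : orderOf ((g : G) * x * (g : G)⁻¹) = 2 := by rw [orderOf_conj', hx]
          rcases hI _ ho h3' with h | h | h
          · exact absurd h h4
          · left; exact isConj_iff.mpr ⟨g, h⟩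
          · right; exact isConj_iff.mpr ⟨g, h⟩
      have hboth : IsConj x y ∧ IsConj x (x * y) := by
        rcases h1 with h | h
        · exact ⟨h, third_conj x y hx hy hyx hne hI h⟩
        · have hxy2 : x * (x * y) = y := by rw [← mul_assoc, hxx.1, one_mul]
          have hcomm' : x * y * x = x * (x * y) := by rw [mul_assoc, hyx]
          have hne' : x * y ≠ x := by
            intro e
            apply hyy.2
            calc y = x⁻¹ * (x * y) := by group
              _ = x⁻¹ * x := by rw [e]
              _ = 1 := by group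
          have h' := third_conj x (x * y) hx hxyord hcomm' hne' (fun u hu hux => by
              rcases hI u hu hux with h | h | h
              · left; exact h
              · right; right; rw [hxy2]; exact h
              · right; left; exact h) h
          rw [hxy2] at h'
          exact ⟨h', h⟩
      intro u hu hux
      rcases hI u hu hux with h | h | h
      · rw [h]
      · rw [h]; exact hboth.1
      · rw [h]; exact hboth.2
  -- a central involution of `P`
  obtain ⟨c, hcP, hc2, hcc⟩ : ∃ c ∈ (P : Subgroup G), orderOf c = 2 ∧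
      ∀ s ∈ (P : Subgroup G), s * c = c * s := by
    haveI : Nontrivial ↥(P : Subgroup G) :=
      ⟨⟨⟨x, hxP⟩, 1, fun h => hxx.2 (congrArg Subtype.val h)⟩⟩
    haveI : Nontrivial ↥(Subgroup.center ↥(P : Subgroup G)) := P.isPGroup'.center_nontrivial
    have hpg : IsPGroup 2 ↥(Subgroup.center ↥(P : Subgroup G)) := P.isPGroup'.to_subgroup _
    obtain ⟨k, hk⟩ := IsPGroup.iff_card.mp hpg
    have hk0 : k ≠ 0 := by
      intro h0
      rw [h0, pow_zero] at hk
      have := Finite.one_lt_card (α := ↥(Subgroup.center ↥(P : Subgroup G)))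
      omega
    have hdvd : 2 ∣ Nat.card ↥(Subgroup.center ↥(P : Subgroup G)) := by
      rw [hk]; exact dvd_pow_self 2 hk0
    obtain ⟨c, hc⟩ := exists_prime_orderOf_dvd_card' 2 hdvd
    refine ⟨((c : ↥(P : Subgroup G)) : G), (c : ↥(P : Subgroup G)).2, ?_, ?_⟩
    · rw [Subgroup.orderOf_coe, Subgroup.orderOf_coe]; exact hc
    · intro s hs
      have := Subgroup.mem_center_iff.mp c.2 ⟨s, hs⟩
      exact congrArg Subtype.val this
  -- first conclusion
  have hfirst : ∃ S : Sylow 2 G, (S : Subgroup G) ≤ Subgroup.centralizer ({x} : Set G) := by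
    obtain ⟨k, hk⟩ := isConj_iff.mp (core c hc2 (hcc x hxP).symm)
    refine ⟨k⁻¹ • P, ?_⟩
    intro s hs
    rw [Sylow.coe_subgroup_smul, Subgroup.mem_smul_pointwise_iff_exists] at hs
    obtain ⟨p, hp, rfl⟩ := hs
    rw [Subgroup.mem_centralizer_iff]
    intro w hw
    rw [Set.mem_singleton_iff] at hw
    rw [hw, MulAut.smul_def, MulAut.conj_apply, inv_inv]
    have h1 : p * c = c * p := hcc p hp
    rw [← hk] at h1
    -- p * (k x k⁻¹) = (k x k⁻¹) * p  ⊢ x * (k⁻¹ p k) = (k⁻¹ p k) * x
    calc x * (k⁻¹ * p * k) = k⁻¹ * ((k * x * k⁻¹) * p) * k := by group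
      _ = k⁻¹ * (p * (k * x * k⁻¹)) * k := by rw [h1]
      _ = k⁻¹ * p * k * x := by group
  refine ⟨hfirst, ?_⟩
  obtain ⟨S, hS⟩ := hfirst
  have hall : ∀ u : G, orderOf u = 2 → IsConj x u := by
    intro u hu
    obtain ⟨Q, hQ⟩ := (h2grp u hu).exists_le_sylow
    obtain ⟨g, hg⟩ := MulAction.exists_smul_eq G Q S
    have huS : g * u * g⁻¹ ∈ (S : Subgroup G) := by
      rw [← hg, Sylow.coe_subgroup_smul]
      have : g * u * g⁻¹ = MulAut.conj g • u := by
        rw [MulAut.smul_def, MulAut.conj_apply]
      rw [this]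
      exact Subgroup.smul_mem_pointwise_smul _ _ _ (hQ (Subgroup.mem_zpowers u))
    have h1 := hS huS
    rw [Subgroup.mem_centralizer_iff] at h1
    have h2 := (h1 x (Set.mem_singleton x)).symm
    have ho : orderOf (g * u * g⁻¹) = 2 := by rw [orderOf_conj', hu]
    exact (core _ ho h2).trans (isConj_iff.mpr ⟨g⁻¹, by group⟩)
  intro u v hu hv
  exact (hall u hu).symm.trans (hall v hv)

end main

end Cfsg.Agent.Lib.Helper62
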