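import Mathlib

set_option maxHeartbeats 400000
set_option autoImplicit false

/-!
# A fixed-point lemma for odd-index actions on abelian groups with a distinguished
level set of sign characters, and its application to 2-groups `Q × R` with `Q`
generalized quaternion.
-/

namespace Cfsg.Agent.Lib.Helper62

section abstract

variable {D A : Type*} [CommGroup D] [Finite D] [Group A] [Finite A]

/-- Let `A` act on the finite abelian group `D`, let `L` be an `A`-stable finite set of sign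
characters of `D` containing exactly one character `χz` with `χz z = -1`, and suppose `z` is fixed
by a subgroup of odd index.  Then `A` fixes a nontrivial element of `D`. -/
theorem exists_fixed (φ : A →* MulAut D) (L : Finset (D →* ℤˣ))
    (hL : ∀ a : A, ∀ χ ∈ L, χ.comp (φ a).toMonoidHom ∈ L)
    (z : D) (χz : D →* ℤˣ) (hχz : χz ∈ L) (hχzz : χz z = -1)
    (huniq : ∀ χ ∈ L, χ z = -1 → χ = χz)
    (B : Subgroup A) (hB : Odd B.index) (hBz : ∀ b ∈ B, φ b z = z) :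
    ∃ t : D, (∀ a : A, φ a t = t) ∧ t ≠ 1 := by
  classical
  obtain ⟨χ₀, hχ₀⟩ : ∃ χ₀ : D →* ℤˣ, χ₀ = ∏ χ ∈ L, χ := ⟨_, rfl⟩
  have happ : ∀ d : D, χ₀ d = ∏ χ ∈ L, χ d := by
    intro d; rw [hχ₀, MonoidHom.finset_prod_apply]
  -- χ₀ is A-invariant
  have h1 : ∀ (a : A) (d : D), χ₀ (φ a d) = χ₀ d := by
    intro a d
    rw [happ, happ]
    refine Finset.prod_nbij' (fun χ => χ.comp (φ a).toMonoidHom)
      (fun χ => χ.comp (φ a⁻¹).toMonoidHom) (fun χ hχ => hL a χ hχ) (fun χ hχ => hL a⁻¹ χ hχ)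
      ?_ ?_ ?_
    · intro χ _
      apply MonoidHom.ext
      intro x
      show χ (φ a (φ a⁻¹ x)) = χ x
      rw [map_inv, MulAut.apply_inv_self]
    · intro χ _
      apply MonoidHom.ext
      intro x
      show χ (φ a⁻¹ (φ a x)) = χ x
      rw [map_inv, MulAut.inv_apply_self]
    · intro χ _
      rfl
  -- χ₀ z = -1
  have h2 : χ₀ z = -1 := by
    rw [happ, Finset.prod_eq_single_of_mem χz hχz, hχzz]
    intro χ hχ hne
    rcases Int.units_eq_one_or (χ z) with h | h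
    · exact h
    · exact absurd (huniq χ hχ h) hne
  have h3 : ∀ a : A, χ₀ (φ a z) = -1 := fun a => (h1 a z).trans h2
  -- the orbit of z
  letI : MulAction A D := MulAction.compHom D φ
  have hsmul : ∀ (a : A) (d : D), a • d = φ a d := fun a d => rfl
  have hfin : (MulAction.orbit A z).Finite := Set.toFinite _
  have hodd : Odd hfin.toFinset.card := by
    rw [← Set.ncard_eq_toFinset_card _ hfin, ← MulAction.index_stabilizer]
    refine Odd.of_dvd_nat hB (Subgroup.index_dvd_of_le ?_)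
    intro b hb
    rw [MulAction.mem_stabilizer_iff, hsmul]
    exact hBz b hb
  refine ⟨∏ x ∈ hfin.toFinset, x, ?_, ?_⟩
  · intro a
    rw [map_prod]
    refine Finset.prod_nbij' (fun x => φ a x) (fun x => φ a⁻¹ x) ?_ ?_ ?_ ?_ ?_
    · intro x hx
      rw [Set.Finite.mem_toFinset] at hx ⊢
      exact MulAction.mem_orbit_of_mem_orbit a hx
    · intro x hx
      rw [Set.Finite.mem_toFinset] at hx ⊢
      exact MulAction.mem_orbit_of_mem_orbit a⁻¹ hx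
    · intro x _
      show φ a⁻¹ (φ a x) = x
      rw [map_inv, MulAut.inv_apply_self]
    · intro x _
      show φ a (φ a⁻¹ x) = x
      rw [map_inv, MulAut.apply_inv_self]
    · intro x _
      rfl
  · intro ht
    have h4 : χ₀ (∏ x ∈ hfin.toFinset, x) = -1 := by
      rw [map_prod]
      have h5 : ∀ x ∈ hfin.toFinset, χ₀ x = -1 := by
        intro x hx
        rw [Set.Finite.mem_toFinset] at hx
        obtain ⟨a, rfl⟩ := hx
        exact h3 a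
      rw [Finset.prod_congr rfl h5, Finset.prod_const, Odd.neg_one_pow hodd]
    rw [ht, map_one] at h4
    exact absurd h4 (by decide)

end abstract

/-- If a sum of signs over a finite set equals its cardinality, all signs are `1`. -/
theorem units_sum_eq_card {ι : Type*} (s : Finset ι) (f : ι → ℤˣ)
    (hs : ∑ i ∈ s, ((f i : ℤˣ) : ℤ) = s.card) : ∀ i ∈ s, f i = 1 := by
  have h0 : ∑ i ∈ s, (1 - ((f i : ℤˣ) : ℤ)) = 0 := by
    rw [Finset.sum_sub_distrib, hs]; simp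
  have hnn : ∀ i ∈ s, 0 ≤ 1 - ((f i : ℤˣ) : ℤ) := by
    intro i _
    rcases Int.units_eq_one_or (f i) with h | h <;> rw [h] <;> norm_num
  intro i hi
  have h1 := (Finset.sum_eq_zero_iff_of_nonneg hnn).mp h0 i hi
  rcases Int.units_eq_one_or (f i) with h | h
  · exact h
  · rw [h] at h1; norm_num at h1

section concrete

variable {N : Type*} [Group N]

/-- Hypotheses: `S = Q × R` (internal direct product), every involution of `R` is central in `R`,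
and `Q` behaves like a generalized quaternion group with central involution `z`. -/
structure QRHyp (S Q R : Subgroup N) (z : N) : Prop where
  hQS : Q ≤ S
  hRS : R ≤ S
  hcomm : ∀ a ∈ Q, ∀ b ∈ R, a * b = b * a
  hdisj : ∀ x, x ∈ Q → x ∈ R → x = 1
  hgen : ∀ s ∈ S, ∃ q ∈ Q, ∃ r ∈ R, s = q * r
  hR : ∀ r ∈ R, r * r = 1 → ∀ s ∈ R, r * s = s * r
  hzQ : z ∈ Q
  hz1 : z ≠ 1
  hzz : z * z = 1
  hzc : ∀ q ∈ Q, z * q = q * z
  hinv : ∀ q ∈ Q, q * q = 1 → q = 1 ∨ q = z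
  hthree : ∃ q₁ ∈ Q, ∃ q₂ ∈ Q, ∃ q₃ ∈ Q, q₁ ≠ q₂ ∧ q₁ ≠ q₃ ∧ q₂ ≠ q₃ ∧
    q₁ * q₁ = z ∧ q₂ * q₂ = z ∧ q₃ * q₃ = z

/-- The subgroup generated by the squares of the elements of `S` of order dividing 4. -/
def sqSub (S : Subgroup N) : Subgroup N :=
  Subgroup.closure {w | ∃ v ∈ S, v ^ 4 = 1 ∧ v ^ 2 = w}

theorem sq_mem_sqSub {S : Subgroup N} {v : N} (hv : v ∈ S) (h4 : v ^ 4 = 1) : v ^ 2 ∈ sqSub S :=
  Subgroup.subset_closure ⟨v, hv, h4, rfl⟩

theorem sqSub_normal (S : Subgroup N) [hS : S.Normal] : (sqSub S).Normal := by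
  constructor
  intro x hx g
  unfold sqSub at hx ⊢
  induction hx using Subgroup.closure_induction with
  | mem x hx =>
    obtain ⟨v, hv, h4, rfl⟩ := hx
    apply Subgroup.subset_closure
    refine ⟨g * v * g⁻¹, hS.conj_mem v hv g, ?_, ?_⟩
    · rw [conj_pow, h4]; group
    · rw [conj_pow]
  | one => rw [mul_one, mul_inv_cancel]; exact Subgroup.one_mem _
  | mul x y _ _ hx hy =>
    have : g * (x * y) * g⁻¹ = (g * x * g⁻¹) * (g * y * g⁻¹) := by group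
    rw [this]; exact Subgroup.mul_mem _ hx hy
  | inv x _ hx =>
    have : g * x⁻¹ * g⁻¹ = (g * x * g⁻¹)⁻¹ := by group
    rw [this]; exact Subgroup.inv_mem _ hx

instance sqSub_normal_inst (S : Subgroup N) [S.Normal] : (sqSub S).Normal := sqSub_normal S

open Classical in
/-- A retraction of the group onto a subgroup (junk value `1` outside). -/
noncomputable def toSub (D : Subgroup N) (x : N) : ↥D := if h : x ∈ D then ⟨x, h⟩ else 1

theorem toSub_of_mem {D : Subgroup N} {x : N} (h : x ∈ D) : toSub D x = ⟨x, h⟩ := dif_pos h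

theorem toSub_mul {D : Subgroup N} {x y : N} (hx : x ∈ D) (hy : y ∈ D) :
    toSub D (x * y) = toSub D x * toSub D y := by
  rw [toSub_of_mem hx, toSub_of_mem hy, toSub_of_mem (D.mul_mem hx hy)]; rfl

theorem toSub_one (D : Subgroup N) : toSub D 1 = 1 := by
  rw [toSub_of_mem D.one_mem]; rfl

/-- The character sum `∑_{v ∈ Ω} χ(v²)`. -/
noncomputable def charSum (S : Subgroup N) (Ω : Finset N) (χ : ↥(sqSub S) →* ℤˣ) : ℤ :=
  ∑ v ∈ Ω, ((χ (toSub (sqSub S) (v ^ 2)) : ℤˣ) : ℤ)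

theorem charSum_conj (S : Subgroup N) [hS : S.Normal] (Ω : Finset N)
    (hΩ : ∀ v, v ∈ Ω ↔ v ∈ S ∧ v ^ 4 = 1) (χ : ↥(sqSub S) →* ℤˣ) (g : N) :
    charSum S Ω (χ.comp (MulAut.conjNormal g : MulAut ↥(sqSub S)).toMonoidHom) = charSum S Ω χ := by
  unfold charSum
  refine Finset.sum_nbij' (fun v => g * v * g⁻¹) (fun v => g⁻¹ * v * g) ?_ ?_ ?_ ?_ ?_
  · intro v hv
    rw [hΩ] at hv ⊢
    refine ⟨hS.conj_mem v hv.1 g, ?_⟩
    rw [conj_pow, hv.2]; group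
  · intro v hv
    rw [hΩ] at hv ⊢
    have h1 := hS.conj_mem v hv.1 g⁻¹
    rw [inv_inv] at h1
    refine ⟨h1, ?_⟩
    have h2 : (g⁻¹ * v * g) ^ 4 = g⁻¹ * v ^ 4 * g⁻¹⁻¹ := by
      rw [← conj_pow, inv_inv]
    rw [h2, hv.2]; group
  · intro v _; group
  · intro v _; group
  · intro v hv
    rw [hΩ] at hv
    have hmem : v ^ 2 ∈ sqSub S := sq_mem_sqSub hv.1 hv.2
    have hmem' : (g * v * g⁻¹) ^ 2 ∈ sqSub S := by
      rw [conj_pow]; exact (sqSub_normal S).conj_mem _ hmem g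
    have h1 : (MulAut.conjNormal g : MulAut ↥(sqSub S)) (toSub (sqSub S) (v ^ 2)) =
        toSub (sqSub S) ((g * v * g⁻¹) ^ 2) := by
      apply Subtype.ext
      rw [MulAut.conjNormal_apply, toSub_of_mem hmem, toSub_of_mem hmem']
      show g * v ^ 2 * g⁻¹ = (g * v * g⁻¹) ^ 2
      rw [conj_pow]
    show ((χ ((MulAut.conjNormal g : MulAut ↥(sqSub S)) (toSub (sqSub S) (v ^ 2))) : ℤˣ) : ℤ) = _
    rw [h1]

namespace QRHyp

variable {S Q R : Subgroup N} {z : N}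

theorem mul_pow' (h : QRHyp S Q R z) {q r : N} (hq : q ∈ Q) (hr : r ∈ R) (k : ℕ) :
    (q * r) ^ k = q ^ k * r ^ k :=
  Commute.mul_pow (h.hcomm q hq r hr) k

theorem pow_eq_one (h : QRHyp S Q R z) {q r : N} (hq : q ∈ Q) (hr : r ∈ R) (k : ℕ)
    (hk : (q * r) ^ k = 1) : q ^ k = 1 ∧ r ^ k = 1 := by
  rw [h.mul_pow' hq hr] at hk
  have h1 : q ^ k = (r ^ k)⁻¹ := eq_inv_of_mul_eq_one_left hk
  have h2 : q ^ k = 1 :=
    h.hdisj _ (Q.pow_mem hq k) (by rw [h1]; exact R.inv_mem (R.pow_mem hr k))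
  refine ⟨h2, ?_⟩
  rw [h2, one_mul] at hk
  exact hk

theorem invol_central (h : QRHyp S Q R z) {x : N} (hx : x ∈ S) (hxx : x * x = 1) {s : N}
    (hs : s ∈ S) : x * s = s * x := by
  obtain ⟨q, hq, r, hr, rfl⟩ := h.hgen x hx
  obtain ⟨q', hq', r', hr', rfl⟩ := h.hgen s hs
  have h2 := h.pow_eq_one hq hr 2 (by rw [sq]; exact hxx)
  rw [sq, sq] at h2
  have hqq' : Commute q q' := by
    rcases h.hinv q hq h2.1 with h1 | h1
    · rw [h1]; exact Commute.one_left q'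
    · rw [h1]; exact h.hzc q' hq'
  have hqr' : Commute q r' := h.hcomm q hq r' hr'
  have hrq' : Commute r q' := (h.hcomm q' hq' r hr).symm
  have hrr' : Commute r r' := h.hR r hr h2.2 r' hr'
  exact (hqq'.mul_right hqr').mul_left (hrq'.mul_right hrr')

theorem sqSub_le (h : QRHyp S Q R z) {x : N} (hx : x ∈ sqSub S) : x ∈ S ∧ x * x = 1 := by
  unfold sqSub at hx
  induction hx using Subgroup.closure_induction with
  | mem x hx =>
    obtain ⟨v, hv, h4, rfl⟩ := hx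
    refine ⟨S.pow_mem hv 2, ?_⟩
    rw [← pow_add]; exact h4
  | one => exact ⟨S.one_mem, one_mul 1⟩
  | mul x y _ _ hx hy =>
    refine ⟨S.mul_mem hx.1 hy.1, ?_⟩
    have hc := h.invol_central hx.1 hx.2 hy.1
    calc x * y * (x * y) = x * (y * x) * y := by group
      _ = x * (x * y) * y := by rw [hc]
      _ = (x * x) * (y * y) := by group
      _ = 1 := by rw [hx.2, hy.2, one_mul]
  | inv x _ hx =>
    refine ⟨S.inv_mem hx.1, ?_⟩
    rw [← mul_inv_rev, hx.2, inv_one]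

theorem z_mem (h : QRHyp S Q R z) : z ∈ sqSub S := by
  obtain ⟨q₁, hq₁, -, -, -, -, -, -, -, h1, -, -⟩ := h.hthree
  have h2 : q₁ ^ 2 = z := by rw [sq]; exact h1
  have h4 : q₁ ^ 4 = 1 := by
    have : q₁ ^ 4 = q₁ ^ 2 * q₁ ^ 2 := by rw [← pow_add]
    rw [this, h2, h.hzz]
  rw [← h2]
  exact sq_mem_sqSub (h.hQS hq₁) h4

theorem z_not_mem (h : QRHyp S Q R z) : z ∉ R := fun hz => h.hz1 (h.hdisj z h.hzQ hz)

theorem mem_R_or (h : QRHyp S Q R z) {d : N} (hd : d ∈ sqSub S) : d ∈ R ∨ z * d ∈ R := by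
  obtain ⟨hdS, hdd⟩ := h.sqSub_le hd
  obtain ⟨q, hq, r, hr, rfl⟩ := h.hgen d hdS
  have h2 := h.pow_eq_one hq hr 2 (by rw [sq]; exact hdd)
  rw [sq, sq] at h2
  rcases h.hinv q hq h2.1 with h1 | h1
  · left; rw [h1, one_mul]; exact hr
  · right; rw [h1, ← mul_assoc, h.hzz, one_mul]; exact hr

theorem chi_sqQ (h : QRHyp S Q R z) (χ : ↥(sqSub S) →* ℤˣ)
    (hχ : χ (toSub (sqSub S) z) = -1) {q : N} (hq : q ∈ Q) (h4 : q ^ 4 = 1) :
    (q ^ 2 = 1 ∧ χ (toSub (sqSub S) (q ^ 2)) = 1) ∨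
    (q ^ 2 ≠ 1 ∧ χ (toSub (sqSub S) (q ^ 2)) = -1) := by
  by_cases h1 : q ^ 2 = 1
  · left
    refine ⟨h1, ?_⟩
    rw [h1, toSub_one, map_one]
  · right
    refine ⟨h1, ?_⟩
    have h2 : q ^ 2 * q ^ 2 = 1 := by rw [← pow_add]; exact h4
    rcases h.hinv _ (Q.pow_mem hq 2) h2 with h3 | h3
    · exact absurd h3 h1
    · rw [h3, hχ]

theorem charSum_factor (h : QRHyp S Q R z) (Ω ΩQ ΩR : Finset N)
    (hΩ : ∀ v, v ∈ Ω ↔ v ∈ S ∧ v ^ 4 = 1)
    (hΩQ : ∀ v, v ∈ ΩQ ↔ v ∈ Q ∧ v ^ 4 = 1) (hΩR : ∀ v, v ∈ ΩR ↔ v ∈ R ∧ v ^ 4 = 1)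
    (χ : ↥(sqSub S) →* ℤˣ) :
    charSum S Ω χ = charSum S ΩQ χ * charSum S ΩR χ := by
  unfold charSum
  rw [Finset.sum_mul_sum, ← Finset.sum_product']
  symm
  refine Finset.sum_nbij (fun p => p.1 * p.2) ?_ ?_ ?_ ?_
  · intro p hp
    rw [Finset.mem_product, hΩQ, hΩR] at hp
    rw [hΩ]
    refine ⟨S.mul_mem (h.hQS hp.1.1) (h.hRS hp.2.1), ?_⟩
    rw [h.mul_pow' hp.1.1 hp.2.1, hp.1.2, hp.2.2, one_mul]
  · intro p hp p' hp' heq
    rw [Finset.mem_coe, Finset.mem_product, hΩQ, hΩR] at hp hp'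
    have heq' : p.1 * p.2 = p'.1 * p'.2 := heq
    have h1 : p'.1⁻¹ * p.1 = p'.2 * p.2⁻¹ := by
      calc p'.1⁻¹ * p.1 = p'.1⁻¹ * (p.1 * p.2) * p.2⁻¹ := by group
        _ = p'.1⁻¹ * (p'.1 * p'.2) * p.2⁻¹ := by rw [heq']
        _ = p'.2 * p.2⁻¹ := by group
    have h2 : p'.1⁻¹ * p.1 = 1 := h.hdisj _ (Q.mul_mem (Q.inv_mem hp'.1.1) hp.1.1)
      (by rw [h1]; exact R.mul_mem hp'.2.1 (R.inv_mem hp.2.1))
    have h3 : p.1 = p'.1 := by
      rw [inv_mul_eq_one] at h2; exact h2.symm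
    have h4 : p.2 = p'.2 := by
      rw [h3] at heq'
      exact mul_left_cancel heq'
    exact Prod.ext h3 h4
  · intro v hv
    rw [Finset.mem_coe, hΩ] at hv
    obtain ⟨q, hq, r, hr, rfl⟩ := h.hgen v hv.1
    obtain ⟨hq4, hr4⟩ := h.pow_eq_one hq hr 4 hv.2
    refine ⟨(q, r), ?_, rfl⟩
    rw [Finset.mem_coe, Finset.mem_product, hΩQ, hΩR]
    exact ⟨⟨hq, hq4⟩, ⟨hr, hr4⟩⟩
  · intro p hp
    rw [Finset.mem_product, hΩQ, hΩR] at hp
    rw [h.mul_pow' hp.1.1 hp.2.1,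
      toSub_mul (sq_mem_sqSub (h.hQS hp.1.1) hp.1.2) (sq_mem_sqSub (h.hRS hp.2.1) hp.2.2),
      map_mul, Units.val_mul]

theorem charSum_Q [DecidableEq N] (h : QRHyp S Q R z) (ΩQ : Finset N)
    (hΩQ : ∀ v, v ∈ ΩQ ↔ v ∈ Q ∧ v ^ 4 = 1) (χ : ↥(sqSub S) →* ℤˣ)
    (hχ : χ (toSub (sqSub S) z) = -1) :
    charSum S ΩQ χ = ∑ q ∈ ΩQ, (if q ^ 2 = 1 then (1 : ℤ) else -1) := by
  unfold charSum
  refine Finset.sum_congr rfl (fun q hq => ?_)
  rw [hΩQ] at hq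
  rcases h.chi_sqQ χ hχ hq.1 hq.2 with ⟨h1, h2⟩ | ⟨h1, h2⟩
  · rw [if_pos h1, h2]; rfl
  · rw [if_neg h1, h2]; rfl

theorem alpha_neg [DecidableEq N] (h : QRHyp S Q R z) (ΩQ : Finset N)
    (hΩQ : ∀ v, v ∈ ΩQ ↔ v ∈ Q ∧ v ^ 4 = 1) :
    ∑ q ∈ ΩQ, (if q ^ 2 = 1 then (1 : ℤ) else -1) < 0 := by
  rw [Finset.sum_ite, Finset.sum_const, Finset.sum_const]
  have h1 : (ΩQ.filter (fun q => q ^ 2 = 1)).card ≤ 2 := by
    refine le_trans (Finset.card_le_card (t := {1, z}) ?_) Finset.card_le_two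
    intro q hq
    rw [Finset.mem_filter, hΩQ] at hq
    rw [Finset.mem_insert, Finset.mem_singleton]
    exact h.hinv q hq.1.1 (by rw [← sq]; exact hq.2)
  have h2 : 3 ≤ (ΩQ.filter (fun q => ¬ q ^ 2 = 1)).card := by
    obtain ⟨q₁, hq₁, q₂, hq₂, q₃, hq₃, h12, h13, h23, e1, e2, e3⟩ := h.hthree
    have hc : ({q₁, q₂, q₃} : Finset N).card = 3 :=
      Finset.card_eq_three.mpr ⟨q₁, q₂, q₃, h12, h13, h23, rfl⟩
    rw [← hc]
    apply Finset.card_le_card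
    intro q hq
    rw [Finset.mem_insert, Finset.mem_insert, Finset.mem_singleton] at hq
    have key : ∀ x ∈ Q, x * x = z → x ∈ ΩQ.filter (fun q => ¬ q ^ 2 = 1) := by
      intro x hx hxx
      rw [Finset.mem_filter, hΩQ]
      have hx2 : x ^ 2 = z := by rw [sq]; exact hxx
      refine ⟨⟨hx, ?_⟩, ?_⟩
      · have : x ^ 4 = x ^ 2 * x ^ 2 := by rw [← pow_add]
        rw [this, hx2, h.hzz]
      · rw [hx2]; exact h.hz1
    rcases hq with rfl | rfl | rfl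
    · exact key _ hq₁ e1
    · exact key _ hq₂ e2
    · exact key _ hq₃ e3
  have h1' : ((ΩQ.filter (fun q => q ^ 2 = 1)).card : ℤ) ≤ 2 := by exact_mod_cast h1
  have h2' : (3 : ℤ) ≤ ((ΩQ.filter (fun q => ¬ q ^ 2 = 1)).card : ℤ) := by exact_mod_cast h2
  simp only [nsmul_eq_mul, mul_one, mul_neg]
  linarith

theorem exists_chiZ (h : QRHyp S Q R z) :
    ∃ χz : ↥(sqSub S) →* ℤˣ, χz (toSub (sqSub S) z) = -1 ∧
      ∀ r ∈ R, r ^ 4 = 1 → χz (toSub (sqSub S) (r ^ 2)) = 1 := by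
  classical
  have hmul : ∀ a b : ↥(sqSub S),
      (if ((a * b : ↥(sqSub S)) : N) ∈ R then (1 : ℤˣ) else -1) =
      (if (a : N) ∈ R then (1 : ℤˣ) else -1) * (if (b : N) ∈ R then (1 : ℤˣ) else -1) := by
    intro a b
    by_cases ha : (a : N) ∈ R <;> by_cases hb : (b : N) ∈ R
    · have : ((a * b : ↥(sqSub S)) : N) ∈ R := R.mul_mem ha hb
      rw [if_pos ha, if_pos hb, if_pos this]; rfl
    · have : ((a * b : ↥(sqSub S)) : N) ∉ R := by
        intro hab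
        apply hb
        have e : (b : N) = (a : N)⁻¹ * ((a : N) * (b : N)) := by group
        rw [e]; exact R.mul_mem (R.inv_mem ha) hab
      rw [if_pos ha, if_neg hb, if_neg this]; rfl
    · have : ((a * b : ↥(sqSub S)) : N) ∉ R := by
        intro hab
        apply ha
        have e : (a : N) = ((a : N) * (b : N)) * (b : N)⁻¹ := by group
        rw [e]; exact R.mul_mem hab (R.inv_mem hb)
      rw [if_neg ha, if_pos hb, if_neg this]; rfl
    · have ha' : z * (a : N) ∈ R := (h.mem_R_or a.2).resolve_left ha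
      have hb' : z * (b : N) ∈ R := (h.mem_R_or b.2).resolve_left hb
      have hza : z * (a : N) = (a : N) * z :=
        h.invol_central (h.hQS h.hzQ) h.hzz (h.sqSub_le a.2).1
      have : ((a * b : ↥(sqSub S)) : N) ∈ R := by
        have e : (a : N) * (b : N) = (z * (a : N)) * (z * (b : N)) := by
          calc (a : N) * (b : N) = (a : N) * (z * z) * (b : N) := by rw [h.hzz, mul_one]
            _ = ((a : N) * z) * (z * (b : N)) := by group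
            _ = (z * (a : N)) * (z * (b : N)) := by rw [hza]
        show (a : N) * (b : N) ∈ R
        rw [e]; exact R.mul_mem ha' hb'
      rw [if_neg ha, if_neg hb, if_pos this]; rfl
  refine ⟨MonoidHom.mk' (fun d => if (d : N) ∈ R then (1 : ℤˣ) else -1) hmul, ?_, ?_⟩
  · show (if ((toSub (sqSub S) z : ↥(sqSub S)) : N) ∈ R then (1 : ℤˣ) else -1) = -1
    rw [toSub_of_mem h.z_mem, if_neg h.z_not_mem]
  · intro r hr h4
    show (if ((toSub (sqSub S) (r ^ 2) : ↥(sqSub S)) : N) ∈ R then (1 : ℤˣ) else -1) = 1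
    rw [toSub_of_mem (sq_mem_sqSub (h.hRS hr) h4), if_pos (R.pow_mem hr 2)]

theorem chi_unique (h : QRHyp S Q R z) (Ω ΩQ ΩR : Finset N)
    (hΩ : ∀ v, v ∈ Ω ↔ v ∈ S ∧ v ^ 4 = 1)
    (hΩQ : ∀ v, v ∈ ΩQ ↔ v ∈ Q ∧ v ^ 4 = 1) (hΩR : ∀ v, v ∈ ΩR ↔ v ∈ R ∧ v ^ 4 = 1)
    (χ χ' : ↥(sqSub S) →* ℤˣ) (hχ : χ (toSub (sqSub S) z) = -1)
    (hχ' : χ' (toSub (sqSub S) z) = -1)
    (hχ'R : ∀ r ∈ R, r ^ 4 = 1 → χ' (toSub (sqSub S) (r ^ 2)) = 1)
    (hF : charSum S Ω χ = charSum S Ω χ') : χ = χ' := by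
  classical
  rw [h.charSum_factor Ω ΩQ ΩR hΩ hΩQ hΩR χ, h.charSum_factor Ω ΩQ ΩR hΩ hΩQ hΩR χ',
    h.charSum_Q ΩQ hΩQ χ hχ, h.charSum_Q ΩQ hΩQ χ' hχ'] at hF
  have hα := h.alpha_neg ΩQ hΩQ
  have hB : charSum S ΩR χ = charSum S ΩR χ' := mul_left_cancel₀ (ne_of_lt hα) hF
  have hB' : charSum S ΩR χ' = ΩR.card := by
    unfold charSum
    rw [Finset.sum_congr rfl (fun r hr => by
      rw [hχ'R r ((hΩR r).mp hr).1 ((hΩR r).mp hr).2])]
    simp
  have hχR : ∀ r ∈ ΩR, χ (toSub (sqSub S) (r ^ 2)) = 1 :=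
    units_sum_eq_card ΩR (fun r => χ (toSub (sqSub S) (r ^ 2))) (hB.trans hB')
  have hgen : ∀ (d : N) (hd : d ∈ sqSub S), χ ⟨d, hd⟩ = χ' ⟨d, hd⟩ := by
    intro d hd
    refine Subgroup.closure_induction (k := {w | ∃ v ∈ S, v ^ 4 = 1 ∧ v ^ 2 = w})
      (p := fun d hd => χ ⟨d, hd⟩ = χ' ⟨d, hd⟩) ?_ ?_ ?_ ?_ hd
    · intro x hx
      obtain ⟨v, hv, h4, rfl⟩ := hx
      obtain ⟨q, hq, r, hr, rfl⟩ := h.hgen v hv
      obtain ⟨hq4, hr4⟩ := h.pow_eq_one hq hr 4 h4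
      have e : (⟨(q * r) ^ 2, Subgroup.subset_closure ⟨q * r, hv, h4, rfl⟩⟩ : ↥(sqSub S)) =
          toSub (sqSub S) (q ^ 2) * toSub (sqSub S) (r ^ 2) := by
        rw [← toSub_mul (sq_mem_sqSub (h.hQS hq) hq4) (sq_mem_sqSub (h.hRS hr) hr4),
          ← h.mul_pow' hq hr, toSub_of_mem (sq_mem_sqSub hv h4)]
      show χ ⟨(q * r) ^ 2, _⟩ = χ' ⟨(q * r) ^ 2, _⟩
      rw [e, map_mul, map_mul, hχR r ((hΩR r).mpr ⟨hr, hr4⟩), hχ'R r hr hr4]
      rcases h.chi_sqQ χ hχ hq hq4 with ⟨h1, h2⟩ | ⟨h1, h2⟩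
      · rcases h.chi_sqQ χ' hχ' hq hq4 with ⟨h1', h2'⟩ | ⟨h1', h2'⟩
        · rw [h2, h2']
        · exact absurd h1 h1'
      · rcases h.chi_sqQ χ' hχ' hq hq4 with ⟨h1', h2'⟩ | ⟨h1', h2'⟩
        · exact absurd h1' h1
        · rw [h2, h2']
    · exact (map_one χ).trans (map_one χ').symm
    · intro x y hx hy hx' hy'
      show χ (⟨x, hx⟩ * ⟨y, hy⟩) = χ' (⟨x, hx⟩ * ⟨y, hy⟩)
      rw [map_mul, map_mul, hx', hy']
    · intro x hx hx'
      show χ (⟨x, hx⟩⁻¹) = χ' (⟨x, hx⟩⁻¹)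
      rw [map_inv, map_inv, hx']
  apply MonoidHom.ext
  intro d
  exact hgen d.1 d.2

/-- Transfer of the hypotheses to a subgroup containing `S`. -/
theorem subgroupOf (h : QRHyp S Q R z) (K : Subgroup N) (hSK : S ≤ K) :
    QRHyp (S.subgroupOf K) (Q.subgroupOf K) (R.subgroupOf K)
      (⟨z, hSK (h.hQS h.hzQ)⟩ : ↥K) where
  hQS := fun x hx => h.hQS hx
  hRS := fun x hx => h.hRS hx
  hcomm := fun a ha b hb => Subtype.ext (h.hcomm a.1 ha b.1 hb)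
  hdisj := fun x hx hx' => Subtype.ext (h.hdisj x.1 hx hx')
  hgen := by
    intro s hs
    obtain ⟨q, hq, r, hr, e⟩ := h.hgen s.1 hs
    exact ⟨⟨q, hSK (h.hQS hq)⟩, hq, ⟨r, hSK (h.hRS hr)⟩, hr, Subtype.ext e⟩
  hR := fun r hr hrr s hs => Subtype.ext (h.hR r.1 hr (congrArg Subtype.val hrr) s.1 hs)
  hzQ := h.hzQ
  hz1 := fun e => h.hz1 (congrArg Subtype.val e)
  hzz := Subtype.ext h.hzz
  hzc := fun q hq => Subtype.ext (h.hzc q.1 hq)
  hinv := by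
    intro q hq hqq
    rcases h.hinv q.1 hq (congrArg Subtype.val hqq) with h1 | h1
    · left; exact Subtype.ext h1
    · right; exact Subtype.ext h1
  hthree := by
    obtain ⟨q₁, hq₁, q₂, hq₂, q₃, hq₃, h12, h13, h23, e1, e2, e3⟩ := h.hthree
    refine ⟨⟨q₁, hSK (h.hQS hq₁)⟩, hq₁, ⟨q₂, hSK (h.hQS hq₂)⟩, hq₂, ⟨q₃, hSK (h.hQS hq₃)⟩, hq₃,
      ?_, ?_, ?_, Subtype.ext e1, Subtype.ext e2, Subtype.ext e3⟩
    · exact fun e => h12 (congrArg Subtype.val e)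
    · exact fun e => h13 (congrArg Subtype.val e)
    · exact fun e => h23 (congrArg Subtype.val e)

/-- **Key lemma.** If `S = Q × R` is normal of odd index in the finite group `N`, then `N`
centralizes an involution of `S`. -/
theorem key [Finite N] (h : QRHyp S Q R z) [hS : S.Normal] (hSodd : Odd S.index) :
    ∃ t ∈ S, t ≠ 1 ∧ t * t = 1 ∧ ∀ g : N, g * t = t * g := by
  classical
  haveI : Fintype N := Fintype.ofFinite N
  letI : CommGroup ↥(sqSub S) := { (inferInstance : Group ↥(sqSub S)) with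
    mul_comm := fun a b => Subtype.ext
      (h.invol_central (h.sqSub_le a.2).1 (h.sqSub_le a.2).2 (h.sqSub_le b.2).1) }
  haveI : Finite (↥(sqSub S) →* ℤˣ) := Finite.of_injective _ DFunLike.coe_injective
  haveI : Fintype (↥(sqSub S) →* ℤˣ) := Fintype.ofFinite _
  obtain ⟨Ω, hΩ⟩ : ∃ Ω : Finset N, ∀ v, v ∈ Ω ↔ v ∈ S ∧ v ^ 4 = 1 :=
    ⟨Finset.univ.filter (fun v => v ∈ S ∧ v ^ 4 = 1), fun v => by simp⟩
  obtain ⟨ΩQ, hΩQ⟩ : ∃ Ω : Finset N, ∀ v, v ∈ Ω ↔ v ∈ Q ∧ v ^ 4 = 1 :=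
    ⟨Finset.univ.filter (fun v => v ∈ Q ∧ v ^ 4 = 1), fun v => by simp⟩
  obtain ⟨ΩR, hΩR⟩ : ∃ Ω : Finset N, ∀ v, v ∈ Ω ↔ v ∈ R ∧ v ^ 4 = 1 :=
    ⟨Finset.univ.filter (fun v => v ∈ R ∧ v ^ 4 = 1), fun v => by simp⟩
  obtain ⟨χz, hχz, hχzR⟩ := h.exists_chiZ
  obtain ⟨L, hL⟩ : ∃ L : Finset (↥(sqSub S) →* ℤˣ),
      ∀ χ, χ ∈ L ↔ charSum S Ω χ = charSum S Ω χz :=
    ⟨Finset.univ.filter (fun χ => charSum S Ω χ = charSum S Ω χz), fun χ => by simp⟩
  have hzD := h.z_mem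
  obtain ⟨t, ht, ht1⟩ := exists_fixed (MulAut.conjNormal : N →* MulAut ↥(sqSub S)) L
    (fun a χ hχ => by
      rw [hL] at hχ ⊢
      rw [charSum_conj S Ω hΩ χ a, hχ])
    (toSub (sqSub S) z) χz ((hL χz).mpr rfl) hχz
    (fun χ hχ hχz' => h.chi_unique Ω ΩQ ΩR hΩ hΩQ hΩR χ χz hχz' hχz hχzR ((hL χ).mp hχ))
    S hSodd
    (fun b hb => by
      apply Subtype.ext
      rw [MulAut.conjNormal_apply, toSub_of_mem hzD]
      show b * z * b⁻¹ = z
      rw [mul_inv_eq_iff_eq_mul]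
      exact (h.invol_central (h.hQS h.hzQ) h.hzz hb).symm)
  refine ⟨t.1, (h.sqSub_le t.2).1, fun e => ht1 (Subtype.ext e), (h.sqSub_le t.2).2, ?_⟩
  intro g
  have h1 := congrArg Subtype.val (ht g)
  rw [MulAut.conjNormal_apply] at h1
  exact mul_inv_eq_iff_eq_mul.mp h1

end QRHyp

end concrete

end Cfsg.Agent.Lib.Helper62
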