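import Mathlib
import Cfsg.Agent.Lib.Helper62.MargDefs

set_option autoImplicit false

/-!
# Marggraf's theorem: the lattice of flats in the critical configuration
-/

namespace Cfsg.Agent.Lib.Helper62.Marg

open MulAction
open scoped Pointwise

section core

variable {G : Type*} {Ω : Type*} [Group G] [MulAction G Ω]

theorem exists_max_ncard [Finite Ω] (P : Set Ω → Prop) {X : Set Ω} (hX : P X) :
    ∃ Y, P Y ∧ ∀ Y', P Y' → Y'.ncard ≤ Y.ncard := by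
  classical
  have hfin : {Y : Set Ω | P Y}.Finite := Set.toFinite _
  obtain ⟨Y, hY, hmax⟩ := Set.exists_max_image {Y : Set Ω | P Y} Set.ncard hfin ⟨X, hX⟩
  exact ⟨Y, hY, fun Y' hY' => hmax Y' hY'⟩

theorem exists_min_ncard [Finite Ω] (P : Set Ω → Prop) {X : Set Ω} (hX : P X) :
    ∃ Y, P Y ∧ ∀ Y', P Y' → Y.ncard ≤ Y'.ncard := by
  classical
  have hfin : {Y : Set Ω | P Y}.Finite := Set.toFinite _
  obtain ⟨Y, hY, hmin⟩ := Set.exists_min_image {Y : Set Ω | P Y} Set.ncard hfin ⟨X, hX⟩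
  exact ⟨Y, hY, fun Y' hY' => hmin Y' hY'⟩

theorem Crit.ne_univ [Finite Ω] {Γ : Set Ω} {m t : ℕ} (hc : Crit G Γ m t) : Γ ≠ Set.univ := by
  intro h
  have h1 := hc.cardΓ
  rw [h, Set.ncard_univ, hc.card] at h1
  have := hc.tm
  have := hc.t3
  omega

/-! ## Piece D : separation by maximal subflats -/

theorem exists_maxflat_sep [Finite Ω] {Γ X : Set Ω} {m t : ℕ} (hc : Crit G Γ m t)
    (hX : Flat G X) (hXΓ : X ⊆ Γ) (hne : X ≠ Γ) {γ : Ω} (hγ : γ ∈ Γ) (hγX : γ ∉ X) :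
    ∃ E : Set Ω, IsMaxFlat G Γ E ∧ X ⊆ E ∧ γ ∉ E := by
  classical
  have hΓuniv : Γ ≠ Set.univ := hc.ne_univ
  obtain ⟨Xs, hXs, hmax⟩ := exists_max_ncard
    (fun Y : Set Ω => Flat G Y ∧ X ⊆ Y ∧ Y ⊆ Γ ∧ γ ∉ Y) ⟨hX, subset_rfl, hXΓ, hγX⟩
  obtain ⟨hXsflat, hXXs, hXsΓ, hγXs⟩ := hXs
  by_cases hmaxflat : IsMaxFlat G Γ Xs
  · exact ⟨Xs, hmaxflat, hXXs, hγXs⟩
  · exfalso
    have hXsne : Xs ≠ Γ := fun h => hγXs (h ▸ hγ)
    have hex : ∃ W, Flat G W ∧ Xs ⊆ W ∧ W ⊆ Γ ∧ W ≠ Γ ∧ W ≠ Xs := by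
      by_contra hcon
      apply hmaxflat
      refine ⟨hXsflat, hXsΓ, hXsne, fun W hW h1 h2 h3 => ?_⟩
      by_contra h4
      exact hcon ⟨W, hW, h1, h2, h3, h4⟩
    obtain ⟨W₀, hW₀⟩ := hex
    obtain ⟨W, hW, hmin⟩ := exists_min_ncard
      (fun W : Set Ω => Flat G W ∧ Xs ⊆ W ∧ W ⊆ Γ ∧ W ≠ Γ ∧ W ≠ Xs) hW₀
    obtain ⟨hWflat, hXsW, hWΓ, hWne, hWXs⟩ := hW
    have key : ∀ Y : Set Ω, Flat G Y → Xs ⊆ Y → Y ⊆ Γ → Y ≠ Xs → γ ∈ Y := by
      intro Y hY h1 h2 h3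
      by_contra hγY
      have hle := hmax Y ⟨hY, hXXs.trans h1, h2, hγY⟩
      exact h3 (Set.eq_of_subset_of_ncard_le h1 hle (Set.toFinite _)).symm
    have hγW : γ ∈ W := key W hWflat hXsW hWΓ hWXs
    obtain ⟨w, hwW, hwXs⟩ : ∃ w, w ∈ W ∧ w ∉ Xs := by
      by_contra hcon
      push_neg at hcon
      exact hWXs (Set.Subset.antisymm hcon hXsW)
    obtain ⟨γ', hγ'Γ, hγ'W⟩ : ∃ γ', γ' ∈ Γ ∧ γ' ∉ W := by
      by_contra hcon
      push_neg at hcon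
      exact hWne (Set.Subset.antisymm hWΓ hcon)
    have hγ'Xs : γ' ∉ Xs := fun h => hγ'W (hXsW h)
    obtain ⟨y, hy, hyw⟩ := hXsflat w hwXs γ' hγ'Xs
    have hyWflat : Flat G (y • W) := flat_smul y hWflat
    have hγ'yW : γ' ∈ y • W := hyw ▸ Set.smul_mem_smul_set hwW
    have hXsyW : Xs ⊆ y • W := by
      intro x hx
      have := Set.smul_mem_smul_set (a := y) (hXsW hx)
      rwa [hy x hx] at this
    have hWlt : W.ncard < Γ.ncard :=
      Set.ncard_lt_ncard ⟨hWΓ, fun h => hWne (Set.Subset.antisymm hWΓ h)⟩ (Set.toFinite _)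
    have hunion : y • W ∪ Γ ≠ Set.univ := by
      intro hu
      have h1 := Set.ncard_union_add_ncard_inter (y • W) Γ
      rw [hu, Set.ncard_univ, hc.card, Set.ncard_smul_set, hc.cardΓ] at h1
      have h2 : 0 < (y • W ∩ Γ).ncard := (Set.ncard_pos (Set.toFinite _)).mpr ⟨γ', hγ'yW, hγ'Γ⟩
      rw [hc.cardΓ] at hWlt
      omega
    have hW'flat : Flat G (y • W ∩ Γ) := flat_inter hyWflat hc.flatΓ hunion
    have hW'ne : y • W ∩ Γ ≠ Xs := fun h => hγ'Xs (h ▸ ⟨hγ'yW, hγ'Γ⟩)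
    have hγW' : γ ∈ y • W ∩ Γ :=
      key _ hW'flat (Set.subset_inter hXsyW hXsΓ) Set.inter_subset_right hW'ne
    have hWW'flat : Flat G (W ∩ (y • W ∩ Γ)) := by
      apply flat_inter hWflat hW'flat
      intro hu
      apply hΓuniv
      apply Set.eq_univ_of_univ_subset
      rw [← hu]
      exact Set.union_subset hWΓ Set.inter_subset_right
    have hle := hmin (W ∩ (y • W ∩ Γ)) ⟨hWW'flat,
      Set.subset_inter hXsW (Set.subset_inter hXsyW hXsΓ), Set.inter_subset_left.trans hWΓ,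
      fun h => hWne (Set.Subset.antisymm hWΓ (h ▸ Set.inter_subset_left)),
      fun h => hγXs (h ▸ ⟨hγW, hγW'⟩)⟩
    have heq : W ∩ (y • W ∩ Γ) = W :=
      Set.eq_of_subset_of_ncard_le Set.inter_subset_left hle (Set.toFinite _)
    have hWsub : W ⊆ y • W := by
      intro x hx
      have hx' : x ∈ W ∩ (y • W ∩ Γ) := by rw [heq]; exact hx
      exact hx'.2.1
    have hWeq : W = y • W :=
      Set.eq_of_subset_of_ncard_le hWsub (by rw [Set.ncard_smul_set]) (Set.toFinite _)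
    exact hγ'W (hWeq ▸ hγ'yW)

/-! ## Piece C : the pencil of a maximal subflat -/

theorem mgC_block [Finite Ω] {Γ E : Set Ω} {m t : ℕ} (hc : Crit G Γ m t)
    (hE : IsMaxFlat G Γ E) (hE2 : 2 ≤ E.ncard) (y : G) (hy : ∀ x ∈ E, y • x = x) :
    y • Γ = Γ ∨ y • Γ ∩ Γ = E := by
  obtain ⟨hEflat, hEΓ, hEne, hEmax⟩ := hE
  have hEy : E ⊆ y • Γ := by
    intro x hx
    have := Set.smul_mem_smul_set (a := y) (hEΓ hx)
    rwa [hy x hx] at this
  have hunion : y • Γ ∪ Γ ≠ Set.univ := by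
    intro hu
    have h1 := Set.ncard_union_add_ncard_inter (y • Γ) Γ
    rw [hu, Set.ncard_univ, hc.card, Set.ncard_smul_set, hc.cardΓ] at h1
    have h2 : E.ncard ≤ (y • Γ ∩ Γ).ncard :=
      Set.ncard_le_ncard (Set.subset_inter hEy hEΓ) (Set.toFinite _)
    omega
  have hflat : Flat G (y • Γ ∩ Γ) := flat_inter (flat_smul y hc.flatΓ) hc.flatΓ hunion
  by_cases h : y • Γ ∩ Γ = Γ
  · left
    have hsub : Γ ⊆ y • Γ := by
      intro x hx
      have hx' : x ∈ y • Γ ∩ Γ := by rw [h]; exact hx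
      exact hx'.1
    exact (Set.eq_of_subset_of_ncard_le hsub (by rw [Set.ncard_smul_set]) (Set.toFinite _)).symm
  · right
    exact hEmax _ hflat (Set.subset_inter hEy hEΓ) Set.inter_subset_right h

theorem mgC_translate [Finite Ω] {Γ E : Set Ω} {m t : ℕ} (hc : Crit G Γ m t)
    (hE : IsMaxFlat G Γ E) (hE2 : 2 ≤ E.ncard) (y : G) (hy : ∀ x ∈ E, y • x = x)
    (hyΓ : y • Γ ≠ Γ) : y • (Γ \ E) ⊆ Γᶜ := by
  have hyΓ' : y • Γ ∩ Γ = E := (mgC_block hc hE hE2 y hy).resolve_left hyΓ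
  rintro _ ⟨x, hx, rfl⟩
  intro hmem
  have h1 : y • x ∈ y • Γ ∩ Γ := ⟨Set.smul_mem_smul_set hx.1, hmem⟩
  rw [hyΓ'] at h1
  have h2 := hy _ h1
  have h3 : y • x = x := smul_left_cancel y h2
  rw [h3] at h1
  exact hx.2 h1

theorem maxflat_compl [Finite Ω] {Γ E : Set Ω} {m t : ℕ} (hc : Crit G Γ m t)
    (hE : IsMaxFlat G Γ E) :
    2 ≤ (Γ \ E).ncard ∧ 2 * (Γ \ E).ncard ≤ m ∧
      ∀ c ∈ Γ \ E, ∀ c' ∈ Γ \ E, ∃ g : G, (∀ x ∈ E, g • x = x) ∧ g • Γ = Γ ∧ g • c = c' := by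
  classical
  have hE' := hE
  obtain ⟨hEflat, hEΓ, hEne, hEmax⟩ := hE
  have ht3 := hc.t3
  have htm := hc.tm
  have hE2 : 2 ≤ E.ncard := by
    by_contra hlt
    push_neg at hlt
    obtain ⟨W, hEW, hWΓ, hW2⟩ := Set.exists_subsuperset_card_eq hEΓ (by omega : E.ncard ≤ 2)
      (by rw [hc.cardΓ]; omega)
    have hWflat : Flat G W := hc.small W (by omega)
    have hWne : W ≠ Γ := by
      intro h
      rw [h, hc.cardΓ] at hW2
      omega
    have := hEmax W hWflat hEW hWΓ hWne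
    rw [this] at hW2
    omega
  have hEcard : (Γ \ E).ncard + E.ncard = m + 1 := by
    rw [← hc.cardΓ]
    exact Set.ncard_sdiff_add_ncard_of_subset hEΓ (Set.toFinite _)
  have h3 : ∀ c ∈ Γ \ E, ∀ c' ∈ Γ \ E,
      ∃ g : G, (∀ x ∈ E, g • x = x) ∧ g • Γ = Γ ∧ g • c = c' := by
    intro c hc1 c' hc'
    obtain ⟨g, hg, hgc⟩ := hEflat c hc1.2 c' hc'.2
    refine ⟨g, hg, ?_, hgc⟩
    rcases mgC_block hc hE' hE2 g hg with h | h
    · exact h
    · exfalso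
      have h1 : c' ∈ g • Γ ∩ Γ := ⟨hgc ▸ Set.smul_mem_smul_set hc1.1, hc'.1⟩
      rw [h] at h1
      exact hc'.2 h1
  have hpos : 0 < (Γ \ E).ncard := by
    rw [Set.ncard_pos (Set.toFinite _)]
    by_contra hemp
    rw [Set.not_nonempty_iff_eq_empty, Set.sdiff_eq_empty] at hemp
    exact hEne (Set.Subset.antisymm hEΓ hemp)
  have hC1 : 2 ≤ (Γ \ E).ncard := by
    by_contra hlt
    push_neg at hlt
    have : E.ncard = m := by omega
    exact hc.noM E hEflat hEΓ this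
  refine ⟨hC1, ?_, h3⟩
  obtain ⟨c, hcC⟩ : (Γ \ E).Nonempty := (Set.ncard_pos (Set.toFinite _)).mp hpos
  have hΔcard : Γᶜ.ncard = m := by
    rw [Set.ncard_compl, hc.cardΓ, hc.card]
    omega
  obtain ⟨δ, hδ⟩ : (Γᶜ).Nonempty := by
    rw [← Set.ncard_pos (Set.toFinite _)]
    omega
  have hδE : δ ∉ E := fun h => hδ (hEΓ h)
  obtain ⟨y₁, hy₁, hy₁c⟩ := hEflat c hcC.2 δ hδE
  have hy₁Γ : y₁ • Γ ≠ Γ := by
    intro h
    apply hδ
    rw [← h, ← hy₁c]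
    exact Set.smul_mem_smul_set hcC.1
  have hsub₁ := mgC_translate hc hE' hE2 y₁ hy₁ hy₁Γ
  obtain ⟨δ', hδ', hδ'2⟩ : ∃ δ', δ' ∈ Γᶜ ∧ δ' ∉ y₁ • (Γ \ E) := by
    apply Set.exists_mem_notMem_of_ncard_lt_ncard _ (Set.toFinite _)
    rw [Set.ncard_smul_set, hΔcard]
    omega
  have hδ'E : δ' ∉ E := fun h => hδ' (hEΓ h)
  obtain ⟨y₂, hy₂, hy₂c⟩ := hEflat c hcC.2 δ' hδ'E
  have hy₂Γ : y₂ • Γ ≠ Γ := by
    intro h
    apply hδ'
    rw [← h, ← hy₂c]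
    exact Set.smul_mem_smul_set hcC.1
  have hsub₂ := mgC_translate hc hE' hE2 y₂ hy₂ hy₂Γ
  have hdisj : Disjoint (y₁ • (Γ \ E)) (y₂ • (Γ \ E)) := by
    rw [Set.disjoint_left]
    rintro _ ⟨x₁, hx₁, rfl⟩ ⟨x₂, hx₂, hx⟩
    have hx' : y₂ • x₂ = y₁ • x₁ := hx
    -- g := y₁⁻¹ * y₂ fixes E pointwise and maps x₂ ∈ Γ \ E to x₁ ∈ Γ \ E
    have hgE : ∀ x ∈ E, (y₁⁻¹ * y₂) • x = x := by
      intro x hxE
      rw [mul_smul, hy₂ x hxE, inv_smul_eq_iff, hy₁ x hxE]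
    have hgx : (y₁⁻¹ * y₂) • x₂ = x₁ := by
      rw [mul_smul, hx', inv_smul_smul]
    have hgΓ : (y₁⁻¹ * y₂) • Γ = Γ := by
      rcases mgC_block hc hE' hE2 _ hgE with h | h
      · exact h
      · exfalso
        have h1 : x₁ ∈ (y₁⁻¹ * y₂) • Γ ∩ Γ := ⟨hgx ▸ Set.smul_mem_smul_set hx₂.1, hx₁.1⟩
        rw [h] at h1
        exact hx₁.2 h1
    -- δ' = y₂ • c ∈ y₂ • Γ = y₁ • Γ
    have h2 : y₂ • Γ = y₁ • Γ := by
      rw [mul_smul, inv_smul_eq_iff] at hgΓ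
      exact hgΓ
    have h3 : δ' ∈ y₁ • Γ := by
      rw [← h2, ← hy₂c]
      exact Set.smul_mem_smul_set hcC.1
    obtain ⟨z, hz, hzδ⟩ := h3
    apply hδ'2
    refine ⟨z, ⟨hz, fun hzE => ?_⟩, hzδ⟩
    have hzδ' : y₁ • z = δ' := hzδ
    rw [hy₁ z hzE] at hzδ'
    exact hδ'E (hzδ' ▸ hzE)
  have hle : (y₁ • (Γ \ E) ∪ y₂ • (Γ \ E)).ncard ≤ Γᶜ.ncard :=
    Set.ncard_le_ncard (Set.union_subset hsub₁ hsub₂) (Set.toFinite _)
  rw [Set.ncard_union_eq hdisj (Set.toFinite _) (Set.toFinite _), Set.ncard_smul_set,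
    Set.ncard_smul_set, hΔcard] at hle
  omega

/-! ## Piece F : lower bound for `t` -/

theorem t_bound [Finite Ω] {Γ E : Set Ω} {m t : ℕ} (hc : Crit G Γ m t) (hE : IsMaxFlat G Γ E)
    (h2 : 2 ≤ (Γ \ E).ncard) (hm : 2 * (Γ \ E).ncard ≤ m)
    (hA : ∀ E' : Set Ω, E' ⊆ Γ → E'.ncard = E.ncard → ∃ g : G, g • E = E') :
    m + 4 ≤ 2 * t := by
  classical
  obtain ⟨hEflat, hEΓ, hEne, hEmax⟩ := hE
  have htm := hc.tm
  have hEcard : (Γ \ E).ncard + E.ncard = m + 1 := by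
    rw [← hc.cardΓ]
    exact Set.ncard_sdiff_add_ncard_of_subset hEΓ (Set.toFinite _)
  by_contra hlt
  push_neg at hlt
  have hte : t ≤ E.ncard := by omega
  obtain ⟨S, hSΓ, hSt⟩ := Set.exists_subset_card_eq (s := Γ) (n := t) (by rw [hc.cardΓ]; omega)
  apply hc.noT S _ hSt
  apply flat_of_sep hc.flatΓ hc.ne_univ hSΓ
  intro γ hγ hγS
  obtain ⟨E', hSE', hE'sub, hE'card⟩ := Set.exists_subsuperset_card_eq (s := S) (t := Γ \ {γ})
    (n := E.ncard) (fun x hx => ⟨hSΓ hx, fun h => hγS (h ▸ hx)⟩) (by rw [hSt]; exact hte)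
    (by rw [Set.ncard_sdiff_singleton_of_mem hγ, hc.cardΓ]; omega)
  obtain ⟨g, hg⟩ := hA E' (fun x hx => (hE'sub hx).1) hE'card
  exact ⟨E', hg ▸ flat_smul g hEflat, fun x hx => (hE'sub hx).1, hSE', fun h => (hE'sub h).2 rfl⟩

/-! ## All `t`-sets are conjugate if all smaller sets are flats -/

theorem exists_smul_eq_of_small [Finite Ω] {t : ℕ}
    (hP : ∀ X : Set Ω, X.ncard + 1 ≤ t → Flat G X) :
    ∀ n : ℕ, ∀ X Y : Set Ω, X.ncard = t → Y.ncard = t → (X \ Y).ncard = n →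
      ∃ g : G, g • X = Y := by
  classical
  intro n
  induction n with
  | zero =>
    intro X Y hX hY h0
    have hsub : X ⊆ Y := by
      rwa [Set.ncard_eq_zero (Set.toFinite _), Set.sdiff_eq_empty] at h0
    exact ⟨1, by rw [one_smul]; exact Set.eq_of_subset_of_ncard_le hsub (by omega) (Set.toFinite _)⟩
  | succ n ih =>
    intro X Y hX hY hn
    obtain ⟨x, hx⟩ : (X \ Y).Nonempty := by
      rw [← Set.ncard_pos (Set.toFinite _)]
      omega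
    obtain ⟨y, hyY, hyX⟩ : ∃ y, y ∈ Y ∧ y ∉ X := by
      by_contra hcon
      push_neg at hcon
      have h1 : Y = X := Set.eq_of_subset_of_ncard_le hcon (by omega) (Set.toFinite _)
      exact hx.2 (h1 ▸ hx.1)
    have hfl : Flat G (X \ {x}) :=
      hP _ (by rw [Set.ncard_sdiff_singleton_add_one hx.1 (Set.toFinite _)]; omega)
    obtain ⟨g, hg, hgx⟩ := hfl x (fun h => h.2 rfl) y (fun h => hyX h.1)
    have hgX : g • X = insert y (X \ {x}) := by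
      symm
      apply Set.eq_of_subset_of_ncard_le _ _ (Set.toFinite _)
      · rintro z (rfl | hz)
        · rw [← hgx]
          exact Set.smul_mem_smul_set hx.1
        · rw [← hg z hz]
          exact Set.smul_mem_smul_set hz.1
      · rw [Set.ncard_smul_set, Set.ncard_insert_of_notMem (fun h => hyX h.1) (Set.toFinite _),
          Set.ncard_sdiff_singleton_add_one hx.1 (Set.toFinite _)]
    have hcard : ((g • X) \ Y).ncard = n := by
      rw [hgX]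
      have h1 : insert y (X \ {x}) \ Y = (X \ Y) \ {x} := by
        ext z
        simp only [Set.mem_sdiff, Set.mem_insert_iff, Set.mem_singleton_iff]
        constructor
        · rintro ⟨rfl | ⟨hz, hzx⟩, hzY⟩
          · exact absurd hyY hzY
          · exact ⟨⟨hz, hzY⟩, hzx⟩
        · rintro ⟨⟨hz, hzY⟩, hzx⟩
          exact ⟨Or.inr ⟨hz, hzx⟩, hzY⟩
      rw [h1, Set.ncard_sdiff_singleton_of_mem hx, hn]
      rfl
    obtain ⟨g', hg'⟩ := ih (g • X) Y (by rw [Set.ncard_smul_set, hX]) hY hcard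
    exact ⟨g' * g, by rw [mul_smul, hg']⟩

theorem noT_of_not_allflat [Finite Ω] {t : ℕ} (hP : ∀ X : Set Ω, X.ncard + 1 ≤ t → Flat G X)
    (hnP : ¬ ∀ X : Set Ω, X.ncard + 1 ≤ t + 1 → Flat G X) :
    ∀ X : Set Ω, Flat G X → X.ncard ≠ t := by
  classical
  push_neg at hnP
  obtain ⟨X₀, hX₀, hX₀flat⟩ := hnP
  have hX₀t : X₀.ncard = t := by
    by_contra h
    exact hX₀flat (hP X₀ (by omega))
  intro X hX hXt
  obtain ⟨g, hg⟩ := exists_smul_eq_of_small hP _ X X₀ hXt hX₀t rfl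
  exact hX₀flat (hg ▸ flat_smul g hX)

/-! ## Piece E : the stabiliser of `Γ` is 2-transitive on `Γ` -/

theorem stab_trans [Finite Ω] {Γ : Set Ω} {m t : ℕ} (hc : Crit G Γ m t)
    (hC : ∀ E : Set Ω, IsMaxFlat G Γ E → ∀ c ∈ Γ \ E, ∀ c' ∈ Γ \ E,
      ∃ g : G, (∀ x ∈ E, g • x = x) ∧ g • Γ = Γ ∧ g • c = c')
    (hD : ∀ X : Set Ω, Flat G X → X ⊆ Γ → X ≠ Γ → ∀ γ ∈ Γ, γ ∉ X →
      ∃ E : Set Ω, IsMaxFlat G Γ E ∧ X ⊆ E ∧ γ ∉ E)
    (Z : Set Ω) (hZ : Z ⊆ Γ) (hZ1 : Z.ncard ≤ 1) :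
    ∀ a ∈ Γ \ Z, ∀ b ∈ Γ \ Z, ∃ g : G, g • Γ = Γ ∧ (∀ z ∈ Z, g • z = z) ∧ g • a = b := by
  classical
  intro a ha b hb
  by_contra hcon
  have ht3 := hc.t3
  have htm := hc.tm
  -- the orbit of `a` and the rest
  obtain ⟨O, hOdef⟩ : ∃ O : Set Ω,
      O = {x | ∃ g : G, g • Γ = Γ ∧ (∀ z ∈ Z, g • z = z) ∧ g • a = x} := ⟨_, rfl⟩
  obtain ⟨Y, hYdef⟩ : ∃ Y : Set Ω, Y = (Γ \ Z) \ O := ⟨_, rfl⟩
  have hbY : b ∈ Y := by
    rw [hYdef]
    refine ⟨hb, ?_⟩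
    rw [hOdef]
    exact hcon
  have haO : a ∈ O := by
    rw [hOdef]
    exact ⟨1, one_smul _ _, fun z _ => one_smul _ _, one_smul _ _⟩
  have hOΓ : O ⊆ Γ \ Z := by
    rw [hOdef]
    rintro x ⟨g, hg, hgZ, rfl⟩
    constructor
    · rw [← hg]
      exact Set.smul_mem_smul_set ha.1
    · intro hxZ
      have h1 := hgZ _ hxZ
      have h2 : g • a = a := smul_left_cancel g h1
      rw [h2] at hxZ
      exact ha.2 hxZ
  have hYΓ : Y ⊆ Γ \ Z := by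
    rw [hYdef]
    exact Set.sdiff_subset
  have hOY : ∀ x, x ∈ O → x ∈ Y → False := by
    intro x hxO hxY
    rw [hYdef] at hxY
    exact hxY.2 hxO
  have hcover : ∀ x ∈ Γ, x ∉ Z → x ∉ O → x ∈ Y := by
    intro x hx hxZ hxO
    rw [hYdef]
    exact ⟨⟨hx, hxZ⟩, hxO⟩
  have hOclosed : ∀ x ∈ O, ∀ h : G, h • Γ = Γ → (∀ z ∈ Z, h • z = z) → h • x ∈ O := by
    intro x hx h hh hhZ
    rw [hOdef] at hx ⊢
    obtain ⟨g, hg, hgZ, rfl⟩ := hx
    exact ⟨h * g, by rw [mul_smul, hg, hh], fun z hz => by rw [mul_smul, hgZ z hz, hhZ z hz],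
      mul_smul _ _ _⟩
  -- cardinalities
  have hdisjOY : Disjoint O Y := Set.disjoint_left.mpr (fun x hxO hxY => hOY x hxO hxY)
  have hdisjZ : Disjoint Z (O ∪ Y) := by
    rw [Set.disjoint_left]
    rintro x hxZ (hx | hx)
    · exact (hOΓ hx).2 hxZ
    · exact (hYΓ hx).2 hxZ
  have hΓeq : Γ = Z ∪ (O ∪ Y) := by
    ext x
    constructor
    · intro hx
      by_cases hxZ : x ∈ Z
      · exact Or.inl hxZ
      · by_cases hxO : x ∈ O
        · exact Or.inr (Or.inl hxO)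
        · exact Or.inr (Or.inr (hcover x hx hxZ hxO))
    · rintro (hx | hx | hx)
      · exact hZ hx
      · exact (hOΓ hx).1
      · exact (hYΓ hx).1
  have hcard : Z.ncard + (O.ncard + Y.ncard) = m + 1 := by
    rw [← hc.cardΓ, hΓeq, Set.ncard_union_eq hdisjZ (Set.toFinite _) (Set.toFinite _),
      Set.ncard_union_eq hdisjOY (Set.toFinite _) (Set.toFinite _)]
  have hOpos : 0 < O.ncard := (Set.ncard_pos (Set.toFinite _)).mpr ⟨a, haO⟩
  have hYpos : 0 < Y.ncard := (Set.ncard_pos (Set.toFinite _)).mpr ⟨b, hbY⟩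
  -- choose the two transversal pieces
  obtain ⟨TO, hTO, hTOcard⟩ := Set.exists_subset_card_eq (s := O)
    (n := min O.ncard (t - Z.ncard - 1)) (min_le_left _ _)
  obtain ⟨TY, hTY, hTYcard⟩ := Set.exists_subset_card_eq (s := Y)
    (n := t - Z.ncard - min O.ncard (t - Z.ncard - 1)) (by
      rcases min_choice O.ncard (t - Z.ncard - 1) with h | h <;> rw [h] <;> omega)
  have hTOpos : 1 ≤ TO.ncard := by
    rw [hTOcard]
    rcases min_choice O.ncard (t - Z.ncard - 1) with h | h <;> rw [h] <;> omega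
  have hTYpos : 1 ≤ TY.ncard := by
    rw [hTYcard]
    rcases min_choice O.ncard (t - Z.ncard - 1) with h | h <;> rw [h] <;> omega
  have hsum : Z.ncard + TO.ncard + TY.ncard = t := by
    rw [hTOcard, hTYcard]
    rcases min_choice O.ncard (t - Z.ncard - 1) with h | h <;> rw [h] <;> omega
  have hZTO : (Z ∪ TO).ncard + 1 ≤ t := by
    have := Set.ncard_union_le Z TO
    omega
  have hZTY : (Z ∪ TY).ncard + 1 ≤ t := by
    have := Set.ncard_union_le Z TY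
    omega
  -- the key separation statement
  have key : ∀ T : Set Ω, T ⊆ Γ → Z ⊆ T → T.ncard + 1 ≤ t → ∀ γ ∈ Γ, γ ∉ T →
      ∃ E : Set Ω, Flat G E ∧ E ⊆ Γ ∧ T ⊆ E ∧ γ ∉ E ∧ (γ ∈ O → Y ⊆ E) ∧ (γ ∈ Y → O ⊆ E) := by
    intro T hTΓ hZT hTt γ hγ hγT
    have hTflat := hc.small T hTt
    have hTne : T ≠ Γ := fun h => hγT (h ▸ hγ)
    obtain ⟨E, hE, hTE, hγE⟩ := hD T hTflat hTΓ hTne γ hγ hγT
    refine ⟨E, hE.1, hE.2.1, hTE, hγE, ?_, ?_⟩
    · intro hγO y hy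
      by_contra hyE
      obtain ⟨g, hgE, hgΓ, hgy⟩ := hC E hE γ ⟨hγ, hγE⟩ y ⟨(hYΓ hy).1, hyE⟩
      have := hOclosed γ hγO g hgΓ (fun z hz => hgE z (hTE (hZT hz)))
      rw [hgy] at this
      exact hOY y this hy
    · intro hγY o ho
      by_contra hoE
      obtain ⟨g, hgE, hgΓ, hgo⟩ := hC E hE o ⟨(hOΓ ho).1, hoE⟩ γ ⟨hγ, hγE⟩
      have := hOclosed o ho g hgΓ (fun z hz => hgE z (hTE (hZT hz)))
      rw [hgo] at this
      exact hOY γ this hγY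
  have hΓuniv : Γ ≠ Set.univ := hc.ne_univ
  have hF1 : Flat G (Z ∪ TO ∪ Y) := by
    apply flat_of_sep hc.flatΓ hΓuniv
    · rintro x ((hx | hx) | hx)
      · exact hZ hx
      · exact (hOΓ (hTO hx)).1
      · exact (hYΓ hx).1
    · intro γ hγ hγF
      have hγO : γ ∈ O := by
        by_contra h
        by_cases hz : γ ∈ Z
        · exact hγF (Or.inl (Or.inl hz))
        · exact hγF (Or.inr (hcover γ hγ hz h))
      obtain ⟨E, hE, hEΓ, hTE, hγE, h1, _⟩ := key (Z ∪ TO)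
        (Set.union_subset hZ (fun x hx => (hOΓ (hTO hx)).1)) Set.subset_union_left hZTO γ hγ
        (fun h => hγF (Or.inl h))
      exact ⟨E, hE, hEΓ, Set.union_subset hTE (h1 hγO), hγE⟩
  have hF2 : Flat G (Z ∪ O ∪ TY) := by
    apply flat_of_sep hc.flatΓ hΓuniv
    · rintro x ((hx | hx) | hx)
      · exact hZ hx
      · exact (hOΓ hx).1
      · exact (hYΓ (hTY hx)).1
    · intro γ hγ hγF
      have hγY : γ ∈ Y := by
        by_cases hz : γ ∈ Z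
        · exact absurd (Or.inl (Or.inl hz)) hγF
        · exact hcover γ hγ hz (fun h => hγF (Or.inl (Or.inr h)))
      obtain ⟨E, hE, hEΓ, hTE, hγE, _, h2⟩ := key (Z ∪ TY)
        (Set.union_subset hZ (fun x hx => (hYΓ (hTY hx)).1)) Set.subset_union_left hZTY γ hγ
        (fun h => hγF (h.elim (fun h => Or.inl (Or.inl h)) Or.inr))
      refine ⟨E, hE, hEΓ, ?_, hγE⟩
      rintro x ((hx | hx) | hx)
      · exact hTE (Or.inl hx)
      · exact h2 hγY hx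
      · exact hTE (Or.inr hx)
  have hinter : (Z ∪ TO ∪ Y) ∩ (Z ∪ O ∪ TY) = Z ∪ TO ∪ TY := by
    ext x
    constructor
    · rintro ⟨(hx | hx) | hx, (hx' | hx') | hx'⟩
      · exact Or.inl (Or.inl hx)
      · exact Or.inl (Or.inl hx)
      · exact Or.inl (Or.inl hx)
      · exact Or.inl (Or.inl hx')
      · exact Or.inl (Or.inr hx)
      · exact Or.inl (Or.inr hx)
      · exact Or.inl (Or.inl hx')
      · exact absurd hx (fun h => hOY x hx' h)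
      · exact Or.inr hx'
    · rintro ((hx | hx) | hx)
      · exact ⟨Or.inl (Or.inl hx), Or.inl (Or.inl hx)⟩
      · exact ⟨Or.inl (Or.inr hx), Or.inl (Or.inr (hTO hx))⟩
      · exact ⟨Or.inr (hTY hx), Or.inr hx⟩
  have hflat : Flat G (Z ∪ TO ∪ TY) := by
    rw [← hinter]
    apply flat_inter hF1 hF2
    intro hu
    apply hΓuniv
    apply Set.eq_univ_of_univ_subset
    rw [← hu]
    rintro x (((hx | hx) | hx) | ((hx | hx) | hx))
    · exact hZ hx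
    · exact (hOΓ (hTO hx)).1
    · exact (hYΓ hx).1
    · exact hZ hx
    · exact (hOΓ hx).1
    · exact (hYΓ (hTY hx)).1
  apply hc.noT _ hflat
  have hd1 : Disjoint Z TO := Set.disjoint_left.mpr (fun x hxZ hx => (hOΓ (hTO hx)).2 hxZ)
  have hd2 : Disjoint (Z ∪ TO) TY := by
    rw [Set.disjoint_left]
    rintro x (hx | hx) hx'
    · exact (hYΓ (hTY hx')).2 hx
    · exact hOY x (hTO hx) (hTY hx')
  rw [Set.ncard_union_eq hd2 (Set.toFinite _) (Set.toFinite _),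
    Set.ncard_union_eq hd1 (Set.toFinite _) (Set.toFinite _)]
  exact hsum

end core

end Cfsg.Agent.Lib.Helper62.Marg
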