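import Mathlib
import Cfsg.Agent.Lib.Helper62.MargDefs
import Cfsg.Agent.S3707

set_option autoImplicit false

/-!
# Marggraf's theorem: flats versus multiple transitivity
-/

namespace Cfsg.Agent.Lib.Helper62.Marg

open MulAction
open scoped Pointwise

section pieceJ

variable {G : Type*} {Ω : Type*} [Group G] [MulAction G Ω]

theorem flat_of_mt [Finite Ω] {k : ℕ} (h : IsMultiplyPretransitive G Ω k)
    (hk : k ≤ Nat.card Ω) (X : Set Ω) (hX : X.ncard + 1 ≤ k) : Flat G X := by
  have hkE : (k : ENat) ≤ ENat.card Ω := by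
    rw [ENat.card_eq_coe_natCard]
    exact_mod_cast hk
  have h1 : IsMultiplyPretransitive (fixingSubgroup G X) (SubMulAction.ofFixingSubgroup G X) 1 :=
    SubMulAction.ofFixingSubgroup.isMultiplyPretransitive' (G := G) X hX hkE
  rw [is_one_pretransitive_iff] at h1
  intro a ha b hb
  obtain ⟨g, hg⟩ := h1.exists_smul_eq
    (⟨a, (SubMulAction.mem_ofFixingSubgroup_iff G).mpr ha⟩ : SubMulAction.ofFixingSubgroup G X)
    ⟨b, (SubMulAction.mem_ofFixingSubgroup_iff G).mpr hb⟩
  exact ⟨g.1, fun x hx => (mem_fixingSubgroup_iff G).mp g.2 x hx, congrArg Subtype.val hg⟩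

theorem prim_of_two_trans {H : Type*} {X : Type*} [Group H] [MulAction H X]
    (h1 : ∀ a b : X, ∃ g : H, g • a = b)
    (h2 : ∀ a b c : X, b ≠ a → c ≠ a → ∃ g : H, g • a = a ∧ g • b = c) :
    IsPreprimitive H X := by
  apply isPreprimitive_of_is_two_pretransitive
  rw [is_two_pretransitive_iff]
  intro a b c d hab hcd
  obtain ⟨g₁, hg₁⟩ := h1 a c
  have hne : g₁ • b ≠ c := by
    intro h
    rw [← hg₁] at h
    exact hab (smul_left_cancel g₁ h).symm
  obtain ⟨g₂, hg₂, hg₂'⟩ := h2 c (g₁ • b) d hne (Ne.symm hcd)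
  exact ⟨g₂ * g₁, by rw [mul_smul, hg₁, hg₂], by rw [mul_smul, hg₂']⟩

theorem three_flat [Finite Ω] (hprim : IsPreprimitive G Ω) {Δ : Set Ω} (h1 : 1 < Δ.ncard)
    (h2 : 2 * Δ.ncard ≤ Nat.card Ω) (hflat : Flat G Δᶜ) :
    ∀ X : Set Ω, X.ncard + 1 ≤ 3 → Flat G X := by
  classical
  have hprim' : IsPreprimitive (MulAction.toPermHom G Ω).range Ω := by
    let f : Ω →ₑ[(MulAction.toPermHom G Ω).rangeRestrict] Ω :=
      { toFun := id
        map_smul' := fun _ _ => rfl }
    exact IsPreprimitive.of_surjective (f := f) Function.surjective_id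
  have h3 : IsMultiplyPretransitive (MulAction.toPermHom G Ω).range Ω 3 := by
    apply Cfsg.Agent.S3707.result hprim' Δ h1 h2
    intro x hx y hy
    obtain ⟨g, hg, hgx⟩ := hflat x (fun h => h hx) y (fun h => h hy)
    exact ⟨⟨MulAction.toPerm g, ⟨g, rfl⟩⟩, fun z hz => hg z hz, hgx⟩
  intro X hX
  have hcard3 : 3 ≤ Nat.card Ω := by omega
  have hflatP := flat_of_mt h3 hcard3 X hX
  intro a ha b hb
  obtain ⟨p, hp, hpa⟩ := hflatP a ha b hb
  obtain ⟨g, hg⟩ := p.2
  have key : ∀ x : Ω, g • x = p • x := by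
    intro x
    rw [Subgroup.smul_def, Equiv.Perm.smul_def, ← hg]
    rfl
  exact ⟨g, fun x hx => (key x).trans (hp x hx), (key a).trans hpa⟩

theorem allflat_of_flat_card_m [Finite Ω] {Γ X : Set Ω} {m : ℕ} (hprim : IsPreprimitive G Ω)
    (hcard : Nat.card Ω = 2 * m + 1) (hm : 1 ≤ m) (hΓ : Γ.ncard = m + 1) (hflat : Flat G Γ)
    (hX : Flat G X) (hXΓ : X ⊆ Γ) (hXm : X.ncard = m) :
    ∀ Y : Set Ω, Y.ncard + 1 ≤ m + 1 → Flat G Y := by
  classical
  have hdiff : (Γ \ X).ncard = 1 := by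
    have := Set.ncard_sdiff_add_ncard_of_subset hXΓ (Set.toFinite _)
    omega
  obtain ⟨γ, hγ⟩ := Set.ncard_eq_one.mp hdiff
  have hγmem : γ ∈ Γ \ X := by
    rw [hγ]
    exact Set.mem_singleton γ
  have hΓX : ∀ x ∈ Γ, x ∉ X → x = γ := by
    intro x hx hxX
    have : x ∈ Γ \ X := ⟨hx, hxX⟩
    rw [hγ] at this
    exact this
  have hmemC : ∀ y : Ω, y ∈ SubMulAction.ofFixingSubgroup G X ↔ y ∉ X :=
    fun y => SubMulAction.mem_ofFixingSubgroup_iff G
  have hprimF : IsPreprimitive (fixingSubgroup G X) (SubMulAction.ofFixingSubgroup G X) := by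
    apply prim_of_two_trans
    · intro a b
      obtain ⟨g, hg, hga⟩ := hX a ((hmemC a).mp a.2) b ((hmemC b).mp b.2)
      exact ⟨⟨g, (mem_fixingSubgroup_iff G).mpr hg⟩, Subtype.ext hga⟩
    · intro a b c hba hca
      have ha : (a : Ω) ∉ X := (hmemC a).mp a.2
      have hb : (b : Ω) ∉ X := (hmemC b).mp b.2
      have hc : (c : Ω) ∉ X := (hmemC c).mp c.2
      have hba' : (b : Ω) ≠ a := fun h => hba (Subtype.ext h)
      have hca' : (c : Ω) ≠ a := fun h => hca (Subtype.ext h)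
      obtain ⟨f, hf, hfa⟩ := hX a ha γ hγmem.2
      -- `f` preserves the complement of `X`
      have hfX : ∀ x : Ω, x ∉ X → f • x ∉ X := by
        intro x hx hfx
        have h1 := hf _ hfx
        have h2 : f • x = x := smul_left_cancel f h1
        rw [h2] at hfx
        exact hx hfx
      have hfb : f • (b : Ω) ∉ Γ := by
        intro h
        have h1 := hΓX _ h (hfX b hb)
        rw [← hfa] at h1
        exact hba' (smul_left_cancel f h1)
      have hfc : f • (c : Ω) ∉ Γ := by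
        intro h
        have h1 := hΓX _ h (hfX c hc)
        rw [← hfa] at h1
        exact hca' (smul_left_cancel f h1)
      obtain ⟨h, hh, hhb⟩ := hflat _ hfb _ hfc
      refine ⟨⟨f⁻¹ * h * f, (mem_fixingSubgroup_iff G).mpr (fun x hx => ?_)⟩,
        Subtype.ext ?_, Subtype.ext ?_⟩
      · rw [mul_smul, mul_smul, hf x hx, hh x (hXΓ hx), inv_smul_eq_iff, hf x hx]
      · change (f⁻¹ * h * f) • (a : Ω) = a
        rw [mul_smul, mul_smul, hfa, hh γ hγmem.1, inv_smul_eq_iff, hfa]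
      · change (f⁻¹ * h * f) • (b : Ω) = c
        rw [mul_smul, mul_smul, hhb, inv_smul_smul]
  have hmp := hprim.isMultiplyPreprimitive (s := X) (n := m - 1) (by omega) (by omega) hprimF
  have hmt : IsMultiplyPretransitive G Ω (m + 1) := by
    have e : m + 1 = m - 1 + 2 := by omega
    rw [e]
    exact hmp.isMultiplyPretransitive
  intro Y hY
  exact flat_of_mt hmt (by omega) Y hY

end pieceJ

end Cfsg.Agent.Lib.Helper62.Marg
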