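import Mathlib
import Cfsg.Agent.Lib.Helper62.MargDefs

set_option autoImplicit false

/-!
# Marggraf's theorem: from an element acting as a 3-cycle to the alternating group
-/

namespace Cfsg.Agent.Lib.Helper62.Marg

open MulAction
open scoped Pointwise

section perm

variable {G : Type*} {Ω : Type*} [Group G] [MulAction G Ω]

/-- An element acting as a 3-cycle induces a 3-cycle. -/
theorem isThreeCycle_of_act3 [Fintype Ω] [DecidableEq Ω] {g : G} (h : Act3 (Ω := Ω) g) :
    (MulAction.toPerm g : Equiv.Perm Ω).IsThreeCycle := by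
  obtain ⟨a, b, c, hab, hbc, hac, h1, h2, h3, h4⟩ := h
  have heq : (MulAction.toPerm g : Equiv.Perm Ω) = Equiv.swap b a * Equiv.swap b c := by
    ext x
    rw [MulAction.toPerm_apply, Equiv.Perm.mul_apply]
    by_cases hxa : x = a
    · rw [hxa, h1, Equiv.swap_apply_of_ne_of_ne hab hac, Equiv.swap_apply_right]
    · by_cases hxb : x = b
      · rw [hxb, h2, Equiv.swap_apply_left, Equiv.swap_apply_of_ne_of_ne hbc.symm hac.symm]
      · by_cases hxc : x = c
        · rw [hxc, h3, Equiv.swap_apply_right, Equiv.swap_apply_left]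
        · rw [h4 x hxa hxb hxc, Equiv.swap_apply_of_ne_of_ne hxb hxc,
            Equiv.swap_apply_of_ne_of_ne hxb hxa]
  rw [heq]
  exact Equiv.Perm.isThreeCycle_swap_mul_swap_same hab.symm hbc hac

/-- A primitive action containing an element acting as a 3-cycle induces the whole alternating
group. -/
theorem alt_le_range_of_act3 [Fintype Ω] [DecidableEq Ω] (hprim : IsPreprimitive G Ω) {g : G}
    (h : Act3 (Ω := Ω) g) : alternatingGroup Ω ≤ (MulAction.toPermHom G Ω).range := by
  have hprim' : IsPreprimitive (MulAction.toPermHom G Ω).range Ω := by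
    let f : Ω →ₑ[(MulAction.toPermHom G Ω).rangeRestrict] Ω :=
      { toFun := id
        map_smul' := fun _ _ => rfl }
    exact IsPreprimitive.of_surjective (f := f) Function.surjective_id
  exact Equiv.Perm.alternatingGroup_le_of_isPreprimitive_of_isThreeCycle_mem hprim'
    (isThreeCycle_of_act3 h) ⟨g, rfl⟩

/-- Every even permutation is induced by some group element. -/
theorem exists_toPerm_eq_of_act3 [Fintype Ω] [DecidableEq Ω] (hprim : IsPreprimitive G Ω)
    {g : G} (h : Act3 (Ω := Ω) g) (σ : Equiv.Perm Ω) (hσ : Equiv.Perm.sign σ = 1) :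
    ∃ x : G, (MulAction.toPerm x : Equiv.Perm Ω) = σ := by
  have hmem : σ ∈ (MulAction.toPermHom G Ω).range :=
    alt_le_range_of_act3 hprim h (Equiv.Perm.mem_alternatingGroup.mpr hσ)
  obtain ⟨x, hx⟩ := hmem
  exact ⟨x, hx⟩

end perm

end Cfsg.Agent.Lib.Helper62.Marg
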