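import Mathlib
import Cfsg.Agent.Lib.Helper62.MargDefs
import Cfsg.Agent.Lib.Helper62.MargPerm
import Cfsg.Agent.Lib.Helper62.MargJ

set_option autoImplicit false

/-!
# Marggraf's theorem: the alternating group on `Γ` is transitive on `k`-subsets
-/

namespace Cfsg.Agent.Lib.Helper62.Marg

open MulAction
open scoped Pointwise

section pieceG

variable {G : Type*} {Ω : Type*} [Group G] [MulAction G Ω]

theorem alt_exists_image_eq {α : Type*} [Fintype α] [DecidableEq α] (s s' : Set α)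
    (hcard : s.ncard = s'.ncard) (h2 : 2 ≤ sᶜ.ncard) :
    ∃ σ ∈ alternatingGroup α, σ '' s = s' := by
  classical
  have hcard' : Nat.card {x // x ∈ s} = Nat.card {x // x ∈ s'} := hcard
  obtain ⟨e⟩ := Finite.card_eq.mp hcard'
  have himg : (e.extendSubtype : Equiv.Perm α) '' s = s' := by
    ext y
    constructor
    · rintro ⟨x, hx, rfl⟩
      exact e.extendSubtype_mem x hx
    · intro hy
      refine ⟨(e.symm ⟨y, hy⟩ : α), (e.symm ⟨y, hy⟩).2, ?_⟩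
      rw [e.extendSubtype_apply_of_mem _ (e.symm ⟨y, hy⟩).2]
      simp
  obtain ⟨σ₀, himg'⟩ : ∃ σ₀ : Equiv.Perm α, σ₀ '' s = s' := ⟨e.extendSubtype, himg⟩
  by_cases hsign : Equiv.Perm.sign σ₀ = 1
  · exact ⟨_, Equiv.Perm.mem_alternatingGroup.mpr hsign, himg'⟩
  · have hsign' : Equiv.Perm.sign σ₀ = -1 :=
      (Int.units_eq_one_or _).resolve_left hsign
    obtain ⟨a, ha, b, hb, hab⟩ := (Set.one_lt_ncard (Set.toFinite _)).mp
      (show 1 < sᶜ.ncard by omega)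
    refine ⟨σ₀ * Equiv.swap a b, ?_, ?_⟩
    · rw [Equiv.Perm.mem_alternatingGroup, map_mul, hsign', Equiv.Perm.sign_swap hab]
      simp
    · rw [← himg']
      ext y
      constructor
      · rintro ⟨x, hx, rfl⟩
        refine ⟨x, hx, ?_⟩
        have hxa : x ≠ a := fun h => ha (by rw [← h]; exact hx)
        have hxb : x ≠ b := fun h => hb (by rw [← h]; exact hx)
        rw [Equiv.Perm.mul_apply, Equiv.swap_apply_of_ne_of_ne hxa hxb]
      · rintro ⟨x, hx, rfl⟩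
        refine ⟨x, hx, ?_⟩
        have hxa : x ≠ a := fun h => ha (by rw [← h]; exact hx)
        have hxb : x ≠ b := fun h => hb (by rw [← h]; exact hx)
        rw [Equiv.Perm.mul_apply, Equiv.swap_apply_of_ne_of_ne hxa hxb]

theorem prim_setStab {Γ : Set Ω}
    (h2t : ∀ Z : Set Ω, Z ⊆ Γ → Z.ncard ≤ 1 → ∀ a ∈ Γ \ Z, ∀ b ∈ Γ \ Z,
      ∃ g : G, g • Γ = Γ ∧ (∀ z ∈ Z, g • z = z) ∧ g • a = b) :
    IsPreprimitive (stabilizer G Γ) Γ := by
  apply prim_of_two_trans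
  · intro x y
    obtain ⟨g, hg, -, hgx⟩ := h2t ∅ (Set.empty_subset _) (by simp) x
      ⟨x.2, Set.notMem_empty _⟩ y ⟨y.2, Set.notMem_empty _⟩
    exact ⟨⟨g, hg⟩, Subtype.ext hgx⟩
  · intro x y z hyx hzx
    obtain ⟨g, hg, hgZ, hgy⟩ := h2t {(x : Ω)} (by simpa using x.2) (by simp) y
      ⟨y.2, fun h => hyx (Subtype.ext h)⟩ z ⟨z.2, fun h => hzx (Subtype.ext h)⟩
    exact ⟨⟨g, hg⟩, Subtype.ext (hgZ x rfl), Subtype.ext hgy⟩

theorem exists_smul_eq_of_act3 [Finite Ω] {Γ : Set Ω}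
    (h2t : ∀ Z : Set Ω, Z ⊆ Γ → Z.ncard ≤ 1 → ∀ a ∈ Γ \ Z, ∀ b ∈ Γ \ Z,
      ∃ g : G, g • Γ = Γ ∧ (∀ z ∈ Z, g • z = z) ∧ g • a = b)
    (h3 : ∃ g : stabilizer G Γ, Act3 (Ω := Γ) g)
    {E E' : Set Ω} (hE : E ⊆ Γ) (hE' : E' ⊆ Γ) (hcard : E'.ncard = E.ncard)
    (h2 : 2 ≤ (Γ \ E).ncard) : ∃ g : G, g • E = E' := by
  classical
  haveI : Fintype Γ := Fintype.ofFinite Γ
  obtain ⟨g₀, hg₀⟩ := h3
  have hprim : IsPreprimitive (stabilizer G Γ) Γ := prim_setStab h2t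
  have halt := alt_le_range_of_act3 hprim hg₀
  have hs : (Subtype.val ⁻¹' E : Set Γ).ncard = E.ncard :=
    Set.ncard_preimage_of_injective_subset_range Subtype.val_injective
      (fun x hx => ⟨⟨x, hE hx⟩, rfl⟩)
  have hs' : (Subtype.val ⁻¹' E' : Set Γ).ncard = E'.ncard :=
    Set.ncard_preimage_of_injective_subset_range Subtype.val_injective
      (fun x hx => ⟨⟨x, hE' hx⟩, rfl⟩)
  have hsc : ((Subtype.val ⁻¹' E : Set Γ)ᶜ).ncard = (Γ \ E).ncard := by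
    have h1 : (Subtype.val ⁻¹' E : Set Γ)ᶜ = Subtype.val ⁻¹' (Γ \ E) := by
      ext x
      simp [x.2]
    rw [h1]
    exact Set.ncard_preimage_of_injective_subset_range Subtype.val_injective
      (fun x hx => ⟨⟨x, hx.1⟩, rfl⟩)
  obtain ⟨σ, hσ, hσs⟩ := alt_exists_image_eq (Subtype.val ⁻¹' E : Set Γ) (Subtype.val ⁻¹' E')
    (by rw [hs, hs', hcard]) (by rw [hsc]; exact h2)
  obtain ⟨k, hk⟩ := halt hσ
  refine ⟨(k : G), ?_⟩
  apply Set.eq_of_subset_of_ncard_le _ (by rw [Set.ncard_smul_set, hcard]) (Set.toFinite _)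
  rintro _ ⟨e, he, rfl⟩
  have h4 : σ ⟨e, hE he⟩ ∈ (Subtype.val ⁻¹' E' : Set Γ) := by
    rw [← hσs]
    exact ⟨⟨e, hE he⟩, he, rfl⟩
  have h5 : (σ ⟨e, hE he⟩ : Ω) = (k : G) • e := by
    rw [← hk]
    rfl
  have h6 : (σ ⟨e, hE he⟩ : Ω) ∈ E' := h4
  rw [h5] at h6
  exact h6

end pieceG

end Cfsg.Agent.Lib.Helper62.Marg
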