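import Mathlib
import Cfsg.Agent.Lib.Helper62.MargDefs
import Cfsg.Agent.Lib.Helper62.MargCore
import Cfsg.Agent.Lib.Helper62.MargPerm
import Cfsg.Agent.Lib.Helper62.MargJ
import Cfsg.Agent.Lib.Helper62.MargG
import Cfsg.Agent.Lib.Helper78.MargK2
import Cfsg.Agent.Lib.Helper42.MargB
import Cfsg.Agent.Lib.Helper42.MargB2

set_option autoImplicit false

/-!
# Marggraf's theorem: the main induction
-/

namespace Cfsg.Agent.Lib.Helper62.Marg

open MulAction
open scoped Pointwise

universe u v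

section transport

variable {G : Type*} {Ω : Type*} [Group G] [MulAction G Ω]

theorem prim_ofStabilizer (h3flat : ∀ X : Set Ω, X.ncard + 1 ≤ 3 → Flat G X) (a : Ω) :
    IsPreprimitive (stabilizer G a) (SubMulAction.ofStabilizer G a) := by
  apply prim_of_two_trans
  · intro x y
    have hx : (x : Ω) ≠ a := (SubMulAction.mem_ofStabilizer_iff G a).mp x.2
    have hy : (y : Ω) ≠ a := (SubMulAction.mem_ofStabilizer_iff G a).mp y.2
    obtain ⟨g, hg, hgx⟩ := h3flat {a} (by simp) x (by simpa using hx) y (by simpa using hy)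
    exact ⟨⟨g, hg a rfl⟩, Subtype.ext hgx⟩
  · intro x y z hyx hzx
    have hx : (x : Ω) ≠ a := (SubMulAction.mem_ofStabilizer_iff G a).mp x.2
    have hy : (y : Ω) ≠ a := (SubMulAction.mem_ofStabilizer_iff G a).mp y.2
    have hz : (z : Ω) ≠ a := (SubMulAction.mem_ofStabilizer_iff G a).mp z.2
    have hyx' : (y : Ω) ≠ x := fun h => hyx (Subtype.ext h)
    have hzx' : (z : Ω) ≠ x := fun h => hzx (Subtype.ext h)
    obtain ⟨g, hg, hgy⟩ := h3flat {a, (x : Ω)} (by rw [Set.ncard_pair (Ne.symm hx)])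
      y (by simp [hy, hyx']) z (by simp [hz, hzx'])
    exact ⟨⟨g, hg a (by simp)⟩, Subtype.ext (hg x (by simp)), Subtype.ext hgy⟩

theorem flat_ofStabilizer {Δ : Set Ω} (hflat : Flat G Δᶜ) {a : Ω} (ha : a ∉ Δ) :
    Flat (stabilizer G a) (Subtype.val ⁻¹' Δ : Set (SubMulAction.ofStabilizer G a))ᶜ := by
  intro x hx y hy
  have hx' : (x : Ω) ∈ Δ := by simpa using hx
  have hy' : (y : Ω) ∈ Δ := by simpa using hy
  obtain ⟨g, hg, hgx⟩ := hflat x (by simpa using hx') y (by simpa using hy')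
  exact ⟨⟨g, hg a ha⟩, fun z hz => Subtype.ext (hg z hz), Subtype.ext hgx⟩

theorem act3_of_ofStabilizer {a : Ω} (g : stabilizer G a)
    (h : Act3 (Ω := SubMulAction.ofStabilizer G a) g) : Act3 (Ω := Ω) (g : G) := by
  obtain ⟨x, y, z, hxy, hyz, hxz, h1, h2, h3, h4⟩ := h
  refine ⟨x, y, z, fun h => hxy (Subtype.ext h), fun h => hyz (Subtype.ext h),
    fun h => hxz (Subtype.ext h), congrArg Subtype.val h1, congrArg Subtype.val h2,
    congrArg Subtype.val h3, ?_⟩
  intro w hwx hwy hwz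
  by_cases hwa : w = a
  · rw [hwa]
    exact g.2
  · have := h4 ⟨w, (SubMulAction.mem_ofStabilizer_iff G a).mpr hwa⟩
      (fun h => hwx (congrArg Subtype.val h)) (fun h => hwy (congrArg Subtype.val h))
      (fun h => hwz (congrArg Subtype.val h))
    exact congrArg Subtype.val this

theorem flat_setStab {Γ E : Set Ω}
    (hC3 : ∀ c ∈ Γ \ E, ∀ c' ∈ Γ \ E,
      ∃ g : G, (∀ x ∈ E, g • x = x) ∧ g • Γ = Γ ∧ g • c = c') :
    Flat (stabilizer G Γ) (Subtype.val ⁻¹' (Γ \ E) : Set Γ)ᶜ := by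
  intro x hx y hy
  have hx' : (x : Ω) ∈ Γ \ E := by simpa using hx
  have hy' : (y : Ω) ∈ Γ \ E := by simpa using hy
  obtain ⟨g, hgE, hgΓ, hgx⟩ := hC3 x hx' y hy'
  refine ⟨⟨g, hgΓ⟩, fun z hz => Subtype.ext (hgE z ?_), Subtype.ext hgx⟩
  by_contra hzE
  exact hz ⟨z.2, hzE⟩

/-- Bochert descent: a nontrivial element with small support yields a 3-cycle. -/
theorem act3_of_supp [Finite Ω] {t : ℕ} (hsmall : ∀ X : Set Ω, X.ncard + 1 ≤ t → Flat G X) :
    ∀ n : ℕ, ∀ u : G, (∃ x : Ω, u • x ≠ x) → {x : Ω | u • x ≠ x}.ncard = n →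
      n + 4 ≤ 2 * t → n < Nat.card Ω → ∃ c : G, Act3 (Ω := Ω) c := by
  intro n
  induction n using Nat.strong_induction_on with
  | _ n ih =>
    intro u hu hn h1 h2
    by_cases hle : n ≤ t
    · exact act3_of_supp_le hsmall u hu (hn ▸ hle) (hn ▸ h2)
    · push_neg at hle
      obtain ⟨c, hc, hlt⟩ := descent_step hsmall u (by omega) (by omega) (by omega)
      exact ih _ (hn ▸ hlt) c hc rfl (by omega) (by omega)

/-- **Marggraf's theorem** (existence of a 3-cycle): a primitive group with a Jordan set `Δ`,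
`1 < |Δ| < n / 2`, contains an element acting as a 3-cycle. -/
theorem marggraf : ∀ (n : ℕ) (G : Type u) (Ω : Type v) [Group G] [MulAction G Ω] [Finite Ω],
    Nat.card Ω = n → IsPreprimitive G Ω → ∀ Δ : Set Ω, 1 < Δ.ncard → 2 * Δ.ncard < n →
    Flat G Δᶜ → ∃ g : G, Act3 (Ω := Ω) g := by
  intro n
  induction n using Nat.strong_induction_on with
  | _ n ih =>
    intro G Ω _ _ _ hn hprim Δ h1 h2 hflat
    classical
    have h3flat := three_flat hprim h1 (by omega) hflat
    have hΓcard : Δᶜ.ncard = n - Δ.ncard := by rw [Set.ncard_compl, hn]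
    obtain ⟨a, ha⟩ : (Δᶜ).Nonempty := by
      rw [← Set.ncard_pos (Set.toFinite _)]
      omega
    by_cases hbig : 2 * Δ.ncard + 1 < n
    · -- pass to the stabiliser of a point outside `Δ`
      have hcard' : Nat.card (SubMulAction.ofStabilizer G a) = n - 1 := by
        rw [SubMulAction.nat_card_ofStabilizer_eq, hn]
      have hΔ' : (Subtype.val ⁻¹' Δ : Set (SubMulAction.ofStabilizer G a)).ncard = Δ.ncard := by
        apply Set.ncard_preimage_of_injective_subset_range Subtype.val_injective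
        intro x hx
        exact ⟨⟨x, (SubMulAction.mem_ofStabilizer_iff G a).mpr (fun h => ha (h ▸ hx))⟩, rfl⟩
      obtain ⟨g, hg⟩ := ih (n - 1) (by omega) (stabilizer G a) (SubMulAction.ofStabilizer G a)
        hcard' (prim_ofStabilizer h3flat a) (Subtype.val ⁻¹' Δ) (by rw [hΔ']; exact h1)
        (by rw [hΔ']; omega) (flat_ofStabilizer hflat ha)
      exact ⟨g, act3_of_ofStabilizer g hg⟩
    · -- the critical case `n = 2m + 1`
      obtain ⟨m, hm⟩ : ∃ m, m = Δ.ncard := ⟨_, rfl⟩
      rw [← hm] at h1 h2 hbig hΓcard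
      have hn' : n = 2 * m + 1 := by omega
      obtain ⟨δ₁, hδ₁, δ₂, hδ₂, hδne⟩ := (Set.one_lt_ncard (Set.toFinite Δ)).mp (hm ▸ h1)
      obtain ⟨u, huΓ, hu⟩ := hflat δ₁ (fun h => h hδ₁) δ₂ (fun h => h hδ₂)
      have hu1 : ∃ x : Ω, u • x ≠ x := ⟨δ₁, by rw [hu]; exact hδne.symm⟩
      have hsupp : {x : Ω | u • x ≠ x} ⊆ Δ := by
        intro x hx
        by_contra hxΔ
        exact hx (huΓ x hxΔ)
      have hsuppcard : {x : Ω | u • x ≠ x}.ncard ≤ m := by
        rw [hm]
        exact Set.ncard_le_ncard hsupp (Set.toFinite _)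
      by_cases hPm : ∀ X : Set Ω, X.ncard + 1 ≤ m → Flat G X
      · exact act3_of_supp_le hPm u hu1 hsuppcard (by rw [hn]; omega)
      · have hPmono : ∀ k k' : ℕ, k ≤ k' → (∀ X : Set Ω, X.ncard + 1 ≤ k' → Flat G X) →
            ∀ X : Set Ω, X.ncard + 1 ≤ k → Flat G X :=
          fun k k' hkk' hP X hX => hP X (by omega)
        have hm3 : 3 < m := by
          by_contra h
          push_neg at h
          exact hPm (hPmono m 3 h h3flat)
        obtain ⟨t, ht⟩ : ∃ t, t = Nat.findGreatest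
            (fun k => ∀ X : Set Ω, X.ncard + 1 ≤ k → Flat G X) m := ⟨_, rfl⟩
        have ht3 : 3 ≤ t := by
          rw [ht]
          exact Nat.le_findGreatest (P := fun k => ∀ X : Set Ω, X.ncard + 1 ≤ k → Flat G X)
            (by omega) h3flat
        have hPt : ∀ X : Set Ω, X.ncard + 1 ≤ t → Flat G X := by
          rw [ht]
          exact Nat.findGreatest_spec (P := fun k => ∀ X : Set Ω, X.ncard + 1 ≤ k → Flat G X)
            (m := 3) (by omega) h3flat
        have htle : t ≤ m := by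
          rw [ht]
          exact Nat.findGreatest_le m
        have htm : t < m := by
          rcases htle.lt_or_eq with h | h
          · exact h
          · exfalso
            apply hPm
            rw [← h]
            exact hPt
        have hnPt : ¬ ∀ X : Set Ω, X.ncard + 1 ≤ t + 1 → Flat G X :=
          Nat.findGreatest_is_greatest
            (P := fun k => ∀ X : Set Ω, X.ncard + 1 ≤ k → Flat G X) (n := m) (k := t + 1)
            (by rw [← ht]; omega) (by omega)
        have hcrit : Crit G Δᶜ m t :=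
          { card := by rw [hn, hn']
            cardΓ := by rw [hΓcard, hn']; omega
            flatΓ := hflat
            t3 := ht3
            tm := by omega
            small := hPt
            noT := noT_of_not_allflat hPt hnPt
            noM := by
              intro X hX hXΓ hXm
              apply hnPt
              have hall := allflat_of_flat_card_m hprim (by rw [hn, hn']) (by omega)
                (by rw [hΓcard, hn']; omega) hflat hX hXΓ hXm
              exact hPmono (t + 1) (m + 1) (by omega) hall }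
        obtain ⟨E, hE, -, -⟩ := exists_maxflat_sep hcrit (hPt ∅ (by simp; omega))
          (Set.empty_subset _) (fun h => by rw [← h] at ha; exact ha) ha (Set.notMem_empty a)
        obtain ⟨hC1, hC2, hC3⟩ := maxflat_compl hcrit hE
        have h2t := stab_trans hcrit (fun E hE => (maxflat_compl hcrit hE).2.2)
          (fun X hX hXΓ hne γ hγ hγX => exists_maxflat_sep hcrit hX hXΓ hne hγ hγX)
        have hprimΓ : IsPreprimitive (stabilizer G Δᶜ) ↥(Δᶜ) := prim_setStab h2t
        have hcardΓ' : Nat.card ↥(Δᶜ) = m + 1 := by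
          rw [Nat.card_coe_set_eq, hΓcard, hn']
          omega
        have hΔ'' : (Subtype.val ⁻¹' (Δᶜ \ E) : Set ↥(Δᶜ)).ncard = (Δᶜ \ E).ncard := by
          apply Set.ncard_preimage_of_injective_subset_range Subtype.val_injective
          intro x hx
          exact ⟨⟨x, hx.1⟩, rfl⟩
        obtain ⟨g, hg⟩ := ih (m + 1) (by omega) (stabilizer G Δᶜ) ↥(Δᶜ) hcardΓ' hprimΓ
          (Subtype.val ⁻¹' (Δᶜ \ E)) (by rw [hΔ'']; omega) (by rw [hΔ'']; omega)
          (flat_setStab hC3)
        have hA : ∀ E' : Set Ω, E' ⊆ Δᶜ → E'.ncard = E.ncard → ∃ g : G, g • E = E' :=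
          fun E' hE' hcard => exists_smul_eq_of_act3 h2t ⟨g, hg⟩ hE.2.1 hE' hcard hC1
        have hbound := t_bound hcrit hE hC1 hC2 hA
        exact act3_of_supp hPt _ u hu1 rfl (by omega) (by rw [hn]; omega)

end transport

/-- A quasiprimitive group with a small Jordan set is primitive. -/
theorem prim_of_quasiprim {G : Type u} {Ω : Type v} [Group G] [Finite G] [MulAction G Ω]
    [FaithfulSMul G Ω] [Finite Ω]
    (hqp : ∀ N : Subgroup G, N.Normal → N ≠ ⊥ → IsPretransitive ↥N Ω)
    (J : Set Ω) (h1 : 1 < J.ncard) (h2 : 2 * J.ncard < Nat.card Ω) (hflat : Flat G Jᶜ) :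
    IsPreprimitive G Ω := by
  classical
  obtain ⟨γ, hγ, γ', hγ', hne⟩ := (Set.one_lt_ncard (Set.toFinite J)).mp h1
  obtain ⟨h₀, hh₀, hh₀γ⟩ := hflat γ (fun h => h hγ) γ' (fun h => h hγ')
  have hh₀1 : h₀ ≠ 1 := by
    rintro rfl
    rw [one_smul] at hh₀γ
    exact hne hh₀γ
  haveI hGtrans : IsPretransitive G Ω := by
    have h1 := hqp ⊤ inferInstance (by
      intro h
      have h2 : h₀ ∈ (⊤ : Subgroup G) := Subgroup.mem_top _
      rw [h] at h2
      exact hh₀1 (Subgroup.mem_bot.mp h2))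
    constructor
    intro x y
    obtain ⟨g, hg⟩ := h1.exists_smul_eq x y
    exact ⟨g.1, hg⟩
  haveI : Nontrivial Ω := ⟨⟨γ, γ', hne⟩⟩
  rw [← isCoatom_stabilizer_iff_preprimitive G γ]
  by_contra hnot
  have hstab_ne_top : stabilizer G γ ≠ ⊤ := by
    intro h
    have h3 : h₀ ∈ stabilizer G γ := by
      rw [h]
      exact Subgroup.mem_top _
    rw [mem_stabilizer_iff, hh₀γ] at h3
    exact hne h3.symm
  obtain ⟨M, hMcoatom, hM⟩ :=
    (eq_top_or_exists_le_coatom (stabilizer G γ)).resolve_left hstab_ne_top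
  have hMne : stabilizer G γ ≠ M := fun h => hnot (h ▸ hMcoatom)
  obtain ⟨hcore, hwd, hex⟩ := quasi_block hqp J hflat hγ hγ' hne M hM hMcoatom.1
  obtain ⟨hJ'1, hJ'2, hJ'flat⟩ := quasi_quot J h1 h2 hflat hγ M hM hwd hex
  have hprimQ : IsPreprimitive G (G ⧸ M) := by
    haveI : Nontrivial (G ⧸ M) := by
      obtain ⟨g, -, hgM⟩ := hex
      refine ⟨⟨((1 : G) : G ⧸ M), (g : G ⧸ M), ?_⟩⟩
      intro h
      rw [QuotientGroup.eq] at h
      simp only [inv_one, one_mul] at h
      exact hgM h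
    rw [← isCoatom_stabilizer_iff_preprimitive G ((1 : G) : G ⧸ M), stabilizer_quotient]
    exact hMcoatom
  obtain ⟨g, hg⟩ := marggraf (Nat.card (G ⧸ M)) G (G ⧸ M) rfl hprimQ _ hJ'1 hJ'2 hJ'flat
  exact quasi_contra J hflat hγ M hM hMne hcore hwd hJ'1 hJ'2 hprimQ ⟨g, hg⟩

/-- The final statement: a quasiprimitive group with a small Jordan set induces every even
permutation. -/
theorem marggraf_quasiprimitive {G : Type u} {Ω : Type v} [Group G] [Finite G] [MulAction G Ω]
    [FaithfulSMul G Ω] [Fintype Ω] [DecidableEq Ω]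
    (hqp : ∀ N : Subgroup G, N.Normal → N ≠ ⊥ → IsPretransitive ↥N Ω)
    (J : Set Ω) (h1 : 1 < J.ncard) (h2 : 2 * J.ncard < Fintype.card Ω) (hflat : Flat G Jᶜ) :
    ∀ σ : Equiv.Perm Ω, Equiv.Perm.sign σ = 1 →
      ∃ x : G, (MulAction.toPerm x : Equiv.Perm Ω) = σ := by
  have h2' : 2 * J.ncard < Nat.card Ω := by
    rw [Nat.card_eq_fintype_card]
    exact h2
  have hprim := prim_of_quasiprim hqp J h1 h2' hflat
  obtain ⟨g, hg⟩ := marggraf (Nat.card Ω) G Ω rfl hprim J h1 h2' hflat
  exact fun σ hσ => exists_toPerm_eq_of_act3 hprim hg σ hσ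

end Cfsg.Agent.Lib.Helper62.Marg
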