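import Mathlib

/-!
Numeric lemmas for the bound on the order of nilpotent permutation groups
(helper62): `L n = v_2(n!)`, `beta n = max (2^L n) (3 * 2^L (n-3))`.
-/

namespace Cfsg.Agent.Lib.Helper62.NilPerm

/-- 2-adic valuation of `n!`. -/
def L (n : ℕ) : ℕ := padicValNat 2 n.factorial

theorem L_rec (n : ℕ) : L n = n / 2 + L (n / 2) := by
  unfold L
  have h1 : padicValNat 2 (2 * (n / 2)).factorial = padicValNat 2 n.factorial :=
    padicValNat_mul_div_factorial n
  rw [← h1, padicValNat_factorial_mul]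
  ring

theorem L_zero : L 0 = 0 := by simp [L]

theorem L_one : L 1 = 0 := by simp [L]

theorem L_two : L 2 = 1 := by
  rw [L_rec]; simp [L_one]

theorem L_three : L 3 = 1 := by
  rw [L_rec]; simp [L_one]

theorem L_four : L 4 = 3 := by
  rw [L_rec]; simp [L_two]

theorem L_six : L 6 = 4 := by
  rw [L_rec]; simp [L_three]

theorem L_nine : L 9 = 7 := by
  rw [L_rec]; simp [L_four]

theorem L_add (a b : ℕ) : L a + L b ≤ L (a + b) := by
  unfold L
  have h := Nat.add_choose_mul_factorial_mul_factorial a b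
  rw [← h]
  have hc : (a + b).choose b ≠ 0 := (Nat.choose_pos (Nat.le_add_left b a)).ne'
  rw [padicValNat.mul (mul_ne_zero hc (Nat.factorial_ne_zero a)) (Nat.factorial_ne_zero b),
    padicValNat.mul hc (Nat.factorial_ne_zero a)]
  omega

theorem L_mono {a b : ℕ} (h : a ≤ b) : L a ≤ L b := by
  obtain ⟨c, rfl⟩ := Nat.exists_eq_add_of_le h
  have := L_add a c
  omega

theorem L_lt {n : ℕ} (hn : n ≠ 0) : L n < n :=
  padicValNat_factorial_lt_of_ne_zero 2 hn

theorem L_ge2 (n : ℕ) : n / 2 + n / 4 ≤ L n := by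
  rw [L_rec n, L_rec (n / 2)]
  have : n / 2 / 2 = n / 4 := by omega
  omega

theorem L_ge3 (n : ℕ) : n / 2 + n / 4 + n / 8 ≤ L n := by
  rw [L_rec n, L_rec (n / 2), L_rec (n / 2 / 2)]
  have : n / 2 / 2 = n / 4 := by omega
  have : n / 2 / 2 / 2 = n / 8 := by omega
  omega

theorem L_four_mul (j r : ℕ) (hr : r < 4) :
    L (4 * j + r) = 3 * j + L j + (if 2 ≤ r then 1 else 0) := by
  rw [L_rec (4 * j + r), L_rec ((4 * j + r) / 2)]
  have h1 : (4 * j + r) / 2 / 2 = j := by omega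
  rw [h1]
  split_ifs <;> omega

/-- `q + L k ≤ L (q k)` for `q, k ≥ 2`. -/
theorem L_mul_ge (q k : ℕ) (hq : 2 ≤ q) (hk : 2 ≤ k) : q + L k ≤ L (q * k) := by
  rcases Nat.lt_or_ge q 3 with h | h
  · have hq2 : q = 2 := by omega
    subst hq2
    rw [L_rec (2 * k)]
    have : 2 * k / 2 = k := by omega
    rw [this]; omega
  · have h1 : q * k = k + (q - 1) * k := by
      have : q = (q - 1) + 1 := by omega
      conv_lhs => rw [this]
      ring
    have h2 := L_add k ((q - 1) * k)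
    rw [← h1] at h2
    have h3 : L (2 * (q - 1)) ≤ L ((q - 1) * k) := by
      apply L_mono
      rw [mul_comm]
      exact Nat.mul_le_mul_left _ hk
    have h4 := L_ge2 (2 * (q - 1))
    omega

/-- The bound: `2^{v_2(n!)}`, or `3 * 2^{v_2((n-3)!)}` if that is larger. -/
def beta (n : ℕ) : ℕ := max (2 ^ L n) (if 3 ≤ n then 3 * 2 ^ L (n - 3) else 0)

theorem two_pow_le_beta (n : ℕ) : 2 ^ L n ≤ beta n := le_max_left _ _

theorem beta_pos (n : ℕ) : 0 < beta n :=
  lt_of_lt_of_le (by positivity) (two_pow_le_beta n)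

theorem beta_le (n : ℕ) : beta n ≤ 2 ^ (L n + 1) := by
  unfold beta
  apply max_le
  · exact Nat.pow_le_pow_right (by norm_num) (by omega)
  · split_ifs with h
    · have h1 := L_add (n - 3) 3
      rw [L_three] at h1
      have h2 : n - 3 + 3 = n := by omega
      rw [h2] at h1
      calc 3 * 2 ^ L (n - 3) ≤ 4 * 2 ^ L (n - 3) := by gcongr; norm_num
        _ = 2 ^ (L (n - 3) + 2) := by ring
        _ ≤ 2 ^ (L n + 1) := Nat.pow_le_pow_right (by norm_num) (by omega)
    · exact Nat.zero_le _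

theorem beta_mul (a b : ℕ) : beta a * beta b ≤ beta (a + b) := by
  have key1 : 2 ^ L a * 2 ^ L b ≤ beta (a + b) := by
    rw [← pow_add]
    exact le_trans (Nat.pow_le_pow_right (by norm_num) (L_add a b)) (two_pow_le_beta _)
  have key2 : ∀ a b : ℕ, 3 ≤ a → 3 * 2 ^ L (a - 3) * 2 ^ L b ≤ beta (a + b) := by
    intro a b ha
    have h1 := L_add (a - 3) b
    have h2 : a - 3 + b = a + b - 3 := by omega
    rw [h2] at h1
    have h3 : 3 * 2 ^ L (a + b - 3) ≤ beta (a + b) := by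
      unfold beta
      rw [if_pos (by omega)]
      exact le_max_right _ _
    calc 3 * 2 ^ L (a - 3) * 2 ^ L b = 3 * 2 ^ (L (a - 3) + L b) := by ring
      _ ≤ 3 * 2 ^ L (a + b - 3) := by
        gcongr
        · norm_num
      _ ≤ beta (a + b) := h3
  have key3 : 3 ≤ a → 3 ≤ b → 3 * 2 ^ L (a - 3) * (3 * 2 ^ L (b - 3)) ≤ beta (a + b) := by
    intro ha hb
    have h1 := L_add (a - 3) (b - 3)
    have h2 := L_add (a - 3 + (b - 3)) 6
    rw [L_six] at h2
    have h3 : a - 3 + (b - 3) + 6 = a + b := by omega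
    rw [h3] at h2
    calc 3 * 2 ^ L (a - 3) * (3 * 2 ^ L (b - 3)) = 9 * 2 ^ (L (a - 3) + L (b - 3)) := by ring
      _ ≤ 16 * 2 ^ (L (a - 3) + L (b - 3)) := by gcongr; norm_num
      _ = 2 ^ (L (a - 3) + L (b - 3) + 4) := by ring
      _ ≤ 2 ^ L (a + b) := Nat.pow_le_pow_right (by norm_num) (by omega)
      _ ≤ beta (a + b) := two_pow_le_beta _
  have ha : beta a = 2 ^ L a ∨ (3 ≤ a ∧ beta a = 3 * 2 ^ L (a - 3)) ∨ beta a = 0 := by
    unfold beta
    rcases max_choice (2 ^ L a) (if 3 ≤ a then 3 * 2 ^ L (a - 3) else 0) with h | h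
    · exact Or.inl h
    · by_cases h3 : 3 ≤ a
      · right; left; exact ⟨h3, by rw [h, if_pos h3]⟩
      · right; right; rw [h, if_neg h3]
  have hb : beta b = 2 ^ L b ∨ (3 ≤ b ∧ beta b = 3 * 2 ^ L (b - 3)) ∨ beta b = 0 := by
    unfold beta
    rcases max_choice (2 ^ L b) (if 3 ≤ b then 3 * 2 ^ L (b - 3) else 0) with h | h
    · exact Or.inl h
    · by_cases h3 : 3 ≤ b
      · right; left; exact ⟨h3, by rw [h, if_pos h3]⟩
      · right; right; rw [h, if_neg h3]
  rcases ha with ha | ⟨ha3, ha⟩ | ha <;> rcases hb with hb | ⟨hb3, hb⟩ | hb <;> rw [ha, hb]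
  · exact key1
  · have := key2 b a hb3
    rw [add_comm b a] at this
    calc 2 ^ L a * (3 * 2 ^ L (b - 3)) = 3 * 2 ^ L (b - 3) * 2 ^ L a := by ring
      _ ≤ beta (a + b) := this
  · simp
  · exact key2 a b ha3
  · exact key3 ha3 hb3
  · simp
  · simp
  · simp
  · simp

theorem beta_mono {a b : ℕ} (h : a ≤ b) : beta a ≤ beta b := by
  obtain ⟨c, rfl⟩ := Nat.exists_eq_add_of_le h
  calc beta a = beta a * 1 := (mul_one _).symm
    _ ≤ beta a * beta c := Nat.mul_le_mul_left _ (beta_pos c)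
    _ ≤ beta (a + c) := beta_mul a c

theorem beta_one : beta 1 = 1 := by
  unfold beta
  rw [L_one]; simp

theorem beta_three : beta 3 = 3 := by
  unfold beta
  rw [L_three]; simp [L_zero]

/-- For `n % 4 ≠ 3` the bound is the order of a Sylow 2-subgroup. -/
theorem beta_eq (n : ℕ) (hn : n % 4 ≠ 3) : beta n = 2 ^ L n := by
  unfold beta
  apply max_eq_left
  split_ifs with h3
  · obtain ⟨j, r, hr, rfl⟩ : ∃ j r, r < 4 ∧ n = 4 * j + r :=
      ⟨n / 4, n % 4, Nat.mod_lt _ (by norm_num), by omega⟩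
    have hr3 : r ≠ 3 := by omega
    have hj : 1 ≤ j := by omega
    have e1 : 4 * j + r - 3 = 4 * (j - 1) + (r + 1) := by omega
    have h1 := L_four_mul (j - 1) (r + 1) (by omega)
    have h2 := L_four_mul j r hr
    have h3' : L (j - 1) ≤ L j := L_mono (by omega)
    have h4 : L (4 * j + r - 3) + 2 ≤ L (4 * j + r) := by
      rw [e1, h1, h2]
      split_ifs <;> omega
    calc 3 * 2 ^ L (4 * j + r - 3) ≤ 4 * 2 ^ L (4 * j + r - 3) := by gcongr; norm_num
      _ = 2 ^ (L (4 * j + r - 3) + 2) := by ring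
      _ ≤ 2 ^ L (4 * j + r) := Nat.pow_le_pow_right (by norm_num) h4
  · exact Nat.zero_le _

/-! ### prime power bounds -/

theorem val_pow_succ (p b : ℕ) [hp : Fact p.Prime] :
    padicValNat p (p ^ (b + 1)).factorial = padicValNat p (p ^ b).factorial + p ^ b := by
  rw [pow_succ', padicValNat_factorial_mul]

theorem four_mul_le_eight_pow (t : ℕ) (ht : 1 ≤ t) : 4 * t + 4 ≤ 8 ^ t := by
  induction t, ht using Nat.le_induction with
  | base => norm_num
  | succ t ht ih =>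
    rw [pow_succ]
    omega

theorem pow_le_two_pow_L (p q : ℕ) (hp : 5 ≤ p) : p ^ q ≤ 2 ^ L ((p - 1) * q) := by
  set t := (p - 1) / 4 with ht
  have ht1 : 1 ≤ t := by omega
  have h1 : p ≤ 8 ^ t := le_trans (by omega) (four_mul_le_eight_pow t ht1)
  have h2 : 4 * t * q ≤ (p - 1) * q := Nat.mul_le_mul_right _ (by omega)
  have h3 := L_ge2 ((p - 1) * q)
  have h4 : 2 * (t * q) ≤ (p - 1) * q / 2 := by
    rw [Nat.le_div_iff_mul_le (by norm_num)]
    nlinarith
  have h5 : t * q ≤ (p - 1) * q / 4 := by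
    rw [Nat.le_div_iff_mul_le (by norm_num)]
    nlinarith
  calc p ^ q ≤ (8 ^ t) ^ q := Nat.pow_le_pow_left h1 q
    _ = 2 ^ (3 * (t * q)) := by
      rw [show (8 : ℕ) = 2 ^ 3 by norm_num, ← pow_mul, ← pow_mul]
    _ ≤ 2 ^ L ((p - 1) * q) := Nat.pow_le_pow_right (by norm_num) (by omega)

theorem aux_81_128 (t : ℕ) (ht : 2 ≤ t) : 27 * 81 ^ t ≤ 16 * 128 ^ t := by
  induction t, ht using Nat.le_induction with
  | base => norm_num
  | succ t ht ih =>
    rw [pow_succ, pow_succ]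
    omega

theorem three_pow_le (q : ℕ) (hq : 9 ≤ q) : 3 ^ q ≤ 2 ^ L (2 * q) := by
  have h1 : L (2 * q) = q + L q := by
    rw [L_rec (2 * q)]
    have : 2 * q / 2 = q := by omega
    rw [this]
  have h2 := L_ge2 q
  obtain ⟨t, r, hr, rfl⟩ : ∃ t r, r < 4 ∧ q = 4 * t + r :=
    ⟨q / 4, q % 4, Nat.mod_lt _ (by norm_num), by omega⟩
  have ht : 2 ≤ t := by omega
  have h3 := aux_81_128 t ht
  have e1 : (3 : ℕ) ^ (4 * t + r) = 81 ^ t * 3 ^ r := by
    rw [pow_add, pow_mul]; norm_num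
  have h4 : 7 * t + r + r / 2 ≤ L (2 * (4 * t + r)) := by omega
  have e2 : (2 : ℕ) ^ (7 * t + r + r / 2) = 128 ^ t * 2 ^ (r + r / 2) := by
    rw [show 7 * t + r + r / 2 = 7 * t + (r + r / 2) by ring, pow_add, pow_mul]; norm_num
  have h5 : 81 ^ t * 3 ^ r ≤ 128 ^ t * 2 ^ (r + r / 2) := by
    generalize (81 : ℕ) ^ t = A at h3 ⊢
    generalize (128 : ℕ) ^ t = B at h3 ⊢
    clear h4 h2 h1 hq
    interval_cases r
    · simp only [pow_zero, mul_one, Nat.zero_div, add_zero]; omega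
    · norm_num; omega
    · norm_num; omega
    · norm_num; omega
  calc 3 ^ (4 * t + r) = 81 ^ t * 3 ^ r := e1
    _ ≤ 128 ^ t * 2 ^ (r + r / 2) := h5
    _ = 2 ^ (7 * t + r + r / 2) := e2.symm
    _ ≤ 2 ^ L (2 * (4 * t + r)) := Nat.pow_le_pow_right (by norm_num) h4

/-- order of a Sylow `p`-subgroup of `S_{p^b}` is at most that of a Sylow 2-subgroup,
unless `p^b = 3`. -/
theorem prime_pow_bound (p b : ℕ) [hp : Fact p.Prime] (hb : 1 ≤ b) (h3 : p ^ b ≠ 3) :
    p ^ padicValNat p (p ^ b).factorial ≤ 2 ^ L (p ^ b) := by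
  by_cases hp2 : p = 2
  · subst hp2
    exact le_refl _
  by_cases hp3 : p = 3
  · subst hp3
    have hb2 : 2 ≤ b := by
      rcases Nat.lt_or_ge b 2 with h | h
      · have : b = 1 := by omega
        subst this
        exact absurd (by norm_num) h3
      · exact h
    clear h3 hb
    induction b, hb2 using Nat.le_induction with
    | base =>
      have e1 : padicValNat 3 (3 ^ 2).factorial = 4 := by
        rw [val_pow_succ 3 1, val_pow_succ 3 0]; simp
      rw [e1]
      have : (3 : ℕ) ^ 2 = 9 := by norm_num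
      rw [this, L_nine]; norm_num
    | succ b hb2 ih =>
      rw [val_pow_succ, pow_add]
      have hq : 9 ≤ 3 ^ b := by
        calc 9 = 3 ^ 2 := by norm_num
          _ ≤ 3 ^ b := Nat.pow_le_pow_right (by norm_num) hb2
      have h1 := three_pow_le (3 ^ b) hq
      have h2 := L_add (3 ^ b) (2 * 3 ^ b)
      have e : 3 ^ b + 2 * 3 ^ b = 3 ^ (b + 1) := by ring
      rw [e] at h2
      calc 3 ^ padicValNat 3 (3 ^ b).factorial * 3 ^ 3 ^ b
          ≤ 2 ^ L (3 ^ b) * 2 ^ L (2 * 3 ^ b) := Nat.mul_le_mul ih h1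
        _ = 2 ^ (L (3 ^ b) + L (2 * 3 ^ b)) := by rw [pow_add]
        _ ≤ 2 ^ L (3 ^ (b + 1)) := Nat.pow_le_pow_right (by norm_num) h2
  · have hp5 : 5 ≤ p := Nat.Prime.five_le_of_ne_two_of_ne_three hp.out hp2 hp3
    clear h3 hb
    induction b with
    | zero => simp [L_one]
    | succ b ih =>
      rw [val_pow_succ, pow_add]
      have h1 := pow_le_two_pow_L p (p ^ b) hp5
      have h2 := L_add (p ^ b) ((p - 1) * p ^ b)
      have e : p ^ b + (p - 1) * p ^ b = p ^ (b + 1) := by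
        obtain ⟨c, hc⟩ : ∃ c, p = c + 1 := ⟨p - 1, by omega⟩
        rw [hc, Nat.add_sub_cancel]
        ring
      rw [e] at h2
      calc p ^ padicValNat p (p ^ b).factorial * p ^ p ^ b
          ≤ 2 ^ L (p ^ b) * 2 ^ L ((p - 1) * p ^ b) := Nat.mul_le_mul ih h1
        _ = 2 ^ (L (p ^ b) + L ((p - 1) * p ^ b)) := by rw [pow_add]
        _ ≤ 2 ^ L (p ^ (b + 1)) := Nat.pow_le_pow_right (by norm_num) h2

theorem prime_pow_bound' (p b : ℕ) [hp : Fact p.Prime] (hb : 1 ≤ b) :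
    p ^ padicValNat p (p ^ b).factorial ≤ 2 ^ (p ^ b - 1) := by
  by_cases h3 : p ^ b = 3
  · have h := (Nat.Prime.pow_eq_iff Nat.prime_three).mp h3
    obtain ⟨rfl, rfl⟩ := h
    have e1 : padicValNat 3 (3 ^ 1).factorial = 1 := by
      rw [val_pow_succ 3 0]; simp
    rw [e1]; norm_num
  · have hq : p ^ b ≠ 0 := pow_ne_zero _ hp.out.ne_zero
    have := L_lt hq
    exact le_trans (prime_pow_bound p b hb h3) (Nat.pow_le_pow_right (by norm_num) (by omega))

/-- The key multiplicative inequality for the transitive case. -/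
theorem key_mul (p b k : ℕ) [hp : Fact p.Prime] (hb : 1 ≤ b) (hk : 1 ≤ k) :
    p ^ padicValNat p (p ^ b).factorial * beta k ≤ beta (p ^ b * k) := by
  rcases Nat.lt_or_ge k 2 with h | h
  · have hk1 : k = 1 := by omega
    subst hk1
    rw [beta_one, mul_one, mul_one]
    by_cases h3 : p ^ b = 3
    · have h' := (Nat.Prime.pow_eq_iff Nat.prime_three).mp h3
      obtain ⟨rfl, rfl⟩ := h'
      have e1 : padicValNat 3 (3 ^ 1).factorial = 1 := by
        rw [val_pow_succ 3 0]; simp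
      rw [e1]
      have : (3 : ℕ) ^ 1 = 3 := by norm_num
      rw [this, beta_three]
    · exact le_trans (prime_pow_bound p b hb h3) (two_pow_le_beta _)
  · have hq2 : 2 ≤ p ^ b := by
      calc 2 ≤ p := hp.out.two_le
        _ = p ^ 1 := (pow_one p).symm
        _ ≤ p ^ b := Nat.pow_le_pow_right hp.out.pos hb
    have h1 := prime_pow_bound' p b hb
    have h2 := beta_le k
    have h3 := L_mul_ge (p ^ b) k hq2 h
    calc p ^ padicValNat p (p ^ b).factorial * beta k
        ≤ 2 ^ (p ^ b - 1) * 2 ^ (L k + 1) := Nat.mul_le_mul h1 h2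
      _ = 2 ^ (p ^ b - 1 + (L k + 1)) := (pow_add 2 _ _).symm
      _ ≤ 2 ^ L (p ^ b * k) := Nat.pow_le_pow_right (by norm_num) (by omega)
      _ ≤ beta (p ^ b * k) := two_pow_le_beta _

end Cfsg.Agent.Lib.Helper62.NilPerm
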