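import Cfsg.Agent.Lib.Helper62.NilNum
import Mathlib

/-!
Numeric lemmas for the bound on the order of nilpotent subgroups of alternating groups
(helper62): `betaA n`.
-/

namespace Cfsg.Agent.Lib.Helper62.NilPerm

/-- computable version of `L` with fuel. -/
def Lf : ℕ → ℕ → ℕ
  | 0, _ => 0
  | k + 1, n => n / 2 + Lf k (n / 2)

theorem L_eq_Lf_aux : ∀ (k n : ℕ), n ≤ k → L n = Lf k n := by
  intro k
  induction k with
  | zero =>
    intro n hn
    have : n = 0 := by omega
    subst this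
    rw [L_zero]; rfl
  | succ k ih =>
    intro n hn
    rw [L_rec, Lf, ih (n / 2) (by omega)]

theorem L_eq_Lf (n : ℕ) : L n = Lf n n := L_eq_Lf_aux n n le_rfl

theorem L_pos {n : ℕ} (hn : 2 ≤ n) : 1 ≤ L n := by
  have := L_mono hn
  rw [L_two] at this
  exact this

theorem half_le {x e : ℕ} (h : 2 * x ≤ 2 ^ e) : x ≤ 2 ^ (e - 1) := by
  cases e with
  | zero =>
    simp only [pow_zero] at h
    have : x = 0 := by omega
    subst this
    exact Nat.zero_le _
  | succ e =>
    rw [pow_succ] at h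
    simp only [Nat.add_sub_cancel]
    omega

theorem eight_mul_le_eight_pow (t : ℕ) (ht : 2 ≤ t) : 8 * t + 8 ≤ 8 ^ t := by
  induction t, ht using Nat.le_induction with
  | base => norm_num
  | succ t ht ih =>
    rw [pow_succ]
    omega

theorem two_mul_pow_le (p q : ℕ) (hp : 7 ≤ p) (hq : 1 ≤ q) :
    2 * p ^ q ≤ 2 ^ L ((p - 1) * q) := by
  set t := (p - 1) / 4 with ht
  have ht1 : 1 ≤ t := by omega
  rcases Nat.lt_or_ge t 2 with h | h
  · -- p ∈ {7, 8}
    have hp8 : p ≤ 8 := by omega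
    have h1 : 6 * q ≤ (p - 1) * q := Nat.mul_le_mul_right _ (by omega)
    have h2 := L_ge2 (6 * q)
    have h3 := L_mono h1
    have h4 : 3 * q + 1 ≤ L ((p - 1) * q) := by omega
    calc 2 * p ^ q ≤ 2 * 8 ^ q := Nat.mul_le_mul_left _ (Nat.pow_le_pow_left hp8 q)
      _ = 2 ^ (3 * q + 1) := by
        rw [show (8 : ℕ) = 2 ^ 3 by norm_num, ← pow_mul, pow_succ]; ring
      _ ≤ 2 ^ L ((p - 1) * q) := Nat.pow_le_pow_right (by norm_num) h4
  · have h1 : 2 * p ≤ 8 ^ t := le_trans (by omega) (eight_mul_le_eight_pow t h)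
    have h2 : 4 * t * q ≤ (p - 1) * q := Nat.mul_le_mul_right _ (by omega)
    have h3 := L_ge2 ((p - 1) * q)
    have h4 : 2 * (t * q) ≤ (p - 1) * q / 2 := by
      rw [Nat.le_div_iff_mul_le (by norm_num)]
      nlinarith
    have h5 : t * q ≤ (p - 1) * q / 4 := by
      rw [Nat.le_div_iff_mul_le (by norm_num)]
      nlinarith
    have h6 : 2 ≤ 2 ^ q := by
      calc 2 = 2 ^ 1 := by norm_num
        _ ≤ 2 ^ q := Nat.pow_le_pow_right (by norm_num) hq
    calc 2 * p ^ q ≤ 2 ^ q * p ^ q := Nat.mul_le_mul_right _ h6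
      _ = (2 * p) ^ q := (mul_pow 2 p q).symm
      _ ≤ (8 ^ t) ^ q := Nat.pow_le_pow_left h1 q
      _ = 2 ^ (3 * (t * q)) := by
        rw [show (8 : ℕ) = 2 ^ 3 by norm_num, ← pow_mul, ← pow_mul]
      _ ≤ 2 ^ L ((p - 1) * q) := Nat.pow_le_pow_right (by norm_num) (by omega)

theorem two_mul_five_pow_le_aux (q : ℕ) (hq : 2 ≤ q) : 2 * 5 ^ q ≤ 8 ^ q := by
  induction q, hq using Nat.le_induction with
  | base => norm_num
  | succ q hq ih =>
    rw [pow_succ, pow_succ]
    omega

theorem two_mul_five_pow_le (q : ℕ) (hq : 2 ≤ q) : 2 * 5 ^ q ≤ 2 ^ L (4 * q) := by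
  have h1 := L_ge2 (4 * q)
  have h2 : 3 * q ≤ L (4 * q) := by omega
  calc 2 * 5 ^ q ≤ 8 ^ q := two_mul_five_pow_le_aux q hq
    _ = 2 ^ (3 * q) := by rw [show (8 : ℕ) = 2 ^ 3 by norm_num, ← pow_mul]
    _ ≤ 2 ^ L (4 * q) := Nat.pow_le_pow_right (by norm_num) h2

theorem aux_54_81_128 (t : ℕ) (ht : 3 ≤ t) : 54 * 81 ^ t ≤ 16 * 128 ^ t := by
  induction t, ht using Nat.le_induction with
  | base => norm_num
  | succ t ht ih =>
    rw [pow_succ, pow_succ]
    omega

theorem two_mul_three_pow_le (q : ℕ) (hq : 12 ≤ q) : 2 * 3 ^ q ≤ 2 ^ L (2 * q) := by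
  have h1 : L (2 * q) = q + L q := by
    rw [L_rec (2 * q)]
    have : 2 * q / 2 = q := by omega
    rw [this]
  have h2 := L_ge2 q
  obtain ⟨t, r, hr, rfl⟩ : ∃ t r, r < 4 ∧ q = 4 * t + r :=
    ⟨q / 4, q % 4, Nat.mod_lt _ (by norm_num), by omega⟩
  have ht : 3 ≤ t := by omega
  have h3 := aux_54_81_128 t ht
  have e1 : (3 : ℕ) ^ (4 * t + r) = 81 ^ t * 3 ^ r := by
    rw [pow_add, pow_mul]; norm_num
  have h4 : 7 * t + r + r / 2 ≤ L (2 * (4 * t + r)) := by omega
  have e2 : (2 : ℕ) ^ (7 * t + r + r / 2) = 128 ^ t * 2 ^ (r + r / 2) := by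
    rw [show 7 * t + r + r / 2 = 7 * t + (r + r / 2) by ring, pow_add, pow_mul]; norm_num
  have h5 : 2 * (81 ^ t * 3 ^ r) ≤ 128 ^ t * 2 ^ (r + r / 2) := by
    generalize (81 : ℕ) ^ t = A at h3 ⊢
    generalize (128 : ℕ) ^ t = B at h3 ⊢
    clear h4 h2 h1 hq
    interval_cases r
    · simp only [pow_zero, mul_one, Nat.zero_div, add_zero]; omega
    · norm_num; omega
    · norm_num; omega
    · norm_num; omega
  calc 2 * 3 ^ (4 * t + r) = 2 * (81 ^ t * 3 ^ r) := by rw [e1]
    _ ≤ 128 ^ t * 2 ^ (r + r / 2) := h5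
    _ = 2 ^ (7 * t + r + r / 2) := e2.symm
    _ ≤ 2 ^ L (2 * (4 * t + r)) := Nat.pow_le_pow_right (by norm_num) h4

theorem two_mul_three_pow_nine : 2 * 3 ^ 9 ≤ 2 ^ L (2 * 9) := by
  rw [L_eq_Lf]; decide

/-- For an odd prime power `q = p^b` other than `3, 5, 9`, twice the order of a Sylow
`p`-subgroup of `S_q` is at most the order of a Sylow 2-subgroup. -/
theorem two_mul_prime_pow_bound (p b : ℕ) [hp : Fact p.Prime] (hb : 1 ≤ b) (hp2 : p ≠ 2)
    (h3 : p ^ b ≠ 3) (h5 : p ^ b ≠ 5) (h9 : p ^ b ≠ 9) :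
    2 * p ^ padicValNat p (p ^ b).factorial ≤ 2 ^ L (p ^ b) := by
  obtain ⟨c, rfl⟩ : ∃ c, b = c + 1 := ⟨b - 1, by omega⟩
  rw [val_pow_succ, pow_add]
  have h2 := L_add (p ^ c) ((p - 1) * p ^ c)
  have e : p ^ c + (p - 1) * p ^ c = p ^ (c + 1) := by
    obtain ⟨d, hd⟩ : ∃ d, p = d + 1 := ⟨p - 1, by have := hp.out.pos; omega⟩
    rw [hd, Nat.add_sub_cancel]
    ring
  rw [e] at h2
  have key : p ^ padicValNat p (p ^ c).factorial ≤ 2 ^ L (p ^ c) ∧
      2 * p ^ p ^ c ≤ 2 ^ L ((p - 1) * p ^ c) := by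
    by_cases hp3 : p = 3
    · subst hp3
      have hc2 : 2 ≤ c := by
        rcases Nat.lt_or_ge c 2 with h | h
        · interval_cases c
          · exact absurd (by norm_num) h3
          · exact absurd (by norm_num) h9
        · exact h
      have hne : 3 ^ c ≠ 3 := by
        intro h
        have := (Nat.Prime.pow_eq_iff Nat.prime_three).mp h
        omega
      refine ⟨prime_pow_bound 3 c (by omega) hne, ?_⟩
      have e3 : (3 - 1) * 3 ^ c = 2 * 3 ^ c := by norm_num
      rw [e3]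
      rcases Nat.lt_or_ge c 3 with h | h
      · have : c = 2 := by omega
        subst this
        exact two_mul_three_pow_nine
      · have : 12 ≤ 3 ^ c := by
          calc 12 ≤ 3 ^ 3 := by norm_num
            _ ≤ 3 ^ c := Nat.pow_le_pow_right (by norm_num) h
        exact two_mul_three_pow_le _ this
    · have hp5 : 5 ≤ p := Nat.Prime.five_le_of_ne_two_of_ne_three hp.out hp2 hp3
      rcases Nat.eq_zero_or_pos c with hc | hc
      · subst hc
        simp only [pow_zero, Nat.factorial_one, padicValNat_one_right, mul_one, pow_one]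
        have hp5' : p ≠ 5 := by
          intro h
          apply h5
          rw [h]; norm_num
        have hp7 : 7 ≤ p := by
          rcases Nat.lt_or_ge p 7 with h | h
          · have : p = 6 := by omega
            subst this
            exact absurd hp.out (by norm_num)
          · exact h
        refine ⟨Nat.one_le_two_pow, ?_⟩
        have := two_mul_pow_le p 1 hp7 le_rfl
        simpa using this
      · have hq5 : 5 ≤ p ^ c := by
          calc 5 ≤ p := hp5
            _ = p ^ 1 := (pow_one p).symm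
            _ ≤ p ^ c := Nat.pow_le_pow_right hp.out.pos hc
        refine ⟨prime_pow_bound p c hc (by omega), ?_⟩
        by_cases hp5' : p = 5
        · subst hp5'
          have := two_mul_five_pow_le (5 ^ c) (by omega)
          simpa using this
        · have hp7 : 7 ≤ p := by
            rcases Nat.lt_or_ge p 7 with h | h
            · have : p = 6 := by omega
              subst this
              exact absurd hp.out (by norm_num)
            · exact h
          exact two_mul_pow_le p (p ^ c) hp7 (by omega)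
  calc 2 * (p ^ padicValNat p (p ^ c).factorial * p ^ p ^ c)
      = p ^ padicValNat p (p ^ c).factorial * (2 * p ^ p ^ c) := by ring
    _ ≤ 2 ^ L (p ^ c) * 2 ^ L ((p - 1) * p ^ c) := Nat.mul_le_mul key.1 key.2
    _ = 2 ^ (L (p ^ c) + L ((p - 1) * p ^ c)) := (pow_add 2 _ _).symm
    _ ≤ 2 ^ L (p ^ (c + 1)) := Nat.pow_le_pow_right (by norm_num) h2


/-! ### the bound `betaA` for alternating groups -/

/-- exceptional values. -/
def excA (n : ℕ) : ℕ := if n = 5 then 5 else if n = 6 then 9 else if n = 9 then 81 else 0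

/-- order of a Sylow 2-subgroup of `A_n`. -/
def fA1 (n : ℕ) : ℕ := 2 ^ (L n - 1)

/-- order of `C_3 ×` a Sylow 2-subgroup of `A_{n-3}`. -/
def fA2 (n : ℕ) : ℕ := if 3 ≤ n then 3 * 2 ^ (L (n - 3) - 1) else 0

/-- The bound for nilpotent subgroups of `A_n`. -/
def betaA (n : ℕ) : ℕ := max (max (fA1 n) (fA2 n)) (excA n)

/-- computable twin of `betaA`. -/
def betaAc (n : ℕ) : ℕ :=
  max (max (2 ^ (Lf n n - 1)) (if 3 ≤ n then 3 * 2 ^ (Lf (n - 3) (n - 3) - 1) else 0)) (excA n)

theorem betaA_eq_c (n : ℕ) : betaA n = betaAc n := by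
  unfold betaA betaAc fA1 fA2
  rw [L_eq_Lf n, L_eq_Lf (n - 3)]

/-- computable twin of `beta`. -/
def betac (n : ℕ) : ℕ := max (2 ^ Lf n n) (if 3 ≤ n then 3 * 2 ^ Lf (n - 3) (n - 3) else 0)

theorem beta_eq_c (n : ℕ) : beta n = betac n := by
  unfold beta betac
  rw [L_eq_Lf n, L_eq_Lf (n - 3)]

theorem fA1_le (n : ℕ) : fA1 n ≤ betaA n := le_trans (le_max_left _ _) (le_max_left _ _)

theorem fA2_le (n : ℕ) : fA2 n ≤ betaA n := le_trans (le_max_right _ _) (le_max_left _ _)

theorem excA_le (n : ℕ) : excA n ≤ betaA n := le_max_right _ _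

theorem betaA_pos (n : ℕ) : 0 < betaA n :=
  lt_of_lt_of_le (by unfold fA1; positivity) (fA1_le n)

theorem betaA_cases (n : ℕ) : betaA n = fA1 n ∨ betaA n = fA2 n ∨ betaA n = excA n := by
  unfold betaA
  rcases max_choice (max (fA1 n) (fA2 n)) (excA n) with h | h
  · rcases max_choice (fA1 n) (fA2 n) with h' | h'
    · left; rw [h, h']
    · right; left; rw [h, h']
  · right; right; exact h

theorem two_pow_le_two_mul (e : ℕ) : 2 ^ e ≤ 2 * 2 ^ (e - 1) := by
  cases e with
  | zero => norm_num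
  | succ e => rw [pow_succ]; simp only [Nat.add_sub_cancel]; omega

theorem beta_le_two_mul_betaA (n : ℕ) : beta n ≤ 2 * betaA n := by
  unfold beta
  apply max_le
  · exact le_trans (two_pow_le_two_mul _) (Nat.mul_le_mul_left _ (fA1_le n))
  · split_ifs with h3
    · have h1 : 3 * 2 ^ L (n - 3) ≤ 2 * fA2 n := by
        unfold fA2
        rw [if_pos h3]
        have := two_pow_le_two_mul (L (n - 3))
        omega
      exact le_trans h1 (Nat.mul_le_mul_left _ (fA2_le n))
    · exact Nat.zero_le _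

theorem fA1_mul (a b : ℕ) : fA1 a * fA1 b ≤ fA1 (a + b) := by
  unfold fA1
  rw [← pow_add]
  apply Nat.pow_le_pow_right (by norm_num)
  have := L_add a b
  omega

theorem fA2_mul_fA1 (a b : ℕ) : fA2 a * fA1 b ≤ fA2 (a + b) := by
  unfold fA2 fA1
  by_cases h1 : 3 ≤ a
  · rw [if_pos h1, if_pos (by omega), mul_assoc, ← pow_add]
    apply Nat.mul_le_mul_left
    apply Nat.pow_le_pow_right (by norm_num)
    have h2 := L_add (a - 3) b
    have e : a - 3 + b = a + b - 3 := by omega
    rw [e] at h2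
    omega
  · rw [if_neg h1, zero_mul]
    exact Nat.zero_le _

theorem fA2_mul_fA2_small : ∀ a < 5, ∀ b < 5,
    (if 3 ≤ a then 3 * 2 ^ (Lf (a - 3) (a - 3) - 1) else 0) *
      (if 3 ≤ b then 3 * 2 ^ (Lf (b - 3) (b - 3) - 1) else 0) ≤ betaAc (a + b) := by
  decide +kernel

theorem fA2_mul_fA2 (a b : ℕ) : fA2 a * fA2 b ≤ betaA (a + b) := by
  by_cases ha : 3 ≤ a
  swap
  · unfold fA2; rw [if_neg ha, zero_mul]; exact Nat.zero_le _
  by_cases hb : 3 ≤ b
  swap
  · unfold fA2; rw [if_neg hb, mul_zero]; exact Nat.zero_le _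
  by_cases hsmall : a < 5 ∧ b < 5
  · have := fA2_mul_fA2_small a hsmall.1 b hsmall.2
    rw [betaA_eq_c]
    unfold fA2
    rw [L_eq_Lf (a - 3), L_eq_Lf (b - 3)]
    exact this
  · have h1 := L_add (a - 3) (b - 3)
    have h2 := L_add (a - 3 + (b - 3)) 6
    rw [L_six] at h2
    have e : a - 3 + (b - 3) + 6 = a + b := by omega
    rw [e] at h2
    have h3 : 1 ≤ L (a - 3) ∨ 1 ≤ L (b - 3) := by
      rcases Nat.lt_or_ge a 5 with h | h
      · right; exact L_pos (by omega)
      · left; exact L_pos (by omega)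
    have e1 : fA2 a * fA2 b = 9 * 2 ^ ((L (a - 3) - 1) + (L (b - 3) - 1)) := by
      unfold fA2
      rw [if_pos ha, if_pos hb, pow_add]; ring
    rw [e1]
    calc 9 * 2 ^ ((L (a - 3) - 1) + (L (b - 3) - 1))
        ≤ 16 * 2 ^ ((L (a - 3) - 1) + (L (b - 3) - 1)) := Nat.mul_le_mul_right _ (by norm_num)
      _ = 2 ^ ((L (a - 3) - 1) + (L (b - 3) - 1) + 4) := by rw [pow_add]; ring
      _ ≤ 2 ^ (L (a + b) - 1) := Nat.pow_le_pow_right (by norm_num) (by omega)
      _ ≤ betaA (a + b) := fA1_le _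

theorem excA_mul_small : ∀ a < 10, ∀ b < 10, excA a * betaAc b ≤ betaAc (a + b) := by
  decide +kernel

theorem excA_le_pow (a : ℕ) : excA a ≤ 2 ^ L a := by
  unfold excA
  split_ifs with h1 h2 h3
  · subst h1; rw [L_eq_Lf]; decide
  · subst h2; rw [L_eq_Lf]; decide
  · subst h3; rw [L_eq_Lf]; decide
  · exact Nat.zero_le _

theorem excA_mul (a b : ℕ) : excA a * betaA b ≤ betaA (a + b) := by
  by_cases hb : b < 10
  · by_cases ha : a < 10
    · have := excA_mul_small a ha b hb
      rw [betaA_eq_c, betaA_eq_c]; exact this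
    · have : excA a = 0 := by
        unfold excA
        rw [if_neg (by omega), if_neg (by omega), if_neg (by omega)]
      rw [this, zero_mul]; exact Nat.zero_le _
  · have hb10 : 10 ≤ b := by omega
    have hx := excA_le_pow a
    rcases betaA_cases b with h | h | h
    · rw [h]
      have h1 := L_add a b
      have h2 : 1 ≤ L b := L_pos (by omega)
      calc excA a * fA1 b ≤ 2 ^ L a * 2 ^ (L b - 1) := Nat.mul_le_mul_right _ hx
        _ = 2 ^ (L a + (L b - 1)) := (pow_add 2 _ _).symm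
        _ ≤ 2 ^ (L (a + b) - 1) := Nat.pow_le_pow_right (by norm_num) (by omega)
        _ ≤ betaA (a + b) := fA1_le _
    · rw [h]
      have h1 := L_add a (b - 3)
      have e : a + (b - 3) = a + b - 3 := by omega
      rw [e] at h1
      have h2 : 1 ≤ L (b - 3) := L_pos (by omega)
      have e2 : fA2 b = 3 * 2 ^ (L (b - 3) - 1) := by unfold fA2; rw [if_pos (by omega)]
      have e3 : fA2 (a + b) = 3 * 2 ^ (L (a + b - 3) - 1) := by
        unfold fA2; rw [if_pos (by omega)]
      rw [e2]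
      calc excA a * (3 * 2 ^ (L (b - 3) - 1)) ≤ 2 ^ L a * (3 * 2 ^ (L (b - 3) - 1)) :=
            Nat.mul_le_mul_right _ hx
        _ = 3 * 2 ^ (L a + (L (b - 3) - 1)) := by rw [pow_add]; ring
        _ ≤ 3 * 2 ^ (L (a + b - 3) - 1) :=
            Nat.mul_le_mul_left _ (Nat.pow_le_pow_right (by norm_num) (by omega))
        _ = fA2 (a + b) := e3.symm
        _ ≤ betaA (a + b) := fA2_le _
    · have : excA b = 0 := by
        unfold excA
        rw [if_neg (by omega), if_neg (by omega), if_neg (by omega)]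
      rw [h, this, mul_zero]; exact Nat.zero_le _

/-- `betaA` is supermultiplicative. -/
theorem betaA_mul (a b : ℕ) : betaA a * betaA b ≤ betaA (a + b) := by
  rcases betaA_cases a with h | h | h
  · rcases betaA_cases b with h' | h' | h'
    · rw [h, h']; exact le_trans (fA1_mul a b) (fA1_le _)
    · rw [h, h', mul_comm, add_comm]; exact le_trans (fA2_mul_fA1 b a) (fA2_le _)
    · rw [h', mul_comm, add_comm]; exact excA_mul b a
  · rcases betaA_cases b with h' | h' | h'
    · rw [h, h']; exact le_trans (fA2_mul_fA1 a b) (fA2_le _)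
    · rw [h, h']; exact fA2_mul_fA2 a b
    · rw [h', mul_comm, add_comm]; exact excA_mul b a
  · rw [h]; exact excA_mul a b

theorem betaA_mono {a b : ℕ} (h : a ≤ b) : betaA a ≤ betaA b := by
  obtain ⟨c, rfl⟩ := Nat.exists_eq_add_of_le h
  calc betaA a = betaA a * 1 := (mul_one _).symm
    _ ≤ betaA a * betaA c := Nat.mul_le_mul_left _ (betaA_pos c)
    _ ≤ betaA (a + c) := betaA_mul a c

theorem key_mulA_aux (q m x : ℕ) (hq : 5 ≤ q) (hm : 2 ≤ m) (hx : x ≤ 2 ^ (q - 2)) :
    x * beta m ≤ betaA (q * m) := by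
  have h1 := beta_le m
  have h3 := L_mul_ge q m (by omega) hm
  calc x * beta m ≤ 2 ^ (q - 2) * 2 ^ (L m + 1) := Nat.mul_le_mul hx h1
    _ = 2 ^ (q - 2 + (L m + 1)) := (pow_add 2 _ _).symm
    _ ≤ 2 ^ (L (q * m) - 1) := Nat.pow_le_pow_right (by norm_num) (by omega)
    _ ≤ betaA (q * m) := fA1_le _

theorem key_mulA_small : 3 * betac 1 ≤ betaAc 3 ∧ 3 * betac 2 ≤ betaAc 6 ∧
    5 * betac 1 ≤ betaAc 5 ∧ 81 * betac 1 ≤ betaAc 9 := by
  decide +kernel

/-- The key multiplicative inequality for the transitive case (odd primes). -/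
theorem key_mulA (p b m : ℕ) [hp : Fact p.Prime] (hp2 : p ≠ 2) (hb : 1 ≤ b) (hm : 1 ≤ m) :
    p ^ padicValNat p (p ^ b).factorial * beta m ≤ betaA (p ^ b * m) := by
  by_cases h3 : p ^ b = 3
  · obtain ⟨rfl, rfl⟩ := (Nat.Prime.pow_eq_iff Nat.prime_three).mp h3
    have e1 : padicValNat 3 (3 ^ 1).factorial = 1 := by
      rw [val_pow_succ 3 0]; simp
    rw [e1]
    simp only [pow_one]
    rcases Nat.lt_or_ge m 3 with h | h
    · interval_cases m
      · rw [beta_eq_c, betaA_eq_c]; exact key_mulA_small.1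
      · rw [beta_eq_c, betaA_eq_c]; exact key_mulA_small.2.1
    · have h1 := beta_le m
      have h2 := L_add m (2 * m)
      have h3' := L_mono (show 6 ≤ 2 * m by omega)
      rw [L_six] at h3'
      have e : m + 2 * m = 3 * m := by ring
      rw [e] at h2
      calc 3 * beta m ≤ 4 * 2 ^ (L m + 1) := Nat.mul_le_mul (by norm_num) h1
        _ = 2 ^ (L m + 3) := by ring
        _ ≤ 2 ^ (L (3 * m) - 1) := Nat.pow_le_pow_right (by norm_num) (by omega)
        _ ≤ betaA (3 * m) := fA1_le _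
  by_cases h5 : p ^ b = 5
  · obtain ⟨rfl, rfl⟩ := (Nat.Prime.pow_eq_iff Nat.prime_five).mp h5
    have e1 : padicValNat 5 (5 ^ 1).factorial = 1 := by
      rw [val_pow_succ 5 0]; simp
    rw [e1]
    simp only [pow_one]
    rcases Nat.lt_or_ge m 2 with h | h
    · have : m = 1 := by omega
      subst this
      rw [beta_eq_c, betaA_eq_c]; exact key_mulA_small.2.2.1
    · exact key_mulA_aux 5 m 5 le_rfl h (by norm_num)
  by_cases h9 : p ^ b = 9
  · have hp3 : p = 3 := by
      have h1 : p ∣ 3 ^ 2 := by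
        rw [show (3 : ℕ) ^ 2 = 9 by norm_num, ← h9]
        exact dvd_pow_self p (by omega)
      exact (Nat.prime_dvd_prime_iff_eq hp.out Nat.prime_three).mp
        (hp.out.dvd_of_dvd_pow h1)
    subst hp3
    have hb2 : b = 2 := by
      have : (3 : ℕ) ^ b = 3 ^ 2 := by rw [h9]; norm_num
      exact Nat.pow_right_injective (show 2 ≤ 3 by norm_num) this
    subst hb2
    have e1 : padicValNat 3 (3 ^ 2).factorial = 4 := by
      rw [val_pow_succ 3 1, val_pow_succ 3 0]; simp
    rw [e1]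
    have e2 : (3 : ℕ) ^ 2 = 9 := by norm_num
    have e3 : (3 : ℕ) ^ 4 = 81 := by norm_num
    rw [e2, e3]
    rcases Nat.lt_or_ge m 2 with h | h
    · have : m = 1 := by omega
      subst this
      rw [beta_eq_c, betaA_eq_c]; exact key_mulA_small.2.2.2
    · exact key_mulA_aux 9 m 81 (by norm_num) h (by norm_num)
  have hN0 := two_mul_prime_pow_bound p b hb hp2 h3 h5 h9
  have hq2 : 2 ≤ p ^ b := by
    calc 2 ≤ p := hp.out.two_le
      _ = p ^ 1 := (pow_one p).symm
      _ ≤ p ^ b := Nat.pow_le_pow_right hp.out.pos hb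
  have hq5 : 5 ≤ p ^ b := by
    by_contra hlt
    have hlt' : p ^ b < 5 := by omega
    have h4 : p ^ b ≠ 4 := by
      intro h4
      have h1 : p ∣ 2 ^ 2 := by
        rw [show (2 : ℕ) ^ 2 = 4 by norm_num, ← h4]
        exact dvd_pow_self p (by omega)
      exact hp2 ((Nat.prime_dvd_prime_iff_eq hp.out Nat.prime_two).mp
        (hp.out.dvd_of_dvd_pow h1))
    have h2' : p ^ b ≠ 2 := by
      intro h2'
      have := (Nat.Prime.pow_eq_iff Nat.prime_two).mp h2'
      exact hp2 this.1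
    omega
  rcases Nat.lt_or_ge m 2 with h | h
  · have : m = 1 := by omega
    subst this
    rw [beta_one, mul_one, mul_one]
    exact le_trans (half_le hN0) (fA1_le _)
  · have hL := L_lt (show p ^ b ≠ 0 by omega)
    have h1 : 2 * p ^ padicValNat p (p ^ b).factorial ≤ 2 ^ (p ^ b - 1) :=
      le_trans hN0 (Nat.pow_le_pow_right (by norm_num) (by omega))
    have h2 := half_le h1
    have e : p ^ b - 1 - 1 = p ^ b - 2 := by omega
    rw [e] at h2
    exact key_mulA_aux (p ^ b) m _ hq5 h h2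

/-- Away from the exceptions the bound is the order of a Sylow 2-subgroup of `A_n`. -/
theorem betaA_eq (n : ℕ) (hn : n % 4 ≠ 3) (h5 : n ≠ 5) (h6 : n ≠ 6) (h9 : n ≠ 9) :
    betaA n = 2 ^ (L n - 1) := by
  have hexc : excA n = 0 := by
    unfold excA
    rw [if_neg h5, if_neg h6, if_neg h9]
  have h2 : fA2 n ≤ fA1 n := by
    unfold fA2 fA1
    split_ifs with h3
    · obtain ⟨j, r, hr, rfl⟩ : ∃ j r, r < 4 ∧ n = 4 * j + r :=
        ⟨n / 4, n % 4, Nat.mod_lt _ (by norm_num), by omega⟩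
      have hr3 : r ≠ 3 := by omega
      have hj : 1 ≤ j := by omega
      have e1 : 4 * j + r - 3 = 4 * (j - 1) + (r + 1) := by omega
      have h1 := L_four_mul (j - 1) (r + 1) (by omega)
      have h2 := L_four_mul j r hr
      have h3' : L (j - 1) ≤ L j := L_mono (by omega)
      have h4 : L (4 * j + r - 3) + 2 ≤ L (4 * j + r) := by
        rw [e1, h1, h2]
        split_ifs <;> omega
      have h5' : 3 ≤ L (4 * j + r) := by
        have := L_mono (show 4 ≤ 4 * j + r by omega)
        rw [L_four] at this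
        exact this
      calc 3 * 2 ^ (L (4 * j + r - 3) - 1) ≤ 4 * 2 ^ (L (4 * j + r - 3) - 1) :=
            Nat.mul_le_mul_right _ (by norm_num)
        _ = 2 ^ (L (4 * j + r - 3) - 1 + 2) := by rw [pow_add]; ring
        _ ≤ 2 ^ (L (4 * j + r) - 1) := Nat.pow_le_pow_right (by norm_num) (by omega)
    · exact Nat.zero_le _
  unfold betaA
  rw [hexc, max_eq_left h2, max_eq_left (Nat.zero_le _)]
  rfl

/-- For `n ≡ 3 (mod 4)`, `n ≥ 7`, the bound is three times the order of a Sylow 2-subgroup of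
`A_{n-3}`. -/
theorem betaA_eq_three (n : ℕ) (hn : n % 4 = 3) (h7 : 7 ≤ n) :
    betaA n = 3 * 2 ^ (L (n - 3) - 1) := by
  have hexc : excA n = 0 := by
    unfold excA
    rw [if_neg (by omega), if_neg (by omega), if_neg (by omega)]
  have h3 : 3 ≤ n := by omega
  have h2 : fA1 n ≤ fA2 n := by
    unfold fA2 fA1
    rw [if_pos h3]
    obtain ⟨j, rfl⟩ : ∃ j, n = 4 * j + 3 := ⟨n / 4, by omega⟩
    have h1 := L_four_mul j 3 (by norm_num)
    have h2 := L_four_mul j 0 (by norm_num)
    have e : 4 * j + 3 - 3 = 4 * j + 0 := by omega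
    rw [e, h1, h2]
    simp only [show (2 : ℕ) ≤ 3 by norm_num, if_true, show ¬ (2 : ℕ) ≤ 0 by norm_num, if_false,
      add_zero, Nat.add_sub_cancel]
    have := two_pow_le_two_mul (3 * j + L j)
    omega
  unfold betaA
  rw [hexc, max_eq_right h2, max_eq_left (Nat.zero_le _)]
  unfold fA2
  rw [if_pos h3]

end Cfsg.Agent.Lib.Helper62.NilPerm
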