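import Cfsg.Agent.Lib.Helper62.NilNum
import Mathlib

/-!
The order of a nilpotent permutation group of degree `n` is at most `beta n`
(helper62).
-/

namespace Cfsg.Agent.Lib.Helper62.NilPerm

open MulAction

/-- In a finite nilpotent group, an element of order prime to `p` centralizes the Sylow
`p`-subgroup. -/
theorem mem_centralizer_of_coprime {G : Type*} [Group G] [Finite G] (hnil : Group.IsNilpotent G)
    (p : ℕ) [hp : Fact p.Prime] (P : Sylow p G) (h : G) (hh : (orderOf h).Coprime p) :
    h ∈ Subgroup.centralizer ((P : Subgroup G) : Set G) := by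
  haveI := hnil
  haveI hPn : (P : Subgroup G).Normal := inferInstance
  set C : Subgroup G := Subgroup.centralizer ((P : Subgroup G) : Set G) with hC
  haveI hCn : C.Normal := Subgroup.normal_centralizer
  -- every Sylow `r`-subgroup with `r ≠ p` lies in `C`
  have hsyl : ∀ (r : ℕ) [Fact r.Prime], r ≠ p → ∀ Q : Sylow r G, (Q : Subgroup G) ≤ C := by
    intro r hr hrp Q
    haveI hQn : (Q : Subgroup G).Normal := inferInstance
    have hdisj : Disjoint (P : Subgroup G) (Q : Subgroup G) :=
      IsPGroup.disjoint_of_ne p r (Ne.symm hrp) _ _ P.isPGroup' Q.isPGroup'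
    intro g hg
    rw [hC, Subgroup.mem_centralizer_iff]
    intro a ha
    exact (Subgroup.commute_of_normal_of_disjoint _ _ hPn hQn hdisj a g ha hg).eq
  -- the index of `C` is a power of `p`
  have hidx0 : C.index ≠ 0 := Subgroup.index_ne_zero_of_finite
  have hidx : ∀ {d : ℕ}, d.Prime → d ∣ C.index → d = p := by
    intro d hd hdvd
    by_contra hne
    haveI : Fact d.Prime := ⟨hd⟩
    obtain ⟨Q⟩ : Nonempty (Sylow d G) := inferInstance
    have h1 : C.index ∣ (Q : Subgroup G).index := Subgroup.index_dvd_of_le (hsyl d hne Q)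
    exact Q.not_dvd_index (dvd_trans hdvd h1)
  have hpow := Nat.eq_prime_pow_of_unique_prime_dvd hidx0 hidx
  have hmem : h ^ C.index ∈ C := C.pow_index_mem h
  have hcop : (C.index).Coprime (orderOf h) := by
    rw [hpow]
    exact (Nat.Coprime.pow_right _ hh).symm
  obtain ⟨m, hm⟩ := exists_pow_eq_self_of_coprime hcop
  rw [← hm]
  exact C.pow_mem hmem m

/-- If `a` and `b` commute, have coprime orders, and `a * b` lies in a subgroup, so does `a`. -/
theorem mem_of_mul_mem_of_coprime {G : Type*} [Group G] (S : Subgroup G) (a b : G)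
    (hab : Commute a b) (hcop : (orderOf b).Coprime (orderOf a)) (h : a * b ∈ S) : a ∈ S := by
  obtain ⟨m, hm⟩ := exists_pow_eq_self_of_coprime hcop
  rw [← hm]
  apply S.pow_mem
  have : (a * b) ^ orderOf b = a ^ orderOf b := by
    rw [hab.mul_pow, pow_orderOf_eq_one, mul_one]
  rw [← this]
  exact S.pow_mem h _


/-- If a transitive faithful group is the product of two commuting subgroups `A`, `B`, then `A`
acts faithfully on each of its orbits. -/
theorem faithful_orbit {G X : Type*} [Group G] [MulAction G X] [FaithfulSMul G X]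
    [IsPretransitive G X] (A B : Subgroup G) (hcomm : ∀ a ∈ A, ∀ b ∈ B, a * b = b * a)
    (hgen : ∀ g : G, ∃ a ∈ A, ∃ b ∈ B, g = b * a) (x0 : X) :
    FaithfulSMul A (orbit A x0) := by
  refine ⟨fun {a1 a2} h => ?_⟩
  apply Subtype.ext
  apply FaithfulSMul.eq_of_smul_eq_smul (α := X)
  intro x
  obtain ⟨g, rfl⟩ := MulAction.exists_smul_eq G x0 x
  obtain ⟨a, ha, b, hb, rfl⟩ := hgen g
  have h1 := h ⟨(⟨a, ha⟩ : A) • x0, mem_orbit _ _⟩
  have h2 : (a1 : G) • (a • x0) = (a2 : G) • (a • x0) := by
    have := congrArg Subtype.val h1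
    exact this
  calc (a1 : G) • (b * a) • x0 = (a1 * b) • (a • x0) := by rw [mul_smul, mul_smul]
    _ = (b * a1) • (a • x0) := by rw [hcomm a1 a1.2 b hb]
    _ = b • ((a1 : G) • (a • x0)) := by rw [mul_smul]
    _ = b • ((a2 : G) • (a • x0)) := by rw [h2]
    _ = (b * a2) • (a • x0) := by rw [mul_smul]
    _ = (a2 * b) • (a • x0) := by rw [hcomm a2 a2.2 b hb]
    _ = (a2 : G) • (b * a) • x0 := by rw [mul_smul, mul_smul]

/-- Orbits of two commuting subgroups with coprime element orders multiply into the set. -/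
theorem card_orbit_mul_le {G X : Type*} [Group G] [MulAction G X] [Finite X]
    (A B : Subgroup G) (hcomm : ∀ a ∈ A, ∀ b ∈ B, a * b = b * a)
    (hcop : ∀ a ∈ A, ∀ b ∈ B, (orderOf a).Coprime (orderOf b)) (x0 : X) :
    Nat.card (orbit A x0) * Nat.card (orbit B x0) ≤ Nat.card X := by
  have hA : ∀ y : orbit A x0, ∃ a : A, a • x0 = (y : X) := fun y => mem_orbit_iff.mp y.2
  choose f hf using hA
  have hB : ∀ z : orbit B x0, ∃ b : B, b • x0 = (z : X) := fun z => mem_orbit_iff.mp z.2
  choose g hg using hB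
  rw [← Nat.card_prod]
  apply Nat.card_le_card_of_injective
    (fun yz : orbit A x0 × orbit B x0 => ((f yz.1 : G) * (g yz.2 : G)) • x0)
  rintro ⟨y, z⟩ ⟨y', z'⟩ h
  simp only at h
  have hfy : (f y : G) • x0 = (y : X) := hf y
  have hfy' : (f y' : G) • x0 = (y' : X) := hf y'
  have hgz : (g z : G) • x0 = (z : X) := hg z
  have hgz' : (g z' : G) • x0 = (z' : X) := hg z'
  have haA : (f y : G) ∈ A := (f y).2
  have ha'A : (f y' : G) ∈ A := (f y').2
  have hbB : (g z : G) ∈ B := (g z).2
  have hb'B : (g z' : G) ∈ B := (g z').2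
  generalize (f y : G) = a at *
  generalize (f y' : G) = a' at *
  generalize (g z : G) = b at *
  generalize (g z' : G) = b' at *
  have hu : a'⁻¹ * a ∈ A := A.mul_mem (A.inv_mem ha'A) haA
  have hv : b'⁻¹ * b ∈ B := B.mul_mem (B.inv_mem hb'B) hbB
  have c1 : a * b'⁻¹ = b'⁻¹ * a :=
    ((show Commute a b' from hcomm a haA b' hb'B).inv_right).eq
  have c2 : a'⁻¹ * b'⁻¹ = b'⁻¹ * a'⁻¹ :=
    ((show Commute a' b' from hcomm a' ha'A b' hb'B).inv_inv).eq
  have e : (a'⁻¹ * a) * (b'⁻¹ * b) = (a' * b')⁻¹ * (a * b) := by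
    calc (a'⁻¹ * a) * (b'⁻¹ * b) = a'⁻¹ * (a * b'⁻¹) * b := by group
      _ = a'⁻¹ * (b'⁻¹ * a) * b := by rw [c1]
      _ = (a'⁻¹ * b'⁻¹) * (a * b) := by group
      _ = (b'⁻¹ * a'⁻¹) * (a * b) := by rw [c2]
      _ = (a' * b')⁻¹ * (a * b) := by rw [mul_inv_rev]
  have key : (a'⁻¹ * a) * (b'⁻¹ * b) ∈ stabilizer G x0 := by
    rw [mem_stabilizer_iff, e, mul_smul, h, inv_smul_smul]
  have hc : Commute (a'⁻¹ * a) (b'⁻¹ * b) := hcomm _ hu _ hv
  have hco := hcop _ hu _ hv
  have k1 : a'⁻¹ * a ∈ stabilizer G x0 :=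
    mem_of_mul_mem_of_coprime _ _ _ hc hco.symm key
  have k2 : b'⁻¹ * b ∈ stabilizer G x0 :=
    mem_of_mul_mem_of_coprime _ _ _ hc.symm hco (by rw [← hc.eq]; exact key)
  rw [mem_stabilizer_iff, mul_smul, inv_smul_eq_iff] at k1 k2
  have e1 : y = y' := Subtype.ext (by rw [← hfy, ← hfy', k1])
  have e2 : z = z' := Subtype.ext (by rw [← hgz, ← hgz', k2])
  rw [e1, e2]

/-- A faithful group embeds in the product of its images on two invariant subsets covering the
set. -/
theorem card_le_of_invariant {G X : Type*} [Group G] [MulAction G X] [FaithfulSMul G X]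
    [Finite X] (S T : SubMulAction G X) (hST : ∀ x : X, x ∈ S ∨ x ∈ T) :
    Nat.card G ≤ Nat.card (MulAction.toPermHom G S).range *
      Nat.card (MulAction.toPermHom G T).range := by
  rw [← Nat.card_prod]
  apply Nat.card_le_card_of_injective
    (fun g : G => ((⟨MulAction.toPermHom G S g, ⟨g, rfl⟩⟩ : (MulAction.toPermHom G S).range),
       (⟨MulAction.toPermHom G T g, ⟨g, rfl⟩⟩ : (MulAction.toPermHom G T).range)))
  intro g g' h
  simp only [Prod.mk.injEq] at h
  apply FaithfulSMul.eq_of_smul_eq_smul (α := X)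
  intro x
  rcases hST x with hx | hx
  · have := congrArg (fun σ : Equiv.Perm S => ((σ ⟨x, hx⟩ : S) : X)) (congrArg Subtype.val h.1)
    exact this
  · have := congrArg (fun σ : Equiv.Perm T => ((σ ⟨x, hx⟩ : T) : X)) (congrArg Subtype.val h.2)
    exact this


/-- A finite nilpotent group acting faithfully on `n` points has order at most `beta n`. -/
theorem card_le_beta : ∀ (n : ℕ) (G : Type) [Group G] [Finite G] (X : Type) [Finite X]
    [MulAction G X] [FaithfulSMul G X], Group.IsNilpotent G → Nat.card X = n →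
    Nat.card G ≤ beta n := by
  intro n
  induction n using Nat.strong_induction_on with
  | _ n ih =>
  intro G _ _ X _ _ _ hnil hX
  by_cases h1 : Nat.card G = 1
  · rw [h1]; exact beta_pos n
  by_cases htr : ∃ x : X, orbit G x ≠ Set.univ
  · -- intransitive case
    obtain ⟨x, hx⟩ := htr
    let S : SubMulAction G X :=
      { carrier := orbit G x
        smul_mem' := fun g y hy => by
          have h2 : orbit G y = orbit G x := orbit_eq_iff.mpr hy
          have h3 : g • y ∈ orbit G y := mem_orbit y g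
          rw [h2] at h3
          exact h3 }
    let T : SubMulAction G X :=
      { carrier := (orbit G x)ᶜ
        smul_mem' := fun g y hy => by
          intro h3
          apply hy
          have h4 : orbit G (g • y) = orbit G x := orbit_eq_iff.mpr h3
          rw [orbit_smul] at h4
          exact orbit_eq_iff.mp h4 }
    have hST : ∀ y : X, y ∈ S ∨ y ∈ T := fun y => Classical.em (y ∈ orbit G x)
    have hcS : Nat.card S = (orbit G x).ncard := Nat.card_coe_set_eq (orbit G x)
    have hcT : Nat.card T = ((orbit G x)ᶜ).ncard := Nat.card_coe_set_eq ((orbit G x)ᶜ)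
    have hsum : Nat.card S + Nat.card T = n := by
      rw [hcS, hcT, Set.ncard_add_ncard_compl, hX]
    have hS1 : 0 < Nat.card S := Nat.card_pos_iff.mpr ⟨⟨⟨x, mem_orbit_self x⟩⟩, inferInstance⟩
    have hT1 : 0 < Nat.card T := by
      obtain ⟨y, hy⟩ := (Set.ne_univ_iff_exists_notMem _).mp hx
      exact Nat.card_pos_iff.mpr ⟨⟨⟨y, hy⟩⟩, inferInstance⟩
    have hle := card_le_of_invariant S T hST
    have hn1 : Group.IsNilpotent (MulAction.toPermHom G S).range :=
      haveI := hnil
      nilpotent_of_surjective (MulAction.toPermHom G S).rangeRestrict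
        (MulAction.toPermHom G S).rangeRestrict_surjective
    have hn2 : Group.IsNilpotent (MulAction.toPermHom G T).range :=
      haveI := hnil
      nilpotent_of_surjective (MulAction.toPermHom G T).rangeRestrict
        (MulAction.toPermHom G T).rangeRestrict_surjective
    have i1 := ih (Nat.card S) (by omega) (MulAction.toPermHom G S).range S hn1 rfl
    have i2 := ih (Nat.card T) (by omega) (MulAction.toPermHom G T).range T hn2 rfl
    calc Nat.card G ≤ Nat.card (MulAction.toPermHom G S).range *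
          Nat.card (MulAction.toPermHom G T).range := hle
      _ ≤ beta (Nat.card S) * beta (Nat.card T) := Nat.mul_le_mul i1 i2
      _ ≤ beta (Nat.card S + Nat.card T) := beta_mul _ _
      _ = beta n := by rw [hsum]
  · -- transitive case
    push_neg at htr
    haveI : IsPretransitive G X := ⟨fun x y => by
      have : y ∈ orbit G x := by rw [htr x]; trivial
      exact mem_orbit_iff.mp this⟩
    haveI := hnil
    set p := (Nat.card G).minFac with hp_def
    haveI hp : Fact p.Prime := ⟨Nat.minFac_prime h1⟩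
    have hpdvd : p ∣ Nat.card G := Nat.minFac_dvd _
    obtain ⟨P⟩ : Nonempty (Sylow p G) := inferInstance
    haveI hPn : (P : Subgroup G).Normal := inferInstance
    obtain ⟨H, hH⟩ := Subgroup.exists_right_complement'_of_coprime P.card_coprime_index
    set Ps : Subgroup G := (P : Subgroup G) with hPs
    have hPp : IsPGroup p Ps := P.isPGroup'
    have hcard : Nat.card Ps * Nat.card H = Nat.card G := hH.card_mul
    have hpP : p ∣ Nat.card Ps := P.dvd_card_of_dvd_card hpdvd
    have hcopPH : (Nat.card Ps).Coprime (Nat.card H) := by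
      have h2 := P.card_coprime_index
      have e : Nat.card H = Ps.index := by
        have h3 := Ps.card_mul_index
        have hpos : 0 < Nat.card Ps := Nat.card_pos
        exact Nat.eq_of_mul_eq_mul_left hpos (hcard.trans h3.symm)
      rw [e]; exact h2
    have hcomm : ∀ a ∈ Ps, ∀ b ∈ H, a * b = b * a := by
      intro a ha b hb
      have hb' : (orderOf b).Coprime p := by
        have h2 : orderOf b ∣ Nat.card H := Subgroup.orderOf_dvd_natCard H hb
        exact Nat.Coprime.coprime_dvd_right hpP (Nat.Coprime.coprime_dvd_left h2 hcopPH.symm)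
      have h3 := mem_centralizer_of_coprime hnil p P b hb'
      exact Subgroup.mem_centralizer_iff.mp h3 a ha
    have hgen : ∀ g : G, ∃ a ∈ Ps, ∃ b ∈ H, g = a * b := by
      intro g
      obtain ⟨⟨a, b⟩, hab⟩ := hH.2 g
      exact ⟨a, a.2, b, b.2, hab.symm⟩
    have hcop : ∀ a ∈ Ps, ∀ b ∈ H, (orderOf a).Coprime (orderOf b) := by
      intro a ha b hb
      have h2 : orderOf b ∣ Nat.card H := Subgroup.orderOf_dvd_natCard H hb
      have h3 : orderOf a ∣ Nat.card Ps := Subgroup.orderOf_dvd_natCard Ps ha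
      exact Nat.Coprime.coprime_dvd_left h3 (Nat.Coprime.coprime_dvd_right h2 hcopPH)
    obtain ⟨x0⟩ : Nonempty X := by
      by_contra hne
      rw [not_nonempty_iff] at hne
      apply h1
      haveI : Subsingleton G :=
        ⟨fun g g' => FaithfulSMul.eq_of_smul_eq_smul (α := X) (fun x => hne.elim x)⟩
      exact Nat.card_of_subsingleton 1
    haveI fA : FaithfulSMul Ps (orbit Ps x0) :=
      faithful_orbit Ps H hcomm (fun g => by
        obtain ⟨a, ha, b, hb, rfl⟩ := hgen g
        exact ⟨a, ha, b, hb, hcomm a ha b hb⟩) x0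
    haveI fB : FaithfulSMul H (orbit H x0) :=
      faithful_orbit H Ps (fun b hb a ha => (hcomm a ha b hb).symm) (fun g => by
        obtain ⟨a, ha, b, hb, rfl⟩ := hgen g
        exact ⟨b, hb, a, ha, rfl⟩) x0
    obtain ⟨b, hb⟩ := IsPGroup.card_orbit hPp x0
    have hPdvd : Nat.card Ps ∣ (p ^ b).factorial := by
      have h2 := Subgroup.card_dvd_of_injective (MulAction.toPermHom Ps (orbit Ps x0))
        MulAction.toPerm_injective
      rwa [Nat.card_perm, hb] at h2
    have hb1 : 1 ≤ b := by
      by_contra hb0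
      have hb0' : b = 0 := by omega
      rw [hb0'] at hPdvd
      simp only [pow_zero, Nat.factorial_one, Nat.dvd_one] at hPdvd
      rw [hPdvd] at hpP
      exact hp.out.one_lt.ne' (Nat.dvd_one.mp hpP)
    obtain ⟨k, hk⟩ := IsPGroup.iff_card.mp hPp
    have hk' : k ≤ padicValNat p (p ^ b).factorial := by
      rw [hk] at hPdvd
      exact (padicValNat_dvd_iff_le (Nat.factorial_ne_zero _)).mp hPdvd
    have hPle : Nat.card Ps ≤ p ^ padicValNat p (p ^ b).factorial := by
      rw [hk]; exact Nat.pow_le_pow_right hp.out.pos hk'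
    set m := Nat.card (orbit H x0) with hm
    have hmul : p ^ b * m ≤ n := by
      rw [← hb, ← hX]
      exact card_orbit_mul_le Ps H hcomm hcop x0
    have hm1 : 1 ≤ m := Nat.card_pos_iff.mpr ⟨⟨⟨x0, mem_orbit_self x0⟩⟩, inferInstance⟩
    have hmn : m < n := by
      have h2 : 2 ≤ p ^ b := le_trans hp.out.two_le (Nat.le_self_pow (by omega) p)
      nlinarith
    have hHle : Nat.card H ≤ beta m := ih m hmn H (orbit H x0) inferInstance rfl
    calc Nat.card G = Nat.card Ps * Nat.card H := hcard.symm
      _ ≤ p ^ padicValNat p (p ^ b).factorial * beta m := Nat.mul_le_mul hPle hHle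
      _ ≤ beta (p ^ b * m) := key_mul p b m hb1 hm1
      _ ≤ beta n := beta_mono hmul

/-- A nilpotent subgroup of `Sym(n)`, `n % 4 ≠ 3`, is at most as large as a Sylow 2-subgroup. -/
theorem card_nilpotent_le_sylow (n : ℕ) (hn : n % 4 ≠ 3) (N : Subgroup (Equiv.Perm (Fin n)))
    (hN : Group.IsNilpotent N) (P : Sylow 2 (Equiv.Perm (Fin n))) : Nat.card N ≤ Nat.card P := by
  have h1 := card_le_beta n N (Fin n) hN (by simp)
  rw [beta_eq n hn] at h1
  have h2 : Nat.card P = 2 ^ L n := by
    rw [P.card_eq_multiplicity, Nat.card_perm, Nat.card_eq_fintype_card, Fintype.card_fin,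
      Nat.factorization_def _ Nat.prime_two]
    rfl
  rw [h2]; exact h1

end Cfsg.Agent.Lib.Helper62.NilPerm
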