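import Cfsg.Agent.Lib.Helper62.NilPerm
import Mathlib

/-!
Nilpotent subgroups of `Sym(n)` for `n % 4 = 3` (helper62).
-/

namespace Cfsg.Agent.Lib.Helper62.NilPerm

theorem beta_eq_three (n : ℕ) (hn : n % 4 = 3) : beta n = 3 * 2 ^ L (n - 3) := by
  unfold beta
  have h3 : 3 ≤ n := by omega
  rw [if_pos h3]
  apply max_eq_right
  obtain ⟨j, rfl⟩ : ∃ j, n = 4 * j + 3 := ⟨n / 4, by omega⟩
  have h1 := L_four_mul j 3 (by norm_num)
  have h2 := L_four_mul j 0 (by norm_num)
  have e : 4 * j + 3 - 3 = 4 * j + 0 := by omega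
  rw [e, h1, h2]
  simp only [show (2 : ℕ) ≤ 3 by norm_num, if_true, show ¬ (2 : ℕ) ≤ 0 by norm_num, if_false,
    add_zero]
  rw [pow_succ]
  omega

/-- The order of a Sylow 2-subgroup of `Sym(n)`. -/
theorem card_sylow_two_perm (n : ℕ) (P : Sylow 2 (Equiv.Perm (Fin n))) :
    Nat.card P = 2 ^ L n := by
  rw [P.card_eq_multiplicity, Nat.card_perm, Nat.card_eq_fintype_card, Fintype.card_fin,
    Nat.factorization_def _ Nat.prime_two]
  rfl

/-- A nilpotent subgroup of `Sym(n)`, `n % 4 = 3`, has order at most three times the order of a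
Sylow 2-subgroup of `Sym(n - 3)`. -/
theorem card_nilpotent_le_three_mul (n : ℕ) (hn : n % 4 = 3)
    (P : Sylow 2 (Equiv.Perm (Fin (n - 3)))) (N : Subgroup (Equiv.Perm (Fin n)))
    (hN : Group.IsNilpotent N) : Nat.card N ≤ 3 * Nat.card P := by
  have h1 := card_le_beta n N (Fin n) hN (by simp)
  rw [beta_eq_three n hn] at h1
  rw [card_sylow_two_perm]
  exact h1

end Cfsg.Agent.Lib.Helper62.NilPerm
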