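import Cfsg.Agent.Lib.Helper62.NilPerm
import Cfsg.Agent.Lib.Helper62.NilNumA
import Mathlib

/-!
The order of a nilpotent group of even permutations of degree `n` is at most `betaA n`
(helper62).
-/

namespace Cfsg.Agent.Lib.Helper62.NilPerm

open MulAction

/-- The sign of a permutation preserving a set is the product of the signs of its
restrictions to the set and to its complement. -/
theorem sign_eq_mul_of_invariant {X : Type*} [Fintype X] [DecidableEq X] (s : Set X)
    [Fintype s] [DecidableEq s] [Fintype (sᶜ : Set X)] [DecidableEq (sᶜ : Set X)]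
    (σ : Equiv.Perm X) (σs : Equiv.Perm s) (σt : Equiv.Perm (sᶜ : Set X))
    (hs : ∀ x : s, (σs x : X) = σ x) (ht : ∀ x : (sᶜ : Set X), (σt x : X) = σ x) :
    Equiv.Perm.sign σ = Equiv.Perm.sign σs * Equiv.Perm.sign σt := by
  classical
  have h1 : ((Equiv.Set.sumCompl s).trans σ).trans (Equiv.Set.sumCompl s).symm =
      Equiv.Perm.sumCongr σs σt := by
    apply Equiv.ext
    intro y
    simp only [Equiv.trans_apply]
    rw [Equiv.symm_apply_eq]
    rcases y with y | y
    · simp [hs]
    · simp [ht]
  rw [← Equiv.Perm.sign_trans_trans_symm σ (Equiv.Set.sumCompl s), h1,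
    Equiv.Perm.sign_sumCongr]

/-- If the image of a faithful group in the product of its images on two invariant subsets
covering the set is proper, the group is at most half as large as the product. -/
theorem two_mul_card_le_of_invariant {G X : Type*} [Group G] [MulAction G X] [FaithfulSMul G X]
    [Finite X] (S T : SubMulAction G X) (hST : ∀ x : X, x ∈ S ∨ x ∈ T) (g0 : G)
    (h0 : ∀ g : G, ¬ (MulAction.toPermHom G S g = MulAction.toPermHom G S g0 ∧
      MulAction.toPermHom G T g = 1)) :
    2 * Nat.card G ≤ Nat.card (MulAction.toPermHom G S).range *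
      Nat.card (MulAction.toPermHom G T).range := by
  let ψ : G →* (MulAction.toPermHom G S).range × (MulAction.toPermHom G T).range :=
    (MulAction.toPermHom G S).rangeRestrict.prod (MulAction.toPermHom G T).rangeRestrict
  have hinj : Function.Injective ψ := by
    intro g g' h
    have h1 : MulAction.toPermHom G S g = MulAction.toPermHom G S g' :=
      congrArg (fun z => (z.1 : Equiv.Perm S)) h
    have h2 : MulAction.toPermHom G T g = MulAction.toPermHom G T g' :=
      congrArg (fun z => (z.2 : Equiv.Perm T)) h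
    apply FaithfulSMul.eq_of_smul_eq_smul (α := X)
    intro x
    rcases hST x with hx | hx
    · exact congrArg (fun σ : Equiv.Perm S => ((σ ⟨x, hx⟩ : S) : X)) h1
    · exact congrArg (fun σ : Equiv.Perm T => ((σ ⟨x, hx⟩ : T) : X)) h2
  have hne : ψ.range ≠ ⊤ := by
    intro htop
    have hmem : (((MulAction.toPermHom G S).rangeRestrict g0, 1) :
        (MulAction.toPermHom G S).range × (MulAction.toPermHom G T).range) ∈ ψ.range := by
      rw [htop]; trivial
    obtain ⟨g, hg⟩ := hmem
    apply h0 g
    constructor
    · exact congrArg (fun z => (z.1 : Equiv.Perm S)) hg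
    · exact congrArg (fun z => (z.2 : Equiv.Perm T)) hg
  have hidx : 2 ≤ ψ.range.index := by
    have h1 : ψ.range.index ≠ 1 := fun h => hne (Subgroup.index_eq_one.mp h)
    have h0' : ψ.range.index ≠ 0 := Subgroup.index_ne_zero_of_finite
    omega
  have hcard : Nat.card ψ.range = Nat.card G :=
    (Nat.card_congr (MonoidHom.ofInjective hinj).toEquiv).symm
  have hmul := ψ.range.card_mul_index
  rw [hcard, Nat.card_prod] at hmul
  calc 2 * Nat.card G = Nat.card G * 2 := mul_comm _ _
    _ ≤ Nat.card G * ψ.range.index := Nat.mul_le_mul_left _ hidx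
    _ = _ := hmul

/-- The transitive case: a transitive faithful nilpotent group is the product of a Sylow
`p`-subgroup acting faithfully on `p^b` points and a complement acting faithfully on `m` points,
with `p^b * m ≤ |X|`. -/
theorem transitive_bound (G : Type) [Group G] [Finite G] (X : Type) [Finite X]
    [MulAction G X] [FaithfulSMul G X] [IsPretransitive G X] (hnil : Group.IsNilpotent G)
    (p : ℕ) [hp : Fact p.Prime] (hpdvd : p ∣ Nat.card G) :
    ∃ b m, 1 ≤ b ∧ 1 ≤ m ∧ p ^ b * m ≤ Nat.card X ∧
      Nat.card G ≤ p ^ padicValNat p (p ^ b).factorial * beta m := by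
  haveI := hnil
  have h1 : Nat.card G ≠ 1 := by
    intro h
    rw [h] at hpdvd
    exact hp.out.one_lt.ne' (Nat.dvd_one.mp hpdvd)
  obtain ⟨P⟩ : Nonempty (Sylow p G) := inferInstance
  haveI hPn : (P : Subgroup G).Normal := inferInstance
  obtain ⟨H, hH⟩ := Subgroup.exists_right_complement'_of_coprime P.card_coprime_index
  set Ps : Subgroup G := (P : Subgroup G) with hPs
  have hPp : IsPGroup p Ps := P.isPGroup'
  have hcard : Nat.card Ps * Nat.card H = Nat.card G := hH.card_mul
  have hpP : p ∣ Nat.card Ps := P.dvd_card_of_dvd_card hpdvd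
  have hcopPH : (Nat.card Ps).Coprime (Nat.card H) := by
    have h2 := P.card_coprime_index
    have e : Nat.card H = Ps.index := by
      have h3 := Ps.card_mul_index
      have hpos : 0 < Nat.card Ps := Nat.card_pos
      exact Nat.eq_of_mul_eq_mul_left hpos (hcard.trans h3.symm)
    rw [e]; exact h2
  have hcomm : ∀ a ∈ Ps, ∀ b ∈ H, a * b = b * a := by
    intro a ha b hb
    have hb' : (orderOf b).Coprime p := by
      have h2 : orderOf b ∣ Nat.card H := Subgroup.orderOf_dvd_natCard H hb
      exact Nat.Coprime.coprime_dvd_right hpP (Nat.Coprime.coprime_dvd_left h2 hcopPH.symm)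
    have h3 := mem_centralizer_of_coprime hnil p P b hb'
    exact Subgroup.mem_centralizer_iff.mp h3 a ha
  have hgen : ∀ g : G, ∃ a ∈ Ps, ∃ b ∈ H, g = a * b := by
    intro g
    obtain ⟨⟨a, b⟩, hab⟩ := hH.2 g
    exact ⟨a, a.2, b, b.2, hab.symm⟩
  have hcop : ∀ a ∈ Ps, ∀ b ∈ H, (orderOf a).Coprime (orderOf b) := by
    intro a ha b hb
    have h2 : orderOf b ∣ Nat.card H := Subgroup.orderOf_dvd_natCard H hb
    have h3 : orderOf a ∣ Nat.card Ps := Subgroup.orderOf_dvd_natCard Ps ha
    exact Nat.Coprime.coprime_dvd_left h3 (Nat.Coprime.coprime_dvd_right h2 hcopPH)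
  obtain ⟨x0⟩ : Nonempty X := by
    by_contra hne
    rw [not_nonempty_iff] at hne
    apply h1
    haveI : Subsingleton G :=
      ⟨fun g g' => FaithfulSMul.eq_of_smul_eq_smul (α := X) (fun x => hne.elim x)⟩
    exact Nat.card_of_subsingleton 1
  haveI fA : FaithfulSMul Ps (orbit Ps x0) :=
    faithful_orbit Ps H hcomm (fun g => by
      obtain ⟨a, ha, b, hb, rfl⟩ := hgen g
      exact ⟨a, ha, b, hb, hcomm a ha b hb⟩) x0
  haveI fB : FaithfulSMul H (orbit H x0) :=
    faithful_orbit H Ps (fun b hb a ha => (hcomm a ha b hb).symm) (fun g => by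
      obtain ⟨a, ha, b, hb, rfl⟩ := hgen g
      exact ⟨b, hb, a, ha, rfl⟩) x0
  obtain ⟨b, hb⟩ := IsPGroup.card_orbit hPp x0
  have hPdvd : Nat.card Ps ∣ (p ^ b).factorial := by
    have h2 := Subgroup.card_dvd_of_injective (MulAction.toPermHom Ps (orbit Ps x0))
      MulAction.toPerm_injective
    rwa [Nat.card_perm, hb] at h2
  have hb1 : 1 ≤ b := by
    by_contra hb0
    have hb0' : b = 0 := by omega
    rw [hb0'] at hPdvd
    simp only [pow_zero, Nat.factorial_one, Nat.dvd_one] at hPdvd
    rw [hPdvd] at hpP
    exact hp.out.one_lt.ne' (Nat.dvd_one.mp hpP)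
  obtain ⟨k, hk⟩ := IsPGroup.iff_card.mp hPp
  have hk' : k ≤ padicValNat p (p ^ b).factorial := by
    rw [hk] at hPdvd
    exact (padicValNat_dvd_iff_le (Nat.factorial_ne_zero _)).mp hPdvd
  have hPle : Nat.card Ps ≤ p ^ padicValNat p (p ^ b).factorial := by
    rw [hk]; exact Nat.pow_le_pow_right hp.out.pos hk'
  have hmul : p ^ b * Nat.card (orbit H x0) ≤ Nat.card X := by
    rw [← hb]
    exact card_orbit_mul_le Ps H hcomm hcop x0
  have hm1 : 1 ≤ Nat.card (orbit H x0) :=
    Nat.card_pos_iff.mpr ⟨⟨⟨x0, mem_orbit_self x0⟩⟩, inferInstance⟩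
  have hHle : Nat.card H ≤ beta (Nat.card (orbit H x0)) :=
    card_le_beta _ H (orbit H x0) inferInstance rfl
  refine ⟨b, Nat.card (orbit H x0), hb1, hm1, hmul, ?_⟩
  calc Nat.card G = Nat.card Ps * Nat.card H := hcard.symm
    _ ≤ p ^ padicValNat p (p ^ b).factorial * beta (Nat.card (orbit H x0)) :=
        Nat.mul_le_mul hPle hHle


/-- A finite nilpotent group acting faithfully by even permutations on `n` points has order at
most `betaA n`. -/
theorem card_le_betaA : ∀ (n : ℕ) (G : Type) [Group G] [Finite G] (X : Type) [Fintype X]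
    [DecidableEq X] [MulAction G X] [FaithfulSMul G X], Group.IsNilpotent G → Nat.card X = n →
    (∀ g : G, Equiv.Perm.sign (MulAction.toPerm g : Equiv.Perm X) = 1) →
    Nat.card G ≤ betaA n := by
  intro n
  induction n using Nat.strong_induction_on with
  | _ n ih =>
  intro G _ _ X _ _ _ _ hnil hX heven
  classical
  by_cases h1 : Nat.card G = 1
  · rw [h1]; exact betaA_pos n
  by_cases hodd : ∃ p : ℕ, p.Prime ∧ p ≠ 2 ∧ p ∣ Nat.card G
  swap
  · -- `G` is a 2-group
    push Not at hodd
    obtain ⟨k, hk⟩ : ∃ k, Nat.card G = 2 ^ k :=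
      ⟨_, Nat.eq_prime_pow_of_unique_prime_dvd (Nat.card_pos.ne') (fun {d} hd hdvd => by
        by_contra hne
        exact hodd d hd hne hdvd)⟩
    have hmem : ∀ g : G, MulAction.toPermHom G X g ∈ alternatingGroup X :=
      fun g => Equiv.Perm.mem_alternatingGroup.mpr (heven g)
    let f : G →* alternatingGroup X :=
      (MulAction.toPermHom G X).codRestrict (alternatingGroup X) hmem
    have hf : Function.Injective f := by
      intro g g' h
      have h' : MulAction.toPermHom G X g = MulAction.toPermHom G X g' :=
        congrArg Subtype.val h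
      exact MulAction.toPerm_injective h'
    have hdvd := Subgroup.card_dvd_of_injective f hf
    haveI : Nontrivial X := by
      by_contra hnt
      rw [not_nontrivial_iff_subsingleton] at hnt
      apply h1
      haveI : Subsingleton G :=
        ⟨fun g g' => FaithfulSMul.eq_of_smul_eq_smul (α := X)
          (fun x => Subsingleton.elim _ _)⟩
      exact Nat.card_of_subsingleton 1
    have h2 : 2 * Nat.card (alternatingGroup X) = n.factorial := by
      rw [two_mul_nat_card_alternatingGroup, Nat.card_perm, hX]
    have h3 : 2 ^ (k + 1) ∣ n.factorial := by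
      rw [← h2, pow_succ, mul_comm]
      rw [hk] at hdvd
      exact Nat.mul_dvd_mul_left 2 hdvd
    have h4 : k + 1 ≤ L n := (padicValNat_dvd_iff_le (Nat.factorial_ne_zero n)).mp h3
    rw [hk]
    calc 2 ^ k ≤ 2 ^ (L n - 1) := Nat.pow_le_pow_right (by norm_num) (by omega)
      _ ≤ betaA n := fA1_le n
  obtain ⟨p, hpp, hp2, hpdvd⟩ := hodd
  haveI : Fact p.Prime := ⟨hpp⟩
  by_cases htr : ∃ x : X, orbit G x ≠ Set.univ
  · -- intransitive case
    obtain ⟨x, hx⟩ := htr
    let S : SubMulAction G X :=
      { carrier := orbit G x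
        smul_mem' := fun g y hy => by
          have h2 : orbit G y = orbit G x := orbit_eq_iff.mpr hy
          have h3 : g • y ∈ orbit G y := mem_orbit y g
          rw [h2] at h3
          exact h3 }
    let T : SubMulAction G X :=
      { carrier := (orbit G x)ᶜ
        smul_mem' := fun g y hy => by
          intro h3
          apply hy
          have h4 : orbit G (g • y) = orbit G x := orbit_eq_iff.mpr h3
          rw [orbit_smul] at h4
          exact orbit_eq_iff.mp h4 }
    have hST : ∀ y : X, y ∈ S ∨ y ∈ T := fun y => Classical.em (y ∈ orbit G x)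
    have hcS : Nat.card S = (orbit G x).ncard := Nat.card_coe_set_eq (orbit G x)
    have hcT : Nat.card T = ((orbit G x)ᶜ).ncard := Nat.card_coe_set_eq ((orbit G x)ᶜ)
    have hsum : Nat.card S + Nat.card T = n := by
      rw [hcS, hcT, Set.ncard_add_ncard_compl, hX]
    have hS1 : 0 < Nat.card S := Nat.card_pos_iff.mpr ⟨⟨⟨x, mem_orbit_self x⟩⟩, inferInstance⟩
    have hT1 : 0 < Nat.card T := by
      obtain ⟨y, hy⟩ := (Set.ne_univ_iff_exists_notMem _).mp hx
      exact Nat.card_pos_iff.mpr ⟨⟨⟨y, hy⟩⟩, inferInstance⟩
    have hn1 : Group.IsNilpotent (MulAction.toPermHom G S).range :=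
      haveI := hnil
      nilpotent_of_surjective (MulAction.toPermHom G S).rangeRestrict
        (MulAction.toPermHom G S).rangeRestrict_surjective
    have hn2 : Group.IsNilpotent (MulAction.toPermHom G T).range :=
      haveI := hnil
      nilpotent_of_surjective (MulAction.toPermHom G T).rangeRestrict
        (MulAction.toPermHom G T).rangeRestrict_surjective
    have hsign : ∀ g : G, Equiv.Perm.sign (MulAction.toPerm g : Equiv.Perm S) *
        Equiv.Perm.sign (MulAction.toPerm g : Equiv.Perm T) = 1 := by
      intro g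
      rw [← heven g]
      convert Eq.symm (sign_eq_mul_of_invariant (orbit G x)
        (MulAction.toPerm g : Equiv.Perm X)
        (MulAction.toPerm g : Equiv.Perm S) (MulAction.toPerm g : Equiv.Perm T)
        (fun y => rfl) (fun y => rfl))
    by_cases hall : ∀ g : G, Equiv.Perm.sign (MulAction.toPerm g : Equiv.Perm S) = 1
    · have hall2 : ∀ g : G, Equiv.Perm.sign (MulAction.toPerm g : Equiv.Perm T) = 1 := by
        intro g
        have h2 := hsign g
        rw [hall g, one_mul] at h2
        exact h2
      have hle := card_le_of_invariant S T hST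
      have i1 := ih (Nat.card S) (by omega) (MulAction.toPermHom G S).range S hn1 rfl (by
        rintro ⟨r, g, rfl⟩
        exact hall g)
      have i2 := ih (Nat.card T) (by omega) (MulAction.toPermHom G T).range T hn2 rfl (by
        rintro ⟨r, g, rfl⟩
        exact hall2 g)
      calc Nat.card G ≤ Nat.card (MulAction.toPermHom G S).range *
            Nat.card (MulAction.toPermHom G T).range := hle
        _ ≤ betaA (Nat.card S) * betaA (Nat.card T) := Nat.mul_le_mul i1 i2
        _ ≤ betaA (Nat.card S + Nat.card T) := betaA_mul _ _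
        _ = betaA n := by rw [hsum]
    · push Not at hall
      obtain ⟨g0, hg0⟩ := hall
      have h2le := two_mul_card_le_of_invariant S T hST g0 (by
        rintro g ⟨h1', h2'⟩
        have h3 := hsign g
        have e1 : (MulAction.toPerm g : Equiv.Perm S) = MulAction.toPerm g0 := h1'
        have e2 : (MulAction.toPerm g : Equiv.Perm T) = 1 := h2'
        rw [e1, e2, map_one, mul_one] at h3
        exact hg0 h3)
      have j1 := card_le_beta (Nat.card S) (MulAction.toPermHom G S).range S hn1 rfl
      have j2 := card_le_beta (Nat.card T) (MulAction.toPermHom G T).range T hn2 rfl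
      have h4 : 2 * Nat.card G ≤ 2 * betaA n :=
        calc 2 * Nat.card G ≤ Nat.card (MulAction.toPermHom G S).range *
              Nat.card (MulAction.toPermHom G T).range := h2le
          _ ≤ beta (Nat.card S) * beta (Nat.card T) := Nat.mul_le_mul j1 j2
          _ ≤ beta (Nat.card S + Nat.card T) := beta_mul _ _
          _ = beta n := by rw [hsum]
          _ ≤ 2 * betaA n := beta_le_two_mul_betaA n
      omega
  · -- transitive case
    push Not at htr
    haveI : IsPretransitive G X := ⟨fun x y => by
      have : y ∈ orbit G x := by rw [htr x]; trivial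
      exact mem_orbit_iff.mp this⟩
    obtain ⟨b, m, hb, hm, hle, hcard⟩ := transitive_bound G X hnil p hpdvd
    rw [hX] at hle
    calc Nat.card G ≤ p ^ padicValNat p (p ^ b).factorial * beta m := hcard
      _ ≤ betaA (p ^ b * m) := key_mulA p b m hp2 hb hm
      _ ≤ betaA n := betaA_mono hle


/-- A nilpotent subgroup of `A_n` has order at most `betaA n`. -/
theorem card_alt_nilpotent_le (n : ℕ) (N : Subgroup (alternatingGroup (Fin n)))
    (hN : Group.IsNilpotent N) : Nat.card N ≤ betaA n := by
  refine card_le_betaA n N (Fin n) hN (by simp) (fun g => ?_)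
  have h1 : (MulAction.toPerm g : Equiv.Perm (Fin n)) =
      ((g : alternatingGroup (Fin n)) : Equiv.Perm (Fin n)) :=
    Equiv.ext (fun x => rfl)
  rw [h1]
  exact Equiv.Perm.mem_alternatingGroup.mp (g : alternatingGroup (Fin n)).2

/-- The order of a Sylow 2-subgroup of `A_n`. -/
theorem card_sylow_two_alt (n : ℕ) (P : Sylow 2 (alternatingGroup (Fin n))) :
    Nat.card P = 2 ^ (L n - 1) := by
  rw [P.card_eq_multiplicity]
  congr 1
  rcases Nat.lt_or_ge n 2 with h | h
  · haveI : Subsingleton (Fin n) := by
      interval_cases n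
      · infer_instance
      · infer_instance
    have h1 : Nat.card (alternatingGroup (Fin n)) = 1 := Nat.card_of_subsingleton 1
    rw [h1]
    have h2 : L n = 0 := by
      interval_cases n
      · exact L_zero
      · exact L_one
    rw [h2]; simp
  · haveI : Nontrivial (Fin n) := Fin.nontrivial_iff_two_le.mpr h
    have h1 : 2 * Nat.card (alternatingGroup (Fin n)) = n.factorial := by
      rw [two_mul_nat_card_alternatingGroup, Nat.card_perm, Nat.card_eq_fintype_card,
        Fintype.card_fin]
    have hc : Nat.card (alternatingGroup (Fin n)) ≠ 0 := Nat.card_pos.ne'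
    rw [Nat.factorization_def _ Nat.prime_two]
    have h2 : padicValNat 2 (2 * Nat.card (alternatingGroup (Fin n))) =
        1 + padicValNat 2 (Nat.card (alternatingGroup (Fin n))) := by
      rw [padicValNat.mul (by norm_num) hc, padicValNat_self]
    rw [h1] at h2
    have h3 : L n = padicValNat 2 n.factorial := rfl
    omega

/-- A nilpotent subgroup of `A_n`, `n % 4 ≠ 3`, `n ∉ {5, 6, 9}`, is at most as large as a Sylow
2-subgroup of `A_n`. -/
theorem card_alt_nilpotent_le_sylow (n : ℕ) (hn : n % 4 ≠ 3) (h5 : n ≠ 5) (h6 : n ≠ 6)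
    (h9 : n ≠ 9) (N : Subgroup (alternatingGroup (Fin n))) (hN : Group.IsNilpotent N)
    (P : Sylow 2 (alternatingGroup (Fin n))) : Nat.card N ≤ Nat.card P := by
  rw [card_sylow_two_alt, ← betaA_eq n hn h5 h6 h9]
  exact card_alt_nilpotent_le n N hN

/-- A nilpotent subgroup of `A_n`, `n % 4 = 3`, `n ≥ 7`, has order at most three times the order
of a Sylow 2-subgroup of `A_{n-3}`. -/
theorem card_alt_nilpotent_le_three_mul (n : ℕ) (hn : n % 4 = 3) (h7 : 7 ≤ n)
    (P : Sylow 2 (alternatingGroup (Fin (n - 3)))) (N : Subgroup (alternatingGroup (Fin n)))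
    (hN : Group.IsNilpotent N) : Nat.card N ≤ 3 * Nat.card P := by
  rw [card_sylow_two_alt, ← betaA_eq_three n hn h7]
  exact card_alt_nilpotent_le n N hN

end Cfsg.Agent.Lib.Helper62.NilPerm
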