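import Cfsg.Agent.Lib.Helper62.PG7920Defs

set_option autoImplicit false

namespace Cfsg.Agent.Lib.Helper62.PG7920

private theorem h40_cube_zmod : ∀ a : ZMod 11, a ^ 3 = 1 → a = 1 := by decide

/-- an element of order 3 normalizing a subgroup of order 11 centralizes it -/
theorem commute_of_three_normalizes {G : Type*} [Group G] [Finite G] (P : Subgroup G)
    (hP : Nat.card P = 11) (z : G) (hz : orderOf z = 3)
    (hzN : z ∈ Subgroup.normalizer (P : Set G)) : ∀ u ∈ P, z * u = u * z := by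
  intro u hu
  by_cases hu1 : u = 1
  · subst hu1; simp
  have hz3 : z ^ 3 = 1 := by rw [← hz]; exact pow_orderOf_eq_one z
  have hou : orderOf u = 11 := by
    have h1 : orderOf (⟨u, hu⟩ : P) ∣ 11 := by rw [← hP]; exact orderOf_dvd_natCard _
    rw [Subgroup.orderOf_mk u hu] at h1
    rcases (Nat.dvd_prime (by norm_num : Nat.Prime 11)).1 h1 with h | h
    · exact absurd (orderOf_eq_one_iff.1 h) hu1
    · exact h
  have hconj : z * u * z⁻¹ ∈ P := (Subgroup.mem_normalizer_iff.1 hzN u).1 hu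
  have htop : Subgroup.zpowers (⟨u, hu⟩ : P) = ⊤ :=
    zpowers_eq_top_of_prime_card (p := 11) hP
      (fun h => hu1 (by simpa using congrArg Subtype.val h))
  obtain ⟨k, hk⟩ : ∃ k : ℤ, u ^ k = z * u * z⁻¹ := by
    have hmem : (⟨z * u * z⁻¹, hconj⟩ : P) ∈ Subgroup.zpowers (⟨u, hu⟩ : P) := by
      rw [htop]; trivial
    obtain ⟨k, hk⟩ := Subgroup.mem_zpowers_iff.1 hmem
    exact ⟨k, by simpa using congrArg Subtype.val hk⟩
  have hc : ∀ (x : G) (n : ℤ), z * x ^ n * z⁻¹ = (z * x * z⁻¹) ^ n := fun x n =>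
    (conj_zpow (a := z) (b := x) (i := n)).symm
  have h2 : z * (z * u * z⁻¹) * z⁻¹ = u ^ (k * k) := by
    rw [← hk, hc, ← hk, ← zpow_mul]
  have h3 : z * (z * (z * u * z⁻¹) * z⁻¹) * z⁻¹ = u ^ (k * k * k) := by
    rw [h2, hc, ← hk, ← zpow_mul]
    congr 1; ring
  have h3' : z * (z * (z * u * z⁻¹) * z⁻¹) * z⁻¹ = u := by
    have e : z * (z * (z * u * z⁻¹) * z⁻¹) * z⁻¹ = z ^ 3 * u * (z ^ 3)⁻¹ := by
      rw [pow_succ, pow_succ, pow_one]; group
    rw [e, hz3]; simp
  have h4 : u ^ (k * k * k - 1) = 1 := by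
    rw [zpow_sub, zpow_one, ← h3, h3', mul_inv_cancel]
  have h5 : (11 : ℤ) ∣ k * k * k - 1 := by
    have := (orderOf_dvd_iff_zpow_eq_one (x := u) (i := k * k * k - 1)).2 h4
    rwa [hou] at this
  have h6 : ((k : ℤ) : ZMod 11) = 1 := by
    apply h40_cube_zmod
    have h7 : ((k * k * k - 1 : ℤ) : ZMod 11) = 0 :=
      (ZMod.intCast_zmod_eq_zero_iff_dvd _ 11).2 (by exact_mod_cast h5)
    push_cast at h7
    have h8 : ((k : ℤ) : ZMod 11) * (k : ZMod 11) * (k : ZMod 11) = 1 := by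
      linear_combination h7
    rw [pow_succ, pow_succ, pow_one]
    exact h8
  have h9 : (11 : ℤ) ∣ k - 1 := by
    have h10 : ((k - 1 : ℤ) : ZMod 11) = 0 := by push_cast; rw [h6]; ring
    exact_mod_cast (ZMod.intCast_zmod_eq_zero_iff_dvd _ 11).1 h10
  have h11 : u ^ (k - 1) = 1 := by
    apply (orderOf_dvd_iff_zpow_eq_one (x := u) (i := k - 1)).1
    rw [hou]; exact_mod_cast h9
  have h12 : u ^ k = u := by
    have : u ^ k = u ^ (k - 1) * u := by rw [← zpow_add_one]; congr 1; ring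
    rw [this, h11, one_mul]
  rw [h12] at hk
  calc z * u = z * u * z⁻¹ * z := by group
    _ = u * z := by rw [← hk]

private theorem h40_card_sylow {G : Type*} [Group G] [Finite G] (hG : Nat.card G = 7920)
    (P : Sylow 11 G) : Nat.card P = 11 := by
  have h11 : 11 ∣ Nat.card P := P.dvd_card_of_dvd_card (by rw [hG]; norm_num)
  obtain ⟨k, hk⟩ := IsPGroup.iff_card.1 P.2
  have hdvd : 11 ^ k ∣ 7920 := by
    rw [← hG, ← hk]; exact Subgroup.card_subgroup_dvd_card _
  rcases Nat.lt_or_ge k 2 with hk2 | hk2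
  · interval_cases k
    · rw [hk] at h11; norm_num at h11
    · rw [hk]; norm_num
  · exfalso
    have : 11 ^ 2 ∣ 7920 := (pow_dvd_pow 11 hk2).trans hdvd
    norm_num at this

/-- an element of order 11 normalizes exactly one Sylow 11-subgroup (the one containing it) -/
theorem sylow_fixed_unique {G : Type*} [Group G] [Finite G] (hG : Nat.card G = 7920) (x : G)
    (hx : orderOf x = 11) (P P' : Sylow 11 G) (hxP : x ∈ (P : Subgroup G)) (h : x • P' = P') :
    P' = P := by
  have hxN : x ∈ Subgroup.normalizer ((P' : Subgroup G) : Set G) :=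
    Sylow.smul_eq_iff_mem_normalizer.1 h
  have hcZ : Nat.card (Subgroup.zpowers x) = 11 := by rw [Nat.card_zpowers, hx]
  have hZp : IsPGroup 11 (Subgroup.zpowers x) := IsPGroup.of_card (n := 1) (by rw [hcZ]; norm_num)
  have hZN : Subgroup.zpowers x ≤ Subgroup.normalizer ((P' : Subgroup G) : Set G) :=
    Subgroup.zpowers_le.2 hxN
  have hZP' : Subgroup.zpowers x ≤ (P' : Subgroup G) := by
    have e := hZp.inf_normalizer_sylow P'
    have hle : Subgroup.zpowers x ≤ Subgroup.zpowers x ⊓ (P' : Subgroup G) := by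
      rw [← e]; exact le_inf le_rfl hZN
    exact hle.trans inf_le_right
  have hZP : Subgroup.zpowers x ≤ (P : Subgroup G) := Subgroup.zpowers_le.2 hxP
  have e1 : Subgroup.zpowers x = (P : Subgroup G) :=
    Subgroup.eq_of_le_of_card_ge hZP (by rw [hcZ, h40_card_sylow hG P])
  have e2 : Subgroup.zpowers x = (P' : Subgroup G) :=
    Subgroup.eq_of_le_of_card_ge hZP' (by rw [hcZ, h40_card_sylow hG P'])
  exact Sylow.ext (e2.symm.trans e1)

/-- the kernel of the action on the Sylow 11-subgroups has order prime to 11 (if `n₁₁ ≠ 1`) -/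
theorem not_dvd_card_ker {G : Type*} [Group G] [Finite G] (hG : Nat.card G = 7920)
    (h1 : Nat.card (Sylow 11 G) ≠ 1) :
    ¬ 11 ∣ Nat.card (MulAction.toPermHom G (Sylow 11 G)).ker := by
  intro hdvd
  obtain ⟨z, hz⟩ := exists_prime_orderOf_dvd_card' (G := (MulAction.toPermHom G (Sylow 11 G)).ker)
    11 hdvd
  have hzo : orderOf (z : G) = 11 := by rw [Subgroup.orderOf_coe]; exact hz
  have hzfix : ∀ ω : Sylow 11 G, (z : G) • ω = ω := by
    intro ω
    have := z.2
    rw [MonoidHom.mem_ker] at this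
    have h2 := congrArg (fun σ : Equiv.Perm (Sylow 11 G) => σ ω) this
    simpa using h2
  have hcZ : Nat.card (Subgroup.zpowers (z : G)) = 11 := by rw [Nat.card_zpowers, hzo]
  have hZp : IsPGroup 11 (Subgroup.zpowers (z : G)) :=
    IsPGroup.of_card (n := 1) (by rw [hcZ]; norm_num)
  obtain ⟨P, hP⟩ := hZp.exists_le_sylow
  have hzP : (z : G) ∈ (P : Subgroup G) := hP (Subgroup.mem_zpowers _)
  have hall : ∀ ω : Sylow 11 G, ω = P := fun ω =>
    sylow_fixed_unique hG (z : G) hzo P ω hzP (hzfix ω)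
  apply h1
  haveI : Subsingleton (Sylow 11 G) := ⟨fun a b => (hall a).trans (hall b).symm⟩
  haveI : Nonempty (Sylow 11 G) := ⟨P⟩
  exact Nat.card_unique

end Cfsg.Agent.Lib.Helper62.PG7920
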