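import Cfsg.Agent.Lib.Helper62.PG7920Defs

set_option autoImplicit false

namespace Cfsg.Agent.Lib.Helper62.PG7920

/-- a prime divisor of `7920` is `2`, `3`, `5` or `11` -/
theorem h73_prime_dvd (a : ℕ) (ha : a.Prime) (hd : a ∣ 7920) :
    a = 2 ∨ a = 3 ∨ a = 5 ∨ a = 11 := by
  have e : (7920 : ℕ) = 2 ^ 4 * 3 ^ 2 * 5 * 11 := by norm_num
  rw [e] at hd
  rcases (Nat.Prime.dvd_mul ha).1 hd with h1 | h1
  · rcases (Nat.Prime.dvd_mul ha).1 h1 with h2 | h2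
    · rcases (Nat.Prime.dvd_mul ha).1 h2 with h3 | h3
      · left
        exact (Nat.prime_dvd_prime_iff_eq ha (by norm_num)).1 (ha.dvd_of_dvd_pow h3)
      · right
        left
        exact (Nat.prime_dvd_prime_iff_eq ha (by norm_num)).1 (ha.dvd_of_dvd_pow h3)
    · right
      right
      left
      exact (Nat.prime_dvd_prime_iff_eq ha (by norm_num)).1 h2
  · right
    right
    right
    exact (Nat.prime_dvd_prime_iff_eq ha (by norm_num)).1 h1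

/-- CONN: `Star G` contradicts disconnectedness of the prime graph -/
theorem not_disc_of_star {G : Type*} [Group G] [Finite G] (hG : Nat.card G = 7920) (h : Star G)
    (A : Set ℕ) (ha : ∃ a ∈ A, a.Prime ∧ a ∣ Nat.card G)
    (hb : ∃ b ∉ A, b.Prime ∧ b ∣ Nat.card G) :
    ∃ a ∈ A, ∃ b ∉ A, a.Prime ∧ b.Prime ∧ a ∣ Nat.card G ∧ b ∣ Nat.card G ∧
      ∃ g : G, orderOf g = a * b := by
  have hV : ∀ u : ℕ, (u = 2 ∨ u = 3 ∨ u = 5 ∨ u = 11) → u.Prime ∧ u ∣ Nat.card G := by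
    intro u hu
    rw [hG]
    rcases hu with rfl | rfl | rfl | rfl <;> exact ⟨by norm_num, by norm_num⟩
  have hcross : ∀ u v : ℕ, (u = 2 ∨ u = 3 ∨ u = 5 ∨ u = 11) → (v = 2 ∨ v = 3 ∨ v = 5 ∨ v = 11) →
      Adj G u v → ¬ (u ∈ A ↔ v ∈ A) →
      ∃ a ∈ A, ∃ b ∉ A, a.Prime ∧ b.Prime ∧ a ∣ Nat.card G ∧ b ∣ Nat.card G ∧
        ∃ g : G, orderOf g = a * b := by
    intro u v hu hv hadj hne
    by_cases huA : u ∈ A
    · have hvA : v ∉ A := fun hvA => hne ⟨fun _ => hvA, fun _ => huA⟩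
      exact ⟨u, huA, v, hvA, (hV u hu).1, (hV v hv).1, (hV u hu).2, (hV v hv).2, hadj⟩
    · have hvA : v ∈ A := by
        by_contra hvA
        exact hne ⟨fun h => absurd h huA, fun h => absurd h hvA⟩
      obtain ⟨g, hg⟩ := hadj
      exact ⟨v, hvA, u, huA, (hV v hv).1, (hV u hu).1, (hV v hv).2, (hV u hu).2, g,
        by rw [hg, mul_comm]⟩
  have h4 : ∀ u : ℕ, (u = 2 ∨ u = 3 ∨ u = 5) → (u = 2 ∨ u = 3 ∨ u = 5 ∨ u = 11) := by
    intro u hu
    rcases hu with h | h | h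
    · exact Or.inl h
    · exact Or.inr (Or.inl h)
    · exact Or.inr (Or.inr (Or.inl h))
  have h11 : ((11 : ℕ) = 2 ∨ (11 : ℕ) = 3 ∨ (11 : ℕ) = 5 ∨ (11 : ℕ) = 11) :=
    Or.inr (Or.inr (Or.inr rfl))
  have hpath : ∀ q : ℕ, (q = 2 ∨ q = 3 ∨ q = 5) → ¬ (q ∈ A ↔ 11 ∈ A) →
      ∃ a ∈ A, ∃ b ∉ A, a.Prime ∧ b.Prime ∧ a ∣ Nat.card G ∧ b ∣ Nat.card G ∧
        ∃ g : G, orderOf g = a * b := by
    intro q hq hne
    rcases h q hq with h1 | ⟨p, hp, h1, h2⟩ | ⟨p, p', hp, hp', h1, h2, h3⟩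
    · exact hcross q 11 (h4 q hq) h11 h1 hne
    · by_cases hqp : (q ∈ A ↔ p ∈ A)
      · exact hcross p 11 (h4 p hp) h11 h2 (fun hp11 => hne (hqp.trans hp11))
      · exact hcross q p (h4 q hq) (h4 p hp) h1 hqp
    · by_cases hqp : (q ∈ A ↔ p ∈ A)
      · by_cases hpp : (p ∈ A ↔ p' ∈ A)
        · exact hcross p' 11 (h4 p' hp') h11 h3
            (fun hp11 => hne ((hqp.trans hpp).trans hp11))
        · exact hcross p p' (h4 p hp) (h4 p' hp') h2 hpp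
      · exact hcross q p (h4 q hq) (h4 p hp) h1 hqp
  obtain ⟨a, haA, hap, had⟩ := ha
  obtain ⟨b, hbA, hbp, hbd⟩ := hb
  rw [hG] at had hbd
  by_cases hA11 : (11 : ℕ) ∈ A
  · rcases h73_prime_dvd b hbp hbd with hb' | hb' | hb' | hb'
    · exact hpath b (Or.inl hb') (fun hiff => hbA (hiff.2 hA11))
    · exact hpath b (Or.inr (Or.inl hb')) (fun hiff => hbA (hiff.2 hA11))
    · exact hpath b (Or.inr (Or.inr hb')) (fun hiff => hbA (hiff.2 hA11))
    · exact absurd (by rw [hb']; exact hA11) hbA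
  · rcases h73_prime_dvd a hap had with ha' | ha' | ha' | ha'
    · exact hpath a (Or.inl ha') (fun hiff => hA11 (hiff.1 haA))
    · exact hpath a (Or.inr (Or.inl ha')) (fun hiff => hA11 (hiff.1 haA))
    · exact hpath a (Or.inr (Or.inr ha')) (fun hiff => hA11 (hiff.1 haA))
    · exact absurd (by rw [← ha']; exact haA) hA11

end Cfsg.Agent.Lib.Helper62.PG7920
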