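import Mathlib

set_option autoImplicit false

/-! # Groups of order 7920 with disconnected prime graph are simple (S2490): foundation
(helper62).  `Adj G p q` : some element of `G` has order `p * q`. `Star G` : each of the primes
`2, 3, 5` is joined to `11` by a path of length at most 3 inside `{2, 3, 5, 11}`.
`fixN G g` : the number of Sylow 11-subgroups normalized by `g`. -/

namespace Cfsg.Agent.Lib.Helper62.PG7920

instance fact_prime_eleven : Fact (Nat.Prime 11) := ⟨by norm_num⟩

instance fact_prime_five' : Fact (Nat.Prime 5) := ⟨by norm_num⟩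

/-- `p ~ q` in the prime graph: some element has order `p * q`. -/
def Adj (G : Type*) [Group G] (p q : ℕ) : Prop := ∃ g : G, orderOf g = p * q

theorem Adj.symm {G : Type*} [Group G] {p q : ℕ} (h : Adj G p q) : Adj G q p := by
  obtain ⟨g, hg⟩ := h
  exact ⟨g, by rw [hg, mul_comm]⟩

/-- two commuting elements of distinct prime orders give an edge -/
theorem adj_of_commute {G : Type*} [Group G] {p q : ℕ} (hp : p.Prime) (hq : q.Prime)
    (hpq : p ≠ q) {a b : G} (ha : orderOf a = p) (hb : orderOf b = q) (hab : Commute a b) :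
    Adj G p q := by
  refine ⟨a * b, ?_⟩
  rw [hab.orderOf_mul_eq_mul_orderOf_of_coprime
    (by rw [ha, hb]; exact (Nat.coprime_primes hp hq).mpr hpq), ha, hb]

/-- each of `2, 3, 5` is joined to `11` by a path of length `≤ 3` inside `{2, 3, 5, 11}` -/
def Star (G : Type*) [Group G] : Prop :=
  ∀ q : ℕ, q = 2 ∨ q = 3 ∨ q = 5 →
    Adj G q 11 ∨ (∃ p : ℕ, (p = 2 ∨ p = 3 ∨ p = 5) ∧ Adj G q p ∧ Adj G p 11) ∨
      (∃ p p' : ℕ, (p = 2 ∨ p = 3 ∨ p = 5) ∧ (p' = 2 ∨ p' = 3 ∨ p' = 5) ∧
        Adj G q p ∧ Adj G p p' ∧ Adj G p' 11)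

/-- the number of Sylow 11-subgroups normalized by `g` (fixed points of `g` on `Sylow 11 G`) -/
noncomputable def fixN (G : Type*) [Group G] (g : G) : ℕ :=
  Nat.card {ω : Sylow 11 G // g • ω = ω}

end Cfsg.Agent.Lib.Helper62.PG7920
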