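import Cfsg.Agent.Lib.Helper62.PG7920Defs

set_option autoImplicit false

namespace Cfsg.Agent.Lib.Helper62.PG7920

/-- FR (Frattini): for `N ⊴ G` and `q ∤ |N|`, some Sylow `p`-subgroup `T` of `N` is normalized
by a subgroup `Q` of order `q ^ k` (any `k` with `q ^ k ∣ |G|`). -/
theorem exists_sylow_normalized {G : Type*} [Group G] [Finite G] (N : Subgroup G) [N.Normal]
    (p q : ℕ) [Fact p.Prime] [Fact q.Prime] (hq : ¬ q ∣ Nat.card N) (k : ℕ)
    (hk : q ^ k ∣ Nat.card G) :
    ∃ T Q : Subgroup G, T ≤ N ∧ Nat.card T = p ^ (Nat.card N).factorization p ∧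
      Q ≤ Subgroup.normalizer (T : Set G) ∧ Nat.card Q = q ^ k := by
  classical
  have hqp : q.Prime := Fact.out
  obtain ⟨S⟩ : Nonempty (Sylow p N) := inferInstance
  let T : Subgroup G := (S : Subgroup N).map N.subtype
  have hTN : T ≤ N := Subgroup.map_subtype_le _
  have hcT : Nat.card T = p ^ (Nat.card N).factorization p := by
    rw [← Sylow.card_eq_multiplicity S]
    exact Nat.card_congr
      ((S : Subgroup N).equivMapOfInjective N.subtype N.subtype_injective).symm.toEquiv
  have hfr : Subgroup.normalizer (T : Set G) ⊔ N = ⊤ := Sylow.normalizer_sup_eq_top S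
  set A : Subgroup G := Subgroup.normalizer (T : Set G) with hA
  have h1 : N.index = N.relIndex A := by
    rw [← Subgroup.relIndex_top_right, ← hfr, Subgroup.relIndex_sup_right]
  have h2 : N.index ∣ Nat.card A := by
    rw [h1]; exact Subgroup.relIndex_dvd_card N A
  have h3 : Nat.card G ∣ Nat.card N * Nat.card A := by
    rw [← Subgroup.card_mul_index N]
    exact Nat.mul_dvd_mul_left _ h2
  have hcop : Nat.Coprime (q ^ k) (Nat.card N) :=
    Nat.Coprime.pow_left k ((Nat.Prime.coprime_iff_not_dvd hqp).2 hq)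
  have h4 : q ^ k ∣ Nat.card A := hcop.dvd_of_dvd_mul_left (hk.trans h3)
  obtain ⟨K0, hK0⟩ := Sylow.exists_subgroup_card_pow_prime (G := A) q h4
  refine ⟨T, K0.map A.subtype, hTN, hcT, Subgroup.map_subtype_le _, ?_⟩
  rw [← hK0]
  exact Nat.card_congr (K0.equivMapOfInjective A.subtype A.subtype_injective).symm.toEquiv

end Cfsg.Agent.Lib.Helper62.PG7920
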