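import Cfsg.Agent.Lib.Helper62.PG7920Defs

set_option autoImplicit false

namespace Cfsg.Agent.Lib.Helper62.PG7920

set_option maxRecDepth 100000 in
theorem h31_divisors_720 : ∀ m ∈ Finset.range 721, m ∣ 720 → m % 11 = 1 →
    (m = 1 ∨ m = 12 ∨ m = 45 ∨ m = 144) := by
  decide

/-- NUM: the number of Sylow 11-subgroups of a group of order 7920 -/
theorem card_sylow_eleven {G : Type*} [Group G] [Finite G] (hG : Nat.card G = 7920) :
    Nat.card (Sylow 11 G) = 1 ∨ Nat.card (Sylow 11 G) = 12 ∨ Nat.card (Sylow 11 G) = 45 ∨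
      Nat.card (Sylow 11 G) = 144 := by
  have hmod : Nat.card (Sylow 11 G) % 11 = 1 := by
    have h := card_sylow_modEq_one 11 G
    exact h
  obtain ⟨P⟩ : Nonempty (Sylow 11 G) := inferInstance
  have hdvd : Nat.card (Sylow 11 G) ∣ (P : Subgroup G).index := Sylow.card_dvd_index P
  have hP : 11 ^ 1 ∣ Nat.card (P : Subgroup G) :=
    P.pow_dvd_card_of_pow_dvd_card (by rw [hG]; norm_num)
  have hmul : Nat.card (P : Subgroup G) * (P : Subgroup G).index = 7920 := by
    rw [Subgroup.card_mul_index, hG]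
  have hidx : (P : Subgroup G).index ∣ 720 := by
    obtain ⟨m, hm⟩ := hP
    rw [hm] at hmul
    have h1 : m * (P : Subgroup G).index = 720 := by
      have : 11 * (m * (P : Subgroup G).index) = 11 * 720 := by
        have e : 11 ^ 1 * m * (P : Subgroup G).index = 11 * (m * (P : Subgroup G).index) := by ring
        rw [← e, hmul]
      exact Nat.eq_of_mul_eq_mul_left (by norm_num) this
    exact ⟨m, by rw [← h1, mul_comm]⟩
  have h720 : Nat.card (Sylow 11 G) ∣ 720 := hdvd.trans hidx
  have hle : Nat.card (Sylow 11 G) ≤ 720 := Nat.le_of_dvd (by norm_num) h720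
  exact h31_divisors_720 _ (Finset.mem_range.2 (by omega)) h720 hmod

end Cfsg.Agent.Lib.Helper62.PG7920
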