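import Cfsg.Agent.Lib.Helper62.PG7920SR

set_option autoImplicit false

namespace Cfsg.Agent.Lib.Helper62.PG7920

/-- lifting an element of given order from a quotient (helper77) -/
theorem h77_lift_order {G : Type*} [Group G] [Finite G] (N : Subgroup G) [N.Normal] {n : ℕ}
    (h : ∃ y : G ⧸ N, orderOf y = n) : ∃ g : G, orderOf g = n := by
  obtain ⟨y, hy⟩ := h
  obtain ⟨g, rfl⟩ := QuotientGroup.mk_surjective y
  have hdvd : n ∣ orderOf g := by
    rw [← hy]
    exact orderOf_map_dvd (QuotientGroup.mk' N) g
  exact ⟨g ^ (orderOf g / n), orderOf_pow_orderOf_div (orderOf_pos g).ne' hdvd⟩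

/-- a group of order 495 has an element of order 15, given the SR statement (helper77) -/
theorem h77_order_fifteen {H : Type*} [Group H] [Finite H] (hH : Nat.card H = 495) :
    ∃ h : H, orderOf h = 3 * 5 := by
  obtain ⟨F⟩ : Nonempty (Sylow 5 H) := inferInstance
  -- the order of `F`
  have hFcard : Nat.card F = 5 := by
    obtain ⟨k, hk⟩ := IsPGroup.iff_card.mp F.isPGroup'
    have hmul := Subgroup.card_mul_index (F : Subgroup H)
    rw [hH] at hmul
    have hnd := F.not_dvd_index
    have hk1 : k = 1 := by
      rcases Nat.lt_or_ge k 2 with hlt | hge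
      · interval_cases k
        · exfalso
          rw [hk, pow_zero, one_mul] at hmul
          rw [hmul] at hnd
          exact hnd (by norm_num)
        · rfl
      · exfalso
        have h25 : 25 ∣ Nat.card (F : Subgroup H) := by
          rw [hk]
          exact (pow_dvd_pow 5 hge)
        have h25' : 25 ∣ 495 := by
          rw [← hmul]
          exact Dvd.dvd.mul_right h25 _
        omega
    rw [hk, hk1, pow_one]
  have hFidx : (F : Subgroup H).index = 99 := by
    have hmul := Subgroup.card_mul_index (F : Subgroup H)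
    rw [hH, hFcard] at hmul
    omega
  -- the number of Sylow 5-subgroups
  have hn1 : Nat.card (Sylow 5 H) ≡ 1 [MOD 5] := card_sylow_modEq_one 5 H
  have hn2 : Nat.card (Sylow 5 H) ∣ 99 := by
    rw [← hFidx]
    exact F.card_dvd_index
  have hn3 : Nat.card (Sylow 5 H) = (Subgroup.normalizer ((F : Subgroup H) : Set H)).index :=
    F.card_eq_index_normalizer
  have hn4 : Nat.card (Sylow 5 H) = 1 ∨ Nat.card (Sylow 5 H) = 11 := by
    have hle : Nat.card (Sylow 5 H) ≤ 99 := Nat.le_of_dvd (by norm_num) hn2
    have hmod : Nat.card (Sylow 5 H) % 5 = 1 := hn1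
    generalize Nat.card (Sylow 5 H) = n at hn2 hle hmod
    interval_cases n <;> omega
  have h9 : 3 ^ 2 ∣ Nat.card ↥(Subgroup.normalizer ((F : Subgroup H) : Set H)) := by
    have hmul := Subgroup.card_mul_index (Subgroup.normalizer ((F : Subgroup H) : Set H))
    rw [hH, ← hn3] at hmul
    rcases hn4 with h | h
    · rw [h, mul_one] at hmul
      rw [hmul]
      norm_num
    · rw [h] at hmul
      have : Nat.card ↥(Subgroup.normalizer ((F : Subgroup H) : Set H)) = 45 := by omega
      rw [this]
      norm_num
  have : Fact (Nat.Prime 3) := ⟨by norm_num⟩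
  obtain ⟨K, hK⟩ := Sylow.exists_subgroup_card_pow_prime 3 h9
  have hQcard : Nat.card (K.map (Subgroup.normalizer ((F : Subgroup H) : Set H)).subtype) = 3 ^ 2 := by
    rw [Subgroup.card_map_of_injective (Subgroup.subtype_injective _)]
    exact hK
  have hQle : K.map (Subgroup.normalizer ((F : Subgroup H) : Set H)).subtype ≤
      Subgroup.normalizer ((F : Subgroup H) : Set H) := by
    rintro _ ⟨x, _, rfl⟩
    exact x.2
  have hadj := adj_of_normalizes (p := 5) (q := 3) (by norm_num) (by norm_num) (by norm_num)
    (K.map (Subgroup.normalizer ((F : Subgroup H) : Set H)).subtype) (F : Subgroup H)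
    (IsPGroup.of_card hQcard) F.isPGroup' hQle (by
      rw [hQcard, hFcard]
      norm_num)
  exact hadj

/-- P4: if the Sylow 2-subgroup is normal, there is an element of order 15 -/
theorem adj_five_three_of_card_sixteen {G : Type*} [Group G] [Finite G]
    (hG : Nat.card G = 7920) (N : Subgroup G) [N.Normal] (hN : Nat.card N = 16) : Adj G 5 3 := by
  have hH : Nat.card (G ⧸ N) = 495 := by
    have h := Subgroup.card_eq_card_quotient_mul_card_subgroup N
    rw [hG, hN] at h
    omega
  obtain ⟨g, hg⟩ := h77_lift_order N (h77_order_fifteen hH)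
  exact ⟨g, by rw [hg]⟩

end Cfsg.Agent.Lib.Helper62.PG7920
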