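import Cfsg.Agent.Lib.Helper62.PG7920SR
import Cfsg.Agent.Lib.Helper62.PG7920FR
import Cfsg.Agent.Lib.Helper62.PG7920P4

set_option autoImplicit false

namespace Cfsg.Agent.Lib.Helper62.PG7920

/-- an edge `q ~ p` from FR + SR (helper77) -/
theorem h77_edge {G : Type*} [Group G] [Finite G] (hG : Nat.card G = 7920)
    (N : Subgroup G) [N.Normal] (p q : ℕ) [hp : Fact p.Prime] [hq : Fact q.Prime] (hpq : p ≠ q)
    (hqN : ¬ q ∣ Nat.card N) (k : ℕ) (hk : q ^ k ∣ 7920)
    (hnd : ¬ q ^ k ∣ p ^ (Nat.card N).factorization p - 1) : Adj G q p := by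
  obtain ⟨T, Q, -, hT, hQ, hQc⟩ := exists_sylow_normalized N p q hqN k (by rw [hG]; exact hk)
  exact adj_of_normalizes hp.out hq.out hpq Q T (IsPGroup.of_card hQc) (IsPGroup.of_card hT) hQ
    (by rw [hQc, hT]; exact hnd)

/-- P3 (Case I): a nontrivial normal subgroup of order prime to 11 forces `Star G` -/
theorem star_of_normal {G : Type*} [Group G] [Finite G] (hG : Nat.card G = 7920)
    (N : Subgroup G) [N.Normal] (hN : N ≠ ⊥) (h11 : ¬ 11 ∣ Nat.card N) : Star G := by
  have hp2 : Fact (Nat.Prime 2) := ⟨by norm_num⟩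
  have hp3 : Fact (Nat.Prime 3) := ⟨by norm_num⟩
  have hn0 : Nat.card N ≠ 0 := Nat.card_pos.ne'
  have hn1 : Nat.card N ≠ 1 := fun h => hN (Subgroup.card_eq_one.mp h)
  have hnG : Nat.card N ∣ 7920 := by rw [← hG]; exact Subgroup.card_subgroup_dvd_card N
  have hn720 : Nat.card N ∣ 720 := by
    have hc : Nat.Coprime (Nat.card N) 11 :=
      ((Nat.Prime.coprime_iff_not_dvd (by norm_num)).mpr h11).symm
    exact hc.dvd_of_dvd_mul_left ((show (7920 : ℕ) = 720 * 11 by norm_num) ▸ hnG)
  have hb2 : (Nat.card N).factorization 2 ≤ 4 := by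
    by_contra hlt
    have h1 : 2 ^ 5 ∣ Nat.card N := (pow_dvd_pow 2 (by omega)).trans (Nat.ordProj_dvd _ 2)
    have h2 := h1.trans hn720
    norm_num at h2
  have hb3 : (Nat.card N).factorization 3 ≤ 2 := by
    by_contra hlt
    have h1 : 3 ^ 3 ∣ Nat.card N := (pow_dvd_pow 3 (by omega)).trans (Nat.ordProj_dvd _ 3)
    have h2 := h1.trans hn720
    norm_num at h2
  have hb5 : (Nat.card N).factorization 5 ≤ 1 := by
    by_contra hlt
    have h1 : 5 ^ 2 ∣ Nat.card N := (pow_dvd_pow 5 (by omega)).trans (Nat.ordProj_dvd _ 5)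
    have h2 := h1.trans hn720
    norm_num at h2
  have hpos2 : 2 ∣ Nat.card N → 0 < (Nat.card N).factorization 2 :=
    fun h => Nat.Prime.factorization_pos_of_dvd (by norm_num) hn0 h
  have hpos3 : 3 ∣ Nat.card N → 0 < (Nat.card N).factorization 3 :=
    fun h => Nat.Prime.factorization_pos_of_dvd (by norm_num) hn0 h
  have hpos5 : 5 ∣ Nat.card N → 0 < (Nat.card N).factorization 5 :=
    fun h => Nat.Prime.factorization_pos_of_dvd (by norm_num) hn0 h
  -- edges to 11
  have A2 : 2 ∣ Nat.card N → Adj G 2 11 := by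
    intro h
    have hpos := hpos2 h
    apply Adj.symm
    apply h77_edge hG N 2 11 (by norm_num) h11 1 (by norm_num)
    generalize (Nat.card N).factorization 2 = a at hb2 hpos
    interval_cases a <;> norm_num
  have A3 : 3 ∣ Nat.card N → Adj G 3 11 := by
    intro h
    have hpos := hpos3 h
    apply Adj.symm
    apply h77_edge hG N 3 11 (by norm_num) h11 1 (by norm_num)
    generalize (Nat.card N).factorization 3 = a at hb3 hpos
    interval_cases a <;> norm_num
  have A5 : 5 ∣ Nat.card N → Adj G 5 11 := by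
    intro h
    have hpos := hpos5 h
    apply Adj.symm
    apply h77_edge hG N 5 11 (by norm_num) h11 1 (by norm_num)
    generalize (Nat.card N).factorization 5 = a at hb5 hpos
    interval_cases a <;> norm_num
  -- edges among 2, 3, 5
  have E23 : 3 ∣ Nat.card N → ¬ 2 ∣ Nat.card N → Adj G 2 3 := by
    intro h hq
    have hpos := hpos3 h
    apply h77_edge hG N 3 2 (by norm_num) hq 4 (by norm_num)
    generalize (Nat.card N).factorization 3 = a at hb3 hpos
    interval_cases a <;> norm_num
  have E25 : 5 ∣ Nat.card N → ¬ 2 ∣ Nat.card N → Adj G 2 5 := by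
    intro h hq
    have hpos := hpos5 h
    apply h77_edge hG N 5 2 (by norm_num) hq 4 (by norm_num)
    generalize (Nat.card N).factorization 5 = a at hb5 hpos
    interval_cases a <;> norm_num
  have E32 : 2 ∣ Nat.card N → ¬ 3 ∣ Nat.card N → Adj G 3 2 := by
    intro h hq
    have hpos := hpos2 h
    apply h77_edge hG N 2 3 (by norm_num) hq 2 (by norm_num)
    generalize (Nat.card N).factorization 2 = a at hb2 hpos
    interval_cases a <;> norm_num
  have E35 : 5 ∣ Nat.card N → ¬ 3 ∣ Nat.card N → Adj G 3 5 := by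
    intro h hq
    have hpos := hpos5 h
    apply h77_edge hG N 5 3 (by norm_num) hq 2 (by norm_num)
    generalize (Nat.card N).factorization 5 = a at hb5 hpos
    interval_cases a <;> norm_num
  have E53 : 3 ∣ Nat.card N → ¬ 5 ∣ Nat.card N → Adj G 5 3 := by
    intro h hq
    have hpos := hpos3 h
    apply h77_edge hG N 3 5 (by norm_num) hq 1 (by norm_num)
    generalize (Nat.card N).factorization 3 = a at hb3 hpos
    interval_cases a <;> norm_num
  have E52 : 2 ∣ Nat.card N → ¬ 5 ∣ Nat.card N → (Nat.card N).factorization 2 ≤ 3 →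
      Adj G 5 2 := by
    intro h hq hle
    have hpos := hpos2 h
    apply h77_edge hG N 2 5 (by norm_num) hq 1 (by norm_num)
    generalize (Nat.card N).factorization 2 = a at hle hpos
    interval_cases a <;> norm_num
  -- some prime among 2, 3, 5 divides the order
  have hex : 2 ∣ Nat.card N ∨ 3 ∣ Nat.card N ∨ 5 ∣ Nat.card N := by
    by_contra hno
    simp only [not_or] at hno
    obtain ⟨h2, h3, h5⟩ := hno
    have c2 : Nat.Coprime (Nat.card N) 2 :=
      ((Nat.Prime.coprime_iff_not_dvd (by norm_num)).mpr h2).symm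
    have c3 : Nat.Coprime (Nat.card N) 3 :=
      ((Nat.Prime.coprime_iff_not_dvd (by norm_num)).mpr h3).symm
    have c5 : Nat.Coprime (Nat.card N) 5 :=
      ((Nat.Prime.coprime_iff_not_dvd (by norm_num)).mpr h5).symm
    have c720 : Nat.Coprime (Nat.card N) (2 ^ 4 * 3 ^ 2 * 5) :=
      ((c2.pow_right 4).mul_right (c3.pow_right 2)).mul_right c5
    exact hn1 (c720.eq_one_of_dvd ((show (720 : ℕ) = 2 ^ 4 * 3 ^ 2 * 5 by norm_num) ▸ hn720))
  intro q hq
  rcases hq with rfl | rfl | rfl
  · by_cases h : 2 ∣ Nat.card N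
    · exact Or.inl (A2 h)
    · rcases hex with h' | h' | h'
      · exact absurd h' h
      · exact Or.inr (Or.inl ⟨3, Or.inr (Or.inl rfl), E23 h' h, A3 h'⟩)
      · exact Or.inr (Or.inl ⟨5, Or.inr (Or.inr rfl), E25 h' h, A5 h'⟩)
  · by_cases h : 3 ∣ Nat.card N
    · exact Or.inl (A3 h)
    · rcases hex with h' | h' | h'
      · exact Or.inr (Or.inl ⟨2, Or.inl rfl, E32 h' h, A2 h'⟩)
      · exact absurd h' h
      · exact Or.inr (Or.inl ⟨5, Or.inr (Or.inr rfl), E35 h' h, A5 h'⟩)
  · by_cases h : 5 ∣ Nat.card N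
    · exact Or.inl (A5 h)
    · by_cases h3 : 3 ∣ Nat.card N
      · exact Or.inr (Or.inl ⟨3, Or.inr (Or.inl rfl), E53 h3 h, A3 h3⟩)
      · have h2 : 2 ∣ Nat.card N := by
          rcases hex with h' | h' | h'
          · exact h'
          · exact absurd h' h3
          · exact absurd h' h
        by_cases ha : (Nat.card N).factorization 2 ≤ 3
        · exact Or.inr (Or.inl ⟨2, Or.inl rfl, E52 h2 h ha, A2 h2⟩)
        · have ha4 : (Nat.card N).factorization 2 = 4 := by omega
          have h16a : 2 ^ 4 ∣ Nat.card N := by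
            have := Nat.ordProj_dvd (Nat.card N) 2
            rw [ha4] at this
            exact this
          have c3 : Nat.Coprime (Nat.card N) 3 :=
            ((Nat.Prime.coprime_iff_not_dvd (by norm_num)).mpr h3).symm
          have c5 : Nat.Coprime (Nat.card N) 5 :=
            ((Nat.Prime.coprime_iff_not_dvd (by norm_num)).mpr h).symm
          have c45 : Nat.Coprime (Nat.card N) (3 ^ 2 * 5) := (c3.pow_right 2).mul_right c5
          have h16b : Nat.card N ∣ 16 :=
            c45.dvd_of_dvd_mul_left ((show (720 : ℕ) = 16 * (3 ^ 2 * 5) by norm_num) ▸ hn720)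
          have h16 : Nat.card N = 16 := Nat.dvd_antisymm h16b (by norm_num at h16a; exact h16a)
          exact Or.inr (Or.inr ⟨3, 2, Or.inr (Or.inl rfl), Or.inl rfl,
            adj_five_three_of_card_sixteen hG N h16, E32 h2 h3, A2 h2⟩)

end Cfsg.Agent.Lib.Helper62.PG7920
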