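import Cfsg.Agent.Lib.Helper62.PG7920SR
import Cfsg.Agent.Lib.Helper62.PG7920FR
import Cfsg.Agent.Lib.Helper62.PG7920Cen

set_option autoImplicit false

namespace Cfsg.Agent.Lib.Helper62.PG7920

theorem h64_factorization_eleven : (7920 : ℕ).factorization 11 = 1 := by
  have h7920 : (7920 : ℕ) = 11 * 720 := by norm_num
  rw [h7920, Nat.factorization_mul (by norm_num) (by norm_num), Finsupp.add_apply,
    Nat.Prime.factorization_self (by norm_num),
    Nat.factorization_eq_zero_of_not_dvd (by norm_num)]

/-- a `q`-subgroup of order `q ^ k` acting on the normal Sylow 11-subgroup gives an edge -/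
theorem h64_adj_eleven {G : Type*} [Group G] [Finite G] (hG : Nat.card G = 7920)
    (P : Subgroup G) (hPn : P.Normal) (hP : Nat.card P = 11) (q k : ℕ) [Fact q.Prime]
    (hq11 : q ≠ 11) (hk : q ^ k ∣ 7920) (hnd : ¬ q ^ k ∣ 10) : Adj G q 11 := by
  obtain ⟨Q, hQ⟩ := Sylow.exists_subgroup_card_pow_prime q (G := G) (n := k) (by rw [hG]; exact hk)
  have hN : Q ≤ Subgroup.normalizer (P : Set G) := by
    rw [Subgroup.normalizer_eq_top_iff.mpr hPn]
    exact le_top
  refine adj_of_normalizes (by norm_num : Nat.Prime 11) (Fact.out : q.Prime) (Ne.symm hq11) Q P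
    (IsPGroup.of_card hQ) (IsPGroup.of_card (n := 1) (by rw [hP, pow_one])) hN ?_
  rw [hQ, hP]
  exact hnd

/-- P5: a normal Sylow 11-subgroup forces `Star G` -/
theorem star_of_sylow_normal {G : Type*} [Group G] [Finite G] (hG : Nat.card G = 7920)
    (h1 : Nat.card (Sylow 11 G) = 1) : Star G := by
  have hsub : Subsingleton (Sylow 11 G) := (Nat.card_eq_one_iff_unique.mp h1).1
  obtain ⟨P⟩ := (Sylow.nonempty : Nonempty (Sylow 11 G))
  have hPn : (P : Subgroup G).Normal := Sylow.normal_of_subsingleton P
  have hP : Nat.card (P : Subgroup G) = 11 := by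
    have := P.card_eq_multiplicity
    rw [hG, h64_factorization_eleven, pow_one] at this
    exact this
  have h2 : Adj G 2 11 := h64_adj_eleven hG P hPn hP 2 4 (by norm_num) (by norm_num) (by norm_num)
  have h3 : Adj G 3 11 := by
    have : Fact (Nat.Prime 3) := ⟨by norm_num⟩
    exact h64_adj_eleven hG P hPn hP 3 2 (by norm_num) (by norm_num) (by norm_num)
  intro q hq
  rcases hq with rfl | rfl | rfl
  · exact Or.inl h2
  · exact Or.inl h3
  · -- `q = 5`
    have : Fact (Nat.Prime 3) := ⟨by norm_num⟩
    have := hPn
    have hNtop : Subgroup.normalizer ((P : Subgroup G) : Set G) = ⊤ :=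
      Subgroup.normalizer_eq_top_iff.mpr hPn
    by_cases h5 : 5 ∣ Nat.card (Subgroup.centralizer ((P : Subgroup G) : Set G))
    · left
      obtain ⟨c, hc⟩ := exists_prime_orderOf_dvd_card' 5 h5
      have h11 : 11 ∣ Nat.card (P : Subgroup G) := by rw [hP]
      obtain ⟨x, hx⟩ := exists_prime_orderOf_dvd_card' 11 h11
      have hc' : orderOf (c : G) = 5 := by rw [Subgroup.orderOf_coe, hc]
      have hx' : orderOf (x : G) = 11 := by rw [Subgroup.orderOf_coe, hx]
      refine adj_of_commute (by norm_num) (by norm_num) (by norm_num) hc' hx' ?_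
      have := Subgroup.mem_centralizer_iff.mp c.2 (x : G) x.2
      exact this.symm
    · right; left
      refine ⟨3, Or.inr (Or.inl rfl), ?_, h3⟩
      obtain ⟨T, Q, -, hT, hQN, hQ⟩ := exists_sylow_normalized
        (Subgroup.centralizer ((P : Subgroup G) : Set G)) 3 5 h5 1 (by rw [hG]; norm_num)
      -- `3` divides the order of the centralizer
      have h3G : 3 ∣ Nat.card G := by rw [hG]; norm_num
      obtain ⟨z, hz⟩ := exists_prime_orderOf_dvd_card' 3 h3G
      have hzC : z ∈ Subgroup.centralizer ((P : Subgroup G) : Set G) := by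
        rw [Subgroup.mem_centralizer_iff]
        intro u hu
        exact (commute_of_three_normalizes (P : Subgroup G) hP z hz
          (by rw [hNtop]; exact Subgroup.mem_top z) u hu).symm
      have h3C : 3 ∣ Nat.card (Subgroup.centralizer ((P : Subgroup G) : Set G)) := by
        have := orderOf_dvd_natCard (⟨z, hzC⟩ : Subgroup.centralizer ((P : Subgroup G) : Set G))
        rwa [Subgroup.orderOf_mk, hz] at this
      have he1 : 0 < (Nat.card (Subgroup.centralizer ((P : Subgroup G) : Set G))).factorization 3 :=
        Nat.Prime.factorization_pos_of_dvd (by norm_num) Nat.card_pos.ne' h3C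
      have hTdvd : Nat.card T ∣ 7920 := by
        rw [← hG]; exact Subgroup.card_subgroup_dvd_card T
      generalize (Nat.card (Subgroup.centralizer ((P : Subgroup G) : Set G))).factorization 3 = e
        at hT he1
      have he2 : e ≤ 2 := by
        by_contra hcon
        push Not at hcon
        have h27 : 3 ^ 3 ∣ 7920 := by
          rw [hT] at hTdvd
          exact (pow_dvd_pow 3 hcon).trans hTdvd
        norm_num at h27
      have hcases : Nat.card T = 3 ∨ Nat.card T = 9 := by
        interval_cases e
        · left; rw [hT]; norm_num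
        · right; rw [hT]; norm_num
      refine adj_of_normalizes (by norm_num : Nat.Prime 3) (by norm_num : Nat.Prime 5)
        (by norm_num) Q T (IsPGroup.of_card hQ) (IsPGroup.of_card hT) hQN ?_
      rw [hQ]
      rcases hcases with h | h <;> rw [h] <;> norm_num

end Cfsg.Agent.Lib.Helper62.PG7920
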