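import Cfsg.Agent.Lib.Helper62.PG7920Cen

set_option autoImplicit false

namespace Cfsg.Agent.Lib.Helper62.PG7920

private theorem h8_card_sylow {G : Type*} [Group G] [Finite G] (hG : Nat.card G = 7920)
    (P : Sylow 11 G) : Nat.card P = 11 := by
  have h11 : 11 ∣ Nat.card P := P.dvd_card_of_dvd_card (by rw [hG]; norm_num)
  obtain ⟨k, hk⟩ := IsPGroup.iff_card.1 P.2
  have hdvd : 11 ^ k ∣ 7920 := by
    rw [← hG, ← hk]; exact Subgroup.card_subgroup_dvd_card _
  rcases Nat.lt_or_ge k 2 with hk2 | hk2
  · interval_cases k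
    · rw [hk] at h11; norm_num at h11
    · rw [hk]; norm_num
  · exfalso
    have : 11 ^ 2 ∣ 7920 := (pow_dvd_pow 11 hk2).trans hdvd
    norm_num at this

/-- P6: twelve Sylow 11-subgroups force a nontrivial normal subgroup of order prime to 11 -/
theorem exists_normal_of_twelve {G : Type*} [Group G] [Finite G] (hG : Nat.card G = 7920)
    (h : Nat.card (Sylow 11 G) = 12) :
    ∃ N : Subgroup G, N.Normal ∧ N ≠ ⊥ ∧ ¬ 11 ∣ Nat.card N := by
  refine ⟨(MulAction.toPermHom G (Sylow 11 G)).ker, MonoidHom.normal_ker _, ?_,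
    not_dvd_card_ker hG (by rw [h]; norm_num)⟩
  intro hbot
  -- the action is faithful
  have hf : ∀ g : G, (∀ ω : Sylow 11 G, g • ω = ω) → g = 1 := by
    intro g hg
    have h1 : g ∈ (MulAction.toPermHom G (Sylow 11 G)).ker := by
      rw [MonoidHom.mem_ker]
      apply Equiv.ext
      intro ω
      exact hg ω
    rw [hbot, Subgroup.mem_bot] at h1
    exact h1
  obtain ⟨P⟩ : Nonempty (Sylow 11 G) := inferInstance
  have hcP : Nat.card (P : Subgroup G) = 11 := h8_card_sylow hG P
  have hidx : (Subgroup.normalizer ((P : Subgroup G) : Set G)).index = 12 := by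
    rw [← h]
    exact (Sylow.card_eq_index_normalizer P).symm
  have hcM : Nat.card (Subgroup.normalizer ((P : Subgroup G) : Set G)) = 660 := by
    have h1 := Subgroup.card_mul_index (Subgroup.normalizer ((P : Subgroup G) : Set G))
    rw [hidx, hG] at h1
    omega
  -- an element `z` of order 3 in the normalizer and an element `x` of order 11 in `P`
  obtain ⟨z', hz'⟩ := exists_prime_orderOf_dvd_card'
    (G := ↥(Subgroup.normalizer ((P : Subgroup G) : Set G))) 3 (by rw [hcM]; norm_num)
  have hz : orderOf (z' : G) = 3 := by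
    rw [Subgroup.orderOf_coe]
    exact hz'
  have hzM : (z' : G) ∈ Subgroup.normalizer ((P : Subgroup G) : Set G) := z'.2
  obtain ⟨x', hx'⟩ := exists_prime_orderOf_dvd_card' (G := ↥(P : Subgroup G)) 11
    (by rw [hcP])
  have hx : orderOf (x' : G) = 11 := by
    rw [Subgroup.orderOf_coe]
    exact hx'
  have hxP : (x' : G) ∈ (P : Subgroup G) := x'.2
  obtain ⟨z, hzdef⟩ : ∃ z : G, z = (z' : G) := ⟨_, rfl⟩
  obtain ⟨x, hxdef⟩ : ∃ x : G, x = (x' : G) := ⟨_, rfl⟩
  rw [← hzdef] at hz hzM
  rw [← hxdef] at hx hxP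
  have hcomm := commute_of_three_normalizes (P : Subgroup G) hcP z hz hzM
  have hzP : z • P = P := Sylow.smul_eq_iff_mem_normalizer.mpr hzM
  -- a second fixed point of `z`
  have hZ3 : IsPGroup 3 (Subgroup.zpowers z) :=
    IsPGroup.of_card (n := 1) (by rw [Nat.card_zpowers, hz]; norm_num)
  have hPfix : P ∈ MulAction.fixedPoints (Subgroup.zpowers z) (Sylow 11 G) := by
    intro g
    have hg : (g : G) ∈ Subgroup.normalizer ((P : Subgroup G) : Set G) :=
      (Subgroup.zpowers_le.mpr hzM) g.2
    exact Sylow.smul_eq_iff_mem_normalizer.mpr hg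
  obtain ⟨ω₁, hω₁fix, hω₁ne⟩ :=
    hZ3.exists_fixed_point_of_prime_dvd_card_of_fixed_point (α := Sylow 11 G)
      (by rw [h]; norm_num) hPfix
  have hzω : z • ω₁ = ω₁ := hω₁fix ⟨z, Subgroup.mem_zpowers z⟩
  -- the translates `x ^ k • ω₁`
  have hpow : ∀ k : ℕ, 0 < k → k < 11 → x ^ k • ω₁ ≠ ω₁ := by
    intro k hk0 hk11 hfix
    have hcop : (orderOf x).Coprime k := by
      rw [hx]
      exact (Nat.Prime.coprime_iff_not_dvd (by norm_num : Nat.Prime 11)).mpr
        (fun hd => by have := Nat.le_of_dvd hk0 hd; omega)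
    have ho : orderOf (x ^ k) = 11 := by
      rw [hcop.orderOf_pow, hx]
    exact hω₁ne (sylow_fixed_unique hG (x ^ k) ho P ω₁ (pow_mem hxP k) hfix).symm
  have hsome_ne : ∀ i : Fin 11, x ^ (i : ℕ) • ω₁ ≠ P := by
    intro i hi
    apply hω₁ne
    have h1 : ω₁ = (x ^ (i : ℕ))⁻¹ • P := by rw [← hi, inv_smul_smul]
    rw [h1]
    exact (Sylow.smul_eq_iff_mem_normalizer.mpr
      (Subgroup.le_normalizer (inv_mem (pow_mem hxP _)))).symm
  have hinj : Function.Injective
      (fun o : Option (Fin 11) => o.elim P (fun i => x ^ (i : ℕ) • ω₁)) := by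
    intro a b hab
    cases a with
    | none =>
      cases b with
      | none => rfl
      | some j => exact absurd hab.symm (hsome_ne j)
    | some i =>
      cases b with
      | none => exact absurd hab (hsome_ne i)
      | some j =>
        have hab' : x ^ (i : ℕ) • ω₁ = x ^ (j : ℕ) • ω₁ := hab
        congr 1
        apply Fin.ext
        rcases Nat.lt_trichotomy (i : ℕ) (j : ℕ) with hlt | heq | hgt
        · exfalso
          apply hpow ((j : ℕ) - (i : ℕ)) (by omega) (by omega)
          have e : x ^ (j : ℕ) = x ^ (i : ℕ) * x ^ ((j : ℕ) - (i : ℕ)) := by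
            rw [← pow_add]
            congr 1
            omega
          rw [e, mul_smul] at hab'
          exact (smul_left_cancel _ hab').symm
        · exact heq
        · exfalso
          apply hpow ((i : ℕ) - (j : ℕ)) (by omega) (by omega)
          have e : x ^ (i : ℕ) = x ^ (j : ℕ) * x ^ ((i : ℕ) - (j : ℕ)) := by
            rw [← pow_add]
            congr 1
            omega
          rw [e, mul_smul] at hab'
          exact smul_left_cancel _ hab'
  have hbij := hinj.bijective_of_nat_card_le (by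
    rw [h, Nat.card_eq_fintype_card, Fintype.card_option, Fintype.card_fin])
  -- `z` fixes every Sylow 11-subgroup
  have hall : ∀ ω : Sylow 11 G, z • ω = ω := by
    intro ω
    obtain ⟨o, rfl⟩ := hbij.surjective ω
    cases o with
    | none => exact hzP
    | some i =>
      show z • (x ^ (i : ℕ) • ω₁) = x ^ (i : ℕ) • ω₁
      rw [← mul_smul, hcomm _ (pow_mem hxP _), mul_smul, hzω]
  have hz1 := hf z hall
  rw [hz1, orderOf_one] at hz
  norm_num at hz

end Cfsg.Agent.Lib.Helper62.PG7920
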