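import Cfsg.Agent.Lib.Helper62.PG7920Cen

set_option autoImplicit false

namespace Cfsg.Agent.Lib.Helper62.PG7920

/-- a Sylow 11-subgroup has order 11 (helper77) -/
theorem h77_card_sylow {G : Type*} [Group G] [Finite G] (hG : Nat.card G = 7920)
    (P : Sylow 11 G) : Nat.card (P : Subgroup G) = 11 := by
  have h11 : 11 ∣ Nat.card (P : Subgroup G) := P.dvd_card_of_dvd_card (by rw [hG]; norm_num)
  obtain ⟨k, hk⟩ := IsPGroup.iff_card.1 P.2
  have hdvd : 11 ^ k ∣ 7920 := by
    rw [← hG, ← hk]; exact Subgroup.card_subgroup_dvd_card _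
  rcases Nat.lt_or_ge k 2 with hk2 | hk2
  · interval_cases k
    · rw [hk] at h11; norm_num at h11
    · rw [hk]; norm_num
  · exfalso
    have : 11 ^ 2 ∣ 7920 := (pow_dvd_pow 11 hk2).trans hdvd
    norm_num at this

/-- nontrivial elements of a Sylow 11-subgroup have order 11 (helper77) -/
theorem h77_order_eleven {G : Type*} [Group G] [Finite G] (hG : Nat.card G = 7920)
    (P : Sylow 11 G) (y : G) (hy : y ∈ (P : Subgroup G)) (hy1 : y ≠ 1) : orderOf y = 11 := by
  have h1 : orderOf (⟨y, hy⟩ : ↥(P : Subgroup G)) ∣ 11 := by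
    have h0 := orderOf_dvd_natCard (⟨y, hy⟩ : ↥(P : Subgroup G))
    rw [h77_card_sylow hG P] at h0
    exact h0
  rw [Subgroup.orderOf_mk y hy] at h1
  rcases (Nat.dvd_prime (by norm_num : Nat.Prime 11)).1 h1 with h | h
  · exact absurd (orderOf_eq_one_iff.1 h) hy1
  · exact h

/-- the key step of P7A1 (helper77) -/
theorem h77_key {G : Type*} [Group G] [Finite G] (hG : Nat.card G = 7920)
    (P : Sylow 11 G) (x : G) (hxP : x ∈ (P : Subgroup G)) (g : G) (hg : g • P = P)
    (hgx : ¬ Commute g x) (w : G) (hw : w ∈ (P : Subgroup G)) (ω : Sylow 11 G)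
    (hω : g • ω = ω) (hwω : g • (w • ω) = w • ω) (hωP : ω ≠ P) : w = 1 := by
  have hgN : g ∈ Subgroup.normalizer ((P : Subgroup G) : Set G) :=
    Sylow.smul_eq_iff_mem_normalizer.1 hg
  have hconj : g * w * g⁻¹ ∈ (P : Subgroup G) := (Subgroup.mem_normalizer_iff.1 hgN w).1 hw
  have hginv : g⁻¹ • ω = ω := by
    rw [inv_smul_eq_iff, hω]
  have hyω : (w⁻¹ * (g * w * g⁻¹)) • ω = ω := by
    rw [mul_smul, mul_smul, mul_smul, hginv, hwω, inv_smul_smul]
  have hyP : w⁻¹ * (g * w * g⁻¹) ∈ (P : Subgroup G) := mul_mem (inv_mem hw) hconj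
  have hcomm : g * w * g⁻¹ = w := by
    by_contra hne
    have hy1 : w⁻¹ * (g * w * g⁻¹) ≠ 1 := by
      intro h
      apply hne
      have := congrArg (fun t => w * t) h
      simpa using this
    exact hωP (sylow_fixed_unique hG _ (h77_order_eleven hG P _ hyP hy1) P ω hyP hyω)
  by_contra hw1
  have hgw : Commute g w := by
    have : g * w = w * g := by
      calc g * w = g * w * g⁻¹ * g := by group
        _ = w * g := by rw [hcomm]
    exact this
  have htop : Subgroup.zpowers (⟨w, hw⟩ : ↥(P : Subgroup G)) = ⊤ :=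
    zpowers_eq_top_of_prime_card (p := 11) (h77_card_sylow hG P)
      (fun h => hw1 (by simpa using congrArg Subtype.val h))
  obtain ⟨k, hk⟩ : ∃ k : ℤ, w ^ k = x := by
    have hmem : (⟨x, hxP⟩ : ↥(P : Subgroup G)) ∈
        Subgroup.zpowers (⟨w, hw⟩ : ↥(P : Subgroup G)) := by
      rw [htop]; trivial
    obtain ⟨k, hk⟩ := Subgroup.mem_zpowers_iff.1 hmem
    exact ⟨k, by simpa using congrArg Subtype.val hk⟩
  apply hgx
  rw [← hk]
  exact hgw.zpow_right k

/-- P7A1: an element normalizing `P` but not centralizing it normalizes at most 5 Sylow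
11-subgroups -/
theorem fixN_le_five {G : Type*} [Group G] [Finite G] (hG : Nat.card G = 7920)
    (h45 : Nat.card (Sylow 11 G) = 45) (P : Sylow 11 G) (x : G) (hx : orderOf x = 11)
    (hxP : x ∈ (P : Subgroup G)) (g : G) (hg : g • P = P) (hgx : ¬ Commute g x) :
    fixN G g ≤ 5 := by
  classical
  have hfin : Fintype (Sylow 11 G) := Fintype.ofFinite _
  have hfix : fixN G g = (Finset.univ.filter (fun ω : Sylow 11 G => g • ω = ω)).card := by
    unfold fixN
    rw [Nat.card_eq_fintype_card, Fintype.card_subtype]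
  have hPS : P ∈ Finset.univ.filter (fun ω : Sylow 11 G => g • ω = ω) := by
    rw [Finset.mem_filter]
    exact ⟨Finset.mem_univ _, hg⟩
  have hpowP : ∀ i : ℕ, x ^ i ∈ (P : Subgroup G) := fun i => pow_mem hxP i
  have hpowfix : ∀ i : ℕ, (x ^ i) • P = P := fun i =>
    Sylow.smul_eq_iff_mem_normalizer.2 (Subgroup.le_normalizer (hpowP i))
  have hle : (((Finset.univ.filter (fun ω : Sylow 11 G => g • ω = ω)).erase P) ×ˢ
      (Finset.univ : Finset (Fin 11))).card ≤ ((Finset.univ : Finset (Sylow 11 G)).erase P).card := by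
    apply Finset.card_le_card_of_injOn (fun a : Sylow 11 G × Fin 11 => (x ^ (a.2 : ℕ)) • a.1)
    · intro a ha
      rw [Finset.mem_coe, Finset.mem_product, Finset.mem_erase] at ha
      rw [Finset.mem_coe, Finset.mem_erase]
      refine ⟨?_, Finset.mem_univ _⟩
      intro h
      apply ha.1.1
      have h2 : (x ^ (a.2 : ℕ)) • a.1 = (x ^ (a.2 : ℕ)) • P := by
        rw [hpowfix]; exact h
      exact smul_left_cancel _ h2
    · intro a ha b hb hab
      rw [Finset.mem_coe, Finset.mem_product, Finset.mem_erase, Finset.mem_filter] at ha hb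
      have hab' : (x ^ (a.2 : ℕ)) • a.1 = (x ^ (b.2 : ℕ)) • b.1 := hab
      have hb1 : b.1 = ((x ^ (b.2 : ℕ))⁻¹ * x ^ (a.2 : ℕ)) • a.1 := by
        rw [mul_smul, hab', inv_smul_smul]
      have hw1 : (x ^ (b.2 : ℕ))⁻¹ * x ^ (a.2 : ℕ) = 1 := by
        apply h77_key hG P x hxP g hg hgx _ (mul_mem (inv_mem (hpowP _)) (hpowP _)) a.1
          ha.1.2.2 _ ha.1.1
        rw [← hb1]
        exact hb.1.2.2
      have h1 : b.1 = a.1 := by rw [hb1, hw1, one_smul]
      have h2 : x ^ (a.2 : ℕ) = x ^ (b.2 : ℕ) := by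
        have := congrArg (fun t => x ^ (b.2 : ℕ) * t) hw1
        simpa using this
      have h3 : (a.2 : ℕ) = (b.2 : ℕ) := by
        have h4 := (pow_inj_mod (x := x)).1 h2
        rw [hx] at h4
        have ha2 := a.2.isLt
        have hb2 := b.2.isLt
        omega
      exact Prod.ext h1.symm (Fin.ext h3)
  rw [Finset.card_product, Finset.card_erase_of_mem hPS, Finset.card_erase_of_mem (Finset.mem_univ P),
    Finset.card_univ, Finset.card_univ, Fintype.card_fin, ← Nat.card_eq_fintype_card, h45,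
    ← hfix] at hle
  omega

end Cfsg.Agent.Lib.Helper62.PG7920
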