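import Cfsg.Agent.Lib.Helper62.PG7920Cen
import Cfsg.Agent.Lib.Helper62.PG7920P7A1

set_option autoImplicit false

namespace Cfsg.Agent.Lib.Helper62.PG7920

/-- P7A: at most 16 elements of `N_G(P)` normalize exactly 23 Sylow 11-subgroups -/
theorem card_fix23_stab_le {G : Type*} [Group G] [Finite G] (hG : Nat.card G = 7920)
    (h45 : Nat.card (Sylow 11 G) = 45) (P : Sylow 11 G) :
    Nat.card {g : G // g • P = P ∧ fixN G g = 23} ≤ 16 := by
  classical
  -- an element `x` of order 11 in `P`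
  have h11 : 11 ∣ Nat.card (P : Subgroup G) := P.dvd_card_of_dvd_card (by rw [hG]; norm_num)
  obtain ⟨z, hz⟩ := exists_prime_orderOf_dvd_card' (G := (P : Subgroup G)) 11 h11
  obtain ⟨x, hx⟩ : ∃ x : G, x = (z : G) := ⟨_, rfl⟩
  have hxo : orderOf x = 11 := by rw [hx, Subgroup.orderOf_coe]; exact hz
  have hxP : x ∈ (P : Subgroup G) := by rw [hx]; exact z.2
  -- the normalizer `M` of `P`, of order 176
  obtain ⟨M, hM⟩ : ∃ M : Subgroup G, M = Subgroup.normalizer ((P : Subgroup G) : Set G) :=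
    ⟨_, rfl⟩
  have hidx : M.index = 45 := by
    rw [hM, ← h45]; exact (Sylow.card_eq_index_normalizer P).symm
  have hcM : Nat.card M = 176 := by
    have := Subgroup.card_mul_index M
    rw [hidx, hG] at this
    omega
  have hPM : (P : Subgroup G) ≤ M := by rw [hM]; exact Subgroup.le_normalizer
  have hmemM : ∀ g : G, g • P = P → g ∈ M := by
    intro g hgP
    have h1 : g ∈ Subgroup.normalizer ((P : Subgroup G) : Set G) :=
      Sylow.smul_eq_iff_mem_normalizer.1 hgP
    rw [hM]; exact h1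
  -- the elements counted commute with `x` and have order dividing 16
  have key : ∀ g : G, g • P = P → fixN G g = 23 → Commute g x ∧ g ^ 16 = 1 := by
    intro g hgP hg23
    have hc : Commute g x := by
      by_contra hne
      have := fixN_le_five hG h45 P x hxo hxP g hgP hne
      omega
    refine ⟨hc, ?_⟩
    by_contra h16
    have hgM : g ∈ M := hmemM g hgP
    have h176 : g ^ 176 = 1 := by
      have h1 : (⟨g, hgM⟩ : M) ^ Nat.card M = 1 := pow_card_eq_one'
      rw [hcM] at h1
      exact congrArg Subtype.val h1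
    have h11' : (g ^ 16) ^ 11 = 1 := by rw [← pow_mul]; exact h176
    have ho : orderOf (g ^ 16) = 11 := by
      have hd : orderOf (g ^ 16) ∣ 11 := orderOf_dvd_of_pow_eq_one h11'
      rcases (Nat.dvd_prime (by norm_num : Nat.Prime 11)).1 hd with h | h
      · exact absurd (orderOf_eq_one_iff.1 h) h16
      · exact h
    have hZp : IsPGroup 11 (Subgroup.zpowers (g ^ 16)) :=
      IsPGroup.of_card (n := 1) (by rw [Nat.card_zpowers, ho]; norm_num)
    obtain ⟨P₁, hP₁⟩ := hZp.exists_le_sylow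
    have hgP₁ : g ^ 16 ∈ (P₁ : Subgroup G) := hP₁ (Subgroup.mem_zpowers _)
    have hall : ∀ ω : Sylow 11 G, g • ω = ω → ω = P₁ := by
      intro ω hω
      have hpow : ∀ n : ℕ, (g ^ n) • ω = ω := by
        intro n
        induction n with
        | zero => rw [pow_zero, one_smul]
        | succ n ih => rw [pow_succ, mul_smul, hω, ih]
      exact sylow_fixed_unique hG (g ^ 16) ho P₁ ω hgP₁ (hpow 16)
    have hle1 : fixN G g ≤ 1 := by
      unfold fixN
      have : Subsingleton {ω : Sylow 11 G // g • ω = ω} :=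
        ⟨fun a b => Subtype.ext ((hall a a.2).trans (hall b b.2).symm)⟩
      exact Finite.card_le_one_iff_subsingleton.2 inferInstance
    omega
  -- the injection `(g, i) ↦ g * x ^ i` into `M`
  let Φ : {g : G // g • P = P ∧ fixN G g = 23} × Fin 11 → M := fun p =>
    ⟨p.1.1 * x ^ (p.2 : ℕ), M.mul_mem (hmemM p.1.1 p.1.2.1) (M.pow_mem (hPM hxP) _)⟩
  have hΦ : Function.Injective Φ := by
    rintro ⟨⟨g, hg⟩, i⟩ ⟨⟨g', hg'⟩, j⟩ hij
    have hval : g * x ^ (i : ℕ) = g' * x ^ (j : ℕ) := congrArg Subtype.val hij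
    obtain ⟨hc, h16⟩ := key g hg.1 hg.2
    obtain ⟨hc', h16'⟩ := key g' hg'.1 hg'.2
    have e1 : (g * x ^ (i : ℕ)) ^ 16 = x ^ ((i : ℕ) * 16) := by
      rw [(hc.pow_right (i : ℕ)).mul_pow 16, h16, one_mul, ← pow_mul]
    have e2 : (g' * x ^ (j : ℕ)) ^ 16 = x ^ ((j : ℕ) * 16) := by
      rw [(hc'.pow_right (j : ℕ)).mul_pow 16, h16', one_mul, ← pow_mul]
    have e3 : x ^ ((i : ℕ) * 16) = x ^ ((j : ℕ) * 16) := by rw [← e1, ← e2, hval]
    have e4 := pow_inj_mod.1 e3
    rw [hxo] at e4
    have hi := i.isLt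
    have hj := j.isLt
    have hijn : (i : ℕ) = (j : ℕ) := by omega
    have hij' : i = j := Fin.ext hijn
    subst hij'
    have hgg : g = g' := mul_right_cancel hval
    subst hgg
    rfl
  have hcard := Nat.card_le_card_of_injective Φ hΦ
  rw [Nat.card_prod, hcM, Nat.card_eq_fintype_card (α := Fin 11), Fintype.card_fin] at hcard
  omega

end Cfsg.Agent.Lib.Helper62.PG7920
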