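import Cfsg.Agent.Lib.Helper62.PG7920Cen

set_option autoImplicit false

namespace Cfsg.Agent.Lib.Helper62.PG7920

/-- the set of Sylow 11-subgroups fixed by `k`, as a `zpowers x`-invariant subset -/
private def h62_fixSub {G : Type*} [Group G] (x k : G) (hkx : Commute k x) :
    SubMulAction (Subgroup.zpowers x) (Sylow 11 G) where
  carrier := {ω | k • ω = ω}
  smul_mem' := by
    intro c ω hω
    have hc : Commute k (c : G) := by
      obtain ⟨i, hi⟩ := Subgroup.mem_zpowers_iff.mp c.2
      rw [← hi]; exact hkx.zpow_right i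
    have hω' : k • ω = ω := hω
    show k • (c • ω) = c • ω
    rw [Subgroup.smul_def, smul_smul, hc.eq, ← smul_smul, hω']

/-- P7B2: a nontrivial 2-element centralizing `x` normalizes exactly 1 or 23 Sylow
11-subgroups (faithful action, 45 Sylow 11-subgroups) -/
theorem fixN_two_element {G : Type*} [Group G] [Finite G] (hG : Nat.card G = 7920)
    (h45 : Nat.card (Sylow 11 G) = 45)
    (hf : ∀ g : G, (∀ ω : Sylow 11 G, g • ω = ω) → g = 1) (P : Sylow 11 G) (x : G)
    (hx : orderOf x = 11) (hxP : x ∈ (P : Subgroup G)) (k : G) (hkx : Commute k x)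
    (hk2 : ∃ n : ℕ, k ^ 2 ^ n = 1) (hk1 : k ≠ 1) : fixN G k = 1 ∨ fixN G k = 23 := by
  classical
  have hfixP : ∀ c : G, c ∈ (P : Subgroup G) → c • P = P := fun c hc =>
    Sylow.smul_eq_iff_mem_normalizer.mpr (Subgroup.le_normalizer hc)
  have hkP : k • P = P := by
    apply sylow_fixed_unique hG x hx P (k • P) hxP
    rw [smul_smul, ← hkx.eq, ← smul_smul, hfixP x hxP]
  -- (i) parity
  have h2 : fixN G k % 2 = 1 := by
    obtain ⟨n, hn⟩ := hk2
    have hZ2 : IsPGroup 2 (Subgroup.zpowers k) := by
      obtain ⟨m, -, hm⟩ := (Nat.dvd_prime_pow Nat.prime_two).mp (orderOf_dvd_of_pow_eq_one hn)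
      exact IsPGroup.of_card (n := m) (by rw [Nat.card_zpowers, hm])
    have h1 := hZ2.card_modEq_card_fixedPoints (Sylow 11 G)
    have h3 : Nat.card (MulAction.fixedPoints (Subgroup.zpowers k) (Sylow 11 G)) = fixN G k := by
      unfold fixN
      apply Nat.card_congr
      refine Equiv.subtypeEquivRight (fun ω => ?_)
      rw [MulAction.mem_fixedPoints]
      constructor
      · intro h; exact h ⟨k, Subgroup.mem_zpowers k⟩
      · intro h c
        have hle : Subgroup.zpowers k ≤ MulAction.stabilizer G ω :=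
          Subgroup.zpowers_le.mpr (MulAction.mem_stabilizer_iff.mpr h)
        exact MulAction.mem_stabilizer_iff.mp (hle c.2)
    rw [h3, h45] at h1
    have h4 := h1.symm
    unfold Nat.ModEq at h4
    omega
  -- (ii) modulo 11
  have h11 : fixN G k % 11 = 1 := by
    have hZ11 : IsPGroup 11 (Subgroup.zpowers x) :=
      IsPGroup.of_card (n := 1) (by rw [Nat.card_zpowers, hx, pow_one])
    have h1 := hZ11.card_modEq_card_fixedPoints (h62_fixSub x k hkx)
    have h3 : Nat.card (h62_fixSub x k hkx) = fixN G k := rfl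
    have huniq : ∀ a : h62_fixSub x k hkx,
        a ∈ MulAction.fixedPoints (Subgroup.zpowers x) (h62_fixSub x k hkx) → (a : Sylow 11 G) = P := by
      intro a ha
      have ha2 := ha ⟨x, Subgroup.mem_zpowers x⟩
      have ha3 : x • (a : Sylow 11 G) = a := by
        have := congrArg Subtype.val ha2
        exact this
      exact sylow_fixed_unique hG x hx P a hxP ha3
    have h4 : Nat.card (MulAction.fixedPoints (Subgroup.zpowers x) (h62_fixSub x k hkx)) = 1 := by
      rw [Nat.card_eq_one_iff_unique]
      refine ⟨⟨?_⟩, ⟨⟨⟨P, hkP⟩, ?_⟩⟩⟩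
      · rintro ⟨a, ha⟩ ⟨b, hb⟩
        apply Subtype.ext
        apply Subtype.ext
        show (a : Sylow 11 G) = b
        rw [huniq a ha, huniq b hb]
      · intro c
        apply Subtype.ext
        show (c : G) • P = P
        exact hfixP c (by
          have hle : Subgroup.zpowers x ≤ (P : Subgroup G) := Subgroup.zpowers_le.mpr hxP
          exact hle c.2)
    rw [h3, h4] at h1
    have h5 := h1
    unfold Nat.ModEq at h5
    omega
  -- (iii) not all fixed
  have hlt : fixN G k < 45 := by
    have hex : ∃ ω : Sylow 11 G, ¬ k • ω = ω := by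
      by_contra hcon
      push Not at hcon
      exact hk1 (hf k hcon)
    obtain ⟨ω, hω⟩ := hex
    have := Finite.card_subtype_lt (p := fun ω : Sylow 11 G => k • ω = ω) hω
    rw [h45] at this
    exact this
  omega

end Cfsg.Agent.Lib.Helper62.PG7920
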