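import Cfsg.Agent.Lib.Helper62.PG7920P7B1
import Cfsg.Agent.Lib.Helper62.PG7920P7B2

set_option autoImplicit false

namespace Cfsg.Agent.Lib.Helper62.PG7920

/-- P7B: some element of `N_G(P)` normalizes exactly 23 Sylow 11-subgroups -/
theorem exists_fix23_stab {G : Type*} [Group G] [Finite G] (hG : Nat.card G = 7920)
    (h45 : Nat.card (Sylow 11 G) = 45)
    (hf : ∀ g : G, (∀ ω : Sylow 11 G, g • ω = ω) → g = 1) (P : Sylow 11 G) :
    ∃ g : G, g • P = P ∧ fixN G g = 23 := by
  classical
  have h11 : 11 ∣ Nat.card (P : Subgroup G) := P.dvd_card_of_dvd_card (by rw [hG]; norm_num)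
  obtain ⟨z, hz⟩ := exists_prime_orderOf_dvd_card' (G := (P : Subgroup G)) 11 h11
  have hx : orderOf (z : G) = 11 := by rw [Subgroup.orderOf_coe]; exact hz
  obtain ⟨K, hK2, hK8, hK⟩ := exists_two_subgroup_centralizing hG h45 P (z : G) hx z.2
  by_contra hcon
  push Not at hcon
  have hfix : ∀ k : K, k ≠ 1 → fixN G (k : G) = 1 := by
    intro k hk1
    have hk1' : (k : G) ≠ 1 := fun e => hk1 (Subtype.ext e)
    obtain ⟨n, hn⟩ := (IsPGroup.iff_orderOf.mp hK2) k
    have hpow : (k : G) ^ 2 ^ n = 1 := by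
      rw [← hn, ← Subgroup.orderOf_coe]; exact pow_orderOf_eq_one _
    rcases fixN_two_element hG h45 hf P (z : G) hx z.2 (k : G) (hK k k.2).2 ⟨n, hpow⟩ hk1'
      with h | h
    · exact h
    · exact absurd h (hcon (k : G) (hK k k.2).1)
  haveI : Fintype K := Fintype.ofFinite K
  haveI : Fintype (Sylow 11 G) := Fintype.ofFinite _
  haveI : Fintype (MulAction.orbitRel.Quotient K (Sylow 11 G)) := Fintype.ofFinite _
  have hB := MulAction.sum_card_fixedBy_eq_card_orbits_mul_card_group K (Sylow 11 G)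
  simp only [← Nat.card_eq_fintype_card] at hB
  have hfixN : ∀ k : K, Nat.card (MulAction.fixedBy (Sylow 11 G) k) = fixN G (k : G) :=
    fun k => rfl
  have hval : ∀ k : K, Nat.card (MulAction.fixedBy (Sylow 11 G) k) =
      1 + (if k = 1 then 44 else 0) := by
    intro k
    by_cases hk : k = 1
    · subst hk
      rw [if_pos rfl]
      show _ = 45
      rw [← h45]
      apply Nat.card_congr
      exact Equiv.subtypeUnivEquiv (fun u => by rw [MulAction.mem_fixedBy, one_smul])
    · rw [if_neg hk, hfixN, hfix k hk]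
  rw [Finset.sum_congr rfl (fun k _ => hval k), Finset.sum_add_distrib, Finset.sum_const,
    Finset.sum_ite_eq', if_pos (Finset.mem_univ _), Finset.card_univ,
    ← Nat.card_eq_fintype_card, smul_eq_mul, mul_one] at hB
  have hd : Nat.card K ∣ 44 := by
    have h1 : Nat.card K ∣ Nat.card K + 44 := ⟨_, by rw [hB, mul_comm]⟩
    exact (Nat.dvd_add_right (dvd_refl _)).mp h1
  have h8 : 8 ∣ 44 := hK8.trans hd
  norm_num at h8

end Cfsg.Agent.Lib.Helper62.PG7920
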