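import Cfsg.Agent.Lib.Helper62.PG7920Defs

set_option autoImplicit false

namespace Cfsg.Agent.Lib.Helper62.PG7920

/-- `fixN` is invariant under conjugation -/
theorem h63_fixN_conj {G : Type*} [Group G] (h g : G) :
    fixN G (h * g * h⁻¹) = fixN G g := by
  unfold fixN
  apply Nat.card_congr
  refine ⟨fun ω => ⟨h⁻¹ • ω.1, ?_⟩, fun ω => ⟨h • ω.1, ?_⟩, ?_, ?_⟩
  · calc g • h⁻¹ • ω.1 = h⁻¹ • ((h * g * h⁻¹) • ω.1) := by
          simp only [smul_smul]
          congr 1
          group
      _ = h⁻¹ • ω.1 := by rw [ω.2]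
  · calc (h * g * h⁻¹) • h • ω.1 = h • (g • ω.1) := by
          simp only [smul_smul]
          congr 1
          group
      _ = h • ω.1 := by rw [ω.2]
  · intro ω
    apply Subtype.ext
    simp
  · intro ω
    apply Subtype.ext
    simp

/-- P7C: double counting of pairs (element with `n` fixed points, fixed Sylow subgroup) -/
theorem card_fix_mul {G : Type*} [Group G] [Finite G] (P : Sylow 11 G) (n : ℕ) :
    n * Nat.card {g : G // fixN G g = n} =
      Nat.card (Sylow 11 G) * Nat.card {g : G // g • P = P ∧ fixN G g = n} := by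
  classical
  have : Fintype G := Fintype.ofFinite G
  have : Fintype (Sylow 11 G) := Fintype.ofFinite _
  have : Fintype {g : G // fixN G g = n} := Fintype.ofFinite _
  have h1 : Nat.card (Σ g : {g : G // fixN G g = n}, {ω : Sylow 11 G // g.1 • ω = ω}) =
      n * Nat.card {g : G // fixN G g = n} := by
    rw [Nat.card_sigma]
    have h : ∀ g : {g : G // fixN G g = n}, Nat.card {ω : Sylow 11 G // g.1 • ω = ω} = n :=
      fun g => g.2
    simp only [h]
    rw [Finset.sum_const, Finset.card_univ, smul_eq_mul, Nat.card_eq_fintype_card, mul_comm]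
  have h2 : Nat.card (Σ ω : Sylow 11 G, {g : G // g • ω = ω ∧ fixN G g = n}) =
      Nat.card (Sylow 11 G) * Nat.card {g : G // g • P = P ∧ fixN G g = n} := by
    rw [Nat.card_sigma]
    have h : ∀ ω : Sylow 11 G, Nat.card {g : G // g • ω = ω ∧ fixN G g = n} =
        Nat.card {g : G // g • P = P ∧ fixN G g = n} := by
      intro ω
      obtain ⟨h, rfl⟩ := MulAction.exists_smul_eq G P ω
      apply Nat.card_congr
      refine ⟨fun g => ⟨h⁻¹ * g.1 * h, ?_, ?_⟩, fun g => ⟨h * g.1 * h⁻¹, ?_, ?_⟩, ?_, ?_⟩
      · calc (h⁻¹ * g.1 * h) • P = h⁻¹ • (g.1 • (h • P)) := by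
              simp only [smul_smul]
              congr 1
              group
          _ = h⁻¹ • (h • P) := by rw [g.2.1]
          _ = P := by simp
      · have h3 := h63_fixN_conj h⁻¹ g.1
        rw [inv_inv] at h3
        rw [h3]
        exact g.2.2
      · calc (h * g.1 * h⁻¹) • h • P = h • (g.1 • P) := by
              simp only [smul_smul]
              congr 1
              group
          _ = h • P := by rw [g.2.1]
      · rw [h63_fixN_conj h g.1]
        exact g.2.2
      · intro g
        apply Subtype.ext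
        show h * (h⁻¹ * g.1 * h) * h⁻¹ = g.1
        group
      · intro g
        apply Subtype.ext
        show h⁻¹ * (h * g.1 * h⁻¹) * h = g.1
        group
    simp only [h]
    rw [Finset.sum_const, Finset.card_univ, smul_eq_mul, Nat.card_eq_fintype_card]
    simp only [Nat.card_eq_fintype_card]
  rw [← h1, ← h2]
  apply Nat.card_congr
  exact ⟨fun z => ⟨z.2.1, ⟨z.1.1, z.2.2, z.1.2⟩⟩, fun z => ⟨⟨z.2.1, z.2.2.2⟩, ⟨z.1, z.2.2.1⟩⟩,
    fun z => rfl, fun z => rfl⟩

end Cfsg.Agent.Lib.Helper62.PG7920
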