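import Cfsg.Agent.Lib.Helper62.PG7920Cen
import Cfsg.Agent.Lib.Helper62.PG7920P7A
import Cfsg.Agent.Lib.Helper62.PG7920P7B
import Cfsg.Agent.Lib.Helper62.PG7920P7C

set_option autoImplicit false

namespace Cfsg.Agent.Lib.Helper62.PG7920

/-- P7: forty-five Sylow 11-subgroups force a nontrivial normal subgroup of order prime to 11
(otherwise the action on them is faithful and the fixed-point count `23 * |T| = 45 * |T ∩ N(P)|`
with `1 ≤ |T ∩ N(P)| ≤ 16` is impossible). -/
theorem exists_normal_of_fortyfive {G : Type*} [Group G] [Finite G] (hG : Nat.card G = 7920)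
    (h : Nat.card (Sylow 11 G) = 45) :
    ∃ N : Subgroup G, N.Normal ∧ N ≠ ⊥ ∧ ¬ 11 ∣ Nat.card N := by
  refine ⟨(MulAction.toPermHom G (Sylow 11 G)).ker, inferInstance, ?_,
    not_dvd_card_ker hG (by omega)⟩
  intro hbot
  have hf : ∀ g : G, (∀ ω : Sylow 11 G, g • ω = ω) → g = 1 := by
    intro g hg
    have h1 : g ∈ (MulAction.toPermHom G (Sylow 11 G)).ker := by
      rw [MonoidHom.mem_ker]
      apply Equiv.ext
      intro ω
      exact hg ω
    rw [hbot] at h1
    exact Subgroup.mem_bot.mp h1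
  obtain ⟨P⟩ : Nonempty (Sylow 11 G) := inferInstance
  have hA := card_fix23_stab_le hG h P
  obtain ⟨g, hg1, hg2⟩ := exists_fix23_stab hG h hf P
  have hC := card_fix_mul P 23
  rw [h] at hC
  have hpos : 0 < Nat.card {g : G // g • P = P ∧ fixN G g = 23} :=
    Nat.card_pos_iff.mpr ⟨⟨⟨g, hg1, hg2⟩⟩, inferInstance⟩
  have h1 : 23 ∣ 45 * Nat.card {g : G // g • P = P ∧ fixN G g = 23} := ⟨_, hC.symm⟩
  have h23 : 23 ∣ Nat.card {g : G // g • P = P ∧ fixN G g = 23} :=
    (Nat.Coprime.dvd_mul_left (by norm_num)).mp h1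
  have h2 := Nat.le_of_dvd hpos h23
  omega

end Cfsg.Agent.Lib.Helper62.PG7920
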