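import Cfsg.Agent.Lib.Helper62.PG7920Cen

set_option autoImplicit false

namespace Cfsg.Agent.Lib.Helper62.PG7920

private theorem h62_factorization_7920 : (7920 : ℕ).factorization 11 = 1 := by
  have e : (7920 : ℕ) = 11 * 720 := by norm_num
  rw [e, Nat.factorization_mul (by norm_num) (by norm_num)]
  simp [Nat.Prime.factorization_self (by norm_num : Nat.Prime 11),
    Nat.factorization_eq_zero_of_not_dvd (by norm_num : ¬ 11 ∣ 720)]

/-- P8: with 144 Sylow 11-subgroups, a nontrivial proper normal subgroup yields a nontrivial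
normal subgroup of order prime to 11 -/
theorem exists_normal_of_144 {G : Type*} [Group G] [Finite G] (hG : Nat.card G = 7920)
    (h : Nat.card (Sylow 11 G) = 144) (N : Subgroup G) [N.Normal] (hN : N ≠ ⊥) (hN' : N ≠ ⊤) :
    ∃ L : Subgroup G, L.Normal ∧ L ≠ ⊥ ∧ ¬ 11 ∣ Nat.card L := by
  by_cases h11 : 11 ∣ Nat.card N
  swap
  · exact ⟨N, inferInstance, hN, h11⟩
  -- (1) a Sylow 11-subgroup inside `N`
  obtain ⟨z, hz⟩ := exists_prime_orderOf_dvd_card' (G := N) 11 h11
  have hzG : orderOf (z : G) = 11 := by rw [Subgroup.orderOf_coe]; exact hz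
  have hZp : IsPGroup 11 (Subgroup.zpowers (z : G)) :=
    IsPGroup.of_card (n := 1) (by rw [Nat.card_zpowers, hzG, pow_one])
  obtain ⟨P, hP⟩ := hZp.exists_le_sylow
  have hcardP : Nat.card (P : Subgroup G) = 11 := by
    rw [Sylow.card_eq_multiplicity, hG, h62_factorization_7920, pow_one]
  have hPZ : (P : Subgroup G) = Subgroup.zpowers (z : G) :=
    (Subgroup.eq_of_le_of_card_ge hP (by rw [hcardP, Nat.card_zpowers, hzG])).symm
  have hPN : (P : Subgroup G) ≤ N := by
    rw [hPZ, Subgroup.zpowers_le]; exact z.2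
  -- (2) `N ⊓ N_G(P) = P`
  obtain ⟨M, hM⟩ : ∃ M : Subgroup G, M = Subgroup.normalizer ((P : Subgroup G) : Set G) :=
    ⟨_, rfl⟩
  have hMidx : M.index = 144 := by
    rw [← h, hM]; exact (Sylow.card_eq_index_normalizer P).symm
  have hMcard : Nat.card M = 55 := by
    have h1 := Subgroup.card_mul_index M
    rw [hMidx, hG] at h1; omega
  have hPM : (P : Subgroup G) ≤ M := by rw [hM]; exact Subgroup.le_normalizer
  have hD : N ⊓ M = (P : Subgroup G) := by
    have hPD : (P : Subgroup G) ≤ N ⊓ M := le_inf hPN hPM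
    have hDd : Nat.card (N ⊓ M : Subgroup G) ∣ 55 :=
      hMcard ▸ Subgroup.card_dvd_of_le inf_le_right
    have hPd : 11 ∣ Nat.card (N ⊓ M : Subgroup G) := hcardP ▸ Subgroup.card_dvd_of_le hPD
    have hcases : Nat.card (N ⊓ M : Subgroup G) = 11 ∨ Nat.card (N ⊓ M : Subgroup G) = 55 := by
      obtain ⟨c, hc⟩ := hPd
      rw [hc] at hDd ⊢
      have hc5 : c ∣ 5 := (Nat.mul_dvd_mul_iff_left (by norm_num : 0 < 11)).mp hDd
      rcases (Nat.dvd_prime (by norm_num : Nat.Prime 5)).mp hc5 with rfl | rfl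
      · left; rfl
      · right; rfl
    rcases hcases with h1 | h1
    · exact (Subgroup.eq_of_le_of_card_ge hPD (by rw [h1, hcardP])).symm
    · exfalso
      have hMN : M ≤ N := by
        have h2 : N ⊓ M = M := Subgroup.eq_of_le_of_card_ge inf_le_right (by rw [h1, hMcard])
        rw [← h2]; exact inf_le_left
      have hF : M ⊔ N = ⊤ := by rw [hM]; exact Sylow.normalizer_sup_eq_top' P hPN
      rw [sup_eq_right.mpr hMN] at hF
      exact hN' hF
  -- (3) transfer inside `N`
  obtain ⟨P', hP'⟩ : ∃ P' : Sylow 11 N, P' = P.subtype hPN := ⟨_, rfl⟩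
  have hP'coe : (P' : Subgroup N) = (P : Subgroup G).subgroupOf N := by
    rw [hP']; exact Sylow.coe_subtype P hPN
  have hmemP' : ∀ n : N, n ∈ (P' : Subgroup N) ↔ (n : G) ∈ (P : Subgroup G) := by
    intro n; rw [hP'coe, Subgroup.mem_subgroupOf]
  have hcardP' : Nat.card (P' : Subgroup N) = 11 := by
    rw [hP'coe, Nat.card_congr (Subgroup.subgroupOfEquivOfLe hPN).toEquiv, hcardP]
  have hnorm : Subgroup.normalizer ((P' : Subgroup N) : Set N) ≤
      Subgroup.centralizer ((P' : Subgroup N) : Set N) := by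
    intro n hn
    have hnM : (n : G) ∈ M := by
      rw [hM, Subgroup.mem_normalizer_iff]
      intro g
      rw [Subgroup.mem_normalizer_iff] at hn
      constructor
      · intro hg
        have hgN : g ∈ N := hPN hg
        exact (hmemP' _).mp ((hn ⟨g, hgN⟩).mp ((hmemP' _).mpr hg))
      · intro hg
        have hgN : g ∈ N := by
          have e : g = (n : G)⁻¹ * ((n : G) * g * (n : G)⁻¹) * (n : G) := by group
          rw [e]; exact N.mul_mem (N.mul_mem (N.inv_mem n.2) (hPN hg)) n.2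
        exact (hmemP' _).mp ((hn ⟨g, hgN⟩).mpr ((hmemP' _).mpr hg))
    have hnP : (n : G) ∈ (P : Subgroup G) := by rw [← hD]; exact ⟨n.2, hnM⟩
    rw [Subgroup.mem_centralizer_iff]
    intro u hu
    have hu' : (u : G) ∈ (P : Subgroup G) := (hmemP' u).mp hu
    rw [hPZ] at hnP hu'
    obtain ⟨a, ha⟩ := Subgroup.mem_zpowers_iff.mp hnP
    obtain ⟨b, hb⟩ := Subgroup.mem_zpowers_iff.mp hu'
    apply Subtype.ext
    show (u : G) * (n : G) = (n : G) * (u : G)
    rw [← ha, ← hb, ← zpow_add, ← zpow_add, add_comm]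
  have hcompl := MonoidHom.ker_transferSylow_isComplement' P' hnorm
  obtain ⟨L₀, hL₀⟩ : ∃ L₀ : Subgroup N, L₀ = (MonoidHom.transferSylow P' hnorm).ker := ⟨_, rfl⟩
  rw [← hL₀] at hcompl
  have hL₀card : Nat.card L₀ * 11 = Nat.card N := by
    have h1 := hcompl.card_mul_card
    rw [hcardP'] at h1
    exact h1
  have hNdvd : Nat.card N ∣ 7920 := hG ▸ Subgroup.card_subgroup_dvd_card N
  have h11L₀ : ¬ 11 ∣ Nat.card L₀ := by
    intro hd
    obtain ⟨c, hc⟩ := hd
    rw [hc] at hL₀card
    have : 121 ∣ 7920 := Dvd.dvd.trans ⟨c, by rw [← hL₀card]; ring⟩ hNdvd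
    norm_num at this
  -- elements of `N` of order prime to 11 lie in `L₀`
  have hkey : ∀ n : N, ¬ 11 ∣ orderOf n → n ∈ L₀ := by
    intro n hn
    rw [hL₀, MonoidHom.mem_ker]
    have h1 : orderOf (MonoidHom.transferSylow P' hnorm n) ∣ orderOf n := orderOf_map_dvd _ n
    have h2 : orderOf (MonoidHom.transferSylow P' hnorm n) ∣ 11 := by
      have h2' := orderOf_dvd_natCard (MonoidHom.transferSylow P' hnorm n)
      exact h2'.trans (dvd_of_eq hcardP')
    rcases (Nat.dvd_prime (by norm_num : Nat.Prime 11)).mp h2 with h3 | h3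
    · exact orderOf_eq_one_iff.mp h3
    · exact absurd (h3 ▸ h1) hn
  refine ⟨L₀.map N.subtype, ⟨fun l hl g => ?_⟩, ?_, ?_⟩
  · obtain ⟨n, hn, rfl⟩ := Subgroup.mem_map.mp hl
    have hmem : g * (n : G) * g⁻¹ ∈ N := Subgroup.Normal.conj_mem inferInstance (n : G) n.2 g
    refine Subgroup.mem_map.mpr ⟨⟨g * (n : G) * g⁻¹, hmem⟩, hkey _ ?_, rfl⟩
    intro hd
    have h1 : orderOf (⟨g * (n : G) * g⁻¹, hmem⟩ : N) = orderOf n := by
      rw [← Subgroup.orderOf_coe, ← Subgroup.orderOf_coe n]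
      exact orderOf_injective (MulAut.conj g).toMonoidHom (MulAut.conj g).injective (n : G)
    rw [h1] at hd
    have h2 : orderOf n ∣ Nat.card L₀ := by
      have := orderOf_dvd_natCard (⟨n, hn⟩ : L₀)
      rwa [Subgroup.orderOf_mk] at this
    exact h11L₀ (hd.trans h2)
  · intro hbot
    have hL1 : Nat.card L₀ = 1 := by
      have h1 : Nat.card (L₀.map N.subtype) = Nat.card L₀ :=
        Nat.card_congr (Subgroup.equivMapOfInjective L₀ N.subtype N.subtype_injective).symm.toEquiv
      rw [← h1, hbot]; exact Subgroup.card_bot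
    rw [hL1] at hL₀card
    have hPeqN : (P : Subgroup G) = N :=
      Subgroup.eq_of_le_of_card_ge hPN (by rw [hcardP]; omega)
    have hMtop : M = ⊤ := by
      rw [hM, hPeqN]; exact Subgroup.normalizer_eq_top_iff.mpr inferInstance
    rw [hMtop, Subgroup.card_top, hG] at hMcard
    omega
  · have h1 : Nat.card (L₀.map N.subtype) = Nat.card L₀ :=
      Nat.card_congr (Subgroup.equivMapOfInjective L₀ N.subtype N.subtype_injective).symm.toEquiv
    rw [h1]; exact h11L₀

end Cfsg.Agent.Lib.Helper62.PG7920
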