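import Cfsg.Agent.Lib.Helper62.PG7920Conn
import Cfsg.Agent.Lib.Helper62.PG7920Num
import Cfsg.Agent.Lib.Helper62.PG7920P3
import Cfsg.Agent.Lib.Helper62.PG7920P5
import Cfsg.Agent.Lib.Helper62.PG7920P6
import Cfsg.Agent.Lib.Helper62.PG7920P7
import Cfsg.Agent.Lib.Helper62.PG7920P8

set_option autoImplicit false

namespace Cfsg.Agent.Lib.Helper62.PG7920

/-- A group of order 7920 with disconnected prime graph is simple. -/
theorem main {G : Type*} [Group G] [Finite G] (hord : Nat.card G = 7920)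
    (hdisc : (∃ A : Set ℕ, (∃ a ∈ A, a.Prime ∧ a ∣ Nat.card G) ∧
      (∃ b ∉ A, b.Prime ∧ b ∣ Nat.card G) ∧
      ∀ a ∈ A, ∀ b ∉ A, a.Prime → b.Prime → a ∣ Nat.card G → b ∣ Nat.card G →
        ¬ ∃ g : G, orderOf g = a * b)) :
    IsSimpleGroup G := by
  have hnt : Nontrivial G := by
    rw [← Finite.one_lt_card_iff_nontrivial]; omega
  have hstar_contra : Star G → False := by
    intro hS
    obtain ⟨A, ha, hb, hno⟩ := hdisc
    obtain ⟨a, haA, b, hbA, hap, hbp, had, hbd, hg⟩ := not_disc_of_star hord hS A ha hb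
    exact hno a haA b hbA hap hbp had hbd hg
  refine { toNontrivial := hnt, eq_bot_or_eq_top_of_normal := fun N hN => ?_ }
  by_contra hcon
  push Not at hcon
  obtain ⟨hN1, hN2⟩ := hcon
  apply hstar_contra
  rcases card_sylow_eleven hord with h | h | h | h
  · exact star_of_sylow_normal hord h
  · obtain ⟨L, hL, hL1, hL11⟩ := exists_normal_of_twelve hord h
    exact star_of_normal hord L hL1 hL11
  · obtain ⟨L, hL, hL1, hL11⟩ := exists_normal_of_fortyfive hord h
    exact star_of_normal hord L hL1 hL11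
  · obtain ⟨L, hL, hL1, hL11⟩ := exists_normal_of_144 hord h N hN1 hN2
    exact star_of_normal hord L hL1 hL11

end Cfsg.Agent.Lib.Helper62.PG7920
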