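import Cfsg.Agent.Lib.Helper62.PG7920Cen

set_option autoImplicit false

namespace Cfsg.Agent.Lib.Helper62.PG7920

private theorem h62_fact7920_b1 : (7920 : ℕ).factorization 11 = 1 := by
  have e : (7920 : ℕ) = 11 * 720 := by norm_num
  rw [e, Nat.factorization_mul (by norm_num) (by norm_num)]
  simp [Nat.Prime.factorization_self (by norm_num : Nat.Prime 11),
    Nat.factorization_eq_zero_of_not_dvd (by norm_num : ¬ 11 ∣ 720)]

/-- a subgroup `H` of order 11 whose normalizer has order divisible by 16 is centralized by a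
2-subgroup of its normalizer of order divisible by 8 -/
private theorem h62_two_centralizing {G : Type*} [Group G] [Finite G] (H : Subgroup G)
    (hH : Nat.card H = 11) (h16 : 16 ∣ Nat.card (Subgroup.normalizer (H : Set G))) :
    ∃ K : Subgroup G, IsPGroup 2 K ∧ 8 ∣ Nat.card K ∧ K ≤ Subgroup.normalizer (H : Set G) ∧
      K ≤ Subgroup.centralizer (H : Set G) := by
  classical
  haveI : Fact (Nat.Prime 2) := ⟨Nat.prime_two⟩
  obtain ⟨S₀, hS₀⟩ := Sylow.exists_subgroup_card_pow_prime 2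
    (G := Subgroup.normalizer (H : Set G)) (n := 4) (by norm_num; exact h16)
  obtain ⟨ψ, hψ⟩ : ∃ ψ : S₀ →* MulAut H, ψ = H.normalizerMonoidHom.comp S₀.subtype := ⟨_, rfl⟩
  have hidx : ψ.ker.index ∣ 10 := by
    rw [Subgroup.index_ker]
    have h1 : Nat.card ψ.range ∣ Nat.card (MulAut H) := Subgroup.card_subgroup_dvd_card _
    haveI : IsCyclic H := isCyclic_of_prime_card (p := 11) hH
    rw [IsCyclic.card_mulAut, hH, Nat.totient_prime (by norm_num)] at h1
    exact h1
  have hmul : Nat.card ψ.ker * ψ.ker.index = 16 := by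
    rw [Subgroup.card_mul_index, hS₀]; norm_num
  have h8 : 8 ∣ Nat.card ψ.ker := by
    have hi16 : ψ.ker.index ∣ 16 := ⟨_, by rw [← hmul, mul_comm]⟩
    have hi2 : ψ.ker.index ∣ 2 := Nat.dvd_gcd hidx hi16
    rcases (Nat.dvd_prime Nat.prime_two).mp hi2 with h | h
    · rw [h] at hmul; exact ⟨2, by omega⟩
    · rw [h] at hmul; exact ⟨1, by omega⟩
  obtain ⟨m, hm⟩ : ∃ m, Nat.card ψ.ker = 2 ^ m := by
    have h1 : Nat.card ψ.ker ∣ 2 ^ 4 := ⟨ψ.ker.index, by rw [hmul]; norm_num⟩
    obtain ⟨m, -, hm⟩ := (Nat.dvd_prime_pow Nat.prime_two).mp h1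
    exact ⟨m, hm⟩
  have hcard : Nat.card ((ψ.ker.map S₀.subtype).map
      (Subgroup.normalizer (H : Set G)).subtype) = Nat.card ψ.ker := by
    rw [Subgroup.card_map_of_injective (Subgroup.subtype_injective _),
      Subgroup.card_map_of_injective (Subgroup.subtype_injective _)]
  refine ⟨(ψ.ker.map S₀.subtype).map (Subgroup.normalizer (H : Set G)).subtype, ?_, ?_, ?_, ?_⟩
  · exact IsPGroup.of_card (n := m) (by rw [hcard, hm])
  · rw [hcard]; exact h8
  · rintro k hk
    obtain ⟨k', -, rfl⟩ := Subgroup.mem_map.mp hk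
    exact k'.2
  · rintro k hk
    obtain ⟨k', hk', rfl⟩ := Subgroup.mem_map.mp hk
    obtain ⟨s, hs, rfl⟩ := Subgroup.mem_map.mp hk'
    have h1 : (s : Subgroup.normalizer (H : Set G)) ∈ H.normalizerMonoidHom.ker := by
      rw [MonoidHom.mem_ker] at hs ⊢
      rw [hψ] at hs
      exact hs
    rw [Subgroup.normalizerMonoidHom_ker, Subgroup.mem_subgroupOf] at h1
    exact h1

/-- P7B1: a 2-subgroup of order divisible by 8 inside `C_G(x) ∩ N_G(P)` -/
theorem exists_two_subgroup_centralizing {G : Type*} [Group G] [Finite G]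
    (hG : Nat.card G = 7920) (h45 : Nat.card (Sylow 11 G) = 45) (P : Sylow 11 G) (x : G)
    (hx : orderOf x = 11) (hxP : x ∈ (P : Subgroup G)) :
    ∃ K : Subgroup G, IsPGroup 2 K ∧ 8 ∣ Nat.card K ∧ ∀ k ∈ K, k • P = P ∧ Commute k x := by
  have hcardP : Nat.card (P : Subgroup G) = 11 := by
    rw [Sylow.card_eq_multiplicity, hG, h62_fact7920_b1, pow_one]
  have hMidx : (Subgroup.normalizer ((P : Subgroup G) : Set G)).index = 45 := by
    rw [← h45]; exact (Sylow.card_eq_index_normalizer P).symm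
  have hMcard : Nat.card (Subgroup.normalizer ((P : Subgroup G) : Set G)) = 176 := by
    have h1 := Subgroup.card_mul_index (Subgroup.normalizer ((P : Subgroup G) : Set G))
    rw [hMidx, hG] at h1; omega
  obtain ⟨K, hK2, hK8, hKN, hKC⟩ := h62_two_centralizing (P : Subgroup G) hcardP
    (by rw [hMcard]; norm_num)
  refine ⟨K, hK2, hK8, fun k hk => ⟨?_, ?_⟩⟩
  · exact Sylow.smul_eq_iff_mem_normalizer.mpr (hKN hk)
  · have h1 := (Subgroup.mem_centralizer_iff.mp (hKC hk)) x hxP
    exact h1.symm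

end Cfsg.Agent.Lib.Helper62.PG7920
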