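import Cfsg.Agent.Lib.Helper62.PG7920Defs

set_option autoImplicit false

namespace Cfsg.Agent.Lib.Helper62.PG7920

/-- a nontrivial element of prime power order has a power of prime order -/
private theorem h62_pow_prime_order {G : Type*} [Group G] {q : ℕ} (hq : q.Prime) {w : G}
    (hw : w ≠ 1) {j : ℕ} (hj : orderOf w = q ^ j) : ∃ m : ℕ, orderOf (w ^ m) = q := by
  have hj0 : j ≠ 0 := by
    rintro rfl
    rw [pow_zero, orderOf_eq_one_iff] at hj
    exact hw hj
  obtain ⟨i, rfl⟩ := Nat.exists_eq_succ_of_ne_zero hj0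
  refine ⟨q ^ i, ?_⟩
  rw [orderOf_pow_of_dvd (pow_ne_zero _ hq.ne_zero) (by rw [hj]; exact pow_dvd_pow _ (Nat.le_succ _)),
    hj, pow_succ]
  exact Nat.mul_div_cancel_left _ (pow_pos hq.pos _)

/-- SR: a `q`-group `Q` normalizing a `p`-group `T` with `|Q| ∤ |T| - 1` gives an element of
order `q * p`. -/
theorem adj_of_normalizes {G : Type*} [Group G] [Finite G] {p q : ℕ} (hp : p.Prime)
    (hq : q.Prime) (hpq : p ≠ q) (Q T : Subgroup G) (hQ : IsPGroup q Q) (hT : IsPGroup p T)
    (hN : Q ≤ Subgroup.normalizer (T : Set G)) (hdvd : ¬ Nat.card Q ∣ Nat.card T - 1) :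
    Adj G q p := by
  classical
  have hclaim : ∃ w ∈ Q, w ≠ 1 ∧ ∃ u ∈ T, u ≠ 1 ∧ w * u = u * w := by
    by_contra hcon
    push Not at hcon
    apply hdvd
    let X := {u : G // u ∈ T ∧ u ≠ 1}
    letI : MulAction Q X :=
      { smul := fun w u => ⟨(w : G) * u.1 * (w : G)⁻¹,
          ((Subgroup.mem_normalizer_iff.mp (hN w.2)) u.1).mp u.2.1, fun h => u.2.2 (by
            have e : u.1 = (w : G)⁻¹ * ((w : G) * u.1 * (w : G)⁻¹) * (w : G) := by group
            rw [e, h]; group)⟩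
        one_smul := fun u => Subtype.ext (by
          show ((1 : Q) : G) * u.1 * ((1 : Q) : G)⁻¹ = u.1
          simp)
        mul_smul := fun a b u => Subtype.ext (by
          show ((a * b : Q) : G) * u.1 * ((a * b : Q) : G)⁻¹ =
            (a : G) * ((b : G) * u.1 * (b : G)⁻¹) * (a : G)⁻¹
          simp [mul_assoc]) }
    have hsmul : ∀ (w : Q) (u : X), ((w • u : X) : G) = (w : G) * u.1 * (w : G)⁻¹ :=
      fun _ _ => rfl
    haveI : Fintype Q := Fintype.ofFinite Q
    haveI : Fintype X := Fintype.ofFinite X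
    haveI : Fintype (MulAction.orbitRel.Quotient Q X) := Fintype.ofFinite _
    have hB := MulAction.sum_card_fixedBy_eq_card_orbits_mul_card_group Q X
    simp only [← Nat.card_eq_fintype_card] at hB
    have hfix1 : Nat.card (MulAction.fixedBy X (1 : Q)) = Nat.card X := by
      apply Nat.card_congr
      exact Equiv.subtypeUnivEquiv (fun u => by rw [MulAction.mem_fixedBy, one_smul])
    have hfix0 : ∀ w : Q, w ≠ 1 → Nat.card (MulAction.fixedBy X w) = 0 := by
      intro w h1
      rw [Nat.card_eq_zero]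
      left
      refine ⟨fun ⟨u, hu⟩ => ?_⟩
      rw [MulAction.mem_fixedBy] at hu
      have h2 := congrArg Subtype.val hu
      rw [hsmul] at h2
      have hw1 : (w : G) ≠ 1 := fun e => h1 (Subtype.ext e)
      apply hcon (w : G) w.2 hw1 u.1 u.2.1 u.2.2
      calc (w : G) * u.1 = ((w : G) * u.1 * (w : G)⁻¹) * (w : G) := by group
        _ = u.1 * (w : G) := by rw [h2]
    rw [Finset.sum_eq_single (1 : Q) (fun w _ hw => hfix0 w hw)
      (fun h => absurd (Finset.mem_univ _) h), hfix1] at hB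
    have hX : Nat.card X + 1 = Nat.card T := by
      have e : X ≃ {u : T // u ≠ 1} :=
        { toFun := fun u => ⟨⟨u.1, u.2.1⟩, fun h => u.2.2 (congrArg Subtype.val h)⟩
          invFun := fun u => ⟨u.1.1, u.1.2, fun h => u.2 (Subtype.ext h)⟩
          left_inv := fun u => rfl
          right_inv := fun u => rfl }
      rw [Nat.card_congr e, ← Finite.card_option, Nat.card_congr (Equiv.optionSubtypeNe (1 : T))]
    refine ⟨Nat.card (MulAction.orbitRel.Quotient Q X), ?_⟩
    rw [← hX, Nat.add_sub_cancel, hB, mul_comm]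
  obtain ⟨w, hwQ, hw1, u, huT, hu1, hwu⟩ := hclaim
  haveI : Fact q.Prime := ⟨hq⟩
  haveI : Fact p.Prime := ⟨hp⟩
  obtain ⟨j, hj⟩ := (IsPGroup.iff_orderOf.mp hQ) ⟨w, hwQ⟩
  obtain ⟨i, hi⟩ := (IsPGroup.iff_orderOf.mp hT) ⟨u, huT⟩
  rw [Subgroup.orderOf_mk] at hj hi
  obtain ⟨m, hm⟩ := h62_pow_prime_order hq hw1 hj
  obtain ⟨n, hn⟩ := h62_pow_prime_order hp hu1 hi
  have hc : Commute (w ^ m) (u ^ n) := Commute.pow_pow hwu m n
  exact adj_of_commute hq hp (Ne.symm hpq) hm hn hc

end Cfsg.Agent.Lib.Helper62.PG7920
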