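import Cfsg.Agent.S0519
import Cfsg.Agent.S0016
import Cfsg.Agent.Lib.Helper31.PGrp
import Mathlib

/-!
# Irreducible linear p-groups are imprimitive (helper62)

* `exists_normal_sq` : a p-group that is not cyclic, quaternion, dihedral or quasi-dihedral has a
  normal elementary abelian subgroup of order `p ^ 2`.
* `fixS`, `S`, `key_sum` : fixed spaces and the averaging identity for a pair `x, z`.
-/

set_option autoImplicit false
set_option maxHeartbeats 400000

namespace Cfsg.Agent.Lib.Helper62.PImprim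

open Cfsg

theorem card_le_of_cyclic_exp {G : Type*} [Group G] [Finite G] {p : ℕ} (hp : p.Prime)
    {B : Subgroup G} (hc : IsCyclic B) (he : ∀ b ∈ B, b ^ p = 1) : Nat.card B ≤ p := by
  obtain ⟨g, hg⟩ := hc.exists_generator
  have h1 : orderOf g = Nat.card B := orderOf_eq_card_of_forall_mem_zpowers hg
  have h2 : g ^ p = 1 := Subtype.ext (by simpa using he g g.2)
  rw [← h1]
  exact Nat.le_of_dvd hp.pos (orderOf_dvd_of_pow_eq_one h2)

theorem exists_normal_sq {G : Type*} [Group G] [Finite G] (p : ℕ) [Fact p.Prime]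
    (hG : IsPGroup p G)
    (hnc : ¬ IsCyclic G) (hnq : ∀ n : ℕ, ¬ Nonempty (G ≃* QuaternionGroup n))
    (hnd : ∀ n : ℕ, ¬ Nonempty (G ≃* DihedralGroup n)) (hnsd : ¬ Cfsg.IsQuasiDihedral G) :
    ∃ E : Subgroup G, E.Normal ∧ IsElementaryAbelian p E ∧ Nat.card E = p ^ 2 := by
  classical
  have hp := (Fact.out : p.Prime)
  by_cases h : ∀ A : Subgroup G, A.Normal → IsMulCommutative A → IsCyclic A
  · exfalso
    by_cases hm : ∃ B : Subgroup G, IsMulCommutative B ∧ ¬ IsCyclic B
    · obtain ⟨-, ⟨n, hn⟩ | ⟨n, -, h2⟩ | h3⟩ := Cfsg.Agent.S0519.result p hG h hm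
      · exact hnq n hn
      · exact hnd n h2
      · exact hnsd h3
    · push Not at hm
      haveI : Nontrivial G :=
        not_subsingleton_iff_nontrivial.mp (fun hs => hnc (@isCyclic_of_subsingleton _ _ hs))
      haveI : Nontrivial (Subgroup.center G) := hG.center_nontrivial
      have hcd : p ∣ Nat.card (Subgroup.center G) := by
        rcases (hG.to_subgroup (Subgroup.center G)).card_eq_or_dvd with h1 | h1
        · exact absurd h1 (by
            have := Finite.one_lt_card_iff_nontrivial.mpr (inferInstance : Nontrivial (Subgroup.center G))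
            omega)
        · exact h1
      obtain ⟨z, hz⟩ := exists_prime_orderOf_dvd_card' p hcd
      have hz' : orderOf (z : G) = p := by rw [Subgroup.orderOf_coe]; exact hz
      have hzc : ∀ g : G, g * (z : G) = (z : G) * g := Subgroup.mem_center_iff.mp z.2
      have key : ∀ h : G, orderOf h = p → Subgroup.zpowers h = Subgroup.zpowers (z : G) := by
        intro h hh
        have e1 : IsElementaryAbelian p (Subgroup.zpowers h) :=
          Cfsg.Agent.Lib.Helper31.elemAb_zpowers (by rw [← hh]; exact pow_orderOf_eq_one h)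
        have e2 : IsElementaryAbelian p (Subgroup.zpowers (z : G)) :=
          Cfsg.Agent.Lib.Helper31.elemAb_zpowers (by rw [← hz']; exact pow_orderOf_eq_one _)
        have e3 : IsElementaryAbelian p (Subgroup.zpowers h ⊔ Subgroup.zpowers (z : G)) := by
          refine Cfsg.Agent.Lib.Helper31.elemAb_sup e1 e2 ?_
          intro a _ b hb
          obtain ⟨i, rfl⟩ := Subgroup.mem_zpowers_iff.mp hb
          have : Commute a (z : G) := hzc a
          exact (this.zpow_right i).eq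
        have hcard : Nat.card ↥(Subgroup.zpowers h ⊔ Subgroup.zpowers (z : G)) ≤ p :=
          card_le_of_cyclic_exp hp (hm _ e3.1) e3.2
        have h1 : Subgroup.zpowers h = Subgroup.zpowers h ⊔ Subgroup.zpowers (z : G) :=
          Subgroup.eq_of_le_of_card_ge le_sup_left (by rw [Nat.card_zpowers, hh]; exact hcard)
        have h2 : Subgroup.zpowers (z : G) = Subgroup.zpowers h ⊔ Subgroup.zpowers (z : G) :=
          Subgroup.eq_of_le_of_card_ge le_sup_right (by rw [Nat.card_zpowers, hz']; exact hcard)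
        rw [h2]; exact h1
      have key2 : ∀ H : Subgroup G, Nat.card H = p → H = Subgroup.zpowers (z : G) := by
        intro H hH
        obtain ⟨x, hx⟩ := exists_prime_orderOf_dvd_card' (G := H) p (by rw [hH])
        have hx' : orderOf (x : G) = p := by rw [Subgroup.orderOf_coe]; exact hx
        rw [← key (x : G) hx']
        symm
        exact Subgroup.eq_of_le_of_card_ge (Subgroup.zpowers_le.mpr x.2)
          (by rw [Nat.card_zpowers, hx', hH])
      have huniq : ∀ H K : Subgroup G, Nat.card H = p → Nat.card K = p → H = K := by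
        intro H K hH hK
        rw [key2 H hH, key2 K hK]
      rcases Cfsg.Agent.S0016.result p hG huniq with h1 | ⟨-, n, hn⟩
      · exact hnc h1
      · exact hnq _ hn
  · push Not at h
    obtain ⟨A, hAn, hAc, hAnc⟩ := h
    have hΩn : (Cfsg.Agent.Lib.Helper31.omegaOne p A hAc).Normal :=
      Cfsg.Agent.Lib.Helper31.omegaOne_normal hAn
    have hΩe : IsElementaryAbelian p (Cfsg.Agent.Lib.Helper31.omegaOne p A hAc) :=
      Cfsg.Agent.Lib.Helper31.omegaOne_elemAb
    have hΩc : p ^ 2 ≤ Nat.card (Cfsg.Agent.Lib.Helper31.omegaOne p A hAc) := by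
      by_contra hΩc
      have hΩp : Nat.card (Cfsg.Agent.Lib.Helper31.omegaOne p A hAc) ≤ p := by
        obtain ⟨j, hj⟩ := Cfsg.Agent.Lib.Helper31.card_pow_of_isPGroup hG
          (Cfsg.Agent.Lib.Helper31.omegaOne p A hAc)
        rw [hj] at hΩc ⊢
        have hj2 : j < 2 := by
          by_contra h
          exact hΩc (Nat.pow_le_pow_right hp.pos (by omega))
        calc p ^ j ≤ p ^ 1 := Nat.pow_le_pow_right hp.pos (by omega)
          _ = p := pow_one p
      have hW : ∀ W : Subgroup G, W ≤ A → IsElementaryAbelian p W → Nat.card W ≤ p := by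
        intro W hWA hWe
        exact (Subgroup.card_le_of_le (fun x hx => ⟨hWA hx, hWe.2 x hx⟩ :
          W ≤ Cfsg.Agent.Lib.Helper31.omegaOne p A hAc)).trans hΩp
      obtain ⟨a, haA, hgen⟩ := Cfsg.Agent.Lib.Helper31.exists_gen_of_elemAb_card_le hG hAc hW
      have hAeq : A = Subgroup.zpowers a := le_antisymm hgen (Subgroup.zpowers_le.mpr haA)
      apply hAnc
      rw [hAeq]
      infer_instance
    haveI := hΩn
    obtain ⟨U, hUle, hUn, hUcard⟩ :=
      Cfsg.Agent.Lib.Helper31.exists_normal_le_card_eq hG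
        (N := Cfsg.Agent.Lib.Helper31.omegaOne p A hAc) (k := 2) hΩc
    exact ⟨U, hUn, Cfsg.Agent.Lib.Helper31.elemAb_of_le hUle hΩe, hUcard⟩

section lin

variable {q : ℕ} {V : Type*} [AddCommGroup V] [Module (ZMod q) V] {G : Type*} [Group G]

/-- The fixed space of `ρ c`. -/
def fixS (ρ : G →* (V ≃ₗ[ZMod q] V)) (c : G) : Submodule (ZMod q) V :=
  LinearMap.eqLocus ((ρ c : V ≃ₗ[ZMod q] V) : V →ₗ[ZMod q] V) LinearMap.id

theorem mem_fixS (ρ : G →* (V ≃ₗ[ZMod q] V)) (c : G) (v : V) : v ∈ fixS ρ c ↔ ρ c v = v := by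
  simp [fixS, LinearMap.mem_eqLocus]

theorem rho_mul (ρ : G →* (V ≃ₗ[ZMod q] V)) (a b : G) (v : V) : ρ (a * b) v = ρ a (ρ b v) := by
  rw [map_mul]; rfl

theorem rho_one (ρ : G →* (V ≃ₗ[ZMod q] V)) (v : V) : ρ 1 v = v := by
  rw [map_one]; rfl

theorem map_fixS (ρ : G →* (V ≃ₗ[ZMod q] V)) (g c : G) :
    (fixS ρ c).map ((ρ g : V ≃ₗ[ZMod q] V) : V →ₗ[ZMod q] V) = fixS ρ (g * c * g⁻¹) := by
  ext v
  rw [Submodule.mem_map, mem_fixS]
  constructor
  · rintro ⟨w, hw, rfl⟩
    rw [mem_fixS] at hw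
    show ρ (g * c * g⁻¹) (ρ g w) = ρ g w
    rw [← rho_mul, inv_mul_cancel_right, rho_mul, hw]
  · intro hv
    refine ⟨ρ g⁻¹ v, ?_, ?_⟩
    · rw [mem_fixS, ← rho_mul]
      have : c * g⁻¹ = g⁻¹ * (g * c * g⁻¹) := by group
      rw [this, rho_mul, hv]
    · show ρ g (ρ g⁻¹ v) = v
      rw [← rho_mul, mul_inv_cancel, rho_one]

theorem fixS_mul_inv (ρ : G →* (V ≃ₗ[ZMod q] V)) {a b : G} {y : V} (ha : y ∈ fixS ρ a)
    (hb : y ∈ fixS ρ b) : y ∈ fixS ρ (b * a⁻¹) := by
  rw [mem_fixS] at *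
  have h1 : ρ a⁻¹ y = y := by
    conv_lhs => rw [← ha]
    rw [← rho_mul, inv_mul_cancel, rho_one]
  rw [rho_mul, h1, hb]

/-- The averaging operator of the cyclic group generated by `c`. -/
def S (ρ : G →* (V ≃ₗ[ZMod q] V)) (p : ℕ) (c : G) (v : V) : V :=
  ∑ k ∈ Finset.range p, ρ (c ^ k) v

theorem S_mem (ρ : G →* (V ≃ₗ[ZMod q] V)) (p : ℕ) (c : G) (hc : c ^ p = 1) (v : V) :
    S ρ p c v ∈ fixS ρ c := by
  rw [mem_fixS, S, map_sum]
  have h1 : ∀ k, ρ c (ρ (c ^ k) v) = ρ (c ^ (k + 1)) v := fun k => by rw [← rho_mul, pow_succ']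
  simp_rw [h1]
  have h2 := Finset.sum_range_succ (fun k => ρ (c ^ k) v) p
  have h3 := Finset.sum_range_succ' (fun k => ρ (c ^ k) v) p
  rw [h2] at h3
  simp only [hc, pow_zero] at h3
  exact (add_right_cancel h3).symm

theorem S_of_mem (ρ : G →* (V ≃ₗ[ZMod q] V)) (p : ℕ) (c : G) (v : V) (hv : v ∈ fixS ρ c) :
    S ρ p c v = p • v := by
  rw [mem_fixS] at hv
  have h1 : ∀ k : ℕ, ρ (c ^ k) v = v := by
    intro k
    induction k with
    | zero => rw [pow_zero, rho_one]
    | succ n ih => rw [pow_succ, rho_mul, hv, ih]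
  rw [S, Finset.sum_congr rfl (fun k _ => h1 k), Finset.sum_const, Finset.card_range]

theorem fixS_central (ρ : G →* (V ≃ₗ[ZMod q] V)) (hρ : Function.Injective ρ)
    (hirr : ∀ W : Submodule (ZMod q) V, (∀ g : G, ∀ w ∈ W, ρ g w ∈ W) → W = ⊥ ∨ W = ⊤)
    {z : G} (hz : z ∈ Subgroup.center G) (hz1 : z ≠ 1) : fixS ρ z = ⊥ := by
  have hinv : ∀ g : G, ∀ w ∈ fixS ρ z, ρ g w ∈ fixS ρ z := by
    intro g w hw
    rw [mem_fixS] at hw ⊢
    rw [← rho_mul, ← (Subgroup.mem_center_iff.mp hz g), rho_mul, hw]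
  rcases hirr _ hinv with h | h
  · exact h
  · exfalso
    apply hz1
    apply hρ
    rw [map_one]
    ext v
    have : v ∈ fixS ρ z := by rw [h]; trivial
    exact (mem_fixS ρ z v).mp this

theorem key_sum (ρ : G →* (V ≃ₗ[ZMod q] V)) (hρ : Function.Injective ρ)
    (hirr : ∀ W : Submodule (ZMod q) V, (∀ g : G, ∀ w ∈ W, ρ g w ∈ W) → W = ⊥ ∨ W = ⊤)
    (p : ℕ) (hp : p.Prime) {z x : G} (hz : z ∈ Subgroup.center G) (hzo : orderOf z = p) (v : V) :
    ∑ j ∈ Finset.range p, S ρ p (x * z ^ j) v = p • v := by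
  have hxz : Commute x z := Subgroup.mem_center_iff.mp hz x
  have hpow : ∀ j k : ℕ, (x * z ^ j) ^ k = x ^ k * (z ^ k) ^ j := by
    intro j k
    rw [(hxz.pow_right j).mul_pow, ← pow_mul, ← pow_mul, mul_comm j k]
  unfold S
  rw [Finset.sum_comm]
  simp_rw [hpow, rho_mul, ← map_sum]
  rw [Finset.sum_eq_single 0]
  · simp
  · intro k hk hk0
    have hkp : k < p := Finset.mem_range.mp hk
    have hzk : z ^ k ≠ 1 := pow_ne_one_of_lt_orderOf hk0 (by rw [hzo]; exact hkp)
    have hzkc : z ^ k ∈ Subgroup.center G := Subgroup.pow_mem _ hz k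
    have hzkp : (z ^ k) ^ p = 1 := by
      rw [← pow_mul, mul_comm, pow_mul, ← hzo, pow_orderOf_eq_one, one_pow]
    have h1 := S_mem ρ p (z ^ k) hzkp v
    rw [fixS_central ρ hρ hirr hzkc hzk, Submodule.mem_bot] at h1
    unfold S at h1
    rw [h1, map_zero]
  · intro h
    exact absurd (Finset.mem_range.mpr hp.pos) h

end lin

end Cfsg.Agent.Lib.Helper62.PImprim
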