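import Cfsg.Prelude.Def_TwoFusion
import Cfsg.Agent.Lib.Helper62.FixedInv
import Cfsg.Agent.S0275
import Mathlib

set_option maxHeartbeats 400000
set_option autoImplicit false

/-!
# Sylow 2-subgroups `Q × R` with `Q` generalized quaternion (S3269)

`quat_times_not_simple` reduces S3269 to Glauberman's Z*-theorem (S0215), which is taken as a
hypothesis `hZ` for the group at hand.
-/

namespace Cfsg.Agent.Lib.Helper62

section quat
open QuaternionGroup

theorem quat_sq_eq_one {m : ℕ} [NeZero m] (y : QuaternionGroup m) (hy : y * y = 1) :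
    y = 1 ∨ y = a m := by
  rcases y with i | i
  · by_cases h1 : (a i : QuaternionGroup m) = 1
    · left; exact h1
    · right; exact Cfsg.Agent.S0275.a_eq_a_n_of_sq hy h1
  · exfalso
    rw [xa_mul_xa] at hy
    have : (m : ZMod (2 * m)) + i - i = m := by ring
    rw [this] at hy
    exact Cfsg.Agent.S0275.a_n_ne_one hy

theorem quat_noncomm {n : ℕ} (hn : 1 ≤ n) :
    (a 1 : QuaternionGroup (2 ^ n)) * xa 0 ≠ xa 0 * a 1 := by
  rw [a_mul_xa, xa_mul_a]
  intro h
  have h1 : (0 : ZMod (2 * 2 ^ n)) - 1 = 0 + 1 := by injection h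
  have h2 : ((2 : ℕ) : ZMod (2 * 2 ^ n)) = 0 := by
    push_cast; linear_combination -h1
  rw [ZMod.natCast_eq_zero_iff] at h2
  have h3 : 2 ≤ 2 ^ n := by
    calc 2 = 2 ^ 1 := by norm_num
      _ ≤ 2 ^ n := Nat.pow_le_pow_right (by norm_num) hn
  have := Nat.le_of_dvd (by norm_num) h2
  omega

theorem zmod_distinct {n : ℕ} (hn : 1 ≤ n) :
    (0 : ZMod (2 * 2 ^ n)) ≠ 1 ∧ (0 : ZMod (2 * 2 ^ n)) ≠ 2 ∧ (1 : ZMod (2 * 2 ^ n)) ≠ 2 := by
  have h3 : 2 ≤ 2 ^ n := by
    calc 2 = 2 ^ 1 := by norm_num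
      _ ≤ 2 ^ n := Nat.pow_le_pow_right (by norm_num) hn
  have h1 : (1 : ZMod (2 * 2 ^ n)) ≠ 0 := by
    intro h
    have h' : ((1 : ℕ) : ZMod (2 * 2 ^ n)) = 0 := by push_cast; exact h
    rw [ZMod.natCast_eq_zero_iff] at h'
    have := Nat.le_of_dvd (by norm_num) h'
    omega
  have h2 : (2 : ZMod (2 * 2 ^ n)) ≠ 0 := by
    intro h
    have h' : ((2 : ℕ) : ZMod (2 * 2 ^ n)) = 0 := by push_cast; exact h
    rw [ZMod.natCast_eq_zero_iff] at h'
    have := Nat.le_of_dvd (by norm_num) h'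
    omega
  refine ⟨fun h => h1 h.symm, fun h => h2 h.symm, fun h => h1 ?_⟩
  linear_combination (-1 : ZMod (2 * 2 ^ n)) * h

/-- The hypotheses of S3269 give `QRHyp`. -/
theorem qrHyp_of {G : Type*} [Group G] (S Q R : Subgroup G)
    (hQR : Cfsg.IsInternalDirectProduct Q R S)
    (n : ℕ) (hn : 1 ≤ n) (eQ : ↥Q ≃* QuaternionGroup (2 ^ n))
    (hR : ∀ r ∈ R, orderOf r = 2 → ∀ s ∈ R, r * s = s * r) :
    QRHyp S Q R ((eQ.symm (a ((2 ^ n : ℕ) : ZMod (2 * 2 ^ n))) : ↥Q) : G) := by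
  obtain ⟨hQS, hRS, hcomm, hdisj, hsup⟩ := hQR
  have h2n := Cfsg.Agent.S0275.two_n_zero (n := 2 ^ n)
  have key : ∀ x ∈ Q ⊔ R, ∃ q ∈ Q, ∃ r ∈ R, x = q * r := by
    intro x hx
    rw [Subgroup.sup_eq_closure] at hx
    induction hx using Subgroup.closure_induction with
    | mem x hx =>
      rcases hx with hx | hx
      · exact ⟨x, hx, 1, R.one_mem, (mul_one x).symm⟩
      · exact ⟨1, Q.one_mem, x, hx, (one_mul x).symm⟩
    | one => exact ⟨1, Q.one_mem, 1, R.one_mem, (mul_one 1).symm⟩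
    | mul x y _ _ hx hy =>
      obtain ⟨q, hq, r, hr, rfl⟩ := hx
      obtain ⟨q', hq', r', hr', rfl⟩ := hy
      refine ⟨q * q', Q.mul_mem hq hq', r * r', R.mul_mem hr hr', ?_⟩
      have hc := hcomm q' hq' r hr
      calc q * r * (q' * r') = q * (r * q') * r' := by group
        _ = q * (q' * r) * r' := by rw [hc]
        _ = q * q' * (r * r') := by group
    | inv x _ hx =>
      obtain ⟨q, hq, r, hr, rfl⟩ := hx
      refine ⟨q⁻¹, Q.inv_mem hq, r⁻¹, R.inv_mem hr, ?_⟩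
      have hc := hcomm q hq r hr
      rw [hc, mul_inv_rev]
  refine { hQS := hQS, hRS := hRS, hcomm := hcomm, hdisj := ?_, hgen := ?_, hR := ?_,
           hzQ := (eQ.symm _).2, hz1 := ?_, hzz := ?_, hzc := ?_, hinv := ?_, hthree := ?_ }
  · intro x hxQ hxR
    have : x ∈ Q ⊓ R := ⟨hxQ, hxR⟩
    rw [hdisj] at this
    exact Subgroup.mem_bot.mp this
  · intro s hs
    rw [← hsup] at hs
    exact key s hs
  · intro r hr hrr s hs
    by_cases h1 : r = 1
    · rw [h1, one_mul, mul_one]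
    · exact hR r hr (orderOf_eq_prime (by rw [sq]; exact hrr) h1) s hs
  · intro h
    have h1 : eQ.symm (a ((2 ^ n : ℕ) : ZMod (2 * 2 ^ n))) = 1 := Subtype.ext h
    rw [MulEquiv.map_eq_one_iff] at h1
    exact Cfsg.Agent.S0275.a_n_ne_one h1
  · have : eQ.symm (a ((2 ^ n : ℕ) : ZMod (2 * 2 ^ n))) *
        eQ.symm (a ((2 ^ n : ℕ) : ZMod (2 * 2 ^ n))) = 1 := by
      rw [← map_mul, a_mul_a, h2n, a_zero, map_one]
    exact congrArg Subtype.val this
  · intro q hq
    have e : (⟨q, hq⟩ : ↥Q) = eQ.symm (eQ ⟨q, hq⟩) := (eQ.symm_apply_apply _).symm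
    have : eQ.symm (a ((2 ^ n : ℕ) : ZMod (2 * 2 ^ n))) * (⟨q, hq⟩ : ↥Q) =
        ⟨q, hq⟩ * eQ.symm (a ((2 ^ n : ℕ) : ZMod (2 * 2 ^ n))) := by
      rw [e, ← map_mul, ← map_mul, Cfsg.Agent.S0275.a_n_central]
    exact congrArg Subtype.val this
  · intro q hq hqq
    have h1 : eQ ⟨q, hq⟩ * eQ ⟨q, hq⟩ = 1 := by
      rw [← map_mul]
      have : (⟨q, hq⟩ : ↥Q) * ⟨q, hq⟩ = 1 := Subtype.ext hqq
      rw [this, map_one]
    rcases quat_sq_eq_one _ h1 with h2 | h2
    · left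
      have : (⟨q, hq⟩ : ↥Q) = 1 := by rwa [MulEquiv.map_eq_one_iff] at h2
      exact congrArg Subtype.val this
    · right
      have : (⟨q, hq⟩ : ↥Q) = eQ.symm (a ((2 ^ n : ℕ) : ZMod (2 * 2 ^ n))) := by
        rw [← h2, eQ.symm_apply_apply]
      exact congrArg Subtype.val this
  · obtain ⟨d01, d02, d12⟩ := zmod_distinct hn
    have hsq : ∀ k : ZMod (2 * 2 ^ n), ((eQ.symm (xa k) : ↥Q) : G) * (eQ.symm (xa k) : ↥Q) =
        (eQ.symm (a ((2 ^ n : ℕ) : ZMod (2 * 2 ^ n))) : ↥Q) := by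
      intro k
      have : eQ.symm (xa k) * eQ.symm (xa k) =
          eQ.symm (a ((2 ^ n : ℕ) : ZMod (2 * 2 ^ n))) := by
        rw [← map_mul, xa_mul_xa]
        have e : ((2 ^ n : ℕ) : ZMod (2 * 2 ^ n)) + k - k = ((2 ^ n : ℕ) : ZMod (2 * 2 ^ n)) := by
          ring
        rw [e]
      exact congrArg Subtype.val this
    have hne : ∀ k l : ZMod (2 * 2 ^ n), k ≠ l →
        ((eQ.symm (xa k) : ↥Q) : G) ≠ (eQ.symm (xa l) : ↥Q) := by
      intro k l hkl e
      have e1 := eQ.symm.injective (Subtype.ext e)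
      exact hkl (by injection e1)
    exact ⟨_, (eQ.symm (xa 0)).2, _, (eQ.symm (xa 1)).2, _, (eQ.symm (xa 2)).2,
      hne 0 1 d01, hne 0 2 d02, hne 1 2 d12, hsq 0, hsq 1, hsq 2⟩

end quat

open QuaternionGroup in
/-- S3269 modulo Glauberman's Z*-theorem for `G` (hypothesis `hZ`). -/
theorem quat_times_not_simple {G : Type*} [Group G] [Finite G]
    (hZ : ∀ (P : Sylow 2 G) (u : G), orderOf u = 2 → u ∈ P →
      (∀ g : G, g * u * g⁻¹ ∈ P → g * u * g⁻¹ = u) →
      ∃ N : Subgroup G, N.Normal ∧ Odd (Nat.card N) ∧ ∀ g : G, (u * g * u⁻¹ * g⁻¹) ∈ N)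
    (S : Sylow 2 G) (Q R : Subgroup G) (hQR : Cfsg.IsInternalDirectProduct Q R (S : Subgroup G))
    (n : ℕ) (hn : 1 ≤ n) (eQ : ↥Q ≃* QuaternionGroup (2 ^ n))
    (hR : ∀ r ∈ R, orderOf r = 2 → ∀ s ∈ R, r * s = s * r) :
    ¬ IsSimpleGroup G := by
  intro hsimple
  have h := qrHyp_of (S : Subgroup G) Q R hQR n hn eQ hR
  have hSN : (S : Subgroup G) ≤ Subgroup.normalizer ((S : Subgroup G) : Set G) :=
    Subgroup.le_normalizer
  have h' := h.subgroupOf (Subgroup.normalizer ((S : Subgroup G) : Set G)) hSN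
  have hodd : Odd ((S : Subgroup G).subgroupOf
      (Subgroup.normalizer ((S : Subgroup G) : Set G))).index := by
    have h1 : ((S : Subgroup G).subgroupOf
        (Subgroup.normalizer ((S : Subgroup G) : Set G))).index ∣ (S : Subgroup G).index :=
      Subgroup.relIndex_dvd_index_of_le hSN
    have h2 : ¬ 2 ∣ (S : Subgroup G).index := S.not_dvd_index
    rw [← Nat.not_even_iff_odd, even_iff_two_dvd]
    exact fun h3 => h2 (h3.trans h1)
  obtain ⟨t₀, ht₀S, ht₀1, ht₀t, ht₀c⟩ := h'.key hodd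
  obtain ⟨t, ht⟩ : ∃ t : G, t = t₀.1 := ⟨_, rfl⟩
  have htS : t ∈ (S : Subgroup G) := by rw [ht]; exact ht₀S
  have ht1 : t ≠ 1 := by rw [ht]; exact fun e => ht₀1 (Subtype.ext e)
  have htt : t * t = 1 := by rw [ht]; exact congrArg Subtype.val ht₀t
  have htN : ∀ g ∈ Subgroup.normalizer ((S : Subgroup G) : Set G), g * t = t * g := by
    intro g hg
    rw [ht]
    exact congrArg Subtype.val (ht₀c ⟨g, hg⟩)
  have hord : orderOf t = 2 := orderOf_eq_prime (by rw [sq]; exact htt) ht1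
  have htC : t ∈ Subgroup.centralizer ((S : Subgroup G) : Set G) := by
    rw [Subgroup.mem_centralizer_iff]
    intro s hs
    exact (h.invol_central htS htt hs).symm
  have hiso : ∀ g : G, g * t * g⁻¹ ∈ S → g * t * g⁻¹ = t := by
    intro g hg
    have hxx : (g * t * g⁻¹) * (g * t * g⁻¹) = 1 := by
      calc (g * t * g⁻¹) * (g * t * g⁻¹) = g * (t * t) * g⁻¹ := by group
        _ = 1 := by rw [htt]; group
    have hy : (g⁻¹)⁻¹ * t * g⁻¹ ∈ Subgroup.centralizer ((S : Subgroup G) : Set G) := by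
      rw [inv_inv, Subgroup.mem_centralizer_iff]
      intro s hs
      exact (h.invol_central hg hxx hs).symm
    obtain ⟨m, hm, hm'⟩ := Sylow.conj_eq_normalizer_conj_of_mem_centralizer S t g⁻¹ htC hy
    rw [inv_inv] at hm'
    rw [hm']
    have h1 := htN m⁻¹ (Subgroup.inv_mem _ hm)
    rw [h1]; group
  obtain ⟨N₀, hN₀n, hN₀odd, hN₀⟩ := hZ S t hord htS hiso
  rcases hN₀n.eq_bot_or_eq_top with hbot | htop
  · have hcen : t ∈ Subgroup.center G := by
      rw [Subgroup.mem_center_iff]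
      intro g
      have h1 := hN₀ g
      rw [hbot, Subgroup.mem_bot] at h1
      have h2 : t * g = g * t := by
        calc t * g = (t * g * t⁻¹ * g⁻¹) * (g * t) := by group
          _ = g * t := by rw [h1, one_mul]
      exact h2.symm
    have hctop : Subgroup.center G = ⊤ := by
      rcases (inferInstance : (Subgroup.center G).Normal).eq_bot_or_eq_top with hb | ht'
      · rw [hb, Subgroup.mem_bot] at hcen; exact absurd hcen ht1
      · exact ht'
    apply quat_noncomm hn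
    have hc : ∀ x y : G, x * y = y * x := by
      intro x y
      have : y ∈ Subgroup.center G := by rw [hctop]; exact Subgroup.mem_top y
      rw [Subgroup.mem_center_iff] at this
      exact this x
    have e1 : eQ.symm (a 1) * eQ.symm (xa 0) = eQ.symm (xa 0) * eQ.symm (a 1) :=
      Subtype.ext (hc _ _)
    rw [← map_mul, ← map_mul] at e1
    exact eQ.symm.injective e1
  · have h1 : 2 ∣ Nat.card G := by rw [← hord]; exact orderOf_dvd_natCard t
    rw [htop, Subgroup.card_top] at hN₀odd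
    exact (Nat.not_even_iff_odd.mpr hN₀odd) (even_iff_two_dvd.mpr h1)

end Cfsg.Agent.Lib.Helper62
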