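import Mathlib
import Cfsg.Agent.Lib.Helper23.Syl
import Cfsg.Agent.Lib.Helper23.Count
import Cfsg.Agent.Lib.Helper76.SylPrime
import Cfsg.Agent.Lib.Helper11.S4274Tools

/-!
# S4274 project (helper11), piece D

No simple group of order `58520 = 2^3·5·7·11·19` with `n_19 = 1540`.
-/

set_option autoImplicit false
set_option linter.style.haveILetI false

namespace Cfsg.Agent.S4274T

open Subgroup Cfsg.Agent.Lib.Helper23 Cfsg.Agent.Lib.Helper76.SylPrime

/-- the numerical data attached to a prime `p` dividing `|G|` exactly once. -/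
theorem ns58520_aux_data {G : Type*} [Group G] [Finite G] [IsSimpleGroup G]
    (hG : ¬ IsMulCommutative G) (p m : ℕ) [Fact p.Prime] (h : Nat.card G = p * m)
    (hm : ¬ p ∣ m) (hm1 : m ≠ 1) :
    (∀ Q : Sylow p G, Nat.card (Q : Subgroup G) = p) ∧
    ∃ (P : Sylow p G) (r c : ℕ), r ∣ p - 1 ∧ r ≠ 1 ∧
      Nat.card (centralizer ((P : Subgroup G) : Set G)) = p * c ∧
      c * r * Nat.card (Sylow p G) = m ∧
      Nat.card (Sylow p G) % p = 1 ∧ Nat.card (Sylow p G) ≠ 1 ∧
      Nat.card {g : G // p ∣ orderOf g} = Nat.card (Sylow p G) * ((p - 1) * c) := by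
  have hp : p.Prime := Fact.out
  have h1 : Nat.card G = p ^ 1 * m := by rw [pow_one]; exact h
  have hc : ∀ Q : Sylow p G, Nat.card (Q : Subgroup G) = p := fun Q => by
    have := sylow_card_of_eq h1 hm Q
    rwa [pow_one] at this
  refine ⟨hc, ?_⟩
  obtain ⟨P⟩ : Nonempty (Sylow p G) := inferInstance
  obtain ⟨r, c, hr, hr1, hC, -, hcard⟩ := card_centralizer_mul hG hc P
  refine ⟨P, r, c, hr, hr1, hC, ?_, ?_, simple_sylow_card_ne_one h1 hm one_ne_zero hm1,
    card_dvd_orderOf p hc P c hC⟩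
  · rw [h] at hcard
    have : p * (c * r * Nat.card (Sylow p G)) = p * m := by
      rw [← hcard]; ring
    exact Nat.eq_of_mul_eq_mul_left hp.pos this
  · rw [card_sylow_mod p, Nat.mod_eq_of_lt hp.one_lt]

/-- COMPAT: if `q ∣ c_p` then `p ∣ c_q`. -/
theorem ns58520_aux_compat {G : Type*} [Group G] [Finite G] (p q : ℕ) [Fact p.Prime]
    [Fact q.Prime] (hpq : p ≠ q)
    (hcp : ∀ Q : Sylow p G, Nat.card (Q : Subgroup G) = p)
    (hcq : ∀ Q : Sylow q G, Nat.card (Q : Subgroup G) = q) (P : Sylow p G) (Q : Sylow q G)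
    (c d : ℕ) (hC : Nat.card (centralizer ((P : Subgroup G) : Set G)) = p * c)
    (hD : Nat.card (centralizer ((Q : Subgroup G) : Set G)) = q * d) (h : q ∣ c) : p ∣ d := by
  have hp : p.Prime := Fact.out
  have hq : q.Prime := Fact.out
  have h1 : q ∣ Nat.card (centralizer ((P : Subgroup G) : Set G)) := by
    rw [hC]; exact Dvd.dvd.mul_left h p
  have h2 := dvd_card_centralizer_symm p q hpq hcp hcq P Q h1
  rw [hD] at h2
  rcases (Nat.Prime.dvd_mul hp).mp h2 with h3 | h3
  · exact absurd ((Nat.prime_dvd_prime_iff_eq hp hq).mp h3) hpq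
  · exact h3

/-- DISJ: if `q ∤ c_p` then no element has order divisible by both `p` and `q`. -/
theorem ns58520_aux_disj {G : Type*} [Group G] [Finite G] (p q : ℕ) [Fact p.Prime]
    (hq : q.Prime) (hpq : p ≠ q)
    (hcp : ∀ Q : Sylow p G, Nat.card (Q : Subgroup G) = p) (P : Sylow p G)
    (c : ℕ) (hC : Nat.card (centralizer ((P : Subgroup G) : Set G)) = p * c) (h : ¬ q ∣ c)
    (g : G) : ¬ (p ∣ orderOf g ∧ q ∣ orderOf g) := by
  have hp : p.Prime := Fact.out
  rintro ⟨h1, h2⟩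
  have h3 := orderOf_dvd_card_centralizer p hcp P g h1
  rw [hC] at h3
  rcases (Nat.Prime.dvd_mul hq).mp (h2.trans h3) with h4 | h4
  · exact hpq ((Nat.prime_dvd_prime_iff_eq hq hp).mp h4).symm
  · exact h h4

theorem ns58520 {G : Type*} [Group G] [Finite G] [IsSimpleGroup G] (h : Nat.card G = 58520)
    (hn : Nat.card (Sylow 19 G) = 1540) : False := by
  have hG : ¬ IsMulCommutative G :=
    not_comm_of_simple_of_not_prime (by rw [h]; norm_num)
  haveI : Fact (Nat.Prime 19) := ⟨by norm_num⟩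
  haveI : Fact (Nat.Prime 7) := ⟨by norm_num⟩
  haveI : Fact (Nat.Prime 5) := ⟨by norm_num⟩
  obtain ⟨hc19, P19, r19, c19, hr19, hr19', hC19, hm19, -, -, hA19⟩ :=
    ns58520_aux_data hG 19 3080 (h.trans (by norm_num)) (by norm_num) (by norm_num)
  obtain ⟨hc7, P7, r7, c7, hr7, hr7', hC7, hm7, hn7, hn7', hA7⟩ :=
    ns58520_aux_data hG 7 8360 (h.trans (by norm_num)) (by norm_num) (by norm_num)
  obtain ⟨hc5, P5, r5, c5, hr5, hr5', hC5, hm5, hn5, hn5', hA5⟩ :=
    ns58520_aux_data hG 5 11704 (h.trans (by norm_num)) (by norm_num) (by norm_num)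
  rw [hn] at hm19 hA19
  -- p = 19
  have hcr : c19 * r19 = 2 :=
    Nat.eq_of_mul_eq_mul_right (by norm_num : 0 < 1540) (hm19.trans (by norm_num))
  have hr19le : r19 ≤ 2 := Nat.le_of_dvd (by norm_num) (Dvd.intro_left c19 hcr)
  have hr19eq : r19 = 2 := by
    interval_cases r19 <;> omega
  have hc19eq : c19 = 1 := by
    rw [hr19eq] at hcr; omega
  subst hc19eq
  have hA19' : Nat.card {g : G // 19 ∣ orderOf g} = 27720 := by
    rw [hA19]
  have h19c5 : ¬ 19 ∣ c5 := fun hd => by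
    have := ns58520_aux_compat 5 19 (by norm_num) hc5 hc19 P5 P19 c5 1 hC5 hC19 hd
    omega
  have h19c7 : ¬ 19 ∣ c7 := fun hd => by
    have := ns58520_aux_compat 7 19 (by norm_num) hc7 hc19 P7 P19 c7 1 hC7 hC19 hd
    omega
  have hd195 := ns58520_aux_disj (G := G) 19 5 (by norm_num) (by norm_num) hc19 P19 1 hC19
    (by norm_num)
  have hd197 := ns58520_aux_disj (G := G) 19 7 (by norm_num) (by norm_num) hc19 P19 1 hC19
    (by norm_num)
  -- p = 7
  have hr7le : r7 ≤ 6 := Nat.le_of_dvd (by norm_num) hr7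
  have hr7d : r7 ∣ 8360 := by
    rw [← hm7]; exact Dvd.dvd.mul_right (Dvd.intro_left c7 rfl) _
  have hr7eq : r7 = 2 := by
    interval_cases r7 <;> omega
  subst hr7eq
  have hcn7 : c7 * Nat.card (Sylow 7 G) = 4180 := by
    have : c7 * 2 * Nat.card (Sylow 7 G) = 2 * (c7 * Nat.card (Sylow 7 G)) := by ring
    omega
  have hA7' : Nat.card {g : G // 7 ∣ orderOf g} = 25080 := by
    rw [hA7]
    have : Nat.card (Sylow 7 G) * ((7 - 1) * c7) = 6 * (c7 * Nat.card (Sylow 7 G)) := by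
      norm_num; ring
    omega
  have h5c7 : ¬ 5 ∣ c7 := by
    rintro ⟨c', rfl⟩
    have hcn : c' * Nat.card (Sylow 7 G) = 836 := by
      have : 5 * c' * Nat.card (Sylow 7 G) = 5 * (c' * Nat.card (Sylow 7 G)) := by ring
      omega
    have hmem : Nat.card (Sylow 7 G) ∈ (Nat.divisors 836).filter (fun d => d % 7 = 1) := by
      rw [Finset.mem_filter, Nat.mem_divisors]
      exact ⟨⟨Dvd.intro_left c' hcn, by norm_num⟩, hn7⟩
    rw [show (Nat.divisors 836).filter (fun d => d % 7 = 1) = {1, 22} from by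
      decide +kernel] at hmem
    simp only [Finset.mem_insert, Finset.mem_singleton] at hmem
    rcases hmem with h1 | h1
    · exact hn7' h1
    · rw [h1] at hcn
      have hc' : c' = 38 := by omega
      apply h19c7
      rw [hc']
      norm_num
  have hd75 := ns58520_aux_disj (G := G) 7 5 (by norm_num) (by norm_num) hc7 P7 c7 hC7 h5c7
  -- p = 5
  have hr5le : r5 ≤ 4 := Nat.le_of_dvd (by norm_num) hr5
  have hA5' : 11704 ≤ Nat.card {g : G // 5 ∣ orderOf g} := by
    rw [hA5, ← hm5]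
    have h1 : c5 * r5 * Nat.card (Sylow 5 G) ≤ c5 * 4 * Nat.card (Sylow 5 G) :=
      Nat.mul_le_mul_right _ (Nat.mul_le_mul_left _ hr5le)
    have h2 : Nat.card (Sylow 5 G) * ((5 - 1) * c5) = c5 * 4 * Nat.card (Sylow 5 G) := by
      norm_num; ring
    omega
  have hlt := three_card_dvd_orderOf_lt (G := G) 5 7 19 (by norm_num) (by norm_num)
    (by norm_num) (fun g hg => hd75 g ⟨hg.2, hg.1⟩) (fun g hg => hd195 g ⟨hg.2, hg.1⟩)
    (fun g hg => hd197 g ⟨hg.2, hg.1⟩)
  rw [h, hA7', hA19'] at hlt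
  omega

end Cfsg.Agent.S4274T
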