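import Mathlib
import Cfsg.Agent.Lib.Helper23.Syl
import Cfsg.Agent.Lib.Helper23.Count
import Cfsg.Agent.Lib.Helper76.SylPrime
import Cfsg.Agent.Lib.Helper11.S4274Tools
import Cfsg.Agent.Lib.Helper62.S4274D

/-!
# S4274 project (helper11), piece E

No simple group of order `87780 = 2^2·3·5·7·11·19` with `n_19 = 1540`.
-/

set_option autoImplicit false
set_option linter.style.haveILetI false

namespace Cfsg.Agent.S4274T

open Subgroup Cfsg.Agent.Lib.Helper23 Cfsg.Agent.Lib.Helper76.SylPrime

theorem ns87780b {G : Type*} [Group G] [Finite G] [IsSimpleGroup G] (h : Nat.card G = 87780)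
    (hn : Nat.card (Sylow 19 G) = 1540) : False := by
  have hG : ¬ IsMulCommutative G :=
    not_comm_of_simple_of_not_prime (by rw [h]; norm_num)
  haveI : Fact (Nat.Prime 19) := ⟨by norm_num⟩
  haveI : Fact (Nat.Prime 11) := ⟨by norm_num⟩
  haveI : Fact (Nat.Prime 7) := ⟨by norm_num⟩
  haveI : Fact (Nat.Prime 5) := ⟨by norm_num⟩
  obtain ⟨hc19, P19, r19, c19, hr19, hr19', hC19, hm19, -, -, hA19⟩ :=
    ns58520_aux_data hG 19 4620 (h.trans (by norm_num)) (by norm_num) (by norm_num)
  obtain ⟨hc11, P11, r11, c11, hr11, hr11', hC11, hm11, hn11, hn11', -⟩ :=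
    ns58520_aux_data hG 11 7980 (h.trans (by norm_num)) (by norm_num) (by norm_num)
  obtain ⟨hc7, P7, r7, c7, hr7, hr7', hC7, hm7, hn7, hn7', hA7⟩ :=
    ns58520_aux_data hG 7 12540 (h.trans (by norm_num)) (by norm_num) (by norm_num)
  obtain ⟨hc5, P5, r5, c5, hr5, hr5', hC5, hm5, hn5, hn5', hA5⟩ :=
    ns58520_aux_data hG 5 17556 (h.trans (by norm_num)) (by norm_num) (by norm_num)
  rw [hn] at hm19 hA19
  -- p = 19
  have hcr : c19 * r19 = 3 :=
    Nat.eq_of_mul_eq_mul_right (by norm_num : 0 < 1540) (hm19.trans (by norm_num))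
  have hr19le : r19 ≤ 3 := Nat.le_of_dvd (by norm_num) (Dvd.intro_left c19 hcr)
  have hr19eq : r19 = 3 := by
    have hd : r19 ∣ 3 := Dvd.intro_left c19 hcr
    interval_cases r19 <;> omega
  have hc19eq : c19 = 1 := by
    rw [hr19eq] at hcr; omega
  subst hc19eq
  have hA19' : Nat.card {g : G // 19 ∣ orderOf g} = 27720 := by
    rw [hA19]
  have h19c5 : ¬ 19 ∣ c5 := fun hd => by
    have := ns58520_aux_compat 5 19 (by norm_num) hc5 hc19 P5 P19 c5 1 hC5 hC19 hd
    omega
  have h19c7 : ¬ 19 ∣ c7 := fun hd => by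
    have := ns58520_aux_compat 7 19 (by norm_num) hc7 hc19 P7 P19 c7 1 hC7 hC19 hd
    omega
  have h19c11 : ¬ 19 ∣ c11 := fun hd => by
    have := ns58520_aux_compat 11 19 (by norm_num) hc11 hc19 P11 P19 c11 1 hC11 hC19 hd
    omega
  have hd195 := ns58520_aux_disj (G := G) 19 5 (by norm_num) (by norm_num) hc19 P19 1 hC19
    (by norm_num)
  have hd197 := ns58520_aux_disj (G := G) 19 7 (by norm_num) (by norm_num) hc19 P19 1 hC19
    (by norm_num)
  -- p = 5
  have hr5le : r5 ≤ 4 := Nat.le_of_dvd (by norm_num) hr5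
  have hr5eq : r5 = 2 := by
    by_contra hne
    have hr4 : r5 = 4 := by
      interval_cases r5 <;> omega
    subst hr4
    have hcn : c5 * Nat.card (Sylow 5 G) = 4389 := by
      have : c5 * 4 * Nat.card (Sylow 5 G) = 4 * (c5 * Nat.card (Sylow 5 G)) := by ring
      omega
    have hmem : Nat.card (Sylow 5 G) ∈ (Nat.divisors 4389).filter (fun d => d % 5 = 1) := by
      rw [Finset.mem_filter, Nat.mem_divisors]
      exact ⟨⟨Dvd.intro_left c5 hcn, by norm_num⟩, hn5⟩
    rw [show (Nat.divisors 4389).filter (fun d => d % 5 = 1) = {1, 11, 21, 231} from by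
      decide +kernel] at hmem
    simp only [Finset.mem_insert, Finset.mem_singleton] at hmem
    rcases hmem with h1 | h1 | h1 | h1
    · exact hn5' h1
    · rw [h1] at hcn
      have hc' : c5 = 399 := by omega
      apply h19c5
      rw [hc']
      norm_num
    · rw [h1] at hcn
      have hc' : c5 = 209 := by omega
      apply h19c5
      rw [hc']
      norm_num
    · rw [h1] at hcn
      have hc' : c5 = 19 := by omega
      apply h19c5
      rw [hc']
  subst hr5eq
  have hcn5 : c5 * Nat.card (Sylow 5 G) = 8778 := by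
    have : c5 * 2 * Nat.card (Sylow 5 G) = 2 * (c5 * Nat.card (Sylow 5 G)) := by ring
    omega
  have hA5' : Nat.card {g : G // 5 ∣ orderOf g} = 35112 := by
    rw [hA5]
    have : Nat.card (Sylow 5 G) * ((5 - 1) * c5) = 4 * (c5 * Nat.card (Sylow 5 G)) := by
      norm_num; ring
    omega
  have h7c5 : ¬ 7 ∣ c5 := by
    rintro ⟨c', rfl⟩
    have hcn : c' * Nat.card (Sylow 5 G) = 1254 := by
      have : 7 * c' * Nat.card (Sylow 5 G) = 7 * (c' * Nat.card (Sylow 5 G)) := by ring
      omega
    have hmem : Nat.card (Sylow 5 G) ∈ (Nat.divisors 1254).filter (fun d => d % 5 = 1) := by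
      rw [Finset.mem_filter, Nat.mem_divisors]
      exact ⟨⟨Dvd.intro_left c' hcn, by norm_num⟩, hn5⟩
    rw [show (Nat.divisors 1254).filter (fun d => d % 5 = 1) = {1, 6, 11, 66} from by
      decide +kernel] at hmem
    simp only [Finset.mem_insert, Finset.mem_singleton] at hmem
    rcases hmem with h1 | h1 | h1 | h1
    · exact hn5' h1
    · rw [h1] at hcn
      have hc' : c' = 209 := by omega
      apply h19c5
      rw [hc']
      norm_num
    · rw [h1] at hcn
      have hc' : c' = 114 := by omega
      apply h19c5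
      rw [hc']
      norm_num
    · rw [h1] at hcn
      have hc' : c' = 19 := by omega
      apply h19c5
      rw [hc']
      norm_num
  have hd57 := ns58520_aux_disj (G := G) 5 7 (by norm_num) (by norm_num) hc5 P5 c5 hC5 h7c5
  have h5c7 : ¬ 5 ∣ c7 := fun hd =>
    h7c5 (ns58520_aux_compat 7 5 (by norm_num) hc7 hc5 P7 P5 c7 c5 hC7 hC5 hd)
  -- p = 7
  have hr7le : r7 ≤ 6 := Nat.le_of_dvd (by norm_num) hr7
  have hr7ne : r7 ≠ 6 := by
    intro hr6
    subst hr6
    have hcn : c7 * Nat.card (Sylow 7 G) = 2090 := by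
      have : c7 * 6 * Nat.card (Sylow 7 G) = 6 * (c7 * Nat.card (Sylow 7 G)) := by ring
      omega
    have hmem : Nat.card (Sylow 7 G) ∈ (Nat.divisors 2090).filter (fun d => d % 7 = 1) := by
      rw [Finset.mem_filter, Nat.mem_divisors]
      exact ⟨⟨Dvd.intro_left c7 hcn, by norm_num⟩, hn7⟩
    rw [show (Nat.divisors 2090).filter (fun d => d % 7 = 1) = {1, 22, 190} from by
      decide +kernel] at hmem
    simp only [Finset.mem_insert, Finset.mem_singleton] at hmem
    rcases hmem with h1 | h1 | h1
    · exact hn7' h1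
    · rw [h1] at hcn
      have hc' : c7 = 95 := by omega
      apply h19c7
      rw [hc']
      norm_num
    · rw [h1] at hcn
      have hc' : c7 = 11 := by omega
      have h7c11 : 7 ∣ c11 :=
        ns58520_aux_compat 7 11 (by norm_num) hc7 hc11 P7 P11 c7 c11 hC7 hC11 (by rw [hc'])
      obtain ⟨c'', rfl⟩ := h7c11
      have hr11le : r11 ≤ 10 := Nat.le_of_dvd (by norm_num) hr11
      have hcn11 : c'' * r11 * Nat.card (Sylow 11 G) = 1140 := by
        have : 7 * c'' * r11 * Nat.card (Sylow 11 G) =
            7 * (c'' * r11 * Nat.card (Sylow 11 G)) := by ring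
        omega
      have hr11cases : r11 = 2 ∨ r11 = 5 ∨ r11 = 10 := by
        interval_cases r11 <;> omega
      rcases hr11cases with hr | hr | hr
      · subst hr
        have hcn' : c'' * Nat.card (Sylow 11 G) = 570 := by
          have : c'' * 2 * Nat.card (Sylow 11 G) = 2 * (c'' * Nat.card (Sylow 11 G)) := by ring
          omega
        have hmem : Nat.card (Sylow 11 G) ∈
            (Nat.divisors 570).filter (fun d => d % 11 = 1) := by
          rw [Finset.mem_filter, Nat.mem_divisors]
          exact ⟨⟨Dvd.intro_left c'' hcn', by norm_num⟩, hn11⟩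
        rw [show (Nat.divisors 570).filter (fun d => d % 11 = 1) = {1} from by
          decide +kernel] at hmem
        simp only [Finset.mem_singleton] at hmem
        exact hn11' hmem
      · subst hr
        have hcn' : c'' * Nat.card (Sylow 11 G) = 228 := by
          have : c'' * 5 * Nat.card (Sylow 11 G) = 5 * (c'' * Nat.card (Sylow 11 G)) := by ring
          omega
        have hmem : Nat.card (Sylow 11 G) ∈
            (Nat.divisors 228).filter (fun d => d % 11 = 1) := by
          rw [Finset.mem_filter, Nat.mem_divisors]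
          exact ⟨⟨Dvd.intro_left c'' hcn', by norm_num⟩, hn11⟩
        rw [show (Nat.divisors 228).filter (fun d => d % 11 = 1) = {1, 12} from by
          decide +kernel] at hmem
        simp only [Finset.mem_insert, Finset.mem_singleton] at hmem
        rcases hmem with h2 | h2
        · exact hn11' h2
        · rw [h2] at hcn'
          have hc'' : c'' = 19 := by omega
          apply h19c11
          rw [hc'']
          norm_num
      · subst hr
        have hcn' : c'' * Nat.card (Sylow 11 G) = 114 := by
          have : c'' * 10 * Nat.card (Sylow 11 G) = 10 * (c'' * Nat.card (Sylow 11 G)) := by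
            ring
          omega
        have hmem : Nat.card (Sylow 11 G) ∈
            (Nat.divisors 114).filter (fun d => d % 11 = 1) := by
          rw [Finset.mem_filter, Nat.mem_divisors]
          exact ⟨⟨Dvd.intro_left c'' hcn', by norm_num⟩, hn11⟩
        rw [show (Nat.divisors 114).filter (fun d => d % 11 = 1) = {1} from by
          decide +kernel] at hmem
        simp only [Finset.mem_singleton] at hmem
        exact hn11' hmem
  have hr7le3 : r7 ≤ 3 := by
    interval_cases r7 <;> omega
  have hA7' : 25080 ≤ Nat.card {g : G // 7 ∣ orderOf g} := by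
    rw [hA7]
    have h1 : c7 * r7 * Nat.card (Sylow 7 G) ≤ c7 * 3 * Nat.card (Sylow 7 G) :=
      Nat.mul_le_mul_right _ (Nat.mul_le_mul_left _ hr7le3)
    have h2 : Nat.card (Sylow 7 G) * ((7 - 1) * c7) = 2 * (c7 * 3 * Nat.card (Sylow 7 G)) := by
      norm_num; ring
    omega
  have hlt := three_card_dvd_orderOf_lt (G := G) 5 7 19 (by norm_num) (by norm_num)
    (by norm_num) hd57 (fun g hg => hd195 g ⟨hg.2, hg.1⟩)
    (fun g hg => hd197 g ⟨hg.2, hg.1⟩)
  rw [h, hA5', hA19'] at hlt
  omega

end Cfsg.Agent.S4274T
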