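import Mathlib

/-!
# Tits group project T2 (S1074, architect helper99): piece T2-CCERT
-/

set_option autoImplicit false

namespace Cfsg.Agent.Lib.Helper99.T2

open scoped commutatorElement

theorem t2_comm_cert {Γ : Type*} [Group Γ] (T : Subgroup Γ) (a h h' x : Γ) (ha : a ∈ T)
    (hh : h ∈ T) (haa : a * a = 1) (hhh : h * h' = 1) (hx : a * (h * (a * h')) = x) :
    x ∈ ⁅T, T⁆ := by
  have h1 : h' = h⁻¹ := eq_inv_of_mul_eq_one_right hhh
  have h2 : a⁻¹ = a := inv_eq_of_mul_eq_one_right haa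
  have h3 : x = ⁅a, h⁆ := by
    rw [commutatorElement_def, ← hx, h1, h2, mul_assoc, mul_assoc]
  rw [h3]
  exact Subgroup.commutator_mem_commutator ha hh

end Cfsg.Agent.Lib.Helper99.T2
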