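import Mathlib
import Cfsg.Agent.Lib.Helper34.T2SOLV

/-!
# Tits group project T2 (S1074, architect helper99): piece T2-SOLV2
-/

set_option autoImplicit false

namespace Cfsg.Agent.Lib.Helper99.T2

open scoped commutatorElement

theorem t2_solvable_of_card {Γ : Type*} [Group Γ] [Finite Γ] (P W : Subgroup Γ) (hWP : W ≤ P)
    (a : ℕ) (hW : Nat.card W = 2 ^ a) (hP : Nat.card P = 5 * Nat.card W) :
    Group.IsSolvable ↥P := by
  have hWp : IsPGroup 2 ↥W := IsPGroup.of_card hW
  have hWp' : IsPGroup 2 ↥(W.subgroupOf P) :=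
    hWp.comap_of_injective P.subtype P.subtype_injective
  have hcard : Nat.card ↥(W.subgroupOf P) = Nat.card W :=
    Nat.card_congr (Subgroup.subgroupOfEquivOfLe hWP).toEquiv
  have h1 := Subgroup.card_mul_index (W.subgroupOf P)
  have hpos : 0 < Nat.card W := Nat.card_pos
  have hidx : (W.subgroupOf P).index = 5 := by
    rw [hcard, hP, mul_comm] at h1
    exact Nat.eq_of_mul_eq_mul_right hpos h1
  exact t2_solvable_of_two_group_index_five (W.subgroupOf P) hWp' hidx

end Cfsg.Agent.Lib.Helper99.T2
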