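import Mathlib

/-!
# Tits group project T2 (S1074, architect helper99): piece T2-TREE
-/

set_option autoImplicit false

namespace Cfsg.Agent.Lib.Helper99.T2

open scoped commutatorElement

/-- every point is reachable from the root of its class. -/
theorem t2tree_root {Γ : Type*} [Group Γ] {Ω : Type*} [MulAction Γ Ω] (P : Subgroup Γ)
    (gens : ℕ → Γ) (hgens : ∀ s, gens s ∈ P) (pts : ℕ → Ω) (n : ℕ)
    (cls par gen rk root : ℕ → ℕ)
    (htree : ∀ i < n, i ≠ root (cls i) → par i < n ∧ cls (par i) = cls i ∧ rk (par i) < rk i ∧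
      gens (gen i) • pts (par i) = pts i) :
    ∀ r : ℕ, ∀ i < n, rk i = r → ∃ k ∈ P, k • pts (root (cls i)) = pts i := by
  intro r
  induction r using Nat.strong_induction_on with
  | _ r ih =>
    intro i hi hr
    by_cases hroot : i = root (cls i)
    · refine ⟨1, P.one_mem, ?_⟩
      rw [one_smul]
      exact congrArg pts hroot.symm
    · obtain ⟨hpn, hcls, hrk, hmove⟩ := htree i hi hroot
      obtain ⟨k', hk', hk'eq⟩ := ih (rk (par i)) (hr ▸ hrk) (par i) hpn rfl
      refine ⟨gens (gen i) * k', P.mul_mem (hgens _) hk', ?_⟩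
      rw [mul_smul, ← hcls, hk'eq, hmove]

theorem t2_conn_of_tree {Γ : Type*} [Group Γ] {Ω : Type*} [MulAction Γ Ω] (P : Subgroup Γ)
    (gens : ℕ → Γ) (hgens : ∀ s, gens s ∈ P) (pts : ℕ → Ω) (n : ℕ)
    (cls par gen rk root : ℕ → ℕ)
    (htree : ∀ i < n, i ≠ root (cls i) → par i < n ∧ cls (par i) = cls i ∧ rk (par i) < rk i ∧
      gens (gen i) • pts (par i) = pts i) :
    ∀ i < n, ∀ j < n, cls i = cls j → ∃ k ∈ P, k • pts i = pts j := by
  intro i hi j hj hcls
  obtain ⟨ki, hki, hkieq⟩ :=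
    t2tree_root P gens hgens pts n cls par gen rk root htree (rk i) i hi rfl
  obtain ⟨kj, hkj, hkjeq⟩ :=
    t2tree_root P gens hgens pts n cls par gen rk root htree (rk j) j hj rfl
  refine ⟨kj * ki⁻¹, P.mul_mem hkj (P.inv_mem hki), ?_⟩
  rw [mul_smul, ← hkieq, inv_smul_smul, hcls, hkjeq]

end Cfsg.Agent.Lib.Helper99.T2
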