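import Mathlib

/-!
Project TG (S2197, architect helper99): piece TG-FIVE.  A group of order `10240` acting on the
`8` cosets of a subgroup of order `1280`: the elements of order `5` act trivially.
-/

set_option autoImplicit false

namespace Cfsg.Agent.Lib.Helper99.TG

theorem tgfive_fact : (10240 : ℕ).factorization 5 = 1 := by
  have h : (10240 : ℕ) = 5 * 2048 := by norm_num
  rw [h, Nat.factorization_mul (by norm_num) (by norm_num)]
  have h5 : Nat.Prime 5 := by norm_num
  have h1 : (5 : ℕ).factorization 5 = 1 := h5.factorization_self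
  have h2 : (2048 : ℕ).factorization 5 = 0 :=
    Nat.factorization_eq_zero_of_not_dvd (by norm_num)
  rw [Finsupp.add_apply, h1, h2]

theorem tgfive_core {G : Type*} [Group G] [Finite G] (H : Subgroup G)
    (hG : Nat.card G = 10240) (hidx : H.index = 8) (f : G) (hf5 : f ^ 5 = 1) :
    ∀ x : G ⧸ H, f • x = x := by
  classical
  by_contra hcon
  have hf1 : f ≠ 1 := by
    rintro rfl
    exact hcon (fun x => one_smul G x)
  have hp5 : Fact (Nat.Prime 5) := ⟨by norm_num⟩
  have hord : orderOf f = 5 := orderOf_eq_prime hf5 hf1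
  obtain ⟨F, hF⟩ : ∃ F : Subgroup G, F = Subgroup.zpowers f := ⟨_, rfl⟩
  have hfF : f ∈ F := by rw [hF]; exact Subgroup.mem_zpowers f
  have hFcard : Nat.card F = 5 := by rw [hF, Nat.card_zpowers, hord]
  have hFp : IsPGroup 5 F := IsPGroup.of_card (n := 1) (by rw [hFcard]; norm_num)
  have hXcard : Nat.card (G ⧸ H) = 8 := by rw [← Subgroup.index_eq_card]; exact hidx
  have hmod := hFp.card_modEq_card_fixedPoints (G ⧸ H)
  rw [hXcard] at hmod
  -- the fixed points of `F` are not everything
  have hne : MulAction.fixedPoints F (G ⧸ H) ≠ Set.univ := by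
    intro h
    apply hcon
    intro x
    have hx : x ∈ MulAction.fixedPoints F (G ⧸ H) := by rw [h]; exact Set.mem_univ x
    exact MulAction.mem_fixedPoints.mp hx ⟨f, hfF⟩
  have hlt : Nat.card (MulAction.fixedPoints F (G ⧸ H)) < 8 := by
    rw [Nat.card_coe_set_eq, ← hXcard]
    exact Set.ncard_lt_card hne
  have h3 : Nat.card (MulAction.fixedPoints F (G ⧸ H)) = 3 := by
    have h := hmod
    unfold Nat.ModEq at h
    omega
  -- the Sylow subgroup
  have hcardQ : Nat.card F = 5 ^ (Nat.card G).factorization 5 := by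
    rw [hG, tgfive_fact, hFcard]; norm_num
  obtain ⟨Q, hQ⟩ : ∃ Q : Sylow 5 G, (Q : Subgroup G) = F := ⟨Sylow.ofCard F hcardQ, rfl⟩
  have hFfix : ∀ y ∈ MulAction.fixedPoints F (G ⧸ H), ∀ z ∈ F, z • y = y := by
    intro y hy z hz
    exact MulAction.mem_fixedPoints.mp hy ⟨z, hz⟩
  -- the normaliser is transitive on the fixed points
  have htrans : ∀ x ∈ MulAction.fixedPoints F (G ⧸ H),
      ∀ x' ∈ MulAction.fixedPoints F (G ⧸ H), ∃ n ∈ Subgroup.normalizer (F : Set G), n • x = x' := by
    intro x hx x' hx'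
    obtain ⟨g, hg⟩ := MulAction.exists_smul_eq G x x'
    have hg' : g⁻¹ • x' = x := by rw [← hg, inv_smul_smul]
    have h1 : (Q : Subgroup G) ≤ MulAction.stabilizer G x' := by
      intro z hz
      rw [hQ] at hz
      exact MulAction.mem_stabilizer_iff.mpr (hFfix x' hx' z hz)
    have h2 : ((g • Q : Sylow 5 G) : Subgroup G) ≤ MulAction.stabilizer G x' := by
      rintro - ⟨z, hz, rfl⟩
      have hz' : z ∈ F := by rw [← hQ]; exact hz
      rw [MulAction.mem_stabilizer_iff]
      show (g * z * g⁻¹) • x' = x'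
      rw [mul_smul, mul_smul, hg', hFfix x hx z hz', hg]
    obtain ⟨h, hh⟩ := MulAction.exists_smul_eq (MulAction.stabilizer G x')
      ((g • Q).subtype h2) (Q.subtype h1)
    simp_rw [Sylow.smul_subtype, Subgroup.smul_def, smul_smul] at hh
    have hn : (h : G) * g ∈ Subgroup.normalizer ((Q : Subgroup G) : Set G) :=
      Sylow.smul_eq_iff_mem_normalizer.mp (Sylow.subtype_injective hh)
    rw [hQ] at hn
    refine ⟨(h : G) * g, hn, ?_⟩
    rw [mul_smul, hg]
    exact MulAction.mem_stabilizer_iff.mp h.2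
  -- a fixed point
  have hex : ∃ x0, x0 ∈ MulAction.fixedPoints F (G ⧸ H) := by
    by_contra hno
    have hempty : MulAction.fixedPoints F (G ⧸ H) = ∅ := by
      ext y
      constructor
      · intro hy; exact (hno ⟨y, hy⟩).elim
      · intro hy; exact hy.elim
    rw [hempty] at h3
    simp at h3
  obtain ⟨x0, hx0⟩ := hex
  have horb : MulAction.orbit ↥(Subgroup.normalizer (F : Set G)) x0 = MulAction.fixedPoints F (G ⧸ H) := by
    ext y
    constructor
    · rintro ⟨n, rfl⟩
      refine MulAction.mem_fixedPoints.mpr ?_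
      intro φ
      have hn := (Subgroup.mem_normalizer_iff.mp n.2) ((n : G)⁻¹ * (φ : G) * (n : G))
      have hmem : (n : G)⁻¹ * (φ : G) * (n : G) ∈ F := by
        rw [hn]
        have e : (n : G) * ((n : G)⁻¹ * (φ : G) * (n : G)) * (n : G)⁻¹ = (φ : G) := by group
        rw [e]
        exact φ.2
      show (φ : G) • ((n : G) • x0) = (n : G) • x0
      have e2 : (φ : G) * (n : G) = (n : G) * ((n : G)⁻¹ * (φ : G) * (n : G)) := by group
      rw [← mul_smul, e2, mul_smul, hFfix x0 hx0 _ hmem]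
    · intro hy
      obtain ⟨n, hn, hny⟩ := htrans x0 hx0 y hy
      exact ⟨⟨n, hn⟩, hny⟩
  have hcard3 : Nat.card (MulAction.orbit ↥(Subgroup.normalizer (F : Set G)) x0) = 3 := by rw [horb]; exact h3
  have hidx3 : (MulAction.stabilizer ↥(Subgroup.normalizer (F : Set G)) x0).index = 3 := by
    rw [Subgroup.index_eq_card, ← hcard3]
    exact (Nat.card_congr (MulAction.orbitEquivQuotientStabilizer ↥(Subgroup.normalizer (F : Set G)) x0)).symm
  have hdvd1 : 3 ∣ Nat.card ↥(Subgroup.normalizer (F : Set G)) := by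
    rw [← hidx3]
    exact Subgroup.index_dvd_card _
  have hdvd2 : 3 ∣ Nat.card G := hdvd1.trans (Subgroup.card_subgroup_dvd_card _)
  rw [hG] at hdvd2
  norm_num at hdvd2

theorem tg_five_trivial {Γ : Type*} [Group Γ] [Finite Γ] (P R : Subgroup Γ) (hRP : R ≤ P)
    (hP : Nat.card P = 10240) (hR : Nat.card R = 1280) (f : Γ) (hfP : f ∈ P) (hf5 : f ^ 5 = 1) :
    ∀ x : ↥P ⧸ R.subgroupOf P, (⟨f, hfP⟩ : ↥P) • x = x := by
  have hcard : Nat.card ↥(R.subgroupOf P) = 1280 := by
    rw [← hR]
    exact Nat.card_congr (Subgroup.subgroupOfEquivOfLe hRP).toEquiv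
  have hidx : (R.subgroupOf P).index = 8 := by
    have h := Subgroup.card_mul_index (R.subgroupOf P)
    rw [hcard, hP] at h
    omega
  have hf5' : (⟨f, hfP⟩ : ↥P) ^ 5 = 1 := by
    apply Subtype.ext
    rw [Subgroup.coe_pow]
    exact hf5
  exact tgfive_core (R.subgroupOf P) hP hidx ⟨f, hfP⟩ hf5'

end Cfsg.Agent.Lib.Helper99.TG
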